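import Cfsg.Agent.AutPE.Frame
import Cfsg.Agent.AutPSL.Descent
import Cfsg.Agent.AutPSL.FixedField
set_option autoImplicit false
set_option quotPrecheck false
set_option linter.unusedSectionVars false

/-!
Galois descent: an automorphism of the order of its field part has a frame.
-/

namespace CfsgLib.AutPE

open QuadraticMap hiding proj
open Matrix
open CfsgLib.Forms CfsgLib.AutPO

variable {F : Type*} [Field F] [Finite F] {ι : Type} [Fintype ι] [DecidableEq ι] {Q : QuadraticForm F (ι → F)}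

local notation "V" => (ι → F)
local notation "PΩ'" => (Cfsg.POmega F ⇑Q)

theorem scalar_smul_mulVec (c : Fˣ) (g : GL ι F) (v : V) :
    ((Matrix.GeneralLinearGroup.scalar ι c * g : GL ι F) : Matrix ι ι F) *ᵥ v =
      (c : F) • ((g : Matrix ι ι F) *ᵥ v) := by
  rw [Units.val_mul, ← mulVec_mulVec]
  ext i
  simp [Matrix.GeneralLinearGroup.scalar, Matrix.mulVec_diagonal]

/-- Proportional semisimilarities induce the same automorphism. -/
theorem stdAut_smul {g g' : GL ι F} {τ : RingAut F} {k k' : F} (h : IsSemi Q g τ k) (h' : IsSemi Q g' τ k')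
    {c : F} (e : ∀ v, semi g' τ v = c • semi g τ v) : stdAut h' = stdAut h := by
  refine MulEquiv.ext fun x => ?_
  obtain ⟨x, rfl⟩ := proj_surjective x
  rw [stdAut_proj, stdAut_proj]
  refine congrArg proj (ext_lin fun v => ?_)
  obtain ⟨w, rfl⟩ := semi_surjective g' τ v
  rw [lin_semiΩ, e, e, map_smul, lin_semiΩ]

/-- The twisted power of a semilinear map. -/
def iterGL (g : GL ι F) (σ : RingAut F) : ℕ → GL ι F
  | 0 => 1
  | n + 1 => compGL g σ (iterGL g σ n)

theorem semi_iterGL (g : GL ι F) (σ : RingAut F) (v : V) :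
    ∀ n, semi (iterGL g σ n) (σ ^ n : RingAut F) v = (semi g σ)^[n] v
  | 0 => by rw [Function.iterate_zero_apply, pow_zero, iterGL, semi, Units.val_one, one_mulVec]; rfl
  | n + 1 => by
    rw [Function.iterate_succ_apply', ← semi_iterGL g σ v n, iterGL, pow_succ', semi_compGL]

/-- The multiplier of a twisted power. -/
def iterK (k : F) (σ : RingAut F) : ℕ → F
  | 0 => 1
  | n + 1 => k * σ (iterK k σ n)

theorem isSemi_iter {g : GL ι F} {σ : RingAut F} {k : F} (h : IsSemi Q g σ k) :
    ∀ n, IsSemi Q (iterGL g σ n) (σ ^ n : RingAut F) (iterK k σ n)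
  | 0 => ⟨one_ne_zero, fun v => by
      rw [semi_iterGL, Function.iterate_zero_apply, iterK, one_mul, pow_zero]; rfl⟩
  | n + 1 => by
    rw [pow_succ' σ n]
    exact isSemi_comp h (isSemi_iter h n)

theorem stdAut_pow {g : GL ι F} {σ : RingAut F} {k : F} (h : IsSemi Q g σ k) :
    ∀ n, stdAut (isSemi_iter h n) = stdAut h ^ n
  | 0 => MulEquiv.ext fun x => by
    obtain ⟨x, rfl⟩ := proj_surjective x
    rw [stdAut_proj, pow_zero (stdAut h), MulAut.one_apply]
    refine congrArg proj (ext_lin fun v => ?_)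
    obtain ⟨w, rfl⟩ := semi_surjective (iterGL g σ 0) (σ ^ 0 : RingAut F) v
    rw [lin_semiΩ, semi_iterGL, semi_iterGL]
    rfl
  | n + 1 => by
    rw [pow_succ' (stdAut h), ← stdAut_pow h n]
    exact stdAut_mul h (isSemi_iter h n) (isSemi_iter h (n + 1)) fun v => by
      rw [semi_iterGL, semi_iterGL, Function.iterate_succ_apply']

variable {F₀ : Type*} [Field F₀] [Finite F₀] {σ : RingAut F} {φ : F₀ →+* F}

/-- An automorphism of the order of its field part has a frame. -/
theorem exists_frame (hQ : GH Q) (hfix : ∀ c, σ c = c ↔ c ∈ Set.range φ) {g : GL ι F} {k : F}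
    (hs : IsSemi Q g σ k) (hpow : stdAut hs ^ orderOf σ = 1) :
    ∃ (Q₁ : QuadraticForm F₀ (Fin (Fintype.card ι) → F₀)) (D : Frame Q Q₁ σ φ),
      (polarBilin Q₁).Nondegenerate ∧ D.aut = stdAut hs := by
  classical
  haveI : Finite (RingAut F) := Finite.of_injective (fun τ => ⇑τ) DFunLike.coe_injective
  set r := orderOf σ with hr
  have hσr : σ ^ r = 1 := pow_orderOf_eq_one σ
  -- the power is a scalar
  obtain ⟨-, l, hl0, hl⟩ := decomposition hQ (isSemi_iter hs r) ((stdAut_pow hs r).trans hpow)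
  have hit : ∀ v, (semi g σ)^[r] v = l • v := fun v => by
    rw [← semi_iterGL, semi, hl, hσr]; rfl
  obtain ⟨u, hu⟩ := exists_ne_zero hQ
  have hσl : σ l = l := by
    have h1 : (semi g σ)^[r] (semi g σ u) = semi g σ ((semi g σ)^[r] u) := by
      rw [← Function.iterate_succ_apply, Function.iterate_succ_apply']
    rw [hit, hit, semi_smul] at h1
    have hne : semi g σ u ≠ 0 := semi_ne_zero g σ fun e => hu (by rw [e, QuadraticMap.map_zero])
    exact ((smul_left_injective F hne) h1).symm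
  obtain ⟨a, ha⟩ := CfsgLib.AutPSL.exists_norm_eq σ (c := Units.mk0 l hl0) hσl
  -- reindexing
  set n := Fintype.card ι
  let e := Fintype.equivFin ι
  let L : (Fin n → F) ≃ₗ[F] V := LinearEquiv.funCongrLeft F F e
  let re : GL ι F →* GL (Fin n) F :=
    Units.map (Matrix.reindexAlgEquiv F F e).toRingEquiv.toMonoidHom
  have hre : ∀ (x : GL ι F) (w : Fin n → F), (x : Matrix ι ι F) *ᵥ L w = L ((re x : Matrix (Fin n) (Fin n) F) *ᵥ w) :=
    fun x w => funext fun i => by
      simp [re, L, Matrix.mulVec, dotProduct, LinearMap.funLeft]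
      exact (Equiv.sum_comp e.symm (fun j => x.1 i j * w (e j))).symm.trans (by simp only [Equiv.apply_symm_apply]; rfl)
  have hLσ : ∀ (τ : RingAut F) (w : Fin n → F), τ ∘ L w = L (τ ∘ w) := fun τ w => funext fun i => rfl
  have hsemi : ∀ (x : GL ι F) (τ : RingAut F) (w : Fin n → F),
      semi x τ (L w) = L (semi (re x) τ w) := fun x τ w => by
    rw [semi, hLσ, hre]; rfl
  have hseq : ∀ i, re (iterGL g σ i) = CfsgLib.AutPSL.normSeq (re g) σ i := by
    intro i
    induction i with
    | zero => exact map_one re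
    | succ i ih =>
      rw [iterGL, compGL, map_mul, CfsgLib.AutPSL.normSeq, ← ih]
      exact congrArg _ (Units.ext (Matrix.ext fun _ _ => rfl))
  have hNr : CfsgLib.AutPSL.normSeq (re g) σ r = Matrix.GeneralLinearGroup.scalar (Fin n) (Units.mk0 l hl0) := by
    rw [← hseq]
    refine Units.ext (Matrix.ext_iff_mulVec.2 fun w => L.injective ?_)
    rw [← hre, hl]
    rw [show ((Matrix.GeneralLinearGroup.scalar (Fin n) (Units.mk0 l hl0) : GL (Fin n) F) : Matrix (Fin n) (Fin n) F) *ᵥ w
      = l • w by ext i; simp [Matrix.GeneralLinearGroup.scalar, Matrix.mulVec_diagonal], map_smul]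
  obtain ⟨h, hh⟩ := CfsgLib.AutPSL.exists_coboundary σ
    (Matrix.GeneralLinearGroup.scalar (Fin n) a⁻¹ * re g) (by
      rw [CfsgLib.AutPSL.normSeq_mul_scalar, hNr, ← map_mul, map_inv, ha, inv_mul_cancel, map_one])
  set g' : GL ι F := Matrix.GeneralLinearGroup.scalar ι a⁻¹ * g with hg'
  have hg'v : ∀ v, semi g' σ v = ((a⁻¹ : Fˣ) : F) • semi g σ v := fun v => scalar_smul_mulVec _ _ _
  set k' : F := ((a⁻¹ : Fˣ) : F) * ((a⁻¹ : Fˣ) : F) * k with hk'
  have hs' : IsSemi Q g' σ k' := ⟨mul_ne_zero (mul_ne_zero (Units.ne_zero _) (Units.ne_zero _)) hs.1, fun v => by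
    rw [hg'v, QuadraticMap.map_smul, hs.2, hk', smul_eq_mul]; ring⟩
  let S : (Fin n → F) ≃ₗ[F] V := (glEquiv h).trans L
  have hSv : ∀ w, S w = L ((h : Matrix (Fin n) (Fin n) F) *ᵥ w) := fun w => by simp [S]
  have hequi : ∀ w, semi g' σ (S w) = S (σ ∘ w) := fun w => by
    rw [hSv, hSv, hsemi]
    congr 1
    rw [semi, ← map_mulVec', mulVec_mulVec]
    congr 1
    have h1 : re g' * CfsgLib.AutPSL.fieldGL σ h = h := by
      have : re g' = Matrix.GeneralLinearGroup.scalar (Fin n) a⁻¹ * re g := by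
        rw [hg', map_mul]
        congr 1
        refine Units.ext ?_
        simp [re, Matrix.GeneralLinearGroup.scalar]
      rw [this, hh, inv_mul_cancel_right]
    exact congrArg Units.val h1
  -- the multiplier has norm one
  have hiter : ∀ i w, (semi g' σ)^[i] (S w) = S ((σ ^ i : RingAut F) ∘ w) := by
    intro i
    induction i with
    | zero => intro w; rfl
    | succ i ih => intro w; rw [Function.iterate_succ_apply', ih, hequi, pow_succ']; rfl
  have hk1 : iterK k' σ r = 1 := by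
    have h1 := (isSemi_iter hs' r).2 u
    rw [semi_iterGL] at h1
    obtain ⟨w, rfl⟩ := S.surjective u
    rw [hiter, hσr] at h1
    exact (mul_eq_right₀ hu).1 h1.symm
  have hnorm : ∀ i, (CfsgLib.AutPSL.normHom σ i (Units.mk0 k' hs'.1) : F) = iterK k' σ i := by
    intro i
    induction i with
    | zero => simp [CfsgLib.AutPSL.normHom, iterK]
    | succ i ih =>
      rw [CfsgLib.AutPSL.normHom_val] at ih ⊢
      rw [Finset.prod_range_succ', iterK, ← ih, map_prod, mul_comm, pow_zero]
      refine congrArg₂ (· * ·) rfl (Finset.prod_congr rfl fun j _ => ?_)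
      rw [pow_succ']; rfl
  obtain ⟨b, hb⟩ := CfsgLib.AutPSL.exists_div_of_norm_one σ (a := Units.mk0 k' hs'.1)
    (Units.ext (by rw [hnorm, hk1, Units.val_one]))
  rw [Units.val_mk0] at hb
  -- the rational form
  have hrat : ∀ v : Fin n → F₀, ∃ d, φ d = Q (S (φ ∘ v)) / b := fun v => (hfix _).1 (by
    have h1 := hs'.2 (S (φ ∘ v))
    rw [hequi, show σ ∘ φ ∘ v = φ ∘ v from funext fun i => (hfix _).2 ⟨v i, rfl⟩] at h1
    have hσb : σ (b : F) ≠ 0 := (map_ne_zero σ).2 b.ne_zero
    rw [map_div₀, div_eq_div_iff hσb b.ne_zero]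
    refine mul_left_cancel₀ hs'.1 ?_
    rw [← mul_assoc, ← h1]
    linear_combination -(Q (S (φ ∘ v))) * hb)
  choose q hq using hrat
  have hadd : ∀ v w : Fin n → F₀, φ ∘ (v + w) = φ ∘ v + φ ∘ w := fun v w => funext fun i => map_add φ _ _
  have hsmul : ∀ (c : F₀) (v : Fin n → F₀), φ ∘ (c • v) = φ c • (φ ∘ v) :=
    fun c v => funext fun i => map_mul φ _ _
  have hqp : ∀ v w, φ (QuadraticMap.polar q v w) = QuadraticMap.polar Q (S (φ ∘ v)) (S (φ ∘ w)) / b := fun v w => by
    simp only [QuadraticMap.polar, map_sub, hq, hadd, map_add, sub_div]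
  let Q₁ : QuadraticForm F₀ (Fin n → F₀) := QuadraticMap.ofPolar q
    (fun c v => φ.injective (by
      rw [hq, hsmul, map_smul, QuadraticMap.map_smul, smul_eq_mul, smul_eq_mul, map_mul, map_mul, hq]; ring))
    (fun v v' w => φ.injective (by rw [map_add, hqp, hqp, hqp, hadd, map_add, polar_add_left, add_div]))
    (fun c v w => φ.injective (by
      rw [hqp, hsmul, map_smul, polar_smul_left, smul_eq_mul, smul_eq_mul, map_mul, hqp]; ring))
  have hS : ∀ v : Fin n → F₀, Q (S (φ ∘ v)) = (b : F) * φ (Q₁ v) := fun v => by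
    show _ = (b : F) * φ (q v)
    rw [hq, mul_div_cancel₀ _ b.ne_zero]
  refine ⟨Q₁, ⟨S, b, b.ne_zero, hS, g', k', hs', hequi⟩, ?_, ?_⟩
  · have key : ∀ x, (∀ y, QuadraticMap.polar Q₁ x y = 0) → x = 0 := fun x hx => by
      have h0 : ∀ i, QuadraticMap.polar Q (S (φ ∘ x)) (S (Pi.single i 1)) = 0 := fun i => by
        have h1 : φ (QuadraticMap.polar q x (Pi.single i 1)) = 0 := by
          rw [show QuadraticMap.polar q x (Pi.single i 1) = 0 from hx _, map_zero]
        rw [hqp, show φ ∘ (Pi.single i 1 : Fin n → F₀) = Pi.single i 1 from funext fun j => by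
          by_cases hj : j = i <;> simp [hj], div_eq_zero_iff, or_iff_left b.ne_zero] at h1
        exact h1
      have h3 : ∀ y, QuadraticMap.polar Q (S (φ ∘ x)) (S y) = 0 := fun y => by
        have : (polarBilin Q (S (φ ∘ x))).comp (S : (Fin n → F) →ₗ[F] V) = 0 :=
          (Pi.basisFun F (Fin n)).ext fun i => by simpa using h0 i
        exact LinearMap.congr_fun this y
      have h4 : S (φ ∘ x) = 0 := polar_ext hQ.nondeg fun z => by
        obtain ⟨y, rfl⟩ := S.surjective z
        exact h3 y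
      rw [LinearEquiv.map_eq_zero_iff] at h4
      exact funext fun i => φ.injective ((congrFun h4 i).trans (map_zero φ).symm)
    exact ⟨fun x hx => key x hx, fun x hx => key x fun y => (polar_comm _ _ _).trans (hx y)⟩
  · exact stdAut_smul hs hs' hg'v

/-- Change of the form of a frame along an isometry. -/
theorem Frame.exists_change {κ κ' : Type} [Fintype κ] [DecidableEq κ] [Fintype κ'] [DecidableEq κ']
    {Q₀ : QuadraticForm F₀ (κ → F₀)} {Q₀' : QuadraticForm F₀ (κ' → F₀)} (D : Frame Q Q₀ σ φ)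
    (hfix : ∀ c, σ c = c ↔ c ∈ Set.range φ) (e : (κ → F₀) ≃ₗ[F₀] (κ' → F₀)) (he : ∀ v, Q₀' (e v) = Q₀ v) :
    ∃ D' : Frame Q Q₀' σ φ, D'.aut = D.aut := by
  let A : Matrix κ κ' F₀ := LinearMap.toMatrix' (e.symm : (κ' → F₀) →ₗ[F₀] (κ → F₀))
  let B : Matrix κ' κ F₀ := LinearMap.toMatrix' (e : (κ → F₀) →ₗ[F₀] (κ' → F₀))
  have hAB : A.map φ * B.map φ = 1 := by
    rw [← Matrix.map_mul, ← LinearMap.toMatrix'_comp, LinearEquiv.symm_comp, LinearMap.toMatrix'_id,
      Matrix.map_one _ (map_zero _) (map_one _)]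
  have hBA : B.map φ * A.map φ = 1 := by
    rw [← Matrix.map_mul, ← LinearMap.toMatrix'_comp, LinearEquiv.comp_symm, LinearMap.toMatrix'_id,
      Matrix.map_one _ (map_zero _) (map_one _)]
  let E : (κ' → F) ≃ₗ[F] (κ → F) := Matrix.toLin'OfInv hBA hAB
  have hE : ∀ v, E v = A.map φ *ᵥ v := fun v => Matrix.toLin'_apply _ _
  refine ⟨⟨E.trans D.S, D.b, D.hb, fun v => ?_, D.g, D.k, D.semi_g, fun v => ?_⟩, rfl⟩
  · rw [LinearEquiv.trans_apply, hE]
    have h1 : A.map φ *ᵥ (φ ∘ v) = φ ∘ (e.symm v) := by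
      funext i
      have h2 : A *ᵥ v = e.symm v := by rw [LinearMap.toMatrix'_mulVec]; rfl
      rw [← h2]
      simp [Matrix.mulVec, dotProduct]
    rw [h1, D.hS, ← he, LinearEquiv.apply_symm_apply]
  · rw [LinearEquiv.trans_apply, LinearEquiv.trans_apply, D.equivar, hE, hE]
    refine congrArg D.S (funext fun i => ?_)
    simp only [Function.comp_apply, Matrix.mulVec, dotProduct, map_sum, map_mul, Matrix.map_apply]
    exact Finset.sum_congr rfl fun j _ => congrArg (· * _) ((hfix _).2 ⟨A i j, rfl⟩)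

end CfsgLib.AutPE
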