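import Cfsg.Agent.AutPE.FieldMinus
import Cfsg.Agent.AutPO.Simple
import Cfsg.Agent.AutPSp.Balance
import Cfsg.Agent.LocalBalance.Core
import Cfsg.Agent.LocalBalance.Fix
import Cfsg.Agent.Forms.Sum
set_option autoImplicit false
set_option quotPrecheck false
set_option linter.unusedSectionVars false

/-!
Local balance for an automorphism of a frame.
-/

namespace CfsgLib.AutPE

open QuadraticMap hiding proj
open Matrix
open CfsgLib.Forms CfsgLib.AutPO

variable {F : Type*} [Field F] [Fintype F] {F₀ : Type*} [Field F₀] [Fintype F₀] {ι κ : Type} [Fintype ι]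
  [DecidableEq ι] [Fintype κ] [DecidableEq κ]
  {Q : QuadraticForm F (ι → F)} {Q₀ : QuadraticForm F₀ (κ → F₀)} {σ : RingAut F} {φ : F₀ →+* F}

local notation "PΩ'" => (Cfsg.POmega F ⇑Q)
local notation "W₀" => (κ → F₀)

theorem conj_injective' (h : GH Q) : Function.Injective (MulAut.conj : PΩ' →* MulAut PΩ') := by
  rw [injective_iff_map_eq_one]
  intro x hx
  obtain ⟨s, rfl⟩ := proj_surjective x
  obtain ⟨c, -, hc⟩ := (act_eq_one h _).1 ((Simil.conj_eq_act s).symm.trans hx)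
  exact (QuotientGroup.eq_one_iff _).2 (mem_center_of_scalar (c := c) fun v => by rw [lin_apply]; exact hc v)

namespace Frame

variable (D : Frame Q Q₀ σ φ)

/-- The group `Ω` of the small form inside the automorphism group. -/
noncomputable def T₀ : Cfsg.Omega F₀ ⇑Q₀ →* MulAut PΩ' :=
  D.T.comp (Simil.ofIso.comp (Cfsg.Omega F₀ ⇑Q₀).subtype)

theorem polar_S (u v : W₀) :
    polar (⇑Q) (D.S (φ ∘ u)) (D.S (φ ∘ v)) = D.b * φ (polar (⇑Q₀) u v) := by
  simp only [QuadraticMap.polar]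
  rw [← map_add D.S, show φ ∘ u + φ ∘ v = φ ∘ (u + v) from funext fun x => (map_add φ _ _).symm,
    D.hS, D.hS, D.hS, map_sub, map_sub]
  ring

theorem lift_sie (hQ : GH Q) (hQ₀ : GH Q₀) {d a : W₀} (hd : Q₀ d = 0) (had : polar (⇑Q₀) a d = 0) :
    D.lift (Simil.ofIso ((sie Q₀ d a : Cfsg.Omega F₀ ⇑Q₀) : Cfsg.isometryGroup F₀ ⇑Q₀)) =
      Simil.ofIso ((sie Q (D.S (φ ∘ d)) (D.b⁻¹ • D.S (φ ∘ a)) : Cfsg.Omega F ⇑Q) : Cfsg.isometryGroup F ⇑Q) := by
  have hd' : Q (D.S (φ ∘ d)) = 0 := by rw [D.hS, hd, map_zero, mul_zero]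
  have had' : polar (⇑Q) (D.b⁻¹ • D.S (φ ∘ a)) (D.S (φ ∘ d)) = 0 := by
    rw [polar_smul_left, D.polar_S, had, map_zero, mul_zero, smul_zero]
  refine Subtype.ext (glEquiv.injective (LinearEquiv.toLinearMap_injective ?_))
  refine ((Pi.basisFun F κ).map D.S).ext fun j => ?_
  rw [Module.Basis.map_apply, Pi.basisFun_apply,
    show (Pi.single j 1 : κ → F) = φ ∘ (Pi.single j 1 : κ → F₀) from funext fun l => by
      by_cases hl : l = j <;> simp [hl]]
  show glEquiv ((D.lift _ : Simil.Sim Q) : GL ι F) (D.S _) = lin (sie Q _ _) (D.S _)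
  rw [glEquiv_apply, lift_mulVec, sie_apply hQ hd' had']
  show D.S (φ ∘ ((((sie Q₀ d a : Cfsg.Omega F₀ ⇑Q₀) : Cfsg.isometryGroup F₀ ⇑Q₀) : GL κ F₀).1 *ᵥ _)) = _
  rw [← lin_apply, sie_apply hQ₀ hd had]
  set e : W₀ := Pi.single j 1
  have h1 : ∀ (c c' : F₀), φ ∘ (e + c • d - c' • a) = φ ∘ e + φ c • (φ ∘ d) - φ c' • (φ ∘ a) := fun c c' =>
    funext fun l => by simp
  rw [h1, map_sub, map_add, map_smul, map_smul, map_sub φ, map_mul, polar_smul_right, D.polar_S, D.polar_S,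
    QuadraticMap.map_smul, D.hS, smul_eq_mul, smul_eq_mul]
  have := D.hb
  match_scalars <;> field_simp

theorem T₀_sie (hQ : GH Q) (hQ₀ : GH Q₀) {d a : W₀} (hd : Q₀ d = 0) (had : polar (⇑Q₀) a d = 0) :
    D.T₀ (sie Q₀ d a) = MulAut.conj (proj (sie Q (D.S (φ ∘ d)) (D.b⁻¹ • D.S (φ ∘ a)))) := by
  show Simil.act Q (D.lift _) = _
  rw [show (Simil.ofIso.comp (Cfsg.Omega F₀ ⇑Q₀).subtype) (sie Q₀ d a) =
    Simil.ofIso ((sie Q₀ d a : Cfsg.Omega F₀ ⇑Q₀) : Cfsg.isometryGroup F₀ ⇑Q₀) from rfl, D.lift_sie hQ hQ₀ hd had]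
  exact (Simil.conj_eq_act _).symm

theorem T₀_mem_inn (hQ : GH Q) (hQ₀ : GH Q₀) (w : Cfsg.Omega F₀ ⇑Q₀) : D.T₀ w ∈ Cfsg.Inn PΩ' := by
  obtain ⟨l, hl⟩ := exists_eq_listGL hQ₀.nondeg (hd hQ₀) (w : Cfsg.isometryGroup F₀ ⇑Q₀)
  obtain ⟨l', hlen, hval, he⟩ := D.lift_list l
  obtain ⟨hev, hsq⟩ := (listGL_mem_Omega hQ₀.nondeg (hd hQ₀) l).1 (hl ▸ w.2)
  refine (Simil.mem_inn_iff _).2 ⟨listGL Q l', ?_, ?_⟩
  · rw [listGL_mem_Omega hQ.nondeg (hd hQ), hlen, hval]
    exact ⟨hev, (hev.isSquare_pow _).mul (hsq.map φ)⟩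
  · show Simil.act Q (D.lift (Simil.ofIso _)) = _
    rw [show ((Cfsg.Omega F₀ ⇑Q₀).subtype w) = listGL Q₀ l from hl, he]

theorem exists_sq_iso (hQ : GH Q) (hQ₀ : GH Q₀) (y : Simil.Sim Q₀) :
    ∃ k : Cfsg.isometryGroup F₀ ⇑Q₀, D.T (y * y) = D.T (Simil.ofIso k) := by
  obtain ⟨μ, hμ⟩ := y.2
  obtain ⟨k, hk⟩ := exists_smul_iso ((y * y : Simil.Sim Q₀) : GL κ F₀) (c := (μ : F₀)) μ.ne_zero (Q := Q₀) fun v => by
    rw [Subgroup.coe_mul, Units.val_mul, ← mulVec_mulVec, hμ, hμ, mul_assoc]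
  refine ⟨k, ?_⟩
  have : (Simil.ofIso k)⁻¹ * (y * y) ∈ D.T.ker := by
    rw [D.ker_T hQ hQ₀, MonoidHom.mem_ker, act_eq_one hQ₀]
    refine ⟨μ, μ.ne_zero, fun v => ?_⟩
    rw [Subgroup.coe_mul, Units.val_mul, ← mulVec_mulVec, hk, mulVec_smul, Subgroup.coe_inv]
    exact congrArg ((μ : F₀) • ·) (Simil.inv_mulVec_cancel (k : GL κ F₀) v)
  rw [MonoidHom.mem_ker, map_mul, map_inv, inv_mul_eq_one] at this
  exact this.symm

variable (hfix : ∀ c, σ c = c ↔ c ∈ Set.range φ)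
include hfix

theorem dvd_card_range (hQ : GH Q) (hQ₀ : GH Q₀) {p : ℕ} [Fact p.Prime] (hp : p ≠ 2)
    (hd' : p ∣ Nat.card ↥(MonoidHom.eqLocus D.aut.toMonoidHom (MonoidHom.id PΩ'))) :
    p ∣ Nat.card D.T₀.range := by
  obtain ⟨k, hk⟩ := exists_prime_orderOf_dvd_card' p hd'
  have hkord : orderOf (MulAut.conj k.1 : MulAut PΩ') = p := by
    rw [orderOf_injective _ (conj_injective' hQ), Subgroup.orderOf_coe, hk]
  have hkx : D.aut k.1 = k.1 := k.2
  have hcomm : Commute (MulAut.conj k.1 : MulAut PΩ') D.aut := MulEquiv.ext fun y => by simp [map_mul, hkx]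
  obtain ⟨w, hw⟩ := proj_surjective k.1
  have e : (MulAut.conj k.1 : MulAut PΩ') = Simil.act Q (Simil.ofIso (w : Cfsg.isometryGroup F ⇑Q)) := by
    rw [← hw]; exact Simil.conj_eq_act w
  rw [e] at hkord hcomm
  obtain ⟨y, hy⟩ := D.exists_T_of_commute hfix hQ hQ₀ _ hcomm
  obtain ⟨k₀, hk₀⟩ := D.exists_sq_iso hQ hQ₀ y
  have hmem : (D.T y) ^ 4 ∈ D.T₀.range := by
    refine ⟨⟨k₀ * k₀, sq_mem_Omega hQ₀.nondeg (hd hQ₀) k₀⟩, ?_⟩
    show D.T (Simil.ofIso (k₀ * k₀)) = _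
    rw [map_mul, map_mul, ← hk₀, map_mul, pow_succ, pow_succ, pow_succ, pow_one, mul_assoc (D.T y * D.T y)]
  rw [hy] at hmem
  have h4 : Nat.Coprime p 4 := by
    rw [show 4 = 2 ^ 2 by norm_num]
    exact Nat.Coprime.pow_right _ ((Nat.coprime_primes Fact.out Nat.prime_two).2 hp)
  have := Subgroup.orderOf_dvd_natCard _ hmem
  rwa [Nat.Coprime.orderOf_pow (by rw [hkord]; exact h4), hkord] at this

omit hfix in
theorem inj_rat {a : W₀} {d : W₀} (hd0 : d ≠ 0) {c : F} (h : φ ∘ a = c • (φ ∘ d)) :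
    a ∈ Submodule.span F₀ {d} := by
  obtain ⟨i, hi⟩ := Function.ne_iff.1 hd0
  refine Submodule.mem_span_singleton.2 ⟨a i / d i, funext fun j => φ.injective ?_⟩
  have hj := congrFun h j
  have hii := congrFun h i
  simp only [Function.comp_apply, Pi.smul_apply, smul_eq_mul] at hj hii ⊢
  rw [map_mul, map_div₀, hj, hii, mul_div_assoc, div_self ((map_ne_zero φ).2 hi), mul_one]

/-- A semisimilarity centralising the small group is a Galois twist up to a scalar. -/
theorem eig_of_centralises (hQ : GH Q) (hQ₀ : GH Q₀) {G : GL ι F} {τ' : RingAut F} {k : F}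
    (hs : IsSemi Q G τ' k) (hn : ∀ s, stdAut hs * D.T₀ s = D.T₀ s * stdAut hs) :
    (∀ t, τ' (φ t) = φ t) ∧ ∃ k₀ : F, k₀ ≠ 0 ∧ ∀ w, semi G τ' (D.S w) = k₀ • D.S (τ' ∘ w) := by
  obtain ⟨r, hr⟩ := CharP.exists F
  haveI : Fact r.Prime := ⟨CharP.char_is_prime F r⟩
  set S := semi G τ' with hSdef
  have hline : ∀ d a : W₀, Q₀ d = 0 → polar (⇑Q₀) a d = 0 → a ∉ Submodule.span F₀ {d} → d ≠ 0 →
      S (D.S (φ ∘ d)) ∈ Submodule.span F ({D.S (φ ∘ d), D.S (φ ∘ a)} : Set (ι → F)) := by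
    intro d a hd had hnd hd0
    set d' := D.S (φ ∘ d) with hd'def
    set a' := D.b⁻¹ • D.S (φ ∘ a) with ha'def
    have hD : Q d' = 0 := by rw [hd'def, D.hS, hd, map_zero, mul_zero]
    have hAD : polar (⇑Q) a' d' = 0 := by
      rw [ha'def, hd'def, polar_smul_left, D.polar_S, had, map_zero, mul_zero, smul_zero]
    have hD' : Q (S d') = 0 := by rw [hSdef, hs.2, hD, map_zero, mul_zero]
    have hAD' : polar (⇑Q) (k⁻¹ • S a') (S d') = 0 := by
      rw [polar_smul_left, hSdef, hs.polar, hAD, map_zero, mul_zero, smul_zero]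
    have e2 : stdAut hs (proj (sie Q d' a')) = proj (sie Q d' a') := by
      refine conj_injective' hQ ((mul_left_inj (stdAut hs)).1 ?_)
      have h1 := hn (sie Q₀ d a)
      rw [D.T₀_sie hQ hQ₀ hd had, ← hd'def, ← ha'def] at h1
      rw [← h1]
      exact MulEquiv.ext fun y => by simp
    rw [stdAut_proj, semiΩ_sie hQ hs hD hAD, ← hSdef] at e2
    have e4 : sie Q (S d') (k⁻¹ • S a') = sie Q d' a' :=
      eq_of_proj_eq hQ (p := r) (i := 1) (j := 1) (by rw [pow_one]; exact sie_pow_char hQ hD' hAD')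
        (by rw [pow_one]; exact sie_pow_char hQ hD hAD) e2
    have hout : k⁻¹ • S a' ∉ Submodule.span F {S d'} := fun hm => hnd (by
      obtain ⟨c, hc⟩ := Submodule.mem_span_singleton.1 hm
      have h1 : S a' = (k * c) • S d' := by rw [mul_smul, hc, smul_inv_smul₀ hs.1]
      obtain ⟨c', hc'⟩ := τ'.surjective (k * c)
      rw [← hc', hSdef, ← semi_smul] at h1
      have h2 := semi_injective _ _ h1
      rw [ha'def, hd'def, inv_smul_eq_iff₀ D.hb, smul_smul, ← map_smul] at h2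
      exact inj_rat hd0 (D.S.injective h2))
    obtain ⟨v, hv, hv1⟩ := exists_polar_eq_one hQ.nondeg hout
    have hvd : polar (⇑Q) v (S d') = 0 := mem_perp.1 hv _ (Submodule.mem_span_singleton_self _)
    have e5 := congrArg (fun A => lin A v) e4
    simp only [sie_apply hQ hD' hAD', sie_apply hQ hD hAD, hvd, polar_comm (⇑Q) v (k⁻¹ • S a'), hv1,
      mul_zero, sub_zero, one_smul, zero_smul] at e5
    rw [add_sub_assoc, add_right_inj] at e5
    rw [e5, ha'def]
    exact sub_mem (Submodule.smul_mem _ _ (Submodule.subset_span (by simp)))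
      (Submodule.smul_mem _ _ (Submodule.smul_mem _ _ (Submodule.subset_span (by simp))))
  have hbot : ∀ v : W₀, v ∈ perp Q₀ (⊥ : Submodule F₀ W₀) := fun v =>
    mem_perp.2 fun u hu => by rw [(Submodule.mem_bot F₀).1 hu, polar_zero_right]
  have hdim := hQ₀.dim
  have heig : ∀ d : W₀, Q₀ d = 0 → d ≠ 0 → ∃ c : F, c ≠ 0 ∧ S (D.S (φ ∘ d)) = c • D.S (φ ∘ d) := by
    intro d hd hd0
    obtain ⟨d', -, hd'Q, hdd'⟩ := exists_partner hQ₀.nondeg (U := ⊥) (hbot d) hd (by simpa using hd0)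
    have hP := disjoint_pair hd hd'Q hdd'
    obtain ⟨a, a₁, ha, ha₁, ha0, ha₁0, haa⟩ := exists_pair_perp hQ₀.nondeg hP (by
      have := finrank_span_pair_le (F := F₀) d d'; omega)
    obtain ⟨b, b₁, hb, -, hb0, -, hbb⟩ := exists_pair_perp hQ₀.nondeg (disjoint_sup_pair hP ha ha₁ ha0 ha₁0 haa) (by
      have := finrank_sup_pair_le (Submodule.span F₀ {d, d'}) a a₁
      have := finrank_span_pair_le (F := F₀) d d'
      omega)
    have hdK : d ∈ Submodule.span F₀ ({d, d'} : Set W₀) := Submodule.subset_span (by simp)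
    have had : polar (⇑Q₀) a d = 0 := mem_perp.1 ha d hdK
    have hbd : polar (⇑Q₀) b d = 0 := mem_perp.1 hb d (Submodule.mem_sup_left hdK)
    have hna : a ∉ Submodule.span F₀ {d} := fun hm => by
      obtain ⟨c, rfl⟩ := Submodule.mem_span_singleton.1 hm
      rw [polar_smul_left, swap0 (mem_perp.1 ha₁ d hdK)] at haa
      simp at haa
    have hda₁ : polar (⇑Q₀) d a₁ = 0 := swap0 (mem_perp.1 ha₁ d hdK)
    have hba₁ : polar (⇑Q₀) b a₁ = 0 := mem_perp.1 hb a₁ (Submodule.mem_sup_right (Submodule.subset_span (by simp)))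
    have hnb : b ∉ Submodule.span F₀ {d} := fun hm => by
      obtain ⟨c, rfl⟩ := Submodule.mem_span_singleton.1 hm
      have h0 : c • d = 0 := Submodule.disjoint_def.1 (disjoint_sup_pair hP ha ha₁ ha0 ha₁0 haa) _
        (Submodule.mem_sup_left (Submodule.smul_mem _ _ hdK)) hb
      rw [h0, polar_zero_left] at hbb
      exact zero_ne_one hbb
    obtain ⟨s, t, est⟩ := Submodule.mem_span_pair.1 (hline d a hd had hna hd0)
    obtain ⟨s', t', est'⟩ := Submodule.mem_span_pair.1 (hline d b hd hbd hnb hd0)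
    have h1 := congrArg (fun z => polar (⇑Q) z (D.S (φ ∘ a₁))) (est.trans est'.symm)
    simp only [polar_add_left, polar_smul_left, D.polar_S, hda₁, hba₁, haa, map_zero, map_one,
      smul_eq_mul, mul_zero, mul_one, zero_add] at h1
    rw [(mul_eq_zero.1 h1).resolve_right D.hb, zero_smul, add_zero] at est
    refine ⟨s, fun hs0 => ?_, est.symm⟩
    refine semi_ne_zero G τ' (v := D.S (φ ∘ d)) (fun h0 => hd0 ?_) (est.symm.trans (by rw [hs0, zero_smul]))
    funext i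
    exact φ.injective ((congrFun (D.S.map_eq_zero_iff.1 h0) i).trans (map_zero φ).symm)
  choose c hc0 hc using heig
  have key : ∀ d w (hd : Q₀ d = 0) (hd0 : d ≠ 0) (hw : Q₀ w = 0) (hw0 : w ≠ 0), polar (⇑Q₀) d w = 0 →
      w ∉ Submodule.span F₀ {d} → c w hw hw0 = c d hd hd0 ∧ ∀ t, τ' (φ t) = φ t := by
    intro d w hd hd0 hw hw0 hdw hsp
    have key1 : ∀ t : F₀, τ' (φ t) * c w hw hw0 = c d hd hd0 * φ t := by
      intro t
      have hz : Q₀ (d + t • w) = 0 := map_add0 hd (map_smul0 hw t) (by rw [polar_smul_right, hdw, smul_zero])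
      have hz0 : d + t • w ≠ 0 := fun h0 => by
        rcases eq_or_ne t 0 with rfl | ht
        · rw [zero_smul, add_zero] at h0; exact hd0 h0
        · exact hsp (Submodule.mem_span_singleton.2 ⟨-t⁻¹, by
            rw [eq_neg_of_add_eq_zero_left h0, smul_neg, neg_smul, neg_neg, inv_smul_smul₀ ht]⟩)
      have hk := hc _ hz hz0
      rw [show φ ∘ (d + t • w) = φ ∘ d + φ t • (φ ∘ w) from funext fun x => by simp, map_add, map_smul,
        hSdef, semi_add, semi_smul, ← hSdef, hc d hd hd0, hc w hw hw0, smul_add, smul_smul, smul_smul,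
        ← map_smul, ← map_smul, ← map_smul, ← map_smul, ← map_add, ← map_add] at hk
      have hk' := D.S.injective hk
      set cz := c _ hz hz0
      set cd := c d hd hd0
      set cw := c w hw hw0
      -- compare coordinates
      have hlin : (cd - cz) • (φ ∘ d) + (τ' (φ t) * cw - cz * φ t) • (φ ∘ w) = (0 : κ → F) := by
        rw [sub_smul, sub_smul, sub_add_sub_comm, hk', sub_self]
      by_cases hcoef : τ' (φ t) * cw - cz * φ t = 0
      · rw [hcoef, zero_smul, add_zero] at hlin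
        rcases smul_eq_zero.1 hlin with h | h
        · rw [sub_eq_zero] at h hcoef
          rw [h, hcoef]
        · exact absurd (funext fun i => φ.injective ((congrFun h i).trans (map_zero φ).symm)) hd0
      · exfalso
        refine hsp (inj_rat (φ := φ) hd0 (c := (-(τ' (φ t) * cw - cz * φ t)⁻¹) * (cd - cz)) ?_)
        rw [mul_smul, eq_neg_of_add_eq_zero_left hlin, smul_neg, neg_smul, neg_neg, inv_smul_smul₀ hcoef]
    have h1 : c w hw hw0 = c d hd hd0 := by simpa using key1 1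
    refine ⟨h1, fun t => mul_right_cancel₀ (hc0 w hw hw0) ?_⟩
    rw [key1 t, ← h1, mul_comm]
  obtain ⟨d₀, f₀, -, -, hd₀, hf₀, hdf₀⟩ := exists_pair_perp hQ₀.nondeg (K := (⊥ : Submodule F₀ W₀))
    disjoint_bot_perp (by simp; omega)
  obtain ⟨w₀, w₁, hw₀, hw₁, hw₀Q, hw₁Q, hww⟩ := exists_pair_perp hQ₀.nondeg (disjoint_pair hd₀ hf₀ hdf₀) (by
    have := finrank_span_pair_le (F := F₀) d₀ f₀; omega)
  have hd00 : d₀ ≠ 0 := fun h => by rw [h, polar_zero_left] at hdf₀; exact zero_ne_one hdf₀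
  have hw00 : w₀ ≠ 0 := fun h => by rw [h, polar_zero_left] at hww; exact zero_ne_one hww
  have hσ : ∀ t, τ' (φ t) = φ t := (key d₀ w₀ hd₀ hd00 hw₀Q hw00 (swap0 (mem_perp.1 hw₀ d₀ (Submodule.subset_span (by simp))))
    (fun hm => hw00 (Submodule.disjoint_def.1 (disjoint_pair hd₀ hf₀ hdf₀) _
      (Submodule.span_mono (by simp) hm) hw₀))).2
  set k₀ := c d₀ hd₀ hd00
  have hall : ∀ d e (hd : Q₀ d = 0) (hd0 : d ≠ 0) (he : Q₀ e = 0) (he0 : e ≠ 0), c e he he0 = c d hd hd0 := by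
    intro d e hd hd0 he he0
    by_cases hsp : e ∈ Submodule.span F₀ {d}
    · obtain ⟨s, rfl⟩ := Submodule.mem_span_singleton.1 hsp
      have h1 := hc _ he he0
      rw [show φ ∘ (s • d) = φ s • (φ ∘ d) from funext fun x => by simp, map_smul, hSdef, semi_smul, ← hSdef,
        hc d hd hd0, hσ, smul_comm] at h1
      refine (smul_left_injective F ?_ h1).symm
      intro h0
      have h2 : φ ∘ (s • d) = (0 : κ → F) := by
        rw [show φ ∘ (s • d) = φ s • (φ ∘ d) from funext fun x => by simp]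
        exact D.S.injective (by rw [map_smul, h0, map_zero])
      exact he0 (funext fun i => φ.injective ((congrFun h2 i).trans (map_zero φ).symm))
    by_cases hde : polar (⇑Q₀) d e = 0
    · exact (key d e hd hd0 he he0 hde hsp).1
    set e' := (polar (⇑Q₀) d e)⁻¹ • e with he'def
    have he' : Q₀ e' = 0 := map_smul0 he _
    have hde' : polar (⇑Q₀) d e' = 1 := by rw [he'def, polar_smul_right, smul_eq_mul, inv_mul_cancel₀ hde]
    obtain ⟨w, w', hw, -, hwQ, -, hww'⟩ := exists_pair_perp hQ₀.nondeg (disjoint_pair hd he' hde') (by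
      have := finrank_span_pair_le (F := F₀) d e'; omega)
    have hw0 : w ≠ 0 := fun h => by rw [h, polar_zero_left] at hww'; exact zero_ne_one hww'
    have hdj := Submodule.disjoint_def.1 (disjoint_pair hd he' hde')
    have h1 := (key d w hd hd0 hwQ hw0 (swap0 (mem_perp.1 hw d (Submodule.subset_span (by simp))))
      fun hm => hw0 (hdj _ (Submodule.span_mono (by simp) hm) hw)).1
    have hwe : polar (⇑Q₀) e w = 0 := by
      have h2 : polar (⇑Q₀) w e' = 0 := mem_perp.1 hw e' (Submodule.subset_span (by simp))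
      rw [he'def, polar_smul_right, smul_eq_mul, mul_eq_zero] at h2
      exact swap0 (h2.resolve_left (inv_ne_zero hde))
    have h3 := (key e w he he0 hwQ hw0 hwe fun hm => hw0 (hdj _ (by
      obtain ⟨s, rfl⟩ := Submodule.mem_span_singleton.1 hm
      rw [show s • e = (s * polar (⇑Q₀) d e) • e' by rw [he'def, smul_smul, mul_assoc, mul_inv_cancel₀ hde, mul_one]]
      exact Submodule.smul_mem _ _ (Submodule.subset_span (by simp))) hw)).1
    rw [← h3, h1]
  refine ⟨hσ, k₀, hc0 _ _ _, fun w => ?_⟩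
  have hspan : ∀ v : W₀, S (D.S (φ ∘ v)) = k₀ • D.S (φ ∘ v) := by
    intro v
    have hv := perp_le_span_singular hQ₀.nondeg (K := (⊥ : Submodule F₀ W₀)) disjoint_bot_perp
      (by simp; omega) (hbot v)
    induction hv using Submodule.span_induction with
    | mem x hx =>
      rcases eq_or_ne x 0 with rfl | hx0
      · rw [show φ ∘ (0 : W₀) = 0 from funext fun _ => map_zero φ, map_zero, smul_zero, hSdef, ← zero_smul F (0 : ι → F),
          semi_smul, map_zero, zero_smul, zero_smul]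
      · rw [hc x hx.2 hx0, hall d₀ x hd₀ hd00 hx.2 hx0]
    | zero =>
      rw [show φ ∘ (0 : W₀) = 0 from funext fun _ => map_zero φ, map_zero, smul_zero, hSdef, ← zero_smul F (0 : ι → F),
        semi_smul, map_zero, zero_smul, zero_smul]
    | add x y _ _ hx hy =>
      rw [show φ ∘ (x + y) = φ ∘ x + φ ∘ y from funext fun l => map_add φ _ _, map_add, hSdef, semi_add, ← hSdef,
        hx, hy, smul_add]
    | smul s x _ hx =>
      rw [show φ ∘ (s • x) = φ s • (φ ∘ x) from funext fun l => by simp, map_smul, hSdef, semi_smul, ← hSdef,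
        hx, hσ, smul_comm]
  have hbasis : ∀ i, S (D.S (Pi.single i 1)) = k₀ • D.S (Pi.single i 1) := fun i => by
    have := hspan (Pi.single i 1)
    rwa [show φ ∘ (Pi.single i 1 : κ → F₀) = Pi.single i 1 from funext fun l => by
      by_cases hl : l = i <;> simp [hl]] at this
  let S' : (κ → F) →ₛₗ[(τ' : F →+* F)] (ι → F) :=
    { toFun := fun w => S (D.S w)
      map_add' := fun u v => by rw [map_add, hSdef, semi_add]
      map_smul' := fun s v => by rw [map_smul, hSdef, semi_smul]; rfl }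
  conv_lhs => rw [pi_eq_sum_univ' w]
  show S' (∑ i, w i • Pi.single i 1) = _
  rw [map_sum]
  conv_rhs => rw [pi_eq_sum_univ' (τ' ∘ w), map_sum, Finset.smul_sum]
  refine Finset.sum_congr rfl fun i _ => ?_
  rw [LinearMap.map_smulₛₗ, map_smul, smul_comm]
  show τ' (w i) • S (D.S (Pi.single i 1)) = _
  rw [hbasis]
  rfl

theorem eq_pow_of_centralises (hQ : GH Q) (hQ₀ : GH Q₀) (n : MulAut PΩ')
    (hn : ∀ s, n * D.T₀ s = D.T₀ s * n) : n ∈ Subgroup.zpowers D.aut := by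
  have hx : ∀ s, D.aut * D.T₀ s = D.T₀ s * D.aut := fun s => (D.commute_T hfix _).symm.eq
  obtain ⟨G, τ', k, hs, rfl⟩ := classify hQ n
  obtain ⟨hτ, -⟩ := D.eig_of_centralises hfix hQ hQ₀ hs hn
  obtain ⟨i, hi⟩ := Subgroup.mem_zpowers_iff.1 (CfsgLib.AutPSp.mem_zpowers_of_fix hfix hτ)
  set n' := stdAut hs * (D.aut ^ i)⁻¹ with hn'
  obtain ⟨G', τ'', k', hs', e⟩ := classify hQ n'
  have hτ' : τ'' = 1 := by
    have h1 := congrArg (tau hQ) e
    rw [hn', map_mul, map_inv, map_zpow, aut, tau_stdAut, tau_stdAut, tau_stdAut, hi, mul_inv_cancel] at h1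
    exact h1.symm
  subst hτ'
  have hn'c : ∀ s, stdAut hs' * D.T₀ s = D.T₀ s * stdAut hs' := fun s => by
    rw [← e, hn']
    have h2 : Commute (D.aut ^ i)⁻¹ (D.T₀ s) := ((show Commute D.aut (D.T₀ s) from hx s).zpow_left i).inv_left
    exact ((show Commute (stdAut hs) (D.T₀ s) from hn s).mul_left h2).eq
  obtain ⟨-, k₀, hk₀, hk⟩ := D.eig_of_centralises hfix hQ hQ₀ hs' hn'c
  refine Subgroup.mem_zpowers_iff.2 ⟨i, ?_⟩
  have h1 : n' = 1 := by
    rw [e]
    have hsim : G' ∈ Simil.Sim Q := mem_sim_of_semi rfl hs'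
    rw [← act_eq_stdAut hsim hs', act_eq_one hQ]
    refine ⟨k₀, hk₀, fun v => ?_⟩
    obtain ⟨v, rfl⟩ := D.S.surjective v
    exact hk v
  rw [hn', mul_inv_eq_one] at h1
  exact h1.symm

/-- Local balance for the automorphism of a frame of odd prime order. -/
theorem core_iff (hQ : GH Q) (hQ₀ : GH Q₀) {Pr : Subgroup (MulAut PΩ')} (hP : IsProper Q Pr)
    {p : ℕ} [Fact p.Prime] (hp : p ≠ 2) (hord : D.aut ^ p = 1)
    (A : Subgroup (MulAut PΩ')) (hinn : ∀ k : PΩ', MulAut.conj k ∈ A) :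
    Cfsg.pPrimeCore p ↥(A ⊓ Subgroup.centralizer {D.aut}) ≠ ⊥ ↔
      Nat.Coprime p (Nat.card ↥(MonoidHom.eqLocus D.aut.toMonoidHom (MonoidHom.id PΩ'))) := by
  have hRinn : ∀ r ∈ D.T₀.range, r ∈ Cfsg.Inn PΩ' := by
    rintro _ ⟨s, rfl⟩; exact D.T₀_mem_inn hQ hQ₀ s
  have hRx : ∀ r ∈ D.T₀.range, r * D.aut = D.aut * r := by
    rintro _ ⟨s, rfl⟩; exact (D.commute_T hfix _).eq
  constructor
  · intro h
    rw [(Fact.out : p.Prime).coprime_iff_not_dvd]
    intro hd'
    refine h (CfsgLib.LocalBalance.core_eq_bot p A _ Pr D.T₀.range hP.normal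
      (fun r hr => hP.inn_le (hRinn r hr)) ?_ ?_ ?_ ?_)
    · intro r hr
      obtain ⟨k, hk⟩ := hRinn r hr
      exact ⟨hk ▸ hinn k, Subgroup.mem_centralizer_singleton_iff.2 (hRx r hr)⟩
    · intro n hn
      obtain ⟨i, rfl⟩ := Subgroup.mem_zpowers_iff.1
        (D.eq_pow_of_centralises hfix hQ hQ₀ n fun s => hn _ ⟨s, rfl⟩)
      rw [← zpow_natCast, ← _root_.zpow_mul, mul_comm, _root_.zpow_mul, zpow_natCast, hord, _root_.one_zpow]
    · intro n hn hnx r hr
      obtain ⟨g, rfl⟩ := hP.le_pgo hn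
      obtain ⟨s, rfl⟩ := hr
      obtain ⟨y, hy⟩ := D.exists_T_of_commute hfix hQ hQ₀ g hnx
      refine ⟨Simil.conjΩ y s, ?_⟩
      rw [← hy, ← map_inv, show D.T₀ s = D.T (Simil.ofIso (s : Cfsg.isometryGroup F₀ ⇑Q₀)) from rfl, ← map_mul,
        ← map_mul]
      exact congrArg D.T (Subtype.ext rfl)
    · intro M hM hMR hMp
      haveI : (M.comap D.T₀).Normal := ⟨fun y hy s => by
        rw [Subgroup.mem_comap, map_mul, map_mul, map_inv]
        exact hMR _ ⟨s, rfl⟩ _ hy⟩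
      rcases le_center_or_eq_top hQ₀ (M.comap D.T₀) with hc | hc
      · rw [Subgroup.eq_bot_iff_forall]
        intro y hy
        obtain ⟨s, rfl⟩ := hM hy
        obtain ⟨c, hcc, hcv⟩ := center_sign hQ₀ (hc hy)
        show Simil.ofIso (s : Cfsg.isometryGroup F₀ ⇑Q₀) ∈ D.T.ker
        rw [D.ker_T hQ hQ₀, MonoidHom.mem_ker, act_eq_one hQ₀]
        refine ⟨c, ?_, fun v => ?_⟩
        · rcases hcc with rfl | rfl <;> simp
        · have := hcv v
          rwa [lin_apply] at this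
      · have hle : D.T₀.range ≤ M := by
          rintro _ ⟨s, rfl⟩
          have : s ∈ M.comap D.T₀ := by rw [hc]; trivial
          exact this
        exact absurd ((D.dvd_card_range hfix hQ hQ₀ hp hd').trans (Subgroup.card_dvd_of_le hle)) hMp
  · intro h
    have hdim := hQ₀.dim
    obtain ⟨d, f, -, -, hdQ, hfQ, hdf⟩ := exists_pair_perp hQ₀.nondeg (K := (⊥ : Submodule F₀ W₀))
      disjoint_bot_perp (by simp; omega)
    obtain ⟨a, a₁, ha, -, -, -, haa⟩ := exists_pair_perp hQ₀.nondeg (disjoint_pair hdQ hfQ hdf) (by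
      have := finrank_span_pair_le (F := F₀) d f; omega)
    have hd0 : d ≠ 0 := fun h => by rw [h, polar_zero_left] at hdf; exact zero_ne_one hdf
    have ha0 : a ≠ 0 := fun h => by rw [h, polar_zero_left] at haa; exact zero_ne_one haa
    have had : polar (⇑Q₀) a d = 0 := mem_perp.1 ha d (Submodule.subset_span (by simp))
    have hna : a ∉ Submodule.span F₀ {d} := fun hm => ha0
      (Submodule.disjoint_def.1 (disjoint_pair hdQ hfQ hdf) _ (Submodule.span_mono (by simp) hm) ha)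
    have hr1 : D.T₀ (sie Q₀ d a) ≠ 1 := fun h1 => hna (by
      have h2 : Simil.ofIso ((sie Q₀ d a : Cfsg.Omega F₀ ⇑Q₀) : Cfsg.isometryGroup F₀ ⇑Q₀) ∈ D.T.ker := h1
      rw [D.ker_T hQ hQ₀, MonoidHom.mem_ker, ← Simil.conj_eq_act] at h2
      have h3 := conj_injective' hQ₀ (h2.trans (map_one MulAut.conj).symm)
      obtain ⟨r, hr⟩ := CharP.exists F₀
      haveI : Fact r.Prime := ⟨CharP.char_is_prime F₀ r⟩
      refine (sie_eq_one_iff hQ₀ hdQ hd0 had).1 (eq_of_proj_eq hQ₀ (p := r) (i := 1) (j := 1)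
        (by rw [pow_one]; exact sie_pow_char hQ₀ hdQ had) (one_pow _) (h3.trans (map_one proj).symm)))
    refine CfsgLib.LocalBalance.core_ne_bot_of_coprime p (conj_injective' hQ) A hinn _ ?_ h
    refine CfsgLib.LocalBalance.exists_fixed (conj_injective' hQ) _ hr1 ?_ (hRx _ ⟨_, rfl⟩)
    obtain ⟨k, hk⟩ := D.T₀_mem_inn hQ hQ₀ (sie Q₀ d a)
    exact ⟨k, hk⟩

end Frame

end CfsgLib.AutPE
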