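import Cfsg.Agent.AutPE.FieldType
set_option autoImplicit false
set_option quotPrecheck false
set_option linter.unusedSectionVars false

/-!
Field automorphisms of the minus-type group.
-/

namespace CfsgLib.AutPE

open QuadraticMap hiding proj
open Matrix
open CfsgLib.Forms CfsgLib.AutPO

universe u

variable {F : Type u} [Field F] [Fintype F]

/-- A matrix carrying one form to another identifies the projective groups. -/
theorem exists_transport {ι : Type} [Fintype ι] [DecidableEq ι] {Q Q' : QuadraticForm F (ι → F)} (A : GL ι F)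
    (hA : ∀ v, Q' ((A : Matrix ι ι F) *ᵥ v) = Q v) :
    ∃ Ψ : Cfsg.POmega F ⇑Q ≃* Cfsg.POmega F ⇑Q',
      ∀ s : Cfsg.Omega F ⇑Q, ∃ t : Cfsg.Omega F ⇑Q',
        ((t : Cfsg.isometryGroup F ⇑Q') : GL ι F) = A * ((s : Cfsg.isometryGroup F ⇑Q) : GL ι F) * A⁻¹ ∧
        Ψ (QuotientGroup.mk s) = QuotientGroup.mk t := by
  have hmap : (Cfsg.isometryGroup F ⇑Q).map (MulAut.conj A).toMonoidHom = Cfsg.isometryGroup F ⇑Q' := by
    ext g
    constructor
    · rintro ⟨s, hs, rfl⟩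
      refine mem_isometryGroup.2 fun v => ?_
      show Q' (((A * s * A⁻¹ : GL ι F) : Matrix ι ι F) *ᵥ v) = Q' v
      rw [Units.val_mul, Units.val_mul, ← mulVec_mulVec, ← mulVec_mulVec, hA, mem_isometryGroup.1 hs, ← hA,
        mulVec_mulVec, Units.mul_inv, one_mulVec]
    · intro hg
      refine ⟨A⁻¹ * g * A, mem_isometryGroup.2 fun v => ?_, by
        show A * (A⁻¹ * g * A) * A⁻¹ = g; group⟩
      rw [← hA, Units.val_mul, Units.val_mul, mulVec_mulVec, ← mul_assoc, ← mul_assoc, Units.mul_inv, one_mul,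
        ← mulVec_mulVec, mem_isometryGroup.1 hg, hA]
  let eA : Cfsg.isometryGroup F ⇑Q ≃* Cfsg.isometryGroup F ⇑Q' :=
    ((MulAut.conj A).subgroupMap (Cfsg.isometryGroup F ⇑Q)).trans (MulEquiv.subgroupCongr hmap)
  have hc : (commutator (Cfsg.isometryGroup F ⇑Q)).map eA.toMonoidHom = commutator (Cfsg.isometryGroup F ⇑Q') := by
    rw [commutator_def, Subgroup.map_commutator, ← MonoidHom.range_eq_map,
      MonoidHom.range_eq_top.2 eA.surjective, ← commutator_def]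
  let eΩ : Cfsg.Omega F ⇑Q ≃* Cfsg.Omega F ⇑Q' := (eA.subgroupMap _).trans (MulEquiv.subgroupCongr hc)
  refine ⟨QuotientGroup.congr _ _ eΩ ?_, fun s => ⟨eΩ s, rfl, rfl⟩⟩
  ext y
  constructor
  · rintro ⟨x, hx, rfl⟩
    refine Subgroup.mem_center_iff.2 fun z => ?_
    obtain ⟨w, rfl⟩ := eΩ.surjective z
    show eΩ w * eΩ x = eΩ x * eΩ w
    rw [← map_mul, Subgroup.mem_center_iff.1 hx w, map_mul]
  · intro hy
    refine ⟨eΩ.symm y, Subgroup.mem_center_iff.2 fun z => eΩ.injective ?_, eΩ.apply_symm_apply y⟩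
    rw [map_mul, map_mul, eΩ.apply_symm_apply]
    exact Subgroup.mem_center_iff.1 hy _

/-- A field automorphism fixing an anisotropic binary form is not an involution. -/
theorem orderOf_ne_two_of_anisotropic {σ : RingAut F} {a b : F}
    (hab : ∀ z₁ z₂ : F, z₁ ^ 2 + a * z₁ * z₂ + b * z₂ ^ 2 = 0 → z₁ = 0 ∧ z₂ = 0) (ha : σ a = a) (hb : σ b = b) :
    orderOf σ ≠ 2 := by
  classical
  intro h2
  haveI : Finite (RingAut F) := Finite.of_injective (fun τ => ⇑τ) DFunLike.coe_injective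
  let G := Subgroup.zpowers σ
  haveI : Fintype G := Fintype.ofFinite G
  haveI : FaithfulSMul G F := ⟨fun {x y} h => Subtype.ext (RingEquiv.ext h)⟩
  let K := FixedPoints.subfield G F
  haveI : Fintype K := Fintype.ofFinite K
  have hmem : ∀ c : F, σ c = c → c ∈ K := fun c hc g => by
    obtain ⟨g, hg⟩ := g
    obtain ⟨i, rfl⟩ := mem_powers_iff_mem_zpowers.mpr hg
    change (σ ^ i) c = c
    clear hg
    induction i with
    | zero => exact rfl
    | succ i ih => rw [pow_succ, RingAut.mul_apply, hc, ih]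
  have hrk : Module.finrank K F = 2 := by
    rw [FixedPoints.finrank_eq_card, ← Nat.card_eq_fintype_card, Nat.card_zpowers, h2]
  obtain ⟨r, hr⟩ := exists_root (F := K) (a := ⟨a, hmem a ha⟩) (b := ⟨b, hmem b hb⟩) (fun z₁ z₂ e => by
    have e' := congrArg (fun z : K => (z : F)) e
    obtain ⟨h₁, h₂⟩ := hab z₁ z₂ (by simpa using e')
    exact ⟨Subtype.ext h₁, Subtype.ext h₂⟩) F hrk
  exact one_ne_zero (hab r 1 (by rw [mul_one, one_pow, mul_one]; exact hr)).2

variable {m : ℕ} {a b : F}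

/-- The field part of a field automorphism of the minus-type group. -/
theorem field_class_minus (hm : 3 ≤ m)
    (hab : ∀ z₁ z₂ : F, z₁ ^ 2 + a * z₁ * z₂ + b * z₂ ^ 2 = 0 → z₁ = 0 ∧ z₂ = 0)
    {x : MulAut (Cfsg.POmega F ⇑(quadMinus F m a b))}
    (hx : ∃ (a' b' : F) (ψ : Cfsg.POmega F ⇑(quadMinus F m a b) ≃* Cfsg.POmega F ⇑(quadMinus F m a' b'))
      (σ : F ≃+* F), (∀ z₁ z₂ : F, z₁ ^ 2 + a' * z₁ * z₂ + b' * z₂ ^ 2 = 0 → z₁ = 0 ∧ z₂ = 0) ∧
      σ ≠ RingEquiv.refl F ∧ σ a' = a' ∧ σ b' = b' ∧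
      Cfsg.IsFieldAutPOmegaOf (⇑(quadMinus F m a' b')) σ ((ψ.symm.trans x).trans ψ)) :
    tau (gh_minus hm hab) x ≠ 1 ∧ orderOf (tau (gh_minus hm hab) x) ≠ 2 := by
  obtain ⟨a', b', ψ, σ, hab', hσ, ha, hb, hφ⟩ := hx
  obtain ⟨e, he⟩ := exists_isometry_minus (Q := quadMinus F m a b) (m := m + 1) (by omega)
    (by simp; omega) (nondegenerate_quadMinus m hab)
    (fun ⟨S, hS, hSd⟩ => by
      have h1 := finrank_le_of_singular_minus hab (U := S) fun u hu => by
        rw [← coe_quadMinus]; exact hS u hu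
      omega) hab'
  let A : GL ((Fin m ⊕ Fin m) ⊕ Fin 2) F := glEquiv.symm e
  have hA : ∀ v, quadMinus F m a' b' (A.1 *ᵥ v) = quadMinus F m a b v := fun v => by
    rw [← glEquiv_apply, MulEquiv.apply_symm_apply, coe_quadMinus]; exact he v
  obtain ⟨Ψ, hΨ⟩ := exists_transport A hA
  set φ' : MulAut (Cfsg.POmega F ⇑(quadMinus F m a' b')) := (ψ.symm.trans x).trans ψ
  set g : GL ((Fin m ⊕ Fin m) ⊕ Fin 2) F := A⁻¹ * Units.map (σ : F →+* F).mapMatrix.toMonoidHom A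
  have hg : ∀ v, A.1 *ᵥ semi g σ v = σ ∘ (A.1 *ᵥ v) := fun v => by
    rw [semi, mulVec_mulVec, ← Units.val_mul, mul_inv_cancel_left]
    exact map_mulVec' σ _ v
  have hQσ : ∀ v, quadMinus F m a' b' (σ ∘ v) = σ (quadMinus F m a' b' v) := fun v => by
    rw [coe_quadMinus]
    simp [Cfsg.quadFormMinus, map_sum, ha, hb]
  have hs : IsSemi (quadMinus F m a b) g σ 1 := ⟨one_ne_zero, fun v => by
    rw [one_mul, ← hA, hg, hQσ, hA]⟩
  have hbase : stdAut hs = (Ψ.trans φ').trans Ψ.symm := (eq_stdAut_of_induced hs fun s s' e1 => by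
    obtain ⟨t, ht, hts⟩ := hΨ s
    obtain ⟨t', ht', hts'⟩ := hΨ s'
    show Ψ.symm (φ' (Ψ (QuotientGroup.mk s))) = QuotientGroup.mk s'
    rw [MulEquiv.symm_apply_eq, hts, hts']
    refine hφ t t' ?_
    have e2 : ((s' : Cfsg.isometryGroup F ⇑(quadMinus F m a b)) : GL _ F) =
        g * Units.map (σ : F →+* F).mapMatrix.toMonoidHom
          ((s : Cfsg.isometryGroup F ⇑(quadMinus F m a b)) : GL _ F) * g⁻¹ := Units.ext e1
    rw [ht', ht, e2]
    show _ = ((Units.map (σ : F →+* F).mapMatrix.toMonoidHom) _ : GL ((Fin m ⊕ Fin m) ⊕ Fin 2) F).1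
    refine congrArg Units.val ?_
    simp only [g, map_mul, map_inv]
    group).symm
  set β : MulAut (Cfsg.POmega F ⇑(quadMinus F m a b)) := ψ.trans Ψ.symm
  have hx : β * x * β⁻¹ = stdAut hs := by
    rw [hbase]
    refine MulEquiv.ext fun z => ?_
    show Ψ.symm (ψ (x (ψ.symm (Ψ z)))) = Ψ.symm (ψ (x (ψ.symm (Ψ z))))
    rfl
  have hτ : tau (gh_minus hm hab) x = σ := by rw [← tau_conj _ β x, hx, tau_stdAut]
  rw [hτ]
  exact ⟨hσ, orderOf_ne_two_of_anisotropic hab' ha hb⟩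

/-- Elements of prime order in the coset of a field automorphism are conjugate to it. -/
theorem minus_coset_iff (hm : 3 ≤ m)
    (hab : ∀ z₁ z₂ : F, z₁ ^ 2 + a * z₁ * z₂ + b * z₂ ^ 2 = 0 → z₁ = 0 ∧ z₂ = 0)
    {r : ℕ} (hr : r.Prime) {x δ : MulAut (Cfsg.POmega F ⇑(quadMinus F m a b))}
    (hτ : tau (gh_minus hm hab) x ≠ 1) (hxr : orderOf x = r)
    (hδ : δ ∈ classSub (⇑(quadMinus F m a b)) (Cfsg.PreservesSingularClassesMinus m a b)) :
    orderOf (δ * x) = r ↔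
      Cfsg.IsConjUnder (classSub (⇑(quadMinus F m a b)) (Cfsg.PreservesSingularClassesMinus m a b)) x (δ * x) := by
  refine ⟨fun hy => ?_, fun h => (isConjUnder_order h).trans hxr⟩
  set σ := tau (gh_minus hm hab) x with hσ
  haveI : Fact r.Prime := ⟨hr⟩
  have hσr : orderOf σ = r := orderOf_eq_prime (by rw [hσ, ← map_pow, ← hxr, pow_orderOf_eq_one, map_one]) hτ
  have hP := (isInndiag_minus hm hab).proper
  have hτδ : tau (gh_minus hm hab) δ = 1 := by
    have := hP.le_pgo hδ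
    rwa [← ker_tau (gh_minus hm hab), MonoidHom.mem_ker] at this
  obtain ⟨F₀, _, _, φ, hφ⟩ := exists_fixed_field σ
  obtain ⟨a₀, b₀, hab₀⟩ := exists_anisotropic F₀
  obtain ⟨D, hD⟩ := minus_frame hm hab hφ hab₀ x hσ.symm (by rw [hσr, ← hxr, pow_orderOf_eq_one])
  obtain ⟨D', hD'⟩ := minus_frame hm hab hφ hab₀ (δ * x) (by rw [map_mul, hτδ, one_mul])
    (by rw [hσr, ← hy, pow_orderOf_eq_one])
  rw [← hD', ← hD]
  exact D.conj_proper hP D' hφ (gh_minus hm hab₀)

end CfsgLib.AutPE
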