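import Cfsg.Agent.AutPE.StdFrame
set_option autoImplicit false
set_option quotPrecheck false
set_option linter.unusedSectionVars false

/-!
The two classes of prime order automorphisms of field type of the plus-type group.
-/

namespace CfsgLib.AutPE

open QuadraticMap hiding proj
open Matrix
open CfsgLib.Forms CfsgLib.AutPO

universe u

section Gen

variable {F : Type u} [Field F] [Fintype F] {ι : Type} [Fintype ι] [DecidableEq ι] {Q : QuadraticForm F (ι → F)}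

theorem ringAut_comm (σ τ : RingAut F) : Commute σ τ := by
  obtain ⟨p, hp⟩ := CharP.exists F
  haveI : Fact p.Prime := ⟨CharP.char_is_prime F p⟩
  obtain ⟨f, -, hF⟩ := FiniteField.card F p
  obtain ⟨i, rfl⟩ := Subgroup.mem_zpowers_iff.1 (top_frob hF σ)
  obtain ⟨j, rfl⟩ := Subgroup.mem_zpowers_iff.1 (top_frob hF τ)
  exact Commute.zpow_zpow_self _ i j

theorem tau_conj (h : GH Q) (α x : MulAut (Cfsg.POmega F ⇑Q)) : tau h (α * x * α⁻¹) = tau h x := by
  rw [map_mul, map_mul, map_inv, (ringAut_comm (tau h α) (tau h x)).eq, mul_inv_cancel_right]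

/-- The fixed field of an automorphism. -/
theorem exists_fixed_field (σ : RingAut F) :
    ∃ (F₀ : Type) (_ : Field F₀) (_ : Fintype F₀) (φ : F₀ →+* F), ∀ c, σ c = c ↔ c ∈ Set.range φ := by
  obtain ⟨p, hp⟩ := CharP.exists F
  haveI : Fact p.Prime := ⟨CharP.char_is_prime F p⟩
  obtain ⟨f, -, hF⟩ := FiniteField.card F p
  obtain ⟨hrf, hfield⟩ := CfsgLib.AutPSL.fixed_field_facts.{u, 0} (Fact.out : p.Prime) hF σ
  have hpos : 0 < (f : ℕ) / orderOf σ := by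
    haveI : Finite (RingAut F) := Finite.of_injective (fun τ => ⇑τ) DFunLike.coe_injective
    exact Nat.div_pos (Nat.le_of_dvd f.pos hrf) (isOfFinOrder_of_finite σ).orderOf_pos
  letI : Fintype (GaloisField p ((f : ℕ) / orderOf σ)) := Fintype.ofFinite _
  obtain ⟨φ, hφ⟩ := hfield (GaloisField p ((f : ℕ) / orderOf σ)) (by
    rw [← Nat.card_eq_fintype_card, GaloisField.card]
    omega)
  exact ⟨_, _, inferInstance, φ, hφ⟩

theorem isConjUnder_order {G : Type*} [Group G] {H : Subgroup G} {x y : G} (h : Cfsg.IsConjUnder H x y) :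
    orderOf y = orderOf x := by
  obtain ⟨g, -, rfl⟩ := h
  exact orderOf_injective (MulAut.conj g).toMonoidHom (MulAut.conj g).injective x

theorem isConjUnder_trans {G : Type*} [Group G] {H : Subgroup G} {x y z : G} (h : Cfsg.IsConjUnder H x y)
    (h' : Cfsg.IsConjUnder H y z) : Cfsg.IsConjUnder H x z := by
  obtain ⟨g, hg, rfl⟩ := h
  obtain ⟨g', hg', rfl⟩ := h'
  exact ⟨g' * g, mul_mem hg' hg, by group⟩

theorem isConjUnder_symm {G : Type*} [Group G] {H : Subgroup G} {x y : G} (h : Cfsg.IsConjUnder H x y) :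
    Cfsg.IsConjUnder H y x := by
  obtain ⟨g, hg, rfl⟩ := h
  exact ⟨g⁻¹, inv_mem hg, by group⟩

theorem mem_coset_iff_of_conj {G : Type*} [Group G] {H : Subgroup G} (hH : H.Normal) {x y z : G}
    (h : Cfsg.IsConjUnder H x y) : x * z⁻¹ ∈ H ↔ y * z⁻¹ ∈ H := by
  obtain ⟨g, hg, rfl⟩ := h
  rw [show g * x * g⁻¹ * z⁻¹ = g * (x * g⁻¹ * x⁻¹) * (x * z⁻¹) by group]
  exact (H.mul_mem_cancel_left (mul_mem hg (hH.conj_mem _ (inv_mem hg) x))).symm

end Gen

variable {F : Type u} [Field F] [Fintype F] {m : ℕ}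

local notation "Pr" => classSub (⇑(quadPlus F m)) (Cfsg.PreservesSingularClasses ⇑(quadPlus F m))

/-- The automorphism induced by a reflection. -/
noncomputable def reflA (u : Fin m ⊕ Fin m → F) (hu : quadPlus F m u ≠ 0) :
    MulAut (Cfsg.POmega F ⇑(quadPlus F m)) :=
  Simil.act _ (Simil.ofIso (listGL (quadPlus F m) [⟨u, hu⟩]))

theorem reflA_sq (u : Fin m ⊕ Fin m → F) (hu : quadPlus F m u ≠ 0) : reflA u hu * reflA u hu = 1 := inv_refl u hu

theorem reflA_commute_field {σ : RingAut F} (u : Fin m ⊕ Fin m → F) (hu : quadPlus F m u ≠ 0)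
    (hfix : ∀ i, σ (u i) = u i) : Commute (reflA u hu) (fieldP σ) := by
  obtain ⟨F₀, _, _, φ, hφ⟩ := exists_fixed_field σ
  have hex : ∀ i, ∃ c, φ c = u i := fun i => (hφ _).1 (hfix i)
  choose u₀ hu₀ using hex
  obtain rfl : u = φ ∘ u₀ := funext fun i => (hu₀ i).symm
  have hu₀' : quadPlus F₀ m u₀ ≠ 0 := fun e => hu (by
    have h1 := (plusFrame (m := m) hφ).hS u₀
    rw [e, map_zero, mul_zero] at h1
    exact h1)
  obtain ⟨hw, e⟩ := (plusFrame (m := m) hφ).lift_refl hu₀'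
  have h2 := (plusFrame (m := m) hφ).commute_T hφ (Simil.ofIso (listGL (quadPlus F₀ m) [⟨u₀, hu₀'⟩]))
  change Commute (Simil.act _ _) _ at h2
  rw [e, plusFrame_aut] at h2
  exact h2

/-- The vector of the standard reflection. -/
def v₀ (hm : 1 ≤ m) : Fin m ⊕ Fin m → F :=
  Pi.single (Sum.inl ⟨0, hm⟩) 1 + Pi.single (Sum.inr ⟨0, hm⟩) 1

theorem quad_v₀ (hm : 1 ≤ m) : quadPlus F m (v₀ hm) = 1 := by
  rw [coe_quadPlus]
  simp [v₀, Cfsg.quadFormPlus, Pi.single_apply]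

theorem v₀_ne (hm : 1 ≤ m) : quadPlus F m (v₀ hm) ≠ 0 := by rw [quad_v₀]; exact one_ne_zero

theorem v₀_fix (hm : 1 ≤ m) (σ : RingAut F) (i : Fin m ⊕ Fin m) : σ (v₀ hm i) = v₀ hm i := by
  simp [v₀, Pi.single_apply, apply_ite σ]

theorem eq_fieldP {τ : RingAut F} {β : MulAut (Cfsg.POmega F ⇑(quadPlus F m))}
    (h : Cfsg.IsFieldAutPOmegaOf (⇑(quadPlus F m)) τ β) : β = fieldP τ :=
  eq_stdAut_of_induced (isSemi_plus τ) fun s s' e => h s s' (by rw [e, inv_one, Units.val_one, one_mul, mul_one])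

variable (hm : 5 ≤ m)
include hm

theorem pr_proper : IsProper (quadPlus F m) Pr := (isInndiag_plus hm).proper

theorem tau_pr {δ : MulAut (Cfsg.POmega F ⇑(quadPlus F m))} (hδ : δ ∈ Pr) : tau (gh_plus hm) δ = 1 := by
  have := (pr_proper hm).le_pgo hδ
  rwa [← ker_tau (gh_plus hm), MonoidHom.mem_ker] at this

theorem tau_reflA (u : Fin m ⊕ Fin m → F) (hu : quadPlus F m u ≠ 0) : tau (gh_plus hm) (reflA u hu) = 1 := by
  have : reflA u hu ∈ (tau (gh_plus hm)).ker := by rw [ker_tau]; exact ⟨_, rfl⟩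
  exact this

/-- Conjugation moves a standard field automorphism inside its coset only. -/
theorem field_coset (α : MulAut (Cfsg.POmega F ⇑(quadPlus F m))) (σ : RingAut F) :
    α * fieldP σ * α⁻¹ * (fieldP σ)⁻¹ ∈ Pr := by
  obtain ⟨g, τ, k, hs, rfl⟩ := classify (gh_plus hm) α
  have hg : g ∈ Simil.Sim (quadPlus F m) := ⟨Units.mk0 k hs.1, fun v => by
    have h1 := hs.2 (τ.symm ∘ v)
    have h2 := (isSemi_plus (m := m) τ).2 (τ.symm ∘ v)
    rw [semi, comp_symm] at h1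
    rw [semi_one', comp_symm, one_mul] at h2
    rw [h1, ← h2]; rfl⟩
  obtain ⟨k', hk'⟩ := isSemi_sim ⟨g, hg⟩
  have e : stdAut hs = Simil.act _ ⟨g, hg⟩ * fieldP τ := by
    rw [act_eq_stdAut hg hk']
    exact stdAut_mul hk' (isSemi_plus τ) hs fun v => by rw [semi_one']; rfl
  have hc : fieldP τ * fieldP σ * (fieldP τ)⁻¹ = fieldP (m := m) σ := by
    rw [← map_mul, (ringAut_comm τ σ).eq, map_mul, mul_inv_cancel_right]
  set c := Simil.act (quadPlus F m) ⟨g, hg⟩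
  rw [e, show c * fieldP τ * fieldP σ * (c * fieldP τ)⁻¹ = c * (fieldP τ * fieldP σ * (fieldP τ)⁻¹) * c⁻¹ by group, hc]
  have hP := pr_proper (F := F) hm
  have key : ∀ d ∈ Pr, d * fieldP σ * d⁻¹ * (fieldP σ)⁻¹ ∈ Pr := fun d hd => by
    rw [show d * fieldP σ * d⁻¹ * (fieldP σ)⁻¹ = d * (fieldP σ * d⁻¹ * (fieldP σ)⁻¹) by group]
    exact mul_mem hd (hP.normal.conj_mem _ (inv_mem hd) _)
  rcases hP.or_refl ⟨g, hg⟩ _ (v₀_ne (by omega : 1 ≤ m)) with h | h
  · exact key _ h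
  · have h1 := key _ h
    change c * reflA _ (v₀_ne _) * fieldP σ * (c * reflA _ (v₀_ne _))⁻¹ * (fieldP σ)⁻¹ ∈ Pr at h1
    rwa [mul_assoc c, (reflA_commute_field (m := m) _ (v₀_ne _) (v₀_fix _ σ)).eq, _root_.mul_inv_rev,
      show c * (fieldP σ * reflA (v₀ _) (v₀_ne _)) * ((reflA (v₀ _) (v₀_ne _))⁻¹ * c⁻¹) = c * fieldP σ * c⁻¹ by group] at h1

theorem graph_field_not_mem (σ : RingAut F) (u : Fin m ⊕ Fin m → F) (hu : quadPlus F m u ≠ 0) :
    reflA u hu * fieldP σ * (fieldP σ)⁻¹ ∉ Pr := by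
  rw [mul_inv_cancel_right]
  exact (pr_proper hm).refl_not u hu

theorem field_class {x : MulAut (Cfsg.POmega F ⇑(quadPlus F m))}
    (hx : Cfsg.IsFieldAutClassPOmega (⇑(quadPlus F m)) x) :
    tau (gh_plus hm) x ≠ 1 ∧ x * (fieldP (tau (gh_plus hm) x))⁻¹ ∈ Pr := by
  obtain ⟨α, φ, σ, hσ, hφ, e⟩ := hx
  rw [eq_fieldP hφ] at e
  have hτ : tau (gh_plus hm) x = σ := by rw [← tau_conj (gh_plus hm) α x, e, tau_fieldP]
  have hx : x = α⁻¹ * fieldP σ * α⁻¹⁻¹ := by rw [← e]; group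
  rw [hτ]
  exact ⟨hσ, by rw [hx]; exact field_coset hm α⁻¹ σ⟩

theorem graph_field_class {x : MulAut (Cfsg.POmega F ⇑(quadPlus F m))}
    (hx : ∃ (α γ φ : MulAut (Cfsg.POmega F ⇑(quadPlus F m))) (σ : F ≃+* F) (v : Fin m ⊕ Fin m → F)
      (r : GL (Fin m ⊕ Fin m) F),
      σ ≠ RingEquiv.refl F ∧ quadPlus F m v ≠ 0 ∧ (∀ i, σ (v i) = v i) ∧
      (r : Matrix (Fin m ⊕ Fin m) (Fin m ⊕ Fin m) F) = Cfsg.reflectionMatrix (⇑(quadPlus F m)) v ∧
      Cfsg.IsInducedBySemilinearPOmega (⇑(quadPlus F m)) r (RingEquiv.refl F) γ ∧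
      Cfsg.IsFieldAutPOmegaOf (⇑(quadPlus F m)) σ φ ∧ α * x * α⁻¹ = γ * φ) :
    tau (gh_plus hm) x ≠ 1 ∧ x * (fieldP (tau (gh_plus hm) x))⁻¹ ∉ Pr := by
  obtain ⟨α, γ, φ, σ, v, r, hσ, hv, -, hr, hγ, hφ, e⟩ := hx
  have hr' : r = ((listGL (quadPlus F m) [⟨v, hv⟩] : Cfsg.isometryGroup F ⇑(quadPlus F m)) : GL _ F) := by
    refine Units.ext (Matrix.ext_iff_mulVec.2 fun w => ?_)
    rw [hr, reflectionMatrix_mulVec, ← glEquiv_apply, ← coe_isoEquiv, isoEquiv_listGL]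
    exact (Forms.refl_apply hv w).symm
  subst hr'
  rw [eq_fieldP hφ, show γ = reflA v hv from
    (Simil.induced_iff (Simil.ofIso (listGL (quadPlus F m) [⟨v, hv⟩])) γ).1 hγ] at e
  have hτ : tau (gh_plus hm) x = σ := by
    rw [← tau_conj (gh_plus hm) α x, e, map_mul, tau_fieldP, tau_reflA hm, one_mul]
  rw [hτ]
  refine ⟨hσ, fun h => (pr_proper hm).refl_not v hv ?_⟩
  have h1 := field_coset hm α σ
  have h2 := mul_mem ((pr_proper (F := F) hm).normal.conj_mem _ h α) h1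
  rwa [show α * (x * (fieldP σ)⁻¹) * α⁻¹ * (α * fieldP σ * α⁻¹ * (fieldP σ)⁻¹) =
    α * x * α⁻¹ * (fieldP σ)⁻¹ by group, e, mul_inv_cancel_right] at h2

section Frames

variable {F₀ : Type*} [Field F₀] [Fintype F₀] {σ : RingAut F} {φ : F₀ →+* F}
  (hfix : ∀ c, σ c = c ↔ c ∈ Set.range φ) {a₀ b₀ : F₀}
  (hab₀ : ∀ z₁ z₂ : F₀, z₁ ^ 2 + a₀ * z₁ * z₂ + b₀ * z₂ ^ 2 = 0 → z₁ = 0 ∧ z₂ = 0)
include hfix

theorem plus_frame_mem (D : Frame (quadPlus F m) (quadPlus F₀ m) σ φ) : D.aut * (fieldP σ)⁻¹ ∈ Pr := by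
  have h := (plusFrame (m := m) hfix).conj_proper (pr_proper hm) D hfix (gh_plus hm)
  rw [← mem_coset_iff_of_conj (pr_proper hm).normal h, plusFrame_aut, mul_inv_cancel]
  exact one_mem _

include hab₀

theorem exists_graph_frame (heven : Even (orderOf σ)) :
    ∃ D : Frame (quadPlus F m) (quadMinus F₀ (m - 1) a₀ b₀) σ φ,
      D.aut = reflA (v₀ (by omega)) (v₀_ne (by omega)) * fieldP σ := by
  set γ := reflA (F := F) (v₀ (by omega : 1 ≤ m)) (v₀_ne (by omega))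
  have hc : Commute γ (fieldP σ) := reflA_commute_field _ _ (v₀_fix _ σ)
  obtain ⟨j, hj⟩ := heven
  rcases plus_frames hm hfix hab₀ (γ * fieldP σ) (by rw [map_mul, tau_fieldP, tau_reflA hm, one_mul]) (by
    rw [hc.mul_pow, ← map_pow fieldP, pow_orderOf_eq_one, map_one, mul_one, hj, ← two_mul, pow_mul, pow_two,
      reflA_sq, one_pow]) with ⟨D, hD⟩ | h
  · have h := plus_frame_mem hm hfix D
    rw [hD] at h
    exact absurd h (graph_field_not_mem hm σ _ _)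
  · exact h

theorem minus_frame_not_mem (D : Frame (quadPlus F m) (quadMinus F₀ (m - 1) a₀ b₀) σ φ) :
    D.aut * (fieldP σ)⁻¹ ∉ Pr := by
  rcases Nat.even_or_odd (orderOf σ) with he | ho
  · obtain ⟨D₁, hD₁⟩ := exists_graph_frame hm hfix hab₀ he
    have h := D₁.conj_proper (pr_proper hm) D hfix (gh_minus (by omega) hab₀)
    rw [← mem_coset_iff_of_conj (pr_proper hm).normal h, hD₁]
    exact graph_field_not_mem hm σ _ _
  · exact (no_minus_frame (by omega) hfix ho hab₀ D).elim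

/-- Two elements of the same coset and the order of their field part are conjugate. -/
theorem conj_of_coset {x y : MulAut (Cfsg.POmega F ⇑(quadPlus F m))} (hx : tau (gh_plus hm) x = σ)
    (hy : tau (gh_plus hm) y = σ) (hx1 : x ^ orderOf σ = 1) (hy1 : y ^ orderOf σ = 1)
    (hxy : x * (fieldP σ)⁻¹ ∈ Pr ↔ y * (fieldP σ)⁻¹ ∈ Pr) : Cfsg.IsConjUnder Pr x y := by
  rcases plus_frames hm hfix hab₀ x hx hx1 with ⟨D, rfl⟩ | ⟨D, rfl⟩ <;>
    rcases plus_frames hm hfix hab₀ y hy hy1 with ⟨D', rfl⟩ | ⟨D', rfl⟩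
  · exact D.conj_proper (pr_proper hm) D' hfix (gh_plus hm)
  · exact absurd (hxy.1 (plus_frame_mem hm hfix D)) (minus_frame_not_mem hm hfix hab₀ D')
  · exact absurd (hxy.2 (plus_frame_mem hm hfix D')) (minus_frame_not_mem hm hfix hab₀ D)
  · exact D.conj_proper (pr_proper hm) D' hfix (gh_minus (by omega) hab₀)

end Frames

/-- Elements of prime order in the coset of one of field type are conjugate to it. -/
theorem plus_coset_iff {r : ℕ} (hr : r.Prime) {x δ : MulAut (Cfsg.POmega F ⇑(quadPlus F m))}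
    (hτ : tau (gh_plus hm) x ≠ 1) (hxr : orderOf x = r) (hδ : δ ∈ Pr) :
    orderOf (δ * x) = r ↔ Cfsg.IsConjUnder Pr x (δ * x) := by
  refine ⟨fun hy => ?_, fun h => (isConjUnder_order h).trans hxr⟩
  set σ := tau (gh_plus hm) x with hσ
  haveI : Fact r.Prime := ⟨hr⟩
  have hσr : orderOf σ = r := orderOf_eq_prime (by rw [hσ, ← map_pow, ← hxr, pow_orderOf_eq_one, map_one]) hτ
  obtain ⟨F₀, _, _, φ, hφ⟩ := exists_fixed_field σ
  obtain ⟨a₀, b₀, hab₀⟩ := exists_anisotropic F₀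
  refine conj_of_coset hm hφ hab₀ hσ.symm (by rw [map_mul, tau_pr hm hδ, one_mul]) ?_ ?_ ?_
  · rw [hσr, ← hxr, pow_orderOf_eq_one]
  · rw [hσr, ← hy, pow_orderOf_eq_one]
  · rw [mul_assoc δ]
    exact (Subgroup.mul_mem_cancel_left _ hδ).symm

end CfsgLib.AutPE
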