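import Cfsg.Agent.AutPE.Two
import Cfsg.Agent.Forms.Arf
import Cfsg.Agent.Forms.OrthBasics
set_option autoImplicit false
set_option quotPrecheck false
set_option linter.unusedSectionVars false

/-!
Frames: a semisimilarity realised as the standard Galois action on a form over the fixed field.
-/

namespace CfsgLib.AutPE

open QuadraticMap hiding proj
open Matrix
open CfsgLib.Forms CfsgLib.AutPO

variable {F : Type*} [Field F] [Finite F] {F₀ : Type*} [Field F₀] [Finite F₀] {ι κ : Type} [Fintype ι]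
  [DecidableEq ι] [Fintype κ] [DecidableEq κ]
  {Q : QuadraticForm F (ι → F)} {Q₀ : QuadraticForm F₀ (κ → F₀)} {σ : RingAut F} {φ : F₀ →+* F}

local notation "V" => (ι → F)
local notation "W" => (κ → F)
local notation "PΩ'" => (Cfsg.POmega F ⇑Q)
local notation "PΩ₀" => (Cfsg.POmega F₀ ⇑Q₀)

/-- Two forms agreeing on the rational vectors are equal. -/
theorem quad_ext_rat {A B : QuadraticForm F W} (h : ∀ v : κ → F₀, A (φ ∘ v) = B (φ ∘ v)) : A = B := by
  have hs : ∀ i, φ ∘ (Pi.single i 1 : κ → F₀) = Pi.single i 1 := fun i => funext fun j => by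
    by_cases hj : j = i <;> simp [hj]
  refine eq_of_basis (Pi.basisFun F κ) (fun i => ?_) fun i j => ?_
  · rw [Pi.basisFun_apply, ← hs i, h]
  · simp only [Pi.basisFun_apply, QuadraticMap.polar]
    rw [← hs i, ← hs j, h, h, show φ ∘ Pi.single i (1 : F₀) + φ ∘ Pi.single j (1 : F₀) =
      φ ∘ (Pi.single i 1 + Pi.single j 1) from funext fun x => (map_add φ _ _).symm, h]

/-- A frame for `stdAut`. -/
structure Frame (Q : QuadraticForm F (ι → F)) (Q₀ : QuadraticForm F₀ (κ → F₀)) (σ : RingAut F)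
    (φ : F₀ →+* F) where
  S : (κ → F) ≃ₗ[F] (ι → F)
  b : F
  hb : b ≠ 0
  hS : ∀ v : κ → F₀, Q (S (φ ∘ v)) = b * φ (Q₀ v)
  g : GL ι F
  k : F
  semi_g : IsSemi Q g σ k
  equivar : ∀ v, semi g σ (S v) = S (σ ∘ v)

namespace Frame

variable (D : Frame Q Q₀ σ φ)

/-- The automorphism of a frame. -/
noncomputable def aut : MulAut PΩ' := stdAut D.semi_g

/-- Extension of scalars on matrices. -/
def ext (φ : F₀ →+* F) : GL κ F₀ →* GL κ F := Units.map (φ.mapMatrix (m := κ)).toMonoidHom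

theorem ext_mulVec (x : GL κ F₀) (v : κ → F₀) :
    (ext φ x : Matrix κ κ F) *ᵥ (φ ∘ v) = φ ∘ ((x : Matrix κ κ F₀) *ᵥ v) := by
  funext i
  simp [ext, Matrix.mulVec, dotProduct, map_mul, map_sum]

/-- Transport of matrices along the frame. -/
noncomputable def conjS : GL κ F →* GL ι F :=
  MonoidHom.mk' (fun x => glEquiv.symm (D.S.symm.trans ((glEquiv x).trans D.S))) fun x y => by
    refine glEquiv.injective ?_
    simp only [map_mul, MulEquiv.apply_symm_apply]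
    refine LinearEquiv.ext fun v => ?_
    simp [LinearEquiv.mul_apply]

theorem conjS_mulVec (x : GL κ F) (v : W) :
    (D.conjS x : Matrix ι ι F) *ᵥ D.S v = D.S ((x : Matrix κ κ F) *ᵥ v) := by
  rw [← glEquiv_apply, ← glEquiv_apply]
  simp [conjS]

/-- The form pulled back along the frame. -/
noncomputable def pull : QuadraticForm F W := Q.comp (D.S : W →ₗ[F] V)

theorem mult_rat {x : GL κ F₀} {c : F₀} (hc : ∀ v, Q₀ ((x : Matrix κ κ F₀) *ᵥ v) = c * Q₀ v) (w : V) :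
    Q ((D.conjS (ext φ x) : Matrix ι ι F) *ᵥ w) = φ c * Q w := by
  obtain ⟨w, rfl⟩ := D.S.surjective w
  rw [conjS_mulVec]
  have h : D.pull.comp (Matrix.mulVecLin (ext φ x : Matrix κ κ F)) = φ c • D.pull := quad_ext_rat (φ := φ) fun v => by
    rw [QuadraticMap.comp_apply, Matrix.mulVecLin_apply, ext_mulVec, _root_.QuadraticMap.smul_apply, smul_eq_mul]
    show Q (D.S _) = φ c * Q (D.S _)
    rw [D.hS, D.hS, hc, map_mul]
    ring
  exact QuadraticMap.congr_fun h w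

/-- Similarities of the small form as similarities. -/
noncomputable def lift : Simil.Sim Q₀ →* Simil.Sim Q :=
  ((D.conjS.comp (ext φ)).comp (Simil.Sim Q₀).subtype).codRestrict _ fun x => by
    obtain ⟨c, hc⟩ := x.2
    exact ⟨Units.map (φ : F₀ →* F) c, D.mult_rat hc⟩

theorem coe_lift (x : Simil.Sim Q₀) : ((D.lift x : Simil.Sim Q) : GL ι F) = D.conjS (ext φ (x : GL κ F₀)) := rfl

theorem lift_mulVec (x : Simil.Sim Q₀) (v : κ → F₀) :
    ((D.lift x : Simil.Sim Q) : GL ι F).1 *ᵥ D.S (φ ∘ v) = D.S (φ ∘ ((x : GL κ F₀).1 *ᵥ v)) := by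
  rw [coe_lift, conjS_mulVec, ext_mulVec]

theorem lift_scalar (x : Simil.Sim Q₀) {c : F₀} (hx : ∀ v, (x : GL κ F₀).1 *ᵥ v = c • v) (v : V) :
    ((D.lift x : Simil.Sim Q) : GL ι F).1 *ᵥ v = φ c • v := by
  obtain ⟨w, rfl⟩ := D.S.surjective v
  have hm : (ext φ (x : GL κ F₀) : Matrix κ κ F) = φ c • (1 : Matrix κ κ F) := by
    ext i j
    have h1 : (x : GL κ F₀).1 i j = c * (if i = j then 1 else 0) := by
      have := congrFun (hx (Pi.single j 1)) i
      simpa [Pi.single_apply] using this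
    show φ ((x : GL κ F₀).1 i j) = _
    rw [h1, map_mul, Matrix.smul_apply, Matrix.one_apply, smul_eq_mul, apply_ite φ, map_one, map_zero]
  rw [coe_lift, conjS_mulVec, hm, smul_mulVec, one_mulVec, map_smul]

/-- The automorphisms commuting with the frame. -/
noncomputable def T : Simil.Sim Q₀ →* MulAut PΩ' := (Simil.act Q).comp D.lift

theorem card_eq (D : Frame Q Q₀ σ φ) : Fintype.card κ = Fintype.card ι := by
  have := D.S.finrank_eq
  simpa [Module.finrank_fintype_fun_eq_card] using this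

variable (hfix : ∀ c, σ c = c ↔ c ∈ Set.range φ)
include hfix

theorem comp_ext (x : GL κ F₀) (v : W) :
    σ ∘ ((ext φ x : Matrix κ κ F) *ᵥ v) = (ext φ x : Matrix κ κ F) *ᵥ (σ ∘ v) := by
  funext i
  simp only [Function.comp_apply, Matrix.mulVec, dotProduct, map_sum, map_mul]
  exact Finset.sum_congr rfl fun j _ => congrArg (· * _) ((hfix _).2 ⟨(x : Matrix κ κ F₀) i j, rfl⟩)

theorem commute_T (x : Simil.Sim Q₀) : Commute (D.T x) D.aut := by
  obtain ⟨k, hs⟩ := isSemi_sim (D.lift x)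
  show D.T x * D.aut = D.aut * D.T x
  rw [show D.T x = stdAut hs from act_eq_stdAut (D.lift x).2 hs, aut, ← stdAut_comp' hs D.semi_g,
    ← stdAut_comp' D.semi_g hs]
  refine stdAut_congr _ _ fun v => ?_
  obtain ⟨v, rfl⟩ := D.S.surjective v
  rw [semi_compGL, semi_compGL, D.equivar]
  simp only [semi]
  show ((D.lift x : Simil.Sim Q) : GL ι F).1 *ᵥ D.S (σ ∘ v) =
    semi D.g σ (((D.lift x : Simil.Sim Q) : GL ι F).1 *ᵥ D.S v)
  rw [coe_lift, conjS_mulVec, conjS_mulVec, D.equivar, comp_ext hfix]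

omit hfix in
theorem conj_of_same (D' : Frame Q Q₀ σ φ) :
    ∃ u : Simil.Sim Q, D'.aut = Simil.act Q u * D.aut * (Simil.act Q u)⁻¹ := by
  let A : GL ι F := glEquiv.symm (D.S.symm.trans D'.S)
  have hA : ∀ v, (A : Matrix ι ι F) *ᵥ D.S v = D'.S v := fun v => by
    rw [← glEquiv_apply]; simp [A]
  have hrel : D'.pull = (D'.b / D.b) • D.pull := quad_ext_rat (φ := φ) fun v => by
    rw [_root_.QuadraticMap.smul_apply, smul_eq_mul]
    show Q (D'.S _) = _ * Q (D.S _)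
    rw [D.hS, D'.hS, ← mul_assoc, div_mul_cancel₀ _ D.hb]
  have hAs : A ∈ Simil.Sim Q := ⟨Units.mk0 (D'.b / D.b) (div_ne_zero D'.hb D.hb), fun w => by
    obtain ⟨w, rfl⟩ := D.S.surjective w
    rw [hA]
    exact QuadraticMap.congr_fun hrel w⟩
  refine ⟨⟨A, hAs⟩, eq_mul_inv_of_mul_eq ?_⟩
  obtain ⟨k, hs⟩ := isSemi_sim ⟨A, hAs⟩
  rw [act_eq_stdAut hAs hs, aut, aut, ← stdAut_comp' hs D.semi_g, ← stdAut_comp' D'.semi_g hs]
  refine stdAut_congr _ _ fun v => ?_
  obtain ⟨v, rfl⟩ := D.S.surjective v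
  rw [semi_compGL, semi_compGL, D.equivar]
  show semi D'.g σ ((A : Matrix ι ι F) *ᵥ D.S v) = (A : Matrix ι ι F) *ᵥ D.S (σ ∘ v)
  rw [hA, hA, D'.equivar]

/-- A matrix commuting with the Galois action is rational. -/
theorem exists_rational {M : Matrix κ κ F} (hM : ∀ v, σ ∘ (M *ᵥ v) = M *ᵥ (σ ∘ v)) :
    ∃ d : Matrix κ κ F₀, φ.mapMatrix d = M := by
  have he : ∀ i j, ∃ d, φ d = M i j := fun i j => (hfix _).1 (by
    have := congrFun (hM (Pi.single j 1)) i
    simpa [show σ ∘ (Pi.single j 1 : W) = Pi.single j 1 from funext fun l => by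
      by_cases hl : l = j <;> simp [hl]] using this)
  choose d hd using he
  exact ⟨Matrix.of d, Matrix.ext hd⟩

theorem exists_lift_of_commute (hQ₀ : GH Q₀) (g : Simil.Sim Q)
    (hg : ∀ v, semi D.g σ ((g : GL ι F).1 *ᵥ v) = (g : GL ι F).1 *ᵥ semi D.g σ v) :
    ∃ x : Simil.Sim Q₀, D.lift x = g := by
  let Mg : GL κ F := glEquiv.symm (D.S.trans ((glEquiv (g : GL ι F)).trans D.S.symm))
  have hMg : ∀ v, (Mg : Matrix κ κ F) *ᵥ v = D.S.symm ((g : GL ι F).1 *ᵥ D.S v) := fun v => by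
    rw [← glEquiv_apply, ← glEquiv_apply]; simp [Mg]
  have hM : ∀ v, σ ∘ ((Mg : Matrix κ κ F) *ᵥ v) = (Mg : Matrix κ κ F) *ᵥ (σ ∘ v) := fun v => by
    apply D.S.injective
    rw [← D.equivar, hMg, hMg, LinearEquiv.apply_symm_apply, LinearEquiv.apply_symm_apply, hg, D.equivar]
  obtain ⟨d, hd⟩ := exists_rational hfix hM
  have hdet : d.det ≠ 0 := by
    intro h0
    have h1 := congrArg Matrix.det hd
    rw [← RingHom.map_det, h0, map_zero] at h1
    exact Mg.det_ne_zero h1.symm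
  set x : GL κ F₀ := Matrix.GeneralLinearGroup.mkOfDetNeZero d hdet
  have hx : ext φ x = Mg := Units.ext hd
  obtain ⟨μ, hμ⟩ := g.2
  obtain ⟨u, hu⟩ := exists_ne_zero hQ₀
  have hq : ∀ v, φ (Q₀ (d *ᵥ v)) = (μ : F) * φ (Q₀ v) := fun v => by
    refine mul_left_cancel₀ D.hb ?_
    rw [← D.hS, mul_left_comm, ← D.hS, ← hμ]
    congr 1
    rw [show φ ∘ (d *ᵥ v) = (Mg : Matrix κ κ F) *ᵥ (φ ∘ v) by rw [← hx]; exact (ext_mulVec x v).symm, hMg,
      LinearEquiv.apply_symm_apply]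
  have hc : φ (Q₀ (d *ᵥ u) / Q₀ u) = μ := by
    rw [map_div₀, hq, mul_div_cancel_right₀ _ ((map_ne_zero φ).2 hu)]
  have hc0 : Q₀ (d *ᵥ u) / Q₀ u ≠ 0 := fun e => μ.ne_zero (by rw [← hc, e, map_zero])
  have hxs : x ∈ Simil.Sim Q₀ := ⟨Units.mk0 _ hc0, fun v => φ.injective (by
    rw [map_mul, Units.val_mk0, hc]
    exact hq v)⟩
  refine ⟨⟨x, hxs⟩, Subtype.ext (Units.ext (Matrix.ext_iff_mulVec.2 fun v => ?_))⟩
  obtain ⟨v, rfl⟩ := D.S.surjective v
  rw [coe_lift, conjS_mulVec]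
  show D.S ((ext φ x : Matrix κ κ F) *ᵥ v) = _
  rw [hx, hMg, LinearEquiv.apply_symm_apply]

/-- Every similarity automorphism commuting with the frame comes from the small form. -/
theorem exists_T_of_commute (hQ : GH Q) (hQ₀ : GH Q₀) (g : Simil.Sim Q)
    (hg : Commute (Simil.act Q g) D.aut) : ∃ x : Simil.Sim Q₀, D.T x = Simil.act Q g := by
  obtain ⟨μ, hs⟩ := isSemi_sim g
  have e : Simil.act Q g * D.aut = D.aut * Simil.act Q g := hg
  rw [act_eq_stdAut g.2 hs, aut, ← stdAut_comp' hs D.semi_g, ← stdAut_comp' D.semi_g hs] at e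
  obtain ⟨-, c, hc0, hc⟩ := stdAut_inj hQ _ _ e
  have hc' : ∀ v, semi D.g σ ((g : GL ι F).1 *ᵥ v) = c • (g : GL ι F).1 *ᵥ semi D.g σ v := fun v => by
    have h1 := semi_compGL D.g σ (g : GL ι F) (RingEquiv.refl F) v
    have h2 := semi_compGL (g : GL ι F) (RingEquiv.refl F) D.g σ v
    have h3 := hc (σ ∘ v)
    simp only [semi] at h1 h2 ⊢
    rw [show ((RingEquiv.refl F : RingAut F) * σ : RingAut F) = σ from one_mul σ] at h2
    rw [show (σ * (RingEquiv.refl F : RingAut F) : RingAut F) = σ from mul_one σ] at h1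
    rw [h1, h2] at h3
    exact h3
  let Mg : GL κ F := glEquiv.symm (D.S.trans ((glEquiv (g : GL ι F)).trans D.S.symm))
  have hMg : ∀ v, (Mg : Matrix κ κ F) *ᵥ v = D.S.symm ((g : GL ι F).1 *ᵥ D.S v) := fun v => by
    rw [← glEquiv_apply, ← glEquiv_apply]; simp [Mg]
  have hM : ∀ i j, σ (Mg.1 i j) = c * Mg.1 i j := fun i j => by
    have h1 : σ ∘ ((Mg : Matrix κ κ F) *ᵥ Pi.single j 1) = c • ((Mg : Matrix κ κ F) *ᵥ Pi.single j 1) := by
      apply D.S.injective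
      rw [← D.equivar, hMg, LinearEquiv.apply_symm_apply, hc', D.equivar, map_smul,
        LinearEquiv.apply_symm_apply, show σ ∘ (Pi.single j 1 : W) = Pi.single j 1 from funext fun l => by
          by_cases hl : l = j <;> simp [hl]]
    have := congrFun h1 i
    simpa using this
  obtain ⟨i, j, hij⟩ : ∃ i j, Mg.1 i j ≠ 0 := by
    by_contra h'
    push Not at h'
    have hne : Nonempty κ := Fintype.card_pos_iff.1 (by rw [D.card_eq]; have := hQ.dim; omega)
    exact Mg.ne_zero (Matrix.ext h')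
  set a := Mg.1 i j
  have hσa : σ a = c * a := hM i j
  let z : GL ι F := Matrix.GeneralLinearGroup.scalar ι (Units.mk0 a hij)⁻¹
  have hz : ∀ v : V, (z : Matrix ι ι F) *ᵥ v = a⁻¹ • v := fun v => by
    ext l; simp [z, Matrix.GeneralLinearGroup.scalar, Matrix.mulVec_diagonal]
  have hzs : z ∈ Simil.Sim Q := ⟨(Units.mk0 a hij)⁻¹ * (Units.mk0 a hij)⁻¹, fun v => by
    rw [hz, QuadraticMap.map_smul, smul_eq_mul]; simp⟩
  have hcomm : ∀ v, semi D.g σ ((((g * ⟨z, hzs⟩ : Simil.Sim Q)) : GL ι F).1 *ᵥ v) =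
      (((g * ⟨z, hzs⟩ : Simil.Sim Q)) : GL ι F).1 *ᵥ semi D.g σ v := fun v => by
    rw [Subgroup.coe_mul, Units.val_mul, ← mulVec_mulVec, ← mulVec_mulVec, hz, hz, hc', semi_smul,
      mulVec_smul, mulVec_smul, smul_smul, map_inv₀, hσa]
    congr 1
    field_simp
  obtain ⟨x, hx⟩ := D.exists_lift_of_commute hfix hQ₀ _ hcomm
  refine ⟨x, ?_⟩
  show Simil.act Q (D.lift x) = _
  rw [hx, map_mul, (act_eq_one hQ ⟨z, hzs⟩).2 ⟨a⁻¹, inv_ne_zero hij, hz⟩, mul_one]

omit hfix in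
theorem ker_T (hQ : GH Q) (hQ₀ : GH Q₀) : D.T.ker = (Simil.act Q₀).ker := by
  ext x
  rw [MonoidHom.mem_ker, MonoidHom.mem_ker, act_eq_one hQ₀]
  show Simil.act Q (D.lift x) = 1 ↔ _
  rw [act_eq_one hQ]
  constructor
  · rintro ⟨c, hc0, hc⟩
    obtain ⟨u, hu⟩ := exists_ne_zero hQ₀
    obtain ⟨i, hi⟩ : ∃ i, u i ≠ 0 := by
      by_contra h'
      push Not at h'
      exact hu (by rw [show u = 0 from funext h', QuadraticMap.map_zero])
    set y := (x : GL κ F₀).1 *ᵥ u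
    have key : ∀ v, φ ∘ ((x : GL κ F₀).1 *ᵥ v) = c • (φ ∘ v) := fun v => by
      apply D.S.injective
      rw [← lift_mulVec, hc, map_smul]
    have hcr : c = φ (y i / u i) := by
      have := congrFun (key u) i
      simp only [Function.comp_apply, Pi.smul_apply, smul_eq_mul] at this
      rw [map_div₀, this, mul_div_cancel_right₀ _ ((map_ne_zero φ).2 hi)]
    refine ⟨y i / u i, fun e => hc0 (by rw [hcr, e, map_zero]), fun v => funext fun l => φ.injective ?_⟩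
    have := congrFun (key v) l
    simp only [Function.comp_apply, Pi.smul_apply, smul_eq_mul] at this ⊢
    rw [this, map_mul, ← hcr]
  · rintro ⟨c, hc0, hc⟩
    exact ⟨φ c, (map_ne_zero φ).2 hc0, D.lift_scalar x hc⟩

omit hfix in
/-- Reflections lift to reflections. -/
theorem lift_refl {u : κ → F₀} (hu : Q₀ u ≠ 0) :
    ∃ hu' : Q (D.S (φ ∘ u)) ≠ 0,
      D.lift (Simil.ofIso (listGL Q₀ [⟨u, hu⟩])) = Simil.ofIso (listGL Q [⟨D.S (φ ∘ u), hu'⟩]) := by
  have hu' : Q (D.S (φ ∘ u)) ≠ 0 := by rw [D.hS]; exact mul_ne_zero D.hb ((map_ne_zero φ).2 hu)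
  refine ⟨hu', Subtype.ext ?_⟩
  refine glEquiv.injective (LinearEquiv.toLinearMap_injective ?_)
  refine ((Pi.basisFun F κ).map D.S).ext fun j => ?_
  rw [Module.Basis.map_apply, Pi.basisFun_apply,
    show (Pi.single j 1 : W) = φ ∘ (Pi.single j 1 : κ → F₀) from funext fun l => by
      by_cases hl : l = j <;> simp [hl]]
  have e₀ : ((glEquiv ((listGL Q₀ [⟨u, hu⟩] : Cfsg.isometryGroup F₀ ⇑Q₀) : GL κ F₀)) : (κ → F₀) ≃ₗ[F₀] (κ → F₀)) =
      Forms.refl Q₀ u hu * 1 := by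
    rw [← coe_isoEquiv, isoEquiv_listGL]; rfl
  have e₁ : ((glEquiv ((listGL Q [⟨D.S (φ ∘ u), hu'⟩] : Cfsg.isometryGroup F ⇑Q) : GL ι F)) : V ≃ₗ[F] V) =
      Forms.refl Q (D.S (φ ∘ u)) hu' * 1 := by
    rw [← coe_isoEquiv, isoEquiv_listGL]; rfl
  show glEquiv ((D.lift _ : Simil.Sim Q) : GL ι F) (D.S _) = glEquiv ((Simil.ofIso _ : Simil.Sim Q) : GL ι F) (D.S _)
  rw [glEquiv_apply, lift_mulVec, ← glEquiv_apply]
  show D.S (φ ∘ glEquiv ((listGL Q₀ [⟨u, hu⟩] : Cfsg.isometryGroup F₀ ⇑Q₀) : GL κ F₀) _) =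
    glEquiv ((listGL Q [⟨D.S (φ ∘ u), hu'⟩] : Cfsg.isometryGroup F ⇑Q) : GL ι F) _
  rw [e₀, e₁, mul_one, mul_one, refl_apply, refl_apply]
  have hp : QuadraticMap.polar Q (D.S (φ ∘ Pi.single j 1)) (D.S (φ ∘ u)) =
      D.b * φ (QuadraticMap.polar Q₀ (Pi.single j 1) u) := by
    simp only [QuadraticMap.polar]
    rw [← map_add D.S, show φ ∘ (Pi.single j 1 : κ → F₀) + φ ∘ u = φ ∘ (Pi.single j 1 + u) from
      funext fun x => (map_add φ _ _).symm, D.hS, D.hS, D.hS, map_sub, map_sub]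
    ring
  rw [hp, D.hS, show φ ∘ (Pi.single j 1 - ((Q₀ u)⁻¹ * QuadraticMap.polar Q₀ (Pi.single j 1) u) • u) =
    φ ∘ Pi.single j 1 - φ ((Q₀ u)⁻¹ * QuadraticMap.polar Q₀ (Pi.single j 1) u) • (φ ∘ u) from
      funext fun l => by simp, map_sub, map_smul, map_mul, map_inv₀]
  congr 2
  have := D.hb
  have := (map_ne_zero φ).2 hu
  field_simp

omit hfix in
theorem lift_list (l : List {u : κ → F₀ // Q₀ u ≠ 0}) :
    ∃ l' : List {u : ι → F // Q u ≠ 0}, l'.length = l.length ∧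
      valueProd Q l' = D.b ^ l.length * φ (valueProd Q₀ l) ∧
      D.lift (Simil.ofIso (listGL Q₀ l)) = Simil.ofIso (listGL Q l') := by
  induction l with
  | nil =>
    refine ⟨[], rfl, by simp [valueProd], ?_⟩
    rw [show listGL Q₀ [] = 1 from (isoEquiv Q₀).injective (by rw [map_one, isoEquiv_listGL]; rfl),
      show listGL Q [] = 1 from (isoEquiv Q).injective (by rw [map_one, isoEquiv_listGL]; rfl), map_one, map_one,
      map_one]
  | cons x l ih =>
    obtain ⟨l', hlen, hval, hl⟩ := ih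
    obtain ⟨u, hu⟩ := x
    obtain ⟨hu', e⟩ := D.lift_refl hu
    refine ⟨⟨_, hu'⟩ :: l', by simp [hlen], ?_, ?_⟩
    · simp only [valueProd, List.map_cons, List.prod_cons, List.length_cons] at hval ⊢
      rw [hval, map_mul, D.hS, pow_succ]
      ring
    · rw [show (⟨u, hu⟩ :: l) = [⟨u, hu⟩] ++ l from rfl, listGL_append, map_mul, map_mul, hl, e,
        show (⟨_, hu'⟩ :: l') = [⟨D.S (φ ∘ u), hu'⟩] ++ l' from rfl, listGL_append, map_mul]

end Frame

end CfsgLib.AutPE
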