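import Cfsg.Agent.AutPE.Two
import Cfsg.Agent.Forms.SimilitudeStd
set_option autoImplicit false
set_option quotPrecheck false
set_option linter.unusedSectionVars false

/-!
Odd characteristic: conjugation preserves the invariant, and the action on similarities modulo
inner automorphisms splits off.
-/

namespace CfsgLib.AutPE

open QuadraticMap hiding proj
open Matrix
open CfsgLib.Forms CfsgLib.AutPO

variable {F : Type*} [Field F] [Finite F] {ι : Type} [Fintype ι] [DecidableEq ι]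
  {Q : QuadraticForm F (ι → F)}

local notation "V" => (ι → F)
local notation "Ω'" => (Cfsg.Omega F ⇑Q)
local notation "PΩ'" => (Cfsg.POmega F ⇑Q)

/-- The class of the automorphism induced by a similarity. -/
noncomputable def simOut : Simil.Sim Q →* Cfsg.Out PΩ' :=
  (QuotientGroup.mk' (Cfsg.Inn PΩ')).comp (Simil.act Q)

theorem simOut_ofIso (k : Cfsg.isometryGroup F ⇑Q) : simOut (Simil.ofIso k) = isoOut k := rfl

theorem eq_of_one_iff : ∀ a b : Multiplicative (ZMod 2), (a = 1 ↔ b = 1) → a = b := by decide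

theorem stdAut_conj (hG : GH Q) (hg : Simil.Good Q) {G : GL ι F} {τ : RingAut F} {k : F} (hs : IsSemi Q G τ k)
    (g : Simil.Sim Q) :
    ∃ g' : Simil.Sim Q, (g' : GL ι F) = semiGL G τ (g : GL ι F) ∧
      Simil.invariant hg g' = Simil.invariant hg g ∧
      stdAut hs * Simil.act Q g = Simil.act Q g' * stdAut hs := by
  have hμ : ∀ v, Q ((semiGL G τ (g : GL ι F) : Matrix ι ι F) *ᵥ v) = τ (Simil.mult hg g : F) * Q v := fun v => by
    obtain ⟨w, rfl⟩ := semi_surjective G τ v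
    rw [semiGL_mulVec, hs.2, hs.2, Simil.mult_spec hg, map_mul]
    ring
  have hmem : semiGL G τ (g : GL ι F) ∈ Simil.Sim Q :=
    ⟨Units.map (τ : F →+* F).toMonoidHom (Simil.mult hg g), hμ⟩
  refine ⟨⟨_, hmem⟩, rfl, ?_, ?_⟩
  · obtain ⟨u, hu⟩ := Simil.exists_value_one hg
    have hm : (Simil.mult hg ⟨_, hmem⟩ : F) = τ (Simil.mult hg g : F) := by
      have h1 := Simil.mult_spec hg ⟨_, hmem⟩ u
      rw [show ((⟨_, hmem⟩ : Simil.Sim Q) : GL ι F) = semiGL G τ (g : GL ι F) from rfl, hμ, hu, mul_one, mul_one] at h1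
      exact h1.symm
    have hd : (semiGL G τ (g : GL ι F)).1.det = τ (g : GL ι F).1.det := by
      show ((G : Matrix ι ι F) * (g : GL ι F).1.map τ * ((G⁻¹ : GL ι F) : Matrix ι ι F)).det = _
      rw [det_mul, det_mul, mul_right_comm, ← det_mul, Units.mul_inv, det_one, one_mul]
      exact ((τ : F →+* F).map_det _).symm
    have hsign : Simil.sign hg ⟨_, hmem⟩ = Simil.sign hg g := Units.ext (by
      rw [Simil.sign_val hg, hm, show ((⟨_, hmem⟩ : Simil.Sim Q) : GL ι F) = semiGL G τ (g : GL ι F) from rfl, hd,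
        ← map_pow, ← map_div₀, ← Simil.sign_val hg]
      rcases Simil.sign_sq hg g with e | e <;> simp [e])
    have hsq : Simil.sqInd (Simil.mult hg ⟨_, hmem⟩) = Simil.sqInd (Simil.mult hg g) := by
      have hiff : IsSquare (Simil.mult hg ⟨_, hmem⟩ : F) ↔ IsSquare (Simil.mult hg g : F) := by
        rw [hm]
        exact ⟨fun h => by simpa using h.map (τ.symm : F →+* F), fun h => h.map (τ : F →+* F)⟩
      exact eq_of_one_iff _ _ (by rw [Simil.sqInd_eq_one, Simil.sqInd_eq_one, hiff])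
    simp only [Simil.invariant, MonoidHom.coe_comp, Function.comp_apply, MonoidHom.prod_apply]
    rw [hsq, eq_of_one_iff (Simil.signInd hg ⟨_, hmem⟩) (Simil.signInd hg g)
      (by rw [Simil.signInd_eq_one, Simil.signInd_eq_one, hsign])]
  · obtain ⟨k₁, h₁⟩ := isSemi_sim g
    obtain ⟨k₂, h₂⟩ := isSemi_sim ⟨_, hmem⟩
    rw [act_eq_stdAut hmem h₂,
      show Simil.act Q g = stdAut h₁ from act_eq_stdAut g.2 h₁,
      ← stdAut_comp', ← stdAut_comp']
    refine stdAut_congr _ _ fun v => ?_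
    rw [semi_compGL, semi_compGL]
    show semi G τ ((g : GL ι F).1 *ᵥ v) = (semiGL G τ (g : GL ι F)).1 *ᵥ semi G τ v
    rw [semiGL_mulVec]

variable (h : GH Q) (hg : Simil.Good Q)
include h hg

/-- An element with trivial invariant is a special isometry modulo inner automorphisms. -/
theorem exists_iso_of_invariant {g : Simil.Sim Q} (he : Simil.invariant hg g = 1) :
    ∃ k : Cfsg.isometryGroup F ⇑Q, (k : GL ι F).1.det = 1 ∧ simOut g = isoOut k := by
  obtain ⟨k, hk, e⟩ := (Simil.invariant_ker_iff hg g).1 he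
  refine ⟨⟨_, hk.1⟩, congrArg Units.val (MonoidHom.mem_ker.1 hk.2), ?_⟩
  show QuotientGroup.mk' _ _ = QuotientGroup.mk' _ _
  rw [e]
  rfl

theorem invariant_of_simOut {g : Simil.Sim Q} (he : simOut g = 1) : Simil.invariant hg g = 1 := by
  obtain ⟨w, hw, e⟩ := (Simil.mem_inn_iff _).1 ((QuotientGroup.eq_one_iff _).1 he)
  refine (Simil.invariant_ker_iff hg g).2 ⟨Simil.ofIso w, ?_, e⟩
  obtain ⟨l, hl⟩ := exists_list h.nondeg (hd h) w
  exact ⟨w.2, MonoidHom.mem_ker.2 (Units.ext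
    ((Simil.det_one_iff_even hg hl).2 ((mem_Omega_of_list h.nondeg (hd h) hl).1 hw).1))⟩

theorem isoOut_sq (k : Cfsg.isometryGroup F ⇑Q) : isoOut k * isoOut k = 1 := by
  rw [← map_mul]; exact isoOut_eq_one_of_mem h (sq_mem_Omega h.nondeg (hd h) k)

/-- The conjugate of a similarity class by any outer automorphism keeps its invariant. -/
theorem conj_simOut (x : Cfsg.Out PΩ') (g : Simil.Sim Q) :
    ∃ g' : Simil.Sim Q, Simil.invariant hg g' = Simil.invariant hg g ∧ x * simOut g * x⁻¹ = simOut g' := by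
  obtain ⟨α, rfl⟩ := out_surjective x
  obtain ⟨G, τ, k, hs, rfl⟩ := classify h α
  obtain ⟨g', -, hi, e⟩ := stdAut_conj h hg hs g
  refine ⟨g', hi, ?_⟩
  rw [mul_inv_eq_iff_eq_mul]
  show QuotientGroup.mk' _ _ * QuotientGroup.mk' _ _ = QuotientGroup.mk' _ _ * QuotientGroup.mk' _ _
  rw [← map_mul, ← map_mul, e]

/-- Without `-1` in `Ω` every element commutes with the similarity classes. -/
theorem comm_of_neg (hneg : (Simil.negOne (Q := Q)) ∉ Ω') (x : Cfsg.Out PΩ') :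
    ∀ y ∈ (outTau h).ker, x * y = y * x := by
  intro y hy
  obtain ⟨g, rfl⟩ := (mem_outKer h y).1 hy
  show x * simOut g = simOut g * x
  obtain ⟨g', hi, e⟩ := conj_simOut h hg x g
  obtain ⟨k, hk, hk'⟩ := exists_iso_of_invariant h hg (g := g⁻¹ * g') (by rw [map_mul, map_inv, hi, inv_mul_cancel])
  have h1 : isoOut k = (1 : Cfsg.Out PΩ') := by
    rcases Simil.special_dichotomy hg (Simil.det_negOne hg) hneg hk with hw | hw
    · exact isoOut_eq_one_of_mem h hw
    · have h2 := isoOut_eq_one_of_mem h hw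
      rwa [map_mul, show isoOut (Simil.negOne (Q := Q)) = (1 : Cfsg.Out PΩ') by
        show QuotientGroup.mk' _ _ = 1
        rw [MonoidHom.comp_apply, Simil.act_negOne hg, map_one], mul_one] at h2
  rw [h1, map_mul, map_inv, inv_mul_eq_one] at hk'
  rw [← hk'] at e
  exact mul_inv_eq_iff_eq_mul.1 e

omit h hg in
theorem semiGL_refl {G : GL ι F} {τ : RingAut F} {k : F} (hs : IsSemi Q G τ k) {u : V} (hu : Q u ≠ 0)
    (hfix : semi G τ u = u) :
    semiGL G τ (listGL Q [⟨u, hu⟩] : GL ι F) = (listGL Q [⟨u, hu⟩] : GL ι F) := by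
  have e : ∀ x : V, (listGL Q [⟨u, hu⟩] : GL ι F).1 *ᵥ x = x - ((Q u)⁻¹ * polar Q x u) • u := fun x => by
    rw [← glEquiv_apply, ← coe_isoEquiv, isoEquiv_listGL]
    exact Forms.refl_apply hu x
  refine Units.ext (Matrix.ext_iff_mulVec.2 fun v => ?_)
  obtain ⟨w, rfl⟩ := semi_surjective G τ v
  rw [semiGL_mulVec, e, e, semi_sub, semi_smul, hfix]
  congr 2
  rw [map_mul, map_inv₀]
  have h1 := hs.polar w u
  rw [hfix] at h1
  rw [h1]
  have h2 := hs.2 u
  rw [hfix] at h2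
  have hτu : τ (Q u) ≠ 0 := by simpa using hu
  have hk := hs.1
  have h3 : (Q u)⁻¹ = k⁻¹ * (τ (Q u))⁻¹ := by conv_lhs => rw [h2, mul_inv]
  rw [h3]
  field_simp

/-- A fixed singular-free vector gives a fixed reflection class. -/
theorem comm_refl {G : GL ι F} {τ : RingAut F} {k : F} (hs : IsSemi Q G τ k) {u : V} (hu : Q u ≠ 0)
    (hfix : semi G τ u = u) :
    out (stdAut hs) * isoOut (listGL Q [⟨u, hu⟩]) = isoOut (listGL Q [⟨u, hu⟩]) * out (stdAut hs) := by
  obtain ⟨g', hg', -, e⟩ := stdAut_conj h hg hs (Simil.ofIso (listGL Q [⟨u, hu⟩]))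
  have hgg : g' = Simil.ofIso (listGL Q [⟨u, hu⟩]) := Subtype.ext (hg'.trans (semiGL_refl hs hu hfix))
  rw [hgg] at e
  show QuotientGroup.mk' _ _ * QuotientGroup.mk' _ _ = QuotientGroup.mk' _ _ * QuotientGroup.mk' _ _
  rw [← map_mul, ← map_mul]
  exact congrArg _ e

/-- With `-1` in `Ω`: a central complement to the dihedral group. -/
theorem exists_central (hneg : (Simil.negOne (Q := Q)) ∈ Ω') {f : ℕ} {Φ : Cfsg.Out PΩ'}
    (hgen : Gen (outTau h) Φ f) (hf : Φ ^ f = 1) (hcard : Nat.card (outTau h).ker = 8) {u : V} (hu : Q u ≠ 0)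
    (hΦ : Φ * isoOut (listGL Q [⟨u, hu⟩]) = isoOut (listGL Q [⟨u, hu⟩]) * Φ) :
    ∃ Φ', Gen (outTau h) Φ' f ∧ Φ' ^ f = 1 ∧ ∀ y ∈ (outTau h).ker, Φ' * y = y * Φ' := by
  obtain ⟨g₀, c, hc, hg₀⟩ := hg.sim
  have hc0 : c ≠ 0 := fun e => hc (e ▸ IsSquare.zero)
  let g : Simil.Sim Q := ⟨g₀, Units.mk0 c hc0, hg₀⟩
  set T := listGL Q [⟨u, hu⟩]
  have hw : Q (((g⁻¹ : Simil.Sim Q) : GL ι F).1 *ᵥ u) = c⁻¹ * Q u := by
    have h1 := hg₀ (((g⁻¹ : Simil.Sim Q) : GL ι F).1 *ᵥ u)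
    rw [show ((g⁻¹ : Simil.Sim Q) : GL ι F) = g₀⁻¹ from rfl, mulVec_mulVec, Units.mul_inv, one_mulVec] at h1
    rw [show ((g⁻¹ : Simil.Sim Q) : GL ι F) = g₀⁻¹ from rfl, h1, inv_mul_cancel_left₀ hc0]
  have hw0 : Q (((g⁻¹ : Simil.Sim Q) : GL ι F).1 *ᵥ u) ≠ 0 := by rw [hw]; exact mul_ne_zero (inv_ne_zero hc0) hu
  set K := listGL Q [⟨_, hw0⟩] * T⁻¹
  have hl : isoEquiv Q K = ⟨reflProd Q [⟨_, hw0⟩, ⟨u, hu⟩], reflProd_mem_isom _⟩ := by
    rw [map_mul, map_inv, isoEquiv_listGL, isoEquiv_listGL]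
    exact Subtype.ext (LinearEquiv.ext fun v => rfl)
  have hKdet : (K : GL ι F).1.det = 1 := (Simil.det_one_iff_even hg hl).2 ⟨1, rfl⟩
  have hKmem : K ∉ Ω' := fun hm => by
    have h1 := ((mem_Omega_of_list h.nondeg (hd h) hl).1 hm).2
    simp only [valueProd, List.map_cons, List.map_nil, List.prod_cons, List.prod_nil, mul_one, hw] at h1
    have h2 : IsSquare c⁻¹ := by
      have h3 := h1.mul ((IsSquare.mul_self (Q u)).inv : IsSquare (Q u * Q u)⁻¹)
      rwa [show c⁻¹ * Q u * Q u * (Q u * Q u)⁻¹ = c⁻¹ by field_simp] at h3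
    exact hc (inv_inv c ▸ h2.inv)
  have hz1 : isoOut K ≠ 1 := fun e => hKmem ((Simil.act_mem_inn_iff hg hneg K).1 ((out_eq_one _).1 e))
  have hTT : isoOut T * isoOut T = 1 := isoOut_sq h hg T
  have key : ∀ y : Cfsg.Out PΩ', (∃ k : Cfsg.isometryGroup F ⇑Q, (k : GL ι F).1.det = 1 ∧ y = isoOut k) →
      y = 1 ∨ y = isoOut K := by
    rintro y ⟨k, hk, rfl⟩
    rcases Simil.special_dichotomy hg hKdet hKmem hk with hm | hm
    · exact Or.inl (isoOut_eq_one_of_mem h hm)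
    · have h1 := isoOut_eq_one_of_mem h hm
      rw [map_mul] at h1
      exact Or.inr ((eq_inv_of_mul_eq_one_left h1).trans (inv_eq_of_mul_eq_one_right (isoOut_sq h hg K)))
  have hΦa : Φ * simOut g * Φ⁻¹ = simOut g ∨ Φ * simOut g * Φ⁻¹ = simOut g * isoOut K := by
    obtain ⟨g', hi, e⟩ := conj_simOut h hg Φ g
    obtain ⟨k, hk, hk'⟩ := exists_iso_of_invariant h hg (g := g⁻¹ * g') (by rw [map_mul, map_inv, hi, inv_mul_cancel])
    rw [map_mul, map_inv, inv_mul_eq_iff_eq_mul, ← e] at hk'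
    rcases key _ ⟨k, hk, rfl⟩ with e1 | e1 <;> rw [e1] at hk'
    · exact Or.inl (hk'.trans (mul_one _))
    · exact Or.inr hk'
  have hKinv : Simil.invariant hg (Simil.ofIso K) = 1 := (Simil.invariant_ker_iff hg _).2
    ⟨Simil.ofIso K, ⟨K.2, MonoidHom.mem_ker.2 (Units.ext hKdet)⟩, rfl⟩
  have hΦz : Φ * isoOut K = isoOut K * Φ := by
    obtain ⟨g', hi, e⟩ := conj_simOut h hg Φ (Simil.ofIso K)
    rw [simOut_ofIso] at e
    obtain ⟨k, hk, hk'⟩ := exists_iso_of_invariant h hg (g := g') (hi.trans hKinv)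
    rcases key _ ⟨k, hk, hk'⟩ with e1 | e1 <;> rw [e1] at e
    · exact absurd (mul_inv_eq_one.1 e) (fun e2 => hz1 (by simpa using e2))
    · exact mul_inv_eq_iff_eq_mul.1 e
  refine Gen.fix_dihedral hgen hf hcard (a := simOut g) (t := isoOut T) (z := isoOut K)
    ((mem_outKer h _).2 ⟨g, rfl⟩) (isoOut_mem_ker h T) hTT ?_ (isoOut_sq h hg K) hz1 hΦ hΦa hΦz
  have e1 : g⁻¹ * Simil.ofIso T * g = Simil.ofIso (listGL Q [⟨_, hw0⟩]) := by
    rw [← Simil.conj_refl hg g⁻¹ u hu hw0]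
    refine Subtype.ext ?_
    show (g₀⁻¹ * (T : GL ι F) * g₀ : GL ι F) = g₀⁻¹ * (T : GL ι F) * g₀⁻¹⁻¹
    rw [inv_inv]
  calc isoOut T * simOut g * isoOut T
      = simOut g * simOut (g⁻¹ * Simil.ofIso T * g) * isoOut T := by
        simp only [map_mul, map_inv, simOut_ofIso]; group
    _ = simOut g * (isoOut (listGL Q [⟨_, hw0⟩]) * (isoOut T)⁻¹) := by
        rw [e1, simOut_ofIso, inv_eq_of_mul_eq_one_right hTT, mul_assoc]
    _ = simOut g * isoOut K := by rw [← map_inv, ← map_mul]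

end CfsgLib.AutPE
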