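import Cfsg.Agent.AutPE.Frame
import Cfsg.Agent.AutPE.Odd
import Cfsg.Agent.AutPSL.FieldAut
set_option autoImplicit false
set_option quotPrecheck false
set_option linter.unusedSectionVars false

/-!
The group of proper similarity automorphisms: frames of the same form are conjugate under it, and the
centraliser of a frame in it is the corresponding group of the small form.
-/

namespace CfsgLib.AutPE

open QuadraticMap hiding proj
open Matrix
open CfsgLib.Forms CfsgLib.AutPO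

variable {F : Type*} [Field F] [Finite F] {F₀ : Type*} [Field F₀] [Finite F₀] {ι κ : Type} [Fintype ι]
  [DecidableEq ι] [Fintype κ] [DecidableEq κ]
  {Q : QuadraticForm F (ι → F)} {Q₀ : QuadraticForm F₀ (κ → F₀)} {σ : RingAut F} {φ : F₀ →+* F}

local notation "PΩ'" => (Cfsg.POmega F ⇑Q)

/-- A group of proper similarity automorphisms. -/
structure IsProper (Q : QuadraticForm F (ι → F)) (Pr : Subgroup (MulAut (Cfsg.POmega F ⇑Q))) : Prop where
  normal : Pr.Normal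
  inn_le : Cfsg.Inn (Cfsg.POmega F ⇑Q) ≤ Pr
  le_pgo : Pr ≤ (Simil.act Q).range
  refl_not : ∀ (u : ι → F) (hu : Q u ≠ 0), Simil.act Q (Simil.ofIso (listGL Q [⟨u, hu⟩])) ∉ Pr
  or_refl : ∀ (g : Simil.Sim Q) (u : ι → F) (hu : Q u ≠ 0),
    Simil.act Q g ∈ Pr ∨ Simil.act Q g * Simil.act Q (Simil.ofIso (listGL Q [⟨u, hu⟩])) ∈ Pr

theorem inv_refl (u : ι → F) (hu : Q u ≠ 0) :
    Simil.act Q (Simil.ofIso (listGL Q [⟨u, hu⟩])) * Simil.act Q (Simil.ofIso (listGL Q [⟨u, hu⟩])) = 1 := by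
  rw [← map_mul, ← map_mul]
  have : listGL Q [⟨u, hu⟩] * listGL Q [⟨u, hu⟩] = 1 := by
    refine (isoEquiv Q).injective ?_
    rw [map_mul, map_one, isoEquiv_listGL]
    refine Subtype.ext ?_
    show refl Q u hu * 1 * (refl Q u hu * 1) = 1
    rw [mul_one]
    nth_rewrite 1 [← refl_inv hu]
    exact inv_mul_cancel _
  rw [this, map_one, map_one]

variable {Pr : Subgroup (MulAut (Cfsg.POmega F ⇑Q))} {P₀ : Subgroup (MulAut (Cfsg.POmega F₀ ⇑Q₀))}

/-- Frames of the same form are conjugate under the proper group. -/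
theorem Frame.conj_proper (hP : IsProper Q Pr) (D D' : Frame Q Q₀ σ φ) (hfix : ∀ c, σ c = c ↔ c ∈ Set.range φ)
    (hQ₀ : GH Q₀) : Cfsg.IsConjUnder Pr D.aut D'.aut := by
  obtain ⟨u, e⟩ := D.conj_of_same D'
  obtain ⟨w, hw⟩ := exists_ne_zero hQ₀
  obtain ⟨hw', er⟩ := D.lift_refl hw
  rcases hP.or_refl u _ hw' with h | h
  · exact ⟨_, h, e⟩
  · refine ⟨_, h, e.trans ?_⟩
    have hc := D.commute_T hfix (Simil.ofIso (listGL Q₀ [⟨w, hw⟩]))
    change Commute (Simil.act Q (D.lift _)) D.aut at hc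
    rw [er] at hc
    set R := Simil.act Q (Simil.ofIso (listGL Q [⟨_, hw'⟩]))
    have h1 : R * D.aut * R⁻¹ = D.aut := by rw [hc.eq, mul_inv_cancel_right]
    conv_lhs => rw [← h1]
    group

/-- The centraliser of a frame in the proper group is the proper group of the small form. -/
theorem Frame.centralizer_equiv (hQ : GH Q) (hQ₀ : GH Q₀) (hP : IsProper Q Pr) (hP₀ : IsProper Q₀ P₀)
    (D : Frame Q Q₀ σ φ) (hfix : ∀ c, σ c = c ↔ c ∈ Set.range φ)
    (hmap : ∀ x, Simil.act Q₀ x ∈ P₀ → D.T x ∈ Pr) :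
    Nonempty (↥(Pr ⊓ Subgroup.centralizer {D.aut}) ≃* ↥P₀) := by
  let G := P₀.comap (Simil.act Q₀)
  let α : ↥G →* ↥P₀ := ((Simil.act Q₀).comp G.subtype).codRestrict P₀ fun x => x.2
  have hα : Function.Surjective α := fun y => by
    obtain ⟨x, hx⟩ := hP₀.le_pgo y.2
    exact ⟨⟨x, show Simil.act Q₀ x ∈ P₀ by rw [hx]; exact y.2⟩, Subtype.ext hx⟩
  let ψ : ↥G →* ↥(Pr ⊓ Subgroup.centralizer {D.aut}) := (D.T.comp G.subtype).codRestrict _ fun x =>
    ⟨hmap x x.2, Subgroup.mem_centralizer_singleton_iff.2 (D.commute_T hfix x).eq⟩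
  have hψ : Function.Surjective ψ := fun y => by
    obtain ⟨g, hg⟩ := hP.le_pgo y.2.1
    have hcy : Commute (Simil.act Q g) D.aut := by
      rw [hg]; exact Subgroup.mem_centralizer_singleton_iff.1 y.2.2
    obtain ⟨x, hx⟩ := D.exists_T_of_commute hfix hQ hQ₀ g hcy
    obtain ⟨w, hw⟩ := exists_ne_zero hQ₀
    rcases hP₀.or_refl x w hw with h | h
    · exact ⟨⟨x, h⟩, Subtype.ext (hx.trans hg)⟩
    · exfalso
      rw [← map_mul] at h
      have h1 := hmap _ h
      rw [map_mul] at h1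
      have h2 : D.T x ∈ Pr := by rw [hx, hg]; exact y.2.1
      obtain ⟨hw', er⟩ := D.lift_refl hw
      refine hP.refl_not _ hw' ?_
      rw [← er]
      exact (Pr.mul_mem_cancel_left h2).1 h1
  have hker : α.ker = ψ.ker := by
    ext x
    simp only [MonoidHom.mem_ker, Subtype.ext_iff, OneMemClass.coe_one]
    show Simil.act Q₀ (x : Simil.Sim Q₀) = 1 ↔ D.T (x : Simil.Sim Q₀) = 1
    rw [← MonoidHom.mem_ker, ← MonoidHom.mem_ker, D.ker_T hQ hQ₀]
  exact ⟨(QuotientGroup.quotientKerEquivOfSurjective ψ hψ).symm.trans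
    ((QuotientGroup.quotientMulEquivOfEq hker.symm).trans (QuotientGroup.quotientKerEquivOfSurjective α hα))⟩

/-! ### Odd characteristic -/

theorem sign_eq_one_of_act (hQ : GH Q) (hg : Simil.Good Q) {g : Simil.Sim Q} (e : Simil.act Q g = 1) :
    Simil.sign hg g = 1 := by
  obtain ⟨c, hc0, hc⟩ := (act_eq_one hQ g).1 e
  obtain ⟨u, hu⟩ := Simil.exists_value_one hg
  have hm : (Simil.mult hg g : F) = c * c := by
    have h1 := Simil.mult_spec hg g u
    rw [hc, QuadraticMap.map_smul, hu, smul_eq_mul, mul_one, mul_one] at h1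
    exact h1.symm
  have hd : (g : GL ι F).1 = c • (1 : Matrix ι ι F) := Matrix.ext_iff_mulVec.2 fun v => by
    rw [hc, smul_mulVec, one_mulVec]
  obtain ⟨n, hn⟩ := hg.card
  refine Units.ext ?_
  rw [Simil.sign_val hg, hm, hd, det_smul, det_one, mul_one, hn, show (n + n) / 2 = n by omega, mul_pow,
    ← pow_add, div_self (pow_ne_zero _ hc0), Units.val_one]

theorem sign_refl (hg : Simil.Good Q) (u : ι → F) (hu : Q u ≠ 0) :
    Simil.sign hg (Simil.ofIso (listGL Q [⟨u, hu⟩])) = -1 := by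
  refine (Simil.sign_sq hg _).resolve_left fun e => ?_
  have h1 := congrArg Units.val e
  rw [Simil.sign_val hg, Simil.mult_ofIso hg, Units.val_one, one_pow, div_one] at h1
  have h2 := (Simil.det_one_iff_even hg (isoEquiv_listGL [⟨u, hu⟩])).1 h1
  simp at h2

theorem isProper_odd (hQ : GH Q) (hg : Simil.Good Q) :
    IsProper Q ((Simil.sign hg).ker.map (Simil.act Q)) where
  normal := ⟨fun y hy α => by
    obtain ⟨G, τ, k, hs, rfl⟩ := classify hQ α
    obtain ⟨g, hgs, rfl⟩ := hy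
    obtain ⟨g', -, hi, e⟩ := stdAut_conj hQ hg hs g
    refine ⟨g', MonoidHom.mem_ker.2 ?_, by rw [e, mul_inv_cancel_right]⟩
    have h1 : Simil.signInd hg g' = Simil.signInd hg g := by
      simp only [Simil.invariant, MonoidHom.coe_comp, Function.comp_apply, MulEquiv.coe_toMonoidHom,
        MonoidHom.prod_apply] at hi
      exact congrArg Prod.snd ((MulEquiv.prodMultiplicative (ZMod 2) (ZMod 2)).symm.injective hi)
    exact (Simil.signInd_eq_one hg g').1 (h1.trans ((Simil.signInd_eq_one hg g).2 (MonoidHom.mem_ker.1 hgs)))⟩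
  inn_le := fun β hβ => by
    obtain ⟨w, hw, rfl⟩ := (Simil.mem_inn_iff β).1 hβ
    obtain ⟨l, hl⟩ := exists_list hQ.nondeg (hd hQ) w
    refine ⟨_, MonoidHom.mem_ker.2 (Units.ext ?_), rfl⟩
    rw [Simil.sign_val hg, Simil.mult_ofIso hg, Units.val_one, one_pow, div_one]
    exact (Simil.det_one_iff_even hg hl).2 ((mem_Omega_of_list hQ.nondeg (hd hQ) hl).1 hw).1
  le_pgo := fun _ hy => by
    obtain ⟨g, -, rfl⟩ := hy
    exact ⟨g, rfl⟩
  refl_not := fun u hu h => by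
    obtain ⟨g, hgs, e⟩ := h
    have h1 := sign_eq_one_of_act hQ hg (g := g⁻¹ * Simil.ofIso (listGL Q [⟨u, hu⟩]))
      (by rw [map_mul, map_inv, e, inv_mul_cancel])
    rw [map_mul, map_inv, MonoidHom.mem_ker.1 hgs, inv_one, one_mul, sign_refl hg u hu] at h1
    have h3 := congrArg Units.val h1
    rw [Units.val_neg, Units.val_one] at h3
    exact hg.two_ne (by linear_combination -h3)
  or_refl := fun g u hu => by
    rcases Simil.sign_sq hg g with e | e
    · exact Or.inl ⟨g, MonoidHom.mem_ker.2 e, rfl⟩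
    · exact Or.inr ⟨g * Simil.ofIso (listGL Q [⟨u, hu⟩]), MonoidHom.mem_ker.2 (by
        rw [map_mul, e, sign_refl hg u hu, neg_mul_neg, one_mul]), map_mul _ _ _⟩

theorem Frame.mult_lift (D : Frame Q Q₀ σ φ) (hg : Simil.Good Q) (hg₀ : Simil.Good Q₀) (x : Simil.Sim Q₀) :
    (Simil.mult hg (D.lift x) : F) = φ (Simil.mult hg₀ x : F₀) := by
  obtain ⟨u, hu⟩ := Simil.exists_value_one hg
  have h1 := Simil.mult_spec hg (D.lift x) u
  rw [D.coe_lift, D.mult_rat (Simil.mult_spec hg₀ x), hu, mul_one, mul_one] at h1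
  exact h1.symm

theorem Frame.sign_lift (D : Frame Q Q₀ σ φ) (hg : Simil.Good Q) (hg₀ : Simil.Good Q₀) (x : Simil.Sim Q₀) :
    (Simil.sign hg (D.lift x) : F) = φ (Simil.sign hg₀ x : F₀) := by
  rw [Simil.sign_val hg, Simil.sign_val hg₀, D.mult_lift hg hg₀, map_div₀, map_pow, D.card_eq]
  congr 1
  rw [← det_glEquiv, D.coe_lift]
  have h1 : ((glEquiv (D.conjS (Frame.ext φ (x : GL κ F₀))) : (ι → F) ≃ₗ[F] (ι → F)) : (ι → F) →ₗ[F] (ι → F)) =
      (D.S : (κ → F) →ₗ[F] (ι → F)) ∘ₗ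
        (glEquiv (Frame.ext φ (x : GL κ F₀)) : (κ → F) →ₗ[F] (κ → F)) ∘ₗ (D.S.symm : (ι → F) →ₗ[F] (κ → F)) := by
    refine LinearMap.ext fun v => ?_
    obtain ⟨v, rfl⟩ := D.S.surjective v
    simp [D.conjS_mulVec]
  rw [h1, LinearMap.det_conj, det_glEquiv]
  exact (φ.map_det _).symm

theorem Frame.map_odd (D : Frame Q Q₀ σ φ) (hg : Simil.Good Q) (hg₀ : Simil.Good Q₀) (hQ₀ : GH Q₀)
    (x : Simil.Sim Q₀) (hx : Simil.act Q₀ x ∈ (Simil.sign hg₀).ker.map (Simil.act Q₀)) :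
    D.T x ∈ (Simil.sign hg).ker.map (Simil.act Q) := by
  obtain ⟨y, hy, e⟩ := hx
  have h1 : Simil.sign hg₀ x = 1 := by
    have := sign_eq_one_of_act hQ₀ hg₀ (g := y⁻¹ * x) (by rw [map_mul, map_inv, e, inv_mul_cancel])
    rw [map_mul, map_inv, MonoidHom.mem_ker.1 hy, inv_one, one_mul] at this
    exact this
  refine ⟨D.lift x, MonoidHom.mem_ker.2 (Units.ext ?_), rfl⟩
  rw [D.sign_lift hg hg₀, h1, Units.val_one, map_one, Units.val_one]

/-! ### Characteristic two -/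

theorem isProper_two (hQ : GH Q) (h2 : (2 : F) = 0) : IsProper Q (Cfsg.Inn PΩ') where
  normal := innNormal _
  inn_le := le_rfl
  le_pgo := fun β hβ => by
    obtain ⟨w, -, rfl⟩ := (Simil.mem_inn_iff β).1 hβ
    exact ⟨_, rfl⟩
  refl_not := fun u hu h => isoOut_refl_ne_one hQ h2 hu ((QuotientGroup.eq_one_iff _).2 h)
  or_refl := fun g u hu => by
    rcases outKer_two hQ h2 hu ((mem_outKer hQ _).2 ⟨g, rfl⟩) with e | e
    · exact Or.inl ((out_eq_one _).1 e)
    · refine Or.inr ((out_eq_one _).1 ?_)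
      rw [out_mul, e]
      show isoOut _ * isoOut _ = 1
      exact (out_mul _ _).symm.trans ((congrArg out (inv_refl u hu)).trans ((out_eq_one _).2 (one_mem _)))

theorem Frame.map_two (D : Frame Q Q₀ σ φ) (hQ : GH Q) (hQ₀ : GH Q₀) (h2 : (2 : F) = 0) (x : Simil.Sim Q₀)
    (hx : Simil.act Q₀ x ∈ Cfsg.Inn (Cfsg.POmega F₀ ⇑Q₀)) : D.T x ∈ Cfsg.Inn PΩ' := by
  obtain ⟨w, hw, e⟩ := (Simil.mem_inn_iff _).1 hx
  have h1 : D.T x = D.T (Simil.ofIso w) := by
    have : x⁻¹ * Simil.ofIso w ∈ D.T.ker := by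
      rw [D.ker_T hQ hQ₀, MonoidHom.mem_ker, map_mul, map_inv, e, inv_mul_cancel]
    rw [MonoidHom.mem_ker, map_mul, map_inv, inv_mul_eq_one] at this
    exact this
  obtain ⟨l, rfl⟩ := exists_eq_listGL hQ₀.nondeg (hd hQ₀) w
  obtain ⟨l', hlen, -, hl⟩ := D.lift_list l
  rw [h1]
  refine (Simil.mem_inn_iff _).2 ⟨listGL Q l', ?_, congrArg (Simil.act Q) hl⟩
  rw [mem_Omega_iff_even_two hQ h2 (isoEquiv_listGL _), hlen]
  exact ((listGL_mem_Omega hQ₀.nondeg (hd hQ₀) l).1 hw).1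

end CfsgLib.AutPE
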