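import Cfsg.Agent.AutPE.GraphRigid
import Cfsg.Agent.AutPE.Proper
import Cfsg.Agent.AutPO.Simple
import Cfsg.Agent.LocalBalance.Small
import Cfsg.Agent.Forms.Sum
set_option autoImplicit false
set_option quotPrecheck false
set_option linter.unusedSectionVars false

/-!
Local balance for an involutory similarity automorphism, given rigidity of its centraliser.
-/

namespace CfsgLib.AutPE

open QuadraticMap hiding proj
open Matrix
open CfsgLib.Forms CfsgLib.AutPO

variable {F : Type*} [Field F] [Fintype F] {ι : Type} [Fintype ι] [DecidableEq ι] {Q : QuadraticForm F (ι → F)}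

local notation "V" => (ι → F)
local notation "O'" => (Cfsg.isometryGroup F ⇑Q)
local notation "PΩ'" => (Cfsg.POmega F ⇑Q)

variable (Q) in
/-- The isometries commuting with a matrix. -/
def centIso (A : Matrix ι ι F) : Subgroup (Cfsg.isometryGroup F ⇑Q) where
  carrier := {y | ∀ v, A *ᵥ ((y : GL ι F).1 *ᵥ v) = (y : GL ι F).1 *ᵥ (A *ᵥ v)}
  mul_mem' {x y} hx hy v := by
    simp only [Subgroup.coe_mul, Units.val_mul, ← mulVec_mulVec]
    rw [hx, hy]
  one_mem' v := by simp
  inv_mem' {x} hx v := by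
    simp only [Subgroup.coe_inv]
    conv_lhs => rw [← Simil.inv_mulVec_cancel (x : GL ι F) (A *ᵥ _)]
    rw [← hx, Simil.mulVec_inv_cancel]

theorem mem_centIso {A : Matrix ι ι F} {y : O'} :
    y ∈ centIso Q A ↔ ∀ v, A *ᵥ ((y : GL ι F).1 *ᵥ v) = (y : GL ι F).1 *ᵥ (A *ᵥ v) := Iff.rfl

variable (Q) in
/-- The elements of order dividing `r` among them. -/
def centGens (r : ℕ) (A : Matrix ι ι F) : Set (Cfsg.isometryGroup F ⇑Q) :=
  {y | y ^ r = 1 ∧ y ∈ centIso Q A}

/-- The images of elements of odd order lie in `Ω`. -/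
theorem mem_Omega_of_odd (h : GH Q) {r : ℕ} (hr : Odd r) {y : O'} (hy : y ^ r = 1) : y ∈ Cfsg.Omega F ⇑Q := by
  obtain ⟨j, rfl⟩ := hr
  have e : y = y ^ (j + 1) * y ^ (j + 1) := by
    rw [← pow_add, show j + 1 + (j + 1) = (2 * j + 1) + 1 by ring, pow_succ, hy, one_mul]
  rw [e]
  exact sq_mem_Omega h.nondeg (hd h) _

theorem core_two_eq_bot (h : GH Q) (h2 : (2 : F) ≠ 0) {r : ℕ} [Fact r.Prime] [CharP F r] (g : Simil.Sim Q)
    (hg2 : Simil.act Q g ^ 2 = 1) (A : Subgroup (MulAut PΩ')) (hinn : ∀ k : PΩ', MulAut.conj k ∈ A)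
    (hX : ∀ N : Subgroup (centIso Q (g : GL ι F).1), N.Normal → Odd (Nat.card N) → N = ⊥)
    (hS : ∀ (G : GL ι F) (τ : RingAut F) (k : F), IsSemi Q G τ k →
      (∀ y ∈ centGens Q r (g : GL ι F).1, ∀ v, semi G τ ((y : GL ι F).1 *ᵥ v) = (y : GL ι F).1 *ᵥ semi G τ v) →
      τ = 1 ∧ ∃ c : F, c ≠ 0 ∧ ((∀ v, G.1 *ᵥ v = c • v) ∨ ∀ v, G.1 *ᵥ v = c • (g : GL ι F).1 *ᵥ v)) :
    Cfsg.pPrimeCore 2 ↥(A ⊓ Subgroup.centralizer {Simil.act Q g}) = ⊥ := by
  haveI : Fact (Nat.Prime 2) := ⟨Nat.prime_two⟩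
  haveI : Finite (MulAut PΩ') := Finite.of_injective _ DFunLike.coe_injective
  have hr2 : r ≠ 2 := fun e => h2 (by subst e; exact CharTwo.two_eq_zero)
  have hrodd : Odd r := (Fact.out : r.Prime).odd_of_ne_two hr2
  set B := (g : GL ι F).1 with hB
  set X := Subgroup.closure (centGens Q r B) with hXdef
  have hXC : X ≤ centIso Q B := (Subgroup.closure_le _).2 fun y hy => hy.2
  have hXΩ : X ≤ Cfsg.Omega F ⇑Q := (Subgroup.closure_le _).2 fun y hy => mem_Omega_of_odd h hrodd hy.1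
  let φ : X →* MulAut PΩ' := ((Simil.act Q).comp Simil.ofIso).comp X.subtype
  have hφinn : ∀ y : X, φ y ∈ Cfsg.Inn PΩ' := fun y =>
    (Simil.mem_inn_iff _).2 ⟨(y : O'), hXΩ y.2, rfl⟩
  have hφc : ∀ y : X, φ y * Simil.act Q g = Simil.act Q g * φ y := fun y => by
    show Simil.act Q (Simil.ofIso (y : O')) * _ = _ * Simil.act Q (Simil.ofIso (y : O'))
    rw [← map_mul, ← map_mul]
    refine congrArg _ (Subtype.ext (Units.ext (Matrix.ext_iff_mulVec.2 fun v => ?_)))
    simp only [Subgroup.coe_mul, Units.val_mul, ← mulVec_mulVec]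
    exact (hXC y.2 v).symm
  -- conjugation by similarities commuting with `g` up to a scalar
  have hconjX : ∀ (c : Simil.Sim Q) (z : F), z ≠ 0 →
      (∀ v, B *ᵥ ((c : GL ι F).1 *ᵥ v) = z • (c : GL ι F).1 *ᵥ (B *ᵥ v)) →
      X ≤ X.comap (Simil.conjO c) := by
    intro c z hz hc
    refine (Subgroup.closure_le _).2 fun y hy => Subgroup.subset_closure ⟨by rw [← map_pow, hy.1, map_one], fun v => ?_⟩
    obtain ⟨w, rfl⟩ : ∃ w, (c : GL ι F).1 *ᵥ w = v := ⟨_, Simil.mulVec_inv_cancel (c : GL ι F) v⟩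
    show B *ᵥ (((c : GL ι F) * (y : GL ι F) * (c : GL ι F)⁻¹).1 *ᵥ _) =
      ((c : GL ι F) * (y : GL ι F) * (c : GL ι F)⁻¹).1 *ᵥ _
    rw [hc w]
    simp only [Units.val_mul, ← mulVec_mulVec, mulVec_smul, Simil.inv_mulVec_cancel]
    rw [hc, hy.2 w]
  refine CfsgLib.LocalBalance.core_eq_bot 2 A _ (Simil.act Q).range φ.range
    (by rw [← ker_tau h]; exact MonoidHom.normal_ker _) ?_ ?_ ?_ ?_ ?_
  · rintro _ ⟨y, rfl⟩
    exact ⟨_, rfl⟩
  · rintro _ ⟨y, rfl⟩
    obtain ⟨k, hk⟩ := hφinn y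
    exact ⟨hk ▸ hinn k, Subgroup.mem_centralizer_singleton_iff.2 (hφc y)⟩
  · intro n hn
    obtain ⟨G, τ, k, hs, rfl⟩ := classify h n
    obtain ⟨rfl, c, hc0, hc⟩ := hS G τ k hs fun y hy v => by
      have hyΩ : y ∈ Cfsg.Omega F ⇑Q := mem_Omega_of_odd h hrodd hy.1
      set w : Cfsg.Omega F ⇑Q := ⟨y, hyΩ⟩
      have e0 : φ ⟨y, Subgroup.subset_closure hy⟩ = MulAut.conj (proj w) := (Simil.conj_eq_act w).symm
      have e1 := hn _ ⟨⟨y, Subgroup.subset_closure hy⟩, rfl⟩
      rw [e0] at e1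
      have hcj : Function.Injective (MulAut.conj : PΩ' →* MulAut PΩ') := by
        rw [injective_iff_map_eq_one]
        intro x hx
        obtain ⟨s, rfl⟩ := proj_surjective x
        obtain ⟨c, -, hc⟩ := (act_eq_one h _).1 ((Simil.conj_eq_act s).symm.trans hx)
        exact (QuotientGroup.eq_one_iff _).2 (mem_center_of_scalar (c := c) fun v => by rw [lin_apply]; exact hc v)
      have e2 : stdAut hs (proj w) = proj w := by
        refine hcj ((mul_left_inj (stdAut hs)).1 ?_)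
        rw [← e1]
        exact MulEquiv.ext fun u => by simp
      rw [stdAut_proj] at e2
      have hw : w ^ r ^ 1 = 1 := by rw [pow_one]; exact Subtype.ext hy.1
      have e3 : semiΩ hs w = w := eq_of_proj_eq h (p := r) (i := 1) (j := 1) (by rw [← map_pow, hw, map_one]) hw e2
      have e4 := lin_semiΩ hs w v
      rw [e3, lin_apply, lin_apply] at e4
      exact e4.symm
    have hG : G ∈ Simil.Sim Q := mem_sim_of_semi rfl hs
    rw [← act_eq_stdAut hG hs]
    rcases hc with hc | hc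
    · rw [(act_eq_one h ⟨G, hG⟩).2 ⟨c, hc0, hc⟩, one_pow]
    · have : Simil.act Q ⟨G, hG⟩ = Simil.act Q g := by
        have h1 : Simil.act Q (g⁻¹ * ⟨G, hG⟩) = 1 := (act_eq_one h _).2 ⟨c, hc0, fun v => by
          rw [Subgroup.coe_mul, Units.val_mul, ← mulVec_mulVec, hc, mulVec_smul, Subgroup.coe_inv]
          exact congrArg (c • ·) (Simil.inv_mulVec_cancel (g : GL ι F) v)⟩
        rw [map_mul, map_inv, inv_mul_eq_one] at h1
        exact h1.symm
      rw [this, hg2]
  · rintro _ ⟨c, rfl⟩ hcg _ ⟨y, rfl⟩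
    have h1 : Simil.act Q ((c * g)⁻¹ * (g * c)) = 1 := by
      rw [map_mul, map_inv, map_mul, map_mul, hcg, inv_mul_cancel]
    obtain ⟨z, hz, hzv⟩ := (act_eq_one h _).1 h1
    have hc : ∀ v, B *ᵥ ((c : GL ι F).1 *ᵥ v) = z • (c : GL ι F).1 *ᵥ (B *ᵥ v) := fun v => by
      have h3 := congrArg (fun u => ((c * g : Simil.Sim Q) : GL ι F).1 *ᵥ u) (hzv v)
      simp only [mulVec_smul] at h3
      rw [mulVec_mulVec, ← Units.val_mul, ← Subgroup.coe_mul, mul_inv_cancel_left] at h3
      simp only [Subgroup.coe_mul, Units.val_mul, ← mulVec_mulVec] at h3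
      exact h3
    refine ⟨⟨Simil.conjO c (y : O'), hconjX c z hz hc y.2⟩, ?_⟩
    show Simil.act Q (Simil.ofIso (Simil.conjO c (y : O'))) =
      Simil.act Q c * Simil.act Q (Simil.ofIso (y : O')) * (Simil.act Q c)⁻¹
    rw [← map_inv, ← map_mul, ← map_mul]
    exact congrArg _ (Subtype.ext rfl)
  · intro M hM hMR hMp
    refine CfsgLib.LocalBalance.eq_bot_of_odd_image φ ?_ (fun N hN hNodd => ?_) M hM hMR
      (Nat.not_even_iff_odd.1 fun he => hMp (even_iff_two_dvd.1 he))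
    · have hpm : ∀ y : φ.ker, ((y : X) : O') = 1 ∨ ((y : X) : O') = Simil.negOne := by
        rintro ⟨y, hy⟩
        obtain ⟨c, hc0, hc⟩ := (act_eq_one h (Simil.ofIso (y : O'))).1 (MonoidHom.mem_ker.1 hy)
        obtain ⟨u, hu⟩ := exists_ne_zero h
        have h1 := mem_isometryGroup.1 (y : O').2 u
        rw [show ((y : O') : GL ι F).1 *ᵥ u = c • u from hc u, QuadraticMap.map_smul, smul_eq_mul] at h1
        rcases mul_self_eq_one_iff.1 (mul_right_cancel₀ hu (h1.trans (one_mul _).symm)) with rfl | rfl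
        · refine Or.inl (Subtype.ext (Units.ext (Matrix.ext_iff_mulVec.2 fun v => ?_)))
          rw [show ((y : O') : GL ι F).1 *ᵥ v = (1 : F) • v from hc v]; simp
        · refine Or.inr (Subtype.ext (Units.ext (Matrix.ext_iff_mulVec.2 fun v => ?_)))
          rw [show ((y : O') : GL ι F).1 *ᵥ v = (-1 : F) • v from hc v]
          simp [Simil.negOne, neg_mulVec]
      classical
      have hle : Nat.card φ.ker ≤ Nat.card Bool := by
        refine Nat.card_le_card_of_injective (fun y => decide (((y : X) : O') = 1)) fun y y' e => ?_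
        have e' : ((y : X) : O') = ((y' : X) : O') := by
          simp only [decide_eq_decide] at e
          rcases hpm y with h1 | h1
          · rw [h1, e.1 h1]
          · rcases hpm y' with h2' | h2'
            · rw [e.2 h2', h2']
            · rw [h1, h2']
        exact Subtype.ext (Subtype.ext e')
      rw [Nat.card_eq_fintype_card (α := Bool), Fintype.card_bool] at hle
      have hpos : 0 < Nat.card φ.ker := Nat.card_pos
      interval_cases Nat.card φ.ker <;> norm_num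
    · refine CfsgLib.LocalBalance.no_odd_normal_of_injective (Subgroup.inclusion hXC) (Subgroup.inclusion_injective hXC)
        ⟨?_⟩ hX N hN hNodd
      rintro _ ⟨y, rfl⟩ c
      exact ⟨⟨Simil.conjO (Simil.ofIso (c : O')) (y : O'), hconjX (Simil.ofIso (c : O')) 1 one_ne_zero
        (fun v => by rw [one_smul]; exact c.2 v) y.2⟩, Subtype.ext (Subtype.ext rfl)⟩

end CfsgLib.AutPE
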