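import Cfsg.Agent.AutPE.GraphBalance
import Cfsg.Agent.Forms.OddNormal
set_option autoImplicit false
set_option quotPrecheck false
set_option linter.unusedSectionVars false

/-!
Local balance for an automorphism induced by an involutory isometry with eigenspaces of odd dimension.
-/

namespace CfsgLib.AutPE

open QuadraticMap hiding proj
open Matrix
open CfsgLib.Forms CfsgLib.AutPO

variable {F : Type*} [Field F] [Fintype F] {ι : Type} [Fintype ι] [DecidableEq ι] {Q : QuadraticForm F (ι → F)}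

local notation "V" => (ι → F)
local notation "O'" => (Cfsg.isometryGroup F ⇑Q)
local notation "bq" => QuadraticMap.polar (⇑Q)

/-- The fixed space of an isometry. -/
def fixSp (jj : O') : Submodule F V := LinearMap.ker (Matrix.toLin' (jj : GL ι F).1 - LinearMap.id)

theorem mem_fixSp {jj : O'} {v : V} : v ∈ fixSp jj ↔ (jj : GL ι F).1 *ᵥ v = v := by
  simp [fixSp, sub_eq_zero]

theorem negJ_mulVec (jj : O') (v : V) :
    ((Simil.negOne * jj : O') : GL ι F).1 *ᵥ v = -((jj : GL ι F).1 *ᵥ v) := by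
  simp [Simil.negOne, neg_mulVec]

theorem mem_fixNeg {jj : O'} {v : V} : v ∈ fixSp (Simil.negOne * jj) ↔ (jj : GL ι F).1 *ᵥ v = -v := by
  rw [mem_fixSp, negJ_mulVec, neg_eq_iff_eq_neg]

theorem negNeg (jj : O') : Simil.negOne * (Simil.negOne * jj) = jj := by
  refine Subtype.ext (Units.ext (Matrix.ext_iff_mulVec.2 fun v => ?_))
  rw [negJ_mulVec, negJ_mulVec, neg_neg]

theorem negJ_inv {jj : O'} (hJ : ∀ v, (jj : GL ι F).1 *ᵥ ((jj : GL ι F).1 *ᵥ v) = v) (v : V) :
    ((Simil.negOne * jj : O') : GL ι F).1 *ᵥ (((Simil.negOne * jj : O') : GL ι F).1 *ᵥ v) = v := by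
  rw [negJ_mulVec, negJ_mulVec, mulVec_neg, hJ, neg_neg]

theorem fix_orth (h2 : (2 : F) ≠ 0) {jj : O'} {u w : V} (hu : (jj : GL ι F).1 *ᵥ u = u) (hw : (jj : GL ι F).1 *ᵥ w = -w) : bq u w = 0 := by
  have h1 : bq ((jj : GL ι F).1 *ᵥ u) ((jj : GL ι F).1 *ᵥ w) = bq u w := by
    simp only [QuadraticMap.polar, ← mulVec_add, mem_isometryGroup.1 jj.2]
  rw [hu, hw, polar_neg_right] at h1
  exact (mul_eq_zero.1 (show (2 : F) * bq u w = 0 by linear_combination -h1)).resolve_left h2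

theorem split_vec (h2 : (2 : F) ≠ 0) {jj : O'} (hJ : ∀ v, (jj : GL ι F).1 *ᵥ ((jj : GL ι F).1 *ᵥ v) = v) (w : V) :
    (jj : GL ι F).1 *ᵥ ((2 : F)⁻¹ • (w + (jj : GL ι F).1 *ᵥ w)) = (2 : F)⁻¹ • (w + (jj : GL ι F).1 *ᵥ w) ∧
      (jj : GL ι F).1 *ᵥ ((2 : F)⁻¹ • (w - (jj : GL ι F).1 *ᵥ w)) = -((2 : F)⁻¹ • (w - (jj : GL ι F).1 *ᵥ w)) ∧
      (2 : F)⁻¹ • (w + (jj : GL ι F).1 *ᵥ w) + (2 : F)⁻¹ • (w - (jj : GL ι F).1 *ᵥ w) = w := by
  refine ⟨by rw [mulVec_smul, mulVec_add, hJ, add_comm], by rw [mulVec_smul, mulVec_sub, hJ, ← smul_neg, neg_sub],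
    by rw [← smul_add, add_add_sub_cancel, ← two_smul F w, inv_smul_smul₀ h2]⟩

section Inv

variable (hn : (polarBilin Q).Nondegenerate) (h2 : (2 : F) ≠ 0) {jj : Cfsg.isometryGroup F ⇑Q}
  (hJ : ∀ v, (jj : GL ι F).1 *ᵥ ((jj : GL ι F).1 *ᵥ v) = v)
include hn h2 hJ

theorem perp_fixNeg : perp Q (fixSp (Simil.negOne * jj)) = fixSp jj := by
  ext v
  rw [mem_perp, mem_fixSp]
  constructor
  · intro hv
    obtain ⟨h1, h1', hsum⟩ := split_vec h2 hJ v
    set p := (2 : F)⁻¹ • (v + (jj : GL ι F).1 *ᵥ v)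
    set q := (2 : F)⁻¹ • (v - (jj : GL ι F).1 *ᵥ v)
    have hq : q = 0 := polar_ext hn fun w => by
      obtain ⟨hw1, hw1', hwsum⟩ := split_vec h2 hJ w
      rw [← hwsum, polar_add_right, polar_comm (⇑Q) q ((2 : F)⁻¹ • (w + _)), fix_orth h2 hw1 h1', zero_add]
      have h3 := hv _ (mem_fixNeg.2 hw1')
      rw [← hsum, polar_add_left, fix_orth h2 h1 hw1', zero_add] at h3
      exact h3
    rw [← hsum, mulVec_add, h1, hq, mulVec_zero]
  · exact fun hv w hw => fix_orth h2 hv (mem_fixNeg.1 hw)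

theorem disjoint_fixNeg : Disjoint (fixSp (Simil.negOne (Q := Q) * jj)) (perp Q (fixSp (Simil.negOne (Q := Q) * jj))) := by
  rw [perp_fixNeg hn h2 hJ]
  refine Submodule.disjoint_def.2 fun v hv hv' => ?_
  have h1 := mem_fixNeg.1 hv
  rw [mem_fixSp.1 hv'] at h1
  exact (smul_eq_zero.1 (show (2 : F) • v = 0 by rw [two_smul]; nth_rewrite 1 [h1]; exact neg_add_cancel v)).resolve_left h2

theorem finrank_fix_add :
    Module.finrank F (fixSp jj) + Module.finrank F (fixSp (Simil.negOne * jj)) = Fintype.card ι := by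
  have h1 := finrank_perp hn (fixSp (Simil.negOne * jj))
  rw [perp_fixNeg hn h2 hJ, Module.finrank_fintype_fun_eq_card] at h1
  have := Submodule.finrank_le (fixSp (Simil.negOne * jj))
  rw [Module.finrank_fintype_fun_eq_card] at this
  omega

theorem exists_aniso_fix (hE : fixSp jj ≠ ⊥) : ∃ u ∈ fixSp jj, Q u ≠ 0 := by
  by_contra hno
  push Not at hno
  refine hE ((Submodule.eq_bot_iff _).2 fun v hv => polar_ext hn fun w => ?_)
  obtain ⟨hw1, hw1', hwsum⟩ := split_vec h2 hJ w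
  rw [← hwsum, polar_add_right, fix_orth h2 (mem_fixSp.1 hv) hw1', add_zero, QuadraticMap.polar,
    hno _ (add_mem hv (mem_fixSp.2 hw1)), hno _ hv, hno _ (mem_fixSp.2 hw1)]
  ring

set_option maxHeartbeats 1000000 in
/-- Elements of a normal subgroup of odd order of the centraliser fix the fixed space. -/
theorem odd_normal_fix (hE : Module.finrank F (fixSp jj) = 1 ∨ 3 ≤ Module.finrank F (fixSp jj))
    (N : Subgroup (centIso Q (jj : GL ι F).1)) (hN : N.Normal) (hodd : Odd (Nat.card N))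
    {y : centIso Q (jj : GL ι F).1} (hy : y ∈ N) {u : V} (hu : (jj : GL ι F).1 *ᵥ u = u) :
    ((y : O') : GL ι F).1 *ᵥ u = u := by
  set E := fixSp jj with hEdef
  have hmemE : ∀ (y : centIso Q (jj : GL ι F).1), ∀ v ∈ E, ((y : O') : GL ι F).1 *ᵥ v ∈ E := fun y v hv =>
    mem_fixSp.2 (by rw [y.2 v, mem_fixSp.1 hv])
  rcases hE with hE | hE
  · obtain ⟨e, heE, he⟩ := exists_aniso_fix hn h2 hJ (jj := jj) (fun e => by
      rw [hEdef, e, finrank_bot] at hE; exact absurd hE (by norm_num))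
    have he0 : e ≠ 0 := fun e' => he (by rw [e', QuadraticMap.map_zero])
    have hspan : Submodule.span F {e} = E := Submodule.eq_of_le_of_finrank_eq
      ((Submodule.span_singleton_le_iff_mem _ _).2 heE) (by rw [finrank_span_singleton he0, hE])
    obtain ⟨c, hc⟩ := Submodule.mem_span_singleton.1 (hspan ▸ hmemE y e heE)
    have hsq := mem_isometryGroup.1 (y : O').2 e
    rw [← hc, QuadraticMap.map_smul, smul_eq_mul] at hsq
    have hcc : c * c = 1 := mul_right_cancel₀ he (hsq.trans (one_mul _).symm)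
    have hpow : ∀ k : ℕ, (((y ^ k : centIso Q (jj : GL ι F).1) : O') : GL ι F).1 *ᵥ e = c ^ k • e := by
      intro k
      induction k with
      | zero => simp
      | succ k ih =>
        rw [pow_succ, Subgroup.coe_mul, Subgroup.coe_mul, Units.val_mul, ← mulVec_mulVec, ← hc, mulVec_smul, ih,
          smul_smul, pow_succ']
    have hc1 : c = 1 := by
      obtain ⟨j, hj⟩ := Odd.of_dvd_nat hodd (Subgroup.orderOf_dvd_natCard N hy)
      have h1 := hpow (orderOf y)
      rw [pow_orderOf_eq_one, hj, pow_succ, pow_mul, pow_two, hcc, one_pow, one_mul] at h1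
      have h3 : (c - 1) • e = 0 := by rw [sub_smul, one_smul, ← h1]; simp
      exact sub_eq_zero.1 ((smul_eq_zero.1 h3).resolve_right he0)
    have hu' : u ∈ Submodule.span F {e} := by rw [hspan]; exact mem_fixSp.2 hu
    obtain ⟨s, rfl⟩ := Submodule.mem_span_singleton.1 hu'
    rw [mulVec_smul, ← hc, hc1, one_smul]
  -- restriction to the fixed space
  let q := Q.comp E.subtype
  have hdisj : Disjoint E (perp Q E) := by
    have h1 := disjoint_fixNeg hn h2 (negJ_inv hJ)
    rw [negNeg] at h1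
    exact h1
  have hqn : (polarBilin q).Nondegenerate := nondegenerate_comp_subtype hdisj
  let ρ : centIso Q (jj : GL ι F).1 →* isom q :=
    MonoidHom.mk' (fun y => ⟨{ (Matrix.toLin' ((y : O') : GL ι F).1).restrict fun v hv => hmemE y v hv with
      invFun := fun v => ⟨((y⁻¹ : centIso Q (jj : GL ι F).1) : GL ι F).1 *ᵥ v.1, hmemE y⁻¹ v.1 v.2⟩
      left_inv := fun v => Subtype.ext (Simil.inv_mulVec_cancel ((y : O') : GL ι F) v.1)
      right_inv := fun v => Subtype.ext (Simil.mulVec_inv_cancel ((y : O') : GL ι F) v.1) },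
      fun v => mem_isometryGroup.1 (y : O').2 v.1⟩) fun y z => Subtype.ext (LinearEquiv.ext fun v => Subtype.ext
        (mulVec_mulVec v.1 ((y : O') : GL ι F).1 ((z : O') : GL ι F).1).symm)
  have hρ : Function.Surjective ρ := by
    intro g
    let P : V →ₗ[F] E := LinearMap.codRestrict E ((2 : F)⁻¹ • (LinearMap.id + Matrix.toLin' (jj : GL ι F).1))
      fun v => by
        rw [LinearMap.smul_apply, LinearMap.add_apply, LinearMap.id_apply, Matrix.toLin'_apply]
        exact mem_fixSp.2 (split_vec h2 hJ v).1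
    have hP : ∀ v : V, (P v : V) = (2 : F)⁻¹ • (v + (jj : GL ι F).1 *ᵥ v) := fun v => by simp [P]
    let L : (E ≃ₗ[F] E) → V →ₗ[F] V := fun g => E.subtype ∘ₗ (g : E →ₗ[F] E) ∘ₗ P + (LinearMap.id - E.subtype ∘ₗ P)
    have hLa : ∀ g v, L g v = (g (P v) : V) + (v - (P v : V)) := fun g v => rfl
    have hneg : ∀ v : V, (jj : GL ι F).1 *ᵥ (v - (P v : V)) = -(v - (P v : V)) := fun v => by
      obtain ⟨-, h1, hsum⟩ := split_vec h2 hJ v
      have e : v - (P v : V) = (2 : F)⁻¹ • (v - (jj : GL ι F).1 *ᵥ v) := by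
        rw [hP, eq_comm, eq_sub_iff_add_eq, add_comm]; exact hsum
      rw [e, h1]
    have hJL : ∀ g v, (jj : GL ι F).1 *ᵥ L g v = (g (P v) : V) - (v - (P v : V)) := fun g v => by
      rw [hLa, mulVec_add, mem_fixSp.1 (g (P v)).2, hneg, ← sub_eq_add_neg]
    have hPL : ∀ g v, P (L g v) = g (P v) := fun g v => Subtype.ext (by
      rw [hP, hJL, hLa, add_add_sub_cancel, ← two_smul F (g (P v) : V), inv_smul_smul₀ h2])
    have hLL : ∀ g g' : E ≃ₗ[F] E, (∀ w, g (g' w) = w) → ∀ v, L g (L g' v) = v := fun g g' hgg v => by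
      rw [hLa g, hPL, hgg, hLa g', add_sub_cancel_left, add_sub_cancel]
    let e : V ≃ₗ[F] V := { L g.1 with
      invFun := L g.1.symm
      left_inv := hLL _ _ g.1.symm_apply_apply
      right_inv := hLL _ _ g.1.apply_symm_apply }
    have he : ∀ v, (glEquiv.symm e : GL ι F).1 *ᵥ v = L g.1 v := fun v => by
      rw [← glEquiv_apply, MulEquiv.apply_symm_apply]; rfl
    have hQe : ∀ v, Q ((glEquiv.symm e : GL ι F).1 *ᵥ v) = Q v := fun v => by
      rw [he, hLa, QuadraticMap.map_add (⇑Q), fix_orth h2 (mem_fixSp.1 (g.1 (P v)).2) (hneg v),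
        show Q (g.1 (P v) : V) = Q (P v : V) from g.2 (P v)]
      conv_rhs => rw [show v = (P v : V) + (v - (P v : V)) by abel, QuadraticMap.map_add (⇑Q),
        fix_orth h2 (mem_fixSp.1 (P v).2) (hneg v)]
    refine ⟨⟨⟨glEquiv.symm e, mem_isometryGroup.2 hQe⟩, fun v => ?_⟩, Subtype.ext (LinearEquiv.ext fun v => Subtype.ext ?_)⟩
    · show (jj : GL ι F).1 *ᵥ ((glEquiv.symm e : GL ι F).1 *ᵥ v) = (glEquiv.symm e : GL ι F).1 *ᵥ _
      rw [he, he, hJL, hLa]
      have hPJ : P ((jj : GL ι F).1 *ᵥ v) = P v := Subtype.ext (by rw [hP, hP, hJ, add_comm])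
      rw [hPJ]
      have h5 := hneg v
      rw [mulVec_sub, mem_fixSp.1 (P v).2] at h5
      rw [h5, sub_eq_add_neg]
    · show (glEquiv.symm e : GL ι F).1 *ᵥ v.1 = (g.1 v : V)
      have hPv : P v.1 = v := Subtype.ext (by
        rw [hP, mem_fixSp.1 v.2, ← two_smul F v.1, inv_smul_smul₀ h2])
      rw [he, hLa, hPv, sub_self, add_zero]
  haveI : Finite (E ≃ₗ[F] E) := Finite.of_injective _ DFunLike.coe_injective
  haveI := hN.map ρ hρ
  have hbot := odd_normal_isom_eq_bot hqn h2 hE ((N.map ρ).map (isom q).subtype) (Subgroup.map_subtype_le _)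
    (fun g hg m hm => by
      obtain ⟨m, hm', rfl⟩ := hm
      exact ⟨⟨g, hg⟩ * m * ⟨g, hg⟩⁻¹, (hN.map ρ hρ).conj_mem m hm' _, rfl⟩) (by
    rw [Subgroup.card_map_of_injective (isom q).subtype_injective]
    exact Odd.of_dvd_nat hodd (Subgroup.card_map_dvd _ _))
  have h1 : (ρ y).1 ∈ (N.map ρ).map (isom q).subtype := ⟨ρ y, ⟨y, hy, rfl⟩, rfl⟩
  rw [hbot, Subgroup.mem_bot] at h1
  exact congrArg Subtype.val (LinearEquiv.congr_fun h1 ⟨u, mem_fixSp.2 hu⟩)

/-- A semisimilarity commuting with the small elements of the centraliser is scalar on a fixed space of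
dimension at least three. -/
theorem scalar_fix (h : GH Q) (hE : 3 ≤ Module.finrank F (fixSp jj)) {r : ℕ} [Fact r.Prime] [CharP F r]
    {G : GL ι F} {τ : RingAut F}
    (hn' : ∀ y ∈ centGens Q r (jj : GL ι F).1, ∀ v, semi G τ ((y : GL ι F).1 *ᵥ v) = (y : GL ι F).1 *ᵥ semi G τ v) :
    ∃ z : F, ∀ u ∈ fixSp jj, semi G τ u = z • u := by
  set W := fixSp (Simil.negOne * jj)
  have hsum := finrank_fix_add hn h2 hJ
  have hW := disjoint_fixNeg hn h2 hJ
  have hperp := perp_fixNeg hn h2 hJ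
  obtain ⟨d, f, hd, hf, hd0, hf0, hdf⟩ := exists_pair_perp hn hW (by omega)
  have hK := disjoint_sup_pair hW hd hf hd0 hf0 hdf
  set K' := W ⊔ Submodule.span F {d, f}
  have hWdef : Module.finrank F W = Module.finrank F (fixSp (Simil.negOne * jj)) := rfl
  obtain ⟨a₀, ha₀, hQa₀⟩ : ∃ a ∈ perp Q K', Q a ≠ 0 := by
    by_contra hno
    push Not at hno
    have htop : K' ⊔ perp Q K' = ⊤ := by
      refine Submodule.eq_top_of_disjoint _ _ ?_ hK
      rw [finrank_perp hn]
      have := Submodule.finrank_le K'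
      omega
    have hbot : perp Q K' = ⊥ := (Submodule.eq_bot_iff _).2 fun v hv => polar_ext hn fun w => by
      obtain ⟨k, hk, p, hp, rfl⟩ := Submodule.mem_sup.1 (htop.symm ▸ Submodule.mem_top (x := w))
      rw [polar_add_right, mem_perp.1 hv k hk, zero_add, QuadraticMap.polar, hno _ (add_mem hv hp), hno _ hv, hno _ hp]
      ring
    have h1 := finrank_perp hn K'
    rw [hbot, finrank_bot, Module.finrank_fintype_fun_eq_card] at h1
    have : Module.finrank F K' ≤ Module.finrank F W + 2 := by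
      refine (Submodule.finrank_add_le_finrank_add_finrank _ _).trans ?_
      have := finrank_span_pair_le (F := F) d f
      omega
    omega
  rw [hperp] at hd hf
  have hEW : ∀ v, v ∈ perp Q K' → v ∈ fixSp jj := fun v hv => by
    rw [← hperp]
    exact mem_perp.2 fun w hw => mem_perp.1 hv w (Submodule.mem_sup_left hw)
  refine scalar_of_siegel h2 (fixSp jj) hd0 hf0 hdf hd hf (hEW _ ha₀)
    (mem_perp.1 ha₀ d (Submodule.mem_sup_right (Submodule.subset_span (by simp))))
    (mem_perp.1 ha₀ f (Submodule.mem_sup_right (Submodule.subset_span (by simp)))) hQa₀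
    (AddMonoidHom.mk' (semi G τ) (semi_add G τ)) fun e a he hae heU haU v => ?_
  have hy : ((sie Q e a : Cfsg.Omega F ⇑Q) : O') ∈ centGens Q r (jj : GL ι F).1 := by
    refine ⟨congrArg Subtype.val (sie_pow_char (p := r) h he hae), fun w => ?_⟩
    show (jj : GL ι F).1 *ᵥ (((sie Q e a : Cfsg.Omega F ⇑Q) : O') : GL ι F).1 *ᵥ w =
      (((sie Q e a : Cfsg.Omega F ⇑Q) : O') : GL ι F).1 *ᵥ _
    rw [← lin_apply, ← lin_apply, sie_apply h he hae, sie_apply h he hae, mulVec_sub, mulVec_add, mulVec_smul,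
      mulVec_smul, mem_fixSp.1 heU, mem_fixSp.1 haU]
    have hp : ∀ t, (jj : GL ι F).1 *ᵥ t = t → bq ((jj : GL ι F).1 *ᵥ w) t = bq w t := fun t ht => by
      conv_lhs => rw [← ht]
      simp only [QuadraticMap.polar, ← mulVec_add, mem_isometryGroup.1 jj.2]
    rw [hp e (mem_fixSp.1 heU), hp a (mem_fixSp.1 haU)]
  have h1 := hn' _ hy v
  rw [← lin_apply, ← lin_apply, sie_apply h he hae, sie_apply h he hae, ← siegel_apply he hae,
    ← siegel_apply he hae] at h1
  exact h1

end Inv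

/-- Local balance for an involutory isometry with an eigenspace of dimension at least three. -/
theorem core_two_iso (h : GH Q) (h2 : (2 : F) ≠ 0) {r : ℕ} [Fact r.Prime] [CharP F r] {jj : O'}
    (hJ : ∀ v, (jj : GL ι F).1 *ᵥ ((jj : GL ι F).1 *ᵥ v) = v) (hE : 3 ≤ Module.finrank F (fixSp jj))
    (hW : Module.finrank F (fixSp (Simil.negOne * jj)) = 1 ∨ 3 ≤ Module.finrank F (fixSp (Simil.negOne * jj)))
    (A : Subgroup (MulAut (Cfsg.POmega F ⇑Q))) (hinn : ∀ k : Cfsg.POmega F ⇑Q, MulAut.conj k ∈ A) :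
    Cfsg.pPrimeCore 2 ↥(A ⊓ Subgroup.centralizer {Simil.act Q (Simil.ofIso jj)}) = ⊥ := by
  have hn := h.nondeg
  have hB : ((Simil.ofIso jj : Simil.Sim Q) : GL ι F) = (jj : GL ι F) := rfl
  refine core_two_eq_bot (r := r) h h2 (Simil.ofIso jj) ?_ A hinn ?_ ?_
  · rw [pow_two, ← map_mul, ← map_mul]
    refine (act_eq_one h _).2 ⟨1, one_ne_zero, fun v => ?_⟩
    rw [one_smul]
    show ((jj : GL ι F) * (jj : GL ι F)).1 *ᵥ v = v
    rw [Units.val_mul, ← mulVec_mulVec, hJ]
  · intro N hN hodd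
    rw [Subgroup.eq_bot_iff_forall]
    intro y hy
    refine Subtype.ext (Subtype.ext (Units.ext (Matrix.ext_iff_mulVec.2 fun v => ?_)))
    obtain ⟨h1, h1', hsum⟩ := split_vec h2 hJ v
    have hcent : centIso Q ((Simil.negOne * jj : O') : GL ι F).1 = centIso Q (jj : GL ι F).1 := by
      ext x
      simp only [mem_centIso, negJ_mulVec, mulVec_neg, neg_inj]
    have hfix : ((y : O') : GL ι F).1 *ᵥ ((2 : F)⁻¹ • (v - (jj : GL ι F).1 *ᵥ v)) =
        (2 : F)⁻¹ • (v - (jj : GL ι F).1 *ᵥ v) := by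
      let ε := MulEquiv.subgroupCongr hcent.symm
      refine odd_normal_fix hn h2 (negJ_inv hJ) hW (N.map ε.toMonoidHom) (hN.map _ ε.surjective)
        (Odd.of_dvd_nat hodd (Subgroup.card_map_dvd _ _)) (y := ε y) ⟨y, hy, rfl⟩ ?_
      rw [negJ_mulVec, h1', neg_neg]
    conv_lhs => rw [← hsum, mulVec_add]
    show ((y : O') : GL ι F).1 *ᵥ _ + ((y : O') : GL ι F).1 *ᵥ _ = _
    rw [odd_normal_fix hn h2 hJ (Or.inr hE) N hN hodd hy h1, hfix, hsum]
    exact (one_mulVec v).symm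
  · intro G τ k hs hG
    set S := semi G τ with hSdef
    obtain ⟨z, hz⟩ := scalar_fix hn h2 hJ h hE hG
    obtain ⟨u, huE, hu⟩ := exists_aniso_fix hn h2 hJ (fun e => by rw [e, finrank_bot] at hE; omega)
    have hu0 : u ≠ 0 := fun e => hu (by rw [e, QuadraticMap.map_zero])
    have hz0 : z ≠ 0 := fun e => semi_ne_zero G τ hu0 (by rw [hz u huE, e, zero_smul])
    have hτ : τ = 1 := RingEquiv.ext fun t => by
      have h1 := hz (t • u) (Submodule.smul_mem _ t huE)
      rw [semi_smul, hz u huE, smul_comm] at h1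
      exact smul_left_injective F hu0 (smul_right_injective _ hz0 h1)
    subst hτ
    refine ⟨rfl, z, hz0, ?_⟩
    set W := fixSp (Simil.negOne * jj)
    obtain ⟨z', hz'⟩ : ∃ z' : F, ∀ w ∈ W, semi G (1 : RingAut F) w = z' • w := by
      rcases hW with hW1 | hW3
      · obtain ⟨w₀, hw₀, hQw₀⟩ := exists_aniso_fix hn h2 (negJ_inv hJ) (fun e => by
          rw [show W = ⊥ from e, finrank_bot] at hW1; exact absurd hW1 (by norm_num))
        have hw₀0 : w₀ ≠ 0 := fun e => hQw₀ (by rw [e, QuadraticMap.map_zero])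
        have hspan : Submodule.span F {w₀} = W := Submodule.eq_of_le_of_finrank_eq
          ((Submodule.span_singleton_le_iff_mem _ _).2 hw₀) (by rw [finrank_span_singleton hw₀0, hW1])
        have hSw : semi G (1 : RingAut F) w₀ ∈ W := by
          have hp := perp_fixNeg hn h2 (negJ_inv hJ)
          rw [negNeg] at hp
          rw [show W = perp Q (fixSp jj) from hp.symm]
          refine mem_perp.2 fun e he => ?_
          have h3 := hs.polar w₀ e
          rw [hz e he, polar_smul_right, polar_comm (⇑Q) w₀ e,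
            fix_orth h2 (mem_fixSp.1 he) (mem_fixNeg.1 hw₀), map_zero, mul_zero, smul_eq_mul] at h3
          exact (mul_eq_zero.1 h3).resolve_left hz0
        obtain ⟨c, hc⟩ := Submodule.mem_span_singleton.1 (hspan ▸ hSw)
        refine ⟨c, fun w hw => ?_⟩
        obtain ⟨s, rfl⟩ := Submodule.mem_span_singleton.1 (hspan ▸ hw)
        rw [semi_smul, ← hc, smul_comm]; rfl
      · refine scalar_fix hn h2 (negJ_inv hJ) h hW3 (r := r) fun y hy v => hG y ⟨hy.1, fun v => ?_⟩ v
        have h3 := hy.2 v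
        rw [negJ_mulVec, negJ_mulVec, mulVec_neg, neg_inj] at h3
        exact h3
    obtain ⟨w, hwW, hw⟩ := exists_aniso_fix hn h2 (negJ_inv hJ) (fun e => by
      rw [show W = ⊥ from e, finrank_bot] at hW; omega)
    have e1 := hs.2 u
    have e2 := hs.2 w
    rw [hz u huE, QuadraticMap.map_smul, smul_eq_mul] at e1
    rw [hz' w hwW, QuadraticMap.map_smul, smul_eq_mul] at e2
    have k1 : z * z = k := mul_right_cancel₀ hu e1
    have k2 : z' * z' = k := mul_right_cancel₀ hw e2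
    have key : ∀ v, G.1 *ᵥ v = z • (2 : F)⁻¹ • (v + (jj : GL ι F).1 *ᵥ v) + z' • (2 : F)⁻¹ • (v - (jj : GL ι F).1 *ᵥ v) := by
      intro v
      obtain ⟨h1, h1', hsum⟩ := split_vec h2 hJ v
      conv_lhs => rw [← hsum, mulVec_add]
      rw [← hz _ (mem_fixSp.2 h1), ← hz' _ (mem_fixNeg.2 h1')]
      rfl
    rcases mul_self_eq_mul_self_iff.1 (k2.trans k1.symm) with e | e
    · refine Or.inl fun v => ?_
      rw [key, e, ← smul_add, (split_vec h2 hJ v).2.2]
    · refine Or.inr fun v => ?_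
      rw [key, e, hB, neg_smul, ← smul_neg, ← smul_neg, neg_sub, ← smul_add, ← smul_add,
        show ∀ x y : ι → F, x + y + (y - x) = (2 : F) • y from fun x y => by rw [two_smul]; abel, inv_smul_smul₀ h2]

end CfsgLib.AutPE
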