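import Cfsg.Agent.AutPE.GraphBalance
import Cfsg.Agent.Forms.OddNormal
import Mathlib.RingTheory.AdjoinRoot
set_option autoImplicit false
set_option quotPrecheck false
set_option linter.unusedSectionVars false

/-!
Local balance for an involution induced by a similarity whose square is a nonsquare scalar: the centraliser
is an orthogonal group over the quadratic extension.
-/

namespace CfsgLib.AutPE

open QuadraticMap hiding proj
open Matrix
open CfsgLib.Forms CfsgLib.AutPO

variable {F : Type*} [Field F] [Fintype F] {ι : Type} [Fintype ι] [DecidableEq ι] {Q : QuadraticForm F (ι → F)}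

local notation "V" => (ι → F)
local notation "bq" => QuadraticMap.polar (⇑Q)

theorem siegel_pow_apply {K W : Type*} [Field K] [AddCommGroup W] [Module K W] {q : QuadraticForm K W} {d a : W}
    (hd : q d = 0) (had : polar q a d = 0) (k : ℕ) (v : W) :
    (siegel q d a hd had ^ k) v = siegelL q d ((k : K) • a) v := by
  induction k with
  | zero =>
    rw [pow_zero, Nat.cast_zero, zero_smul, siegelL_zero]
    rfl
  | succ k ih =>
    rw [pow_succ', LinearEquiv.mul_apply, ih]
    show siegelL q d a (siegelL q d _ v) = _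
    rw [siegelL_comp hd had (by rw [polar_smul_left, had, smul_zero])]
    congr 1
    rw [Nat.cast_succ, add_smul, one_smul, add_comm]

set_option maxHeartbeats 1000000 in
theorem core_two_nonsquare (h : GH Q) (h2 : (2 : F) ≠ 0) {r : ℕ} [Fact r.Prime] [CharP F r] (g : Simil.Sim Q)
    {l : F} (hl : ¬ IsSquare l) (hsq : ∀ v, (g : GL ι F).1 *ᵥ ((g : GL ι F).1 *ᵥ v) = l • v)
    (hmult : ∀ v, Q ((g : GL ι F).1 *ᵥ v) = l * Q v)
    (A : Subgroup (MulAut (Cfsg.POmega F ⇑Q))) (hinn : ∀ k : Cfsg.POmega F ⇑Q, MulAut.conj k ∈ A) :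
    Cfsg.pPrimeCore 2 ↥(A ⊓ Subgroup.centralizer {Simil.act Q g}) = ⊥ := by
  classical
  set B := (g : GL ι F).1 with hBdef
  have hl0 : l ≠ 0 := fun e => hl (e ▸ IsSquare.zero)
  have hBB : ∀ u v, bq (B *ᵥ u) (B *ᵥ v) = l * bq u v := fun u v => by
    simp only [QuadraticMap.polar, ← mulVec_add, hmult]; ring
  have hself : ∀ u v, bq (B *ᵥ u) v = bq u (B *ᵥ v) := fun u v => by
    refine mul_left_cancel₀ hl0 ?_
    have h1 := hBB u (B *ᵥ v)
    rw [hsq, polar_smul_right, smul_eq_mul] at h1
    exact h1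
  let P : Polynomial F := Polynomial.X ^ 2 - Polynomial.C l
  have hdeg : P.natDegree = 2 := Polynomial.natDegree_X_pow_sub_C
  have hirr : Irreducible P := (Polynomial.irreducible_iff_roots_eq_zero_of_degree_le_three (by omega) (by omega)).2
    (Multiset.eq_zero_of_forall_notMem fun x hx => hl ⟨x, by
      have h1 := Polynomial.isRoot_of_mem_roots hx
      simp only [P, Polynomial.IsRoot.def, Polynomial.eval_sub, Polynomial.eval_pow, Polynomial.eval_X, Polynomial.eval_C] at h1
      linear_combination -h1⟩)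
  haveI : Fact (Irreducible P) := ⟨hirr⟩
  let K := AdjoinRoot P
  let ω : K := AdjoinRoot.root P
  let ι₀ : F →+* K := AdjoinRoot.of P
  haveI : Module.Finite F K := (AdjoinRoot.powerBasis hirr.ne_zero).finite
  haveI : Finite K := Module.finite_of_finite F
  have hdimK : Module.finrank F K = 2 := by
    rw [(AdjoinRoot.powerBasis hirr.ne_zero).finrank, AdjoinRoot.powerBasis_dim, hdeg]
  have hω : ω * ω = ι₀ l := by
    have h1 := AdjoinRoot.eval₂_root P
    simp only [P, Polynomial.eval₂_sub, Polynomial.eval₂_X_pow, Polynomial.eval₂_C, sub_eq_zero, pow_two, Polynomial.eval₂_mul, Polynomial.eval₂_X] at h1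
    exact h1
  have hind : ∀ p : K → Prop, (∀ t, p (ι₀ t)) → (∀ x y, p x → p y → p (x + y)) → (∀ x, p x → p (ω * x)) →
      ∀ z, p z := by
    intro p hof hadd hmul z
    induction z using AdjoinRoot.induction_on with
    | _ f =>
      induction f using Polynomial.induction_on with
      | C a => rw [AdjoinRoot.mk_C]; exact hof a
      | add f₁ f₂ h₁ h₂ => rw [map_add]; exact hadd _ _ h₁ h₂
      | monomial n a ih =>
        rw [pow_succ, ← mul_assoc, map_mul, AdjoinRoot.mk_X, mul_comm]
        exact hmul _ ih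
  have hindep : ∀ x y x' y' : F, ι₀ x + ι₀ y * ω = ι₀ x' + ι₀ y' * ω → x = x' ∧ y = y' := by
    intro x y x' y' e
    have e' : ι₀ (x - x') = ι₀ (y' - y) * ω := by rw [map_sub, map_sub]; linear_combination e
    have hy : y' - y = 0 := by
      by_contra hne
      refine hl ⟨(x - x') / (y' - y), ι₀.injective ?_⟩
      rw [map_mul, map_div₀, e', mul_div_cancel_left₀ _ ((map_ne_zero ι₀).2 hne), hω]
    rw [hy, map_zero, zero_mul, map_eq_zero] at e'
    exact ⟨sub_eq_zero.1 e', (sub_eq_zero.1 hy).symm⟩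
  have hrepr : ∀ z : K, ∃ x y : F, z = ι₀ x + ι₀ y * ω := by
    refine hind _ (fun t => ⟨t, 0, by rw [map_zero, zero_mul, add_zero]⟩) ?_ ?_
    · rintro _ _ ⟨x, y, rfl⟩ ⟨x', y', rfl⟩
      exact ⟨x + x', y + y', by rw [map_add, map_add]; ring⟩
    · rintro _ ⟨x, y, rfl⟩
      exact ⟨l * y, x, by rw [map_mul, ← hω]; ring⟩
  -- the module structure
  let L : Module.End F V := Matrix.toLin' B
  let Φ : K →+* Module.End F V := Ideal.Quotient.lift (Ideal.span {P}) (Polynomial.aeval L).toRingHom fun f hf => by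
    obtain ⟨c, rfl⟩ := Ideal.mem_span_singleton.1 hf
    show Polynomial.aeval L (P * c) = 0
    rw [map_mul]
    have : Polynomial.aeval L P = 0 := LinearMap.ext fun v => by
      simp [P, pow_two, L, Algebra.algebraMap_eq_smul_one, hsq]
    rw [this, zero_mul]
  letI : Module K V := Module.compHom V Φ
  have hsmul : ∀ (t : F) (v : V), ι₀ t • v = t • v := fun t v => by
    show (Polynomial.aeval L (Polynomial.C t)) v = t • v
    simp [Algebra.algebraMap_eq_smul_one]
  have hωs : ∀ v : V, ω • v = B *ᵥ v := fun v => by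
    show (Polynomial.aeval L Polynomial.X) v = B *ᵥ v
    simp [L]
  have hcomm : ∀ (z : K) (t : F) (v : V), z • (t • v) = t • (z • v) := fun z t v => (Φ z).map_smul t v
  have hlin : ∀ (e : V → V), (∀ u v, e (u + v) = e u + e v) → (∀ (t : F) v, e (t • v) = t • e v) →
      (∀ v, B *ᵥ e v = e (B *ᵥ v)) → ∀ (z : K) v, e (z • v) = z • e v := by
    intro e hadd hsm hB
    refine hind _ (fun t v => by rw [hsmul, hsmul, hsm]) ?_ ?_
    · intro x y hx hy v; rw [add_smul, add_smul, hadd, hx, hy]
    · intro x hx v; rw [mul_smul, mul_smul, hωs, hωs, ← hB, hx]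
  haveI : Module.Finite K V := Module.Finite.of_finite
  have hfr : 2 * Module.finrank K V = Fintype.card ι := by
    have h1 : Nat.card V = Nat.card K ^ Module.finrank K V := Module.natCard_eq_pow_finrank
    have h3 : Nat.card K = Nat.card F ^ Module.finrank F K := Module.natCard_eq_pow_finrank
    rw [hdimK] at h3
    rw [h3, ← pow_mul, Nat.card_fun, Nat.card_eq_fintype_card (α := ι)] at h1
    exact (Nat.pow_right_injective (Nat.succ_le_of_lt (Finite.one_lt_card (α := F))) h1).symm
  have hdim3 : 3 ≤ Module.finrank K V := by have := h.dim; omega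
  -- the form over the extension
  let bK : V → V → K := fun u v => ι₀ (bq u v / 2) + ι₀ (bq u (B *ᵥ v) / (2 * l)) * ω
  have hbsymm : ∀ u v, bK u v = bK v u := fun u v => by
    show ι₀ _ + ι₀ _ * ω = ι₀ _ + ι₀ _ * ω
    rw [polar_comm (⇑Q) u v, polar_comm (⇑Q) u (B *ᵥ v), hself]
  have hbadd : ∀ u u' v, bK (u + u') v = bK u v + bK u' v := fun u u' v => by
    show ι₀ _ + ι₀ _ * ω = ι₀ _ + ι₀ _ * ω + (ι₀ _ + ι₀ _ * ω)
    rw [polar_add_left, polar_add_left, add_div, add_div, map_add, map_add]
    ring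
  have hbsmul : ∀ (z : K) u v, bK (z • u) v = z * bK u v := by
    refine hind _ (fun t u v => ?_) ?_ ?_
    · show ι₀ _ + ι₀ _ * ω = ι₀ t * (ι₀ _ + ι₀ _ * ω)
      rw [hsmul, polar_smul_left, polar_smul_left, smul_eq_mul, smul_eq_mul, mul_div_assoc, mul_div_assoc, map_mul,
        map_mul]
      ring
    · intro x y hx hy u v; rw [add_smul, hbadd, hx, hy, add_mul]
    · intro x hx u v
      rw [mul_smul, hωs, mul_assoc, ← hx]
      show ι₀ _ + ι₀ _ * ω = ω * (ι₀ _ + ι₀ _ * ω)
      rw [hBB, hself, mul_add, mul_left_comm ω (ι₀ _) ω, hω, ← map_mul, mul_comm ω, add_comm]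
      congr 1
      · congr 2
        field_simp
      · congr 1
        field_simp
  let β : LinearMap.BilinMap K V K := LinearMap.mk₂ K bK hbadd hbsmul
    (fun u v v' => by rw [hbsymm, hbadd, hbsymm v, hbsymm v'])
    (fun z u v => by rw [hbsymm, hbsmul, hbsymm v, smul_eq_mul])
  let q : QuadraticForm K V := LinearMap.BilinMap.toQuadraticMap β
  have hq : ∀ v, q v = ι₀ (Q v) + ι₀ (bq v (B *ᵥ v) / (2 * l)) * ω := fun v => by
    show bK v v = _
    show ι₀ _ + _ = _
    rw [polar_self, nsmul_eq_mul, Nat.cast_ofNat, mul_div_cancel_left₀ _ h2]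
  have h2K : (2 : K) ≠ 0 := by rw [← map_ofNat ι₀ 2]; exact (map_ne_zero ι₀).2 h2
  haveI : CharP K r := charP_of_injective_ringHom ι₀.injective r
  have hpol : ∀ u v, polar q u v = 2 * bK u v := fun u v => by
    rw [show polar q u v = bK u v + bK v u from LinearMap.BilinMap.polar_toQuadraticMap u v, hbsymm v u, two_mul]
  have hqn : (polarBilin q).Nondegenerate := nondegenerate_iff.2 fun u hu => polar_ext h.nondeg fun v => by
    have h1 := (mul_eq_zero.1 ((hpol u v).symm.trans (hu v))).resolve_left h2K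
    have h3 := (hindep _ _ 0 0 (h1.trans (by rw [map_zero, zero_mul, add_zero]))).1
    exact (div_eq_zero_iff.1 h3).resolve_right h2
  -- pairs
  obtain ⟨d, -, hd0, hd⟩ := exists_singular q ⊤ (by rw [finrank_top]; exact hdim3)
  obtain ⟨f, -, hf, hdf⟩ := exists_partner hqn (U := (⊥ : Submodule K V))
    (mem_perp.2 fun u hu => by rw [(Submodule.mem_bot K).1 hu, polar_zero_right]) hd (by simpa using hd0)
  have hdd : polar q d d = 0 := by rw [polar_self, hd]; simp
  have hff : polar q f f = 0 := by rw [polar_self, hf]; simp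
  have hfd : polar q f d = 1 := by rw [polar_comm, hdf]
  obtain ⟨a₀, ha₀d, ha₀f, ha₀⟩ : ∃ a, polar q a d = 0 ∧ polar q a f = 0 ∧ q a ≠ 0 := by
    by_contra hno
    push Not at hno
    have hw : ∀ u, polar q (u - polar q u f • d - polar q u d • f) d = 0 ∧
        polar q (u - polar q u f • d - polar q u d • f) f = 0 := fun u => by
      constructor <;> simp [polar_sub_left, polar_smul_left, hdd, hff, hdf, hfd]
    have hzero : ∀ u, u - polar q u f • d - polar q u d • f = 0 := fun u => polar_ext hqn fun v => by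
      set x := u - polar q u f • d - polar q u d • f
      set y := v - polar q v f • d - polar q v d • f
      have hv : v = y + polar q v f • d + polar q v d • f := by simp only [y]; abel
      rw [hv, polar_add_right, polar_add_right, polar_smul_right, polar_smul_right, (hw u).1, (hw u).2,
        smul_zero, smul_zero, add_zero, add_zero, QuadraticMap.polar, hno x (hw u).1 (hw u).2,
        hno y (hw v).1 (hw v).2, hno (x + y) (by rw [polar_add_left, (hw u).1, (hw v).1, add_zero])
          (by rw [polar_add_left, (hw u).2, (hw v).2, add_zero])]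
      ring
    have hle : (⊤ : Submodule K V) ≤ Submodule.span K {d, f} := fun u _ => by
      rw [show u = polar q u f • d + polar q u d • f from by
        have := hzero u
        rw [sub_sub, sub_eq_zero] at this
        exact this]
      exact add_mem (Submodule.smul_mem _ _ (Submodule.subset_span (by simp)))
        (Submodule.smul_mem _ _ (Submodule.subset_span (by simp)))
    have h1 := Submodule.finrank_mono hle
    have h3 : Module.finrank K (Submodule.span K ({d, f} : Set V)) ≤ 2 := by
      rw [← Matrix.range_cons_cons_empty d f ![]]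
      exact (finrank_range_le_card (R := K) _).trans (by simp)
    rw [finrank_top] at h1
    omega
  -- the isometries of the extended form
  have hΨ : ∀ e : V ≃ₗ[K] V, e ∈ isom q → ∃ y : centIso Q B,
      ∀ v, ((y : Cfsg.isometryGroup F ⇑Q) : GL ι F).1 *ᵥ v = e v := by
    intro e he
    let eF : V ≃ₗ[F] V :=
      { toFun := e, invFun := e.symm, left_inv := e.left_inv, right_inv := e.right_inv,
        map_add' := map_add e,
        map_smul' := fun t v => by
          show e (t • v) = t • e v
          rw [← hsmul, map_smul, hsmul] }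
    have hy : ∀ v, (glEquiv.symm eF : GL ι F).1 *ᵥ v = e v := fun v => by
      rw [← glEquiv_apply, MulEquiv.apply_symm_apply]; rfl
    refine ⟨⟨⟨glEquiv.symm eF, mem_isometryGroup.2 fun v => ?_⟩, fun v => ?_⟩, hy⟩
    · have h1 := he v
      rw [hq, hq] at h1
      rw [hy]
      exact (hindep _ _ _ _ h1).1
    · show B *ᵥ ((glEquiv.symm eF : GL ι F).1 *ᵥ v) = (glEquiv.symm eF : GL ι F).1 *ᵥ (B *ᵥ v)
      rw [hy, hy, ← hωs, ← hωs, map_smul]
  refine core_two_eq_bot (r := r) h h2 g ?_ A hinn ?_ ?_
  · rw [pow_two, ← map_mul]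
    refine (act_eq_one h _).2 ⟨l, hl0, fun v => ?_⟩
    rw [Subgroup.coe_mul, Units.val_mul, ← mulVec_mulVec]
    exact hsq v
  · intro N hN hodd
    let C := centIso Q B
    have hKlin : ∀ (y : C) (z : K) (v : V),
        ((y : Cfsg.isometryGroup F ⇑Q) : GL ι F).1 *ᵥ (z • v) = z • ((y : Cfsg.isometryGroup F ⇑Q) : GL ι F).1 *ᵥ v :=
      fun y => hlin _ (fun u v => mulVec_add _ u v) (fun t v => mulVec_smul _ t v) y.2
    let θ : C →* isom q := MonoidHom.mk' (fun y => ⟨
      { toFun := fun v => ((y : Cfsg.isometryGroup F ⇑Q) : GL ι F).1 *ᵥ v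
        invFun := fun v => ((y⁻¹ : C) : GL ι F).1 *ᵥ v
        left_inv := fun v => Simil.inv_mulVec_cancel ((y : Cfsg.isometryGroup F ⇑Q) : GL ι F) v
        right_inv := fun v => Simil.mulVec_inv_cancel ((y : Cfsg.isometryGroup F ⇑Q) : GL ι F) v
        map_add' := fun u v => mulVec_add _ u v
        map_smul' := hKlin y }, fun v => by
          show q (((y : Cfsg.isometryGroup F ⇑Q) : GL ι F).1 *ᵥ v) = q v
          have hpi : ∀ u w, bq (((y : Cfsg.isometryGroup F ⇑Q) : GL ι F).1 *ᵥ u)
              (((y : Cfsg.isometryGroup F ⇑Q) : GL ι F).1 *ᵥ w) = bq u w := fun u w => by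
            simp only [QuadraticMap.polar, ← mulVec_add, mem_isometryGroup.1 (y : Cfsg.isometryGroup F ⇑Q).2]
          rw [hq, hq, mem_isometryGroup.1 (y : Cfsg.isometryGroup F ⇑Q).2, y.2 v, hpi]⟩) fun x y =>
      Subtype.ext (LinearEquiv.ext fun v =>
        (mulVec_mulVec v ((x : Cfsg.isometryGroup F ⇑Q) : GL ι F).1 ((y : Cfsg.isometryGroup F ⇑Q) : GL ι F).1).symm)
    have hθs : Function.Surjective θ := fun e => by
      obtain ⟨y, hy⟩ := hΨ e.1 e.2
      exact ⟨y, Subtype.ext (LinearEquiv.ext hy)⟩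
    haveI : Finite (V ≃ₗ[K] V) := Finite.of_injective _ DFunLike.coe_injective
    have hbot := odd_normal_isom_eq_bot hqn h2K hdim3 ((N.map θ).map (isom q).subtype) (Subgroup.map_subtype_le _)
      (fun x hx m hm => by
        obtain ⟨m, hm', rfl⟩ := hm
        exact ⟨⟨x, hx⟩ * m * ⟨x, hx⟩⁻¹, (hN.map θ hθs).conj_mem m hm' _, rfl⟩)
      (Odd.of_dvd_nat hodd ((Subgroup.card_map_dvd _ _).trans (Subgroup.card_map_dvd _ _)))
    rw [Subgroup.eq_bot_iff_forall]
    intro y hy
    have h1 : (θ y).1 ∈ (N.map θ).map (isom q).subtype := ⟨θ y, ⟨y, hy, rfl⟩, rfl⟩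
    rw [hbot, Subgroup.mem_bot] at h1
    refine Subtype.ext (Subtype.ext (Units.ext (Matrix.ext_iff_mulVec.2 fun v => ?_)))
    show ((y : Cfsg.isometryGroup F ⇑Q) : GL ι F).1 *ᵥ v = (1 : Matrix ι ι F) *ᵥ v
    rw [one_mulVec]
    exact LinearEquiv.congr_fun h1 v
  · intro G τ k hs hG
    obtain ⟨z, hz⟩ := scalar_of_siegel h2K (⊤ : Submodule K V) hd hf hdf trivial trivial trivial ha₀d ha₀f ha₀
      (AddMonoidHom.mk' (semi G τ) (semi_add G τ)) fun e a he hae _ _ v => by
        obtain ⟨y, hy⟩ := hΨ _ (siegel_mem_isom he hae)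
        have hyr : (y : Cfsg.isometryGroup F ⇑Q) ^ r = 1 := by
          refine Subtype.ext (Units.ext (Matrix.ext_iff_mulVec.2 fun w => ?_))
          have hp : ∀ k : ℕ, (((y : Cfsg.isometryGroup F ⇑Q) ^ k : Cfsg.isometryGroup F ⇑Q) : GL ι F).1 *ᵥ w =
              (siegel q e a he hae ^ k) w := by
            intro k
            induction k with
            | zero => rw [pow_zero, pow_zero]; exact one_mulVec w
            | succ k ih =>
              rw [pow_succ', pow_succ', Subgroup.coe_mul, Units.val_mul, ← mulVec_mulVec, ih, hy]; rfl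
          rw [hp, siegel_pow_apply he hae, CharP.cast_eq_zero, zero_smul, siegelL_zero]
          exact (one_mulVec w).symm
        have h1 := hG _ ⟨hyr, y.2⟩ v
        rw [hy, hy] at h1
        exact h1
    have hz' : ∀ v, semi G τ v = z • v := fun v => hz v trivial
    have hd0' : semi G τ d ≠ 0 := semi_ne_zero G τ hd0
    have hz0 : z ≠ 0 := fun e => hd0' (by rw [hz' d, e, zero_smul])
    have hτ : τ = 1 := RingEquiv.ext fun t => by
      have h1 := hz' (t • d)
      rw [semi_smul, hz' d, hcomm] at h1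
      exact smul_left_injective F (fun e : z • d = 0 => hd0' ((hz' d).trans e)) h1
    subst hτ
    refine ⟨rfl, ?_⟩
    obtain ⟨x, y, rfl⟩ := hrepr z
    have hG' : ∀ v, G.1 *ᵥ v = x • v + y • (B *ᵥ v) := fun v => by
      rw [show G.1 *ᵥ v = semi G (1 : RingAut F) v from rfl, hz', add_smul, mul_smul, hsmul, hωs, hsmul]
    have hv : q (d + ω • f) = ι₀ 0 + ι₀ 1 * ω := by
      rw [map_add_smul, hd, hf, hdf, map_zero, map_one]; ring
    set v := d + ω • f
    have h0 : Q v = 0 := (hindep _ _ _ _ ((hq v).symm.trans hv)).1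
    have h1 := hs.2 v
    rw [h0, map_zero, mul_zero, hz'] at h1
    have h3 := hq ((ι₀ x + ι₀ y * ω) • v)
    rw [QuadraticMap.map_smul, smul_eq_mul, hv, h1] at h3
    have h4 := hindep (2 * x * y * l) (x * x + y * y * l) 0
      (bq ((ι₀ x + ι₀ y * ω) • v) (B *ᵥ ((ι₀ x + ι₀ y * ω) • v)) / (2 * l)) (by
        rw [← h3, map_zero, map_one, map_add, map_mul, map_mul, map_mul, map_mul, map_mul, map_mul, map_ofNat, ← hω]
        ring)
    rcases mul_eq_zero.1 ((mul_eq_zero.1 h4.1).resolve_right hl0) with h5 | h5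
    · have hx : x = 0 := (mul_eq_zero.1 h5).resolve_left h2
      subst hx
      refine ⟨y, fun e => hz0 (by simp [e]), Or.inr fun v => ?_⟩
      rw [hG', zero_smul, zero_add]
    · subst h5
      refine ⟨x, fun e => hz0 (by simp [e]), Or.inl fun v => ?_⟩
      rw [hG', zero_smul, add_zero]

end CfsgLib.AutPE
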