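import Cfsg.Agent.AutPE.GraphStd
import Cfsg.Agent.AutPE.GraphIso
import Cfsg.Agent.AutPE.GraphNonsquare
set_option autoImplicit false
set_option linter.unusedSectionVars false

/-!
Local balance for involutions outside the inner-diagonal group of the minus-type group.
-/

namespace CfsgLib.AutPE

open QuadraticMap hiding proj
open Matrix
open CfsgLib.Forms

variable {F : Type*} [Field F] [Fintype F]

set_option maxHeartbeats 2000000 in
/-- Involutions have trivial field part. -/
theorem tau_involution_minus (hodd : Odd (Fintype.card F)) {m : ℕ} (hm : 3 ≤ m) {a b : F}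
    (hab : ∀ z₁ z₂ : F, z₁ ^ 2 + a * z₁ * z₂ + b * z₂ ^ 2 = 0 → z₁ = 0 ∧ z₂ = 0)
    (γ : MulAut (Cfsg.POmega F ⇑(quadMinus F m a b))) (hγ2 : orderOf γ = 2) :
    tau (CfsgLib.AutPO.gh_minus hm hab) γ = 1 := by
  have hg := Simil.good_minus hodd hm hab
  have h2 := (Simil.two_ne_of_odd (F := F) hodd).2
  have h := CfsgLib.AutPO.gh_minus hm hab
  obtain ⟨p, hp⟩ := CharP.exists F
  haveI : Fact p.Prime := ⟨CharP.char_is_prime F p⟩
  obtain ⟨f, -, hF⟩ := FiniteField.card F p
  have hp2 : p ≠ 2 := by rintro rfl; exact h2 CharTwo.two_eq_zero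
  -- the field part is trivial
  by_contra hne
  have hτ2 : tau h γ ^ 2 = 1 := by rw [← map_pow, orderOf_dvd_iff_pow_eq_one.1 (dvd_of_eq hγ2), map_one]
  have hgen := gen_of_frob h hF (α := phiOdd (m := m) hab h2 hp2)
    (tau_stdAut h (isSemi_frobOdd hab h2 hp2))
  obtain ⟨k, -, hkinv, hpow⟩ := phiOdd_pow_card (m := m) hab h2 hp2 hF hg
  set Φ := out (phiOdd (m := m) hab h2 hp2)
  have hτo : orderOf (tau h γ) = 2 := orderOf_eq_prime hτ2 hne
  have hdvd : 2 ∣ (f : ℕ) := by
    obtain ⟨i, hi⟩ := Subgroup.mem_zpowers_iff.1 (top_frob hF (tau h γ))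
    rw [← hτo, ← orderOf_frob hF, ← hi]
    exact orderOf_dvd_of_mem_zpowers ⟨i, rfl⟩
  obtain ⟨j, hj⟩ := hdvd
  have hq : Fintype.card F % 4 = 1 := by
    rw [hF, hj, pow_mul, Nat.pow_mod]
    obtain ⟨i, hi⟩ := (Fact.out : p.Prime).odd_of_ne_two hp2
    rw [hi, show (2 * i + 1) ^ 2 = 1 + 4 * (i * i + i) by ring, Nat.add_mul_mod_self_left]
    simp
  have hn : (Simil.negOne (Q := quadMinus F m a b)) ∉ Cfsg.Omega F ⇑(quadMinus F m a b) := fun e => by
    have := ((Simil.negOne_minus hodd hab).1 e).2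
    omega
  obtain ⟨x, hx, i, hi⟩ := hgen.exists_decomp (out γ)
  have hcomm := comm_of_neg h hg hn Φ x hx
  have hτΦ : outTau h (out γ) = (outTau h Φ) ^ i := by
    rw [hi, map_mul, MonoidHom.mem_ker.1 hx, one_mul, map_zpow]
  rw [outTau_out] at hτΦ
  have hfi : ((f : ℕ) : ℤ) ∣ 2 * i := by
    have h4 : (outTau h Φ) ^ (2 * i) = 1 := by
      rw [mul_comm, _root_.zpow_mul, ← hτΦ]; exact_mod_cast hτ2
    rw [← hgen.order]
    exact orderOf_dvd_iff_zpow_eq_one.2 h4
  obtain ⟨t, ht⟩ := hfi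
  have hsq : out γ * out γ = (1 : Cfsg.Out (Cfsg.POmega F ⇑(quadMinus F m a b))) := by
    rw [← out_mul, ← pow_two, orderOf_dvd_iff_pow_eq_one.1 (dvd_of_eq hγ2)]
    exact (out_eq_one _).2 (one_mem _)
  have hxx : x * x = 1 := by
    obtain ⟨ψ⟩ := outKer_klein h hg hn
    have key : (⟨x, hx⟩ : (outTau h).ker) * ⟨x, hx⟩ = 1 := ψ.injective (by
      rw [map_mul, map_one]
      have : ∀ y : ZMod 2 × ZMod 2, y + y = 0 := by decide
      exact this _)
    exact congrArg Subtype.val key
  have hc : Commute x (Φ ^ i) := Commute.zpow_right (show Commute x Φ from hcomm.symm) i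
  have h5 : Φ ^ (2 * i) = 1 := by
    rw [hi] at hsq
    have : x * Φ ^ i * (x * Φ ^ i) = x * x * (Φ ^ i * Φ ^ i) := hc.symm.mul_mul_mul_comm x (Φ ^ i)
    rw [this, hxx, one_mul, ← _root_.zpow_add, ← two_mul] at hsq
    exact hsq
  rw [ht, _root_.zpow_mul, zpow_natCast, hpow] at h5
  rcases Int.even_or_odd t with ⟨s, hs⟩ | ⟨s, hs⟩
  · refine hne ?_
    rw [hτΦ, show i = ((f : ℕ) : ℤ) * s by rw [hs] at ht; linarith, _root_.zpow_mul, zpow_natCast, ← hgen.order, pow_orderOf_eq_one, _root_.one_zpow]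
  · rw [hs, _root_.zpow_add_one, _root_.zpow_mul, zpow_two, isoOut_sq h hg, _root_.one_zpow, one_mul] at h5
    exact hkinv (invariant_of_simOut h hg h5)

open CfsgLib.AutPO

section Cases

variable {ι : Type} [Fintype ι] [DecidableEq ι] {Q : QuadraticForm F (ι → F)}

/-- Local balance for an involution induced by a similarity of sign `-1`. -/
theorem core_two_improper (h : GH Q) (hg : Simil.Good Q) {r : ℕ} [Fact r.Prime] [CharP F r] {n : ℕ}
    (hn : Fintype.card ι = n + n) (hn4 : 4 ≤ n)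
    (hns : ∀ U : Submodule F (ι → F), (∀ u ∈ U, Q u = 0) → Module.finrank F U < n)
    {g : Simil.Sim Q} (hs : Simil.sign hg g = -1) (hg2 : Simil.act Q g ^ 2 = 1)
    (A : Subgroup (MulAut (Cfsg.POmega F ⇑Q))) (hinn : ∀ k : Cfsg.POmega F ⇑Q, MulAut.conj k ∈ A) :
    Cfsg.pPrimeCore 2 ↥(A ⊓ Subgroup.centralizer {Simil.act Q g}) = ⊥ := by
  have h2 := hg.two_ne
  rw [pow_two, ← map_mul] at hg2
  obtain ⟨l, hl0, hsq⟩ := (act_eq_one h _).1 hg2
  simp only [Subgroup.coe_mul, Units.val_mul, ← mulVec_mulVec] at hsq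
  set B := (g : GL ι F).1 with hB
  set μ : F := (Simil.mult hg g : F) with hμdef
  have hμ0 : μ ≠ 0 := (Simil.mult hg g).ne_zero
  have hll : l * l = μ * μ := by
    obtain ⟨u, hu⟩ := Simil.exists_value_one hg
    have h1 := congrArg Q (hsq u)
    rw [QuadraticMap.map_smul, Simil.mult_spec hg, Simil.mult_spec hg, hu, smul_eq_mul, mul_one, mul_one] at h1
    exact h1.symm
  have hsign : B.det = -(μ ^ n) := by
    have h1 := Simil.sign_val hg g
    rw [hs, hn, show (n + n) / 2 = n by omega, Units.val_neg, Units.val_one, eq_div_iff (pow_ne_zero _ hμ0)] at h1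
    linear_combination -h1
  by_cases hμsq : IsSquare μ
  · obtain ⟨d, hd'⟩ := hμsq
    have hd0 : d ≠ 0 := fun e => hμ0 (by rw [hd', e, mul_zero])
    obtain ⟨jj, hr⟩ := exists_smul_iso (g : GL ι F) hd0 (Q := Q) fun v => by rw [Simil.mult_spec hg, ← hd']
    have hdet : (jj : GL ι F).1.det = -1 := by
      have e : B = d • (jj : GL ι F).1 := Matrix.ext_iff_mulVec.2 fun v => by rw [hr, smul_mulVec]
      rw [e, det_smul, hn, hd', ← pow_two d, ← pow_mul, two_mul] at hsign
      exact mul_left_cancel₀ (pow_ne_zero (n + n) hd0) (by rw [hsign, mul_neg_one])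
    obtain ⟨ll, hll'⟩ := exists_list hg.nondeg (Simil.hq hg) jj
    have hodd : Odd ll.length := Nat.not_even_iff_odd.1 fun he => by
      rw [(Simil.det_one_iff_even hg hll').2 he] at hdet
      exact h2 (by linear_combination hdet)
    have hpar := finrank_fixed_parity hg.nondeg ll
    rw [Module.finrank_fintype_fun_eq_card, hn] at hpar
    have hfix : LinearMap.ker ((reflProd Q ll : (ι → F) →ₗ[F] (ι → F)) - LinearMap.id) = fixSp jj := by
      ext v
      rw [mem_fixSp, ← glEquiv_apply, ← coe_isoEquiv, hll']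
      simp [sub_eq_zero]
    rw [hfix] at hpar
    have hEodd : Module.finrank F (fixSp jj) % 2 = 1 := by
      obtain ⟨i, hi⟩ := hodd
      omega
    have hrr : ∀ v, (jj : GL ι F).1 *ᵥ ((jj : GL ι F).1 *ᵥ v) = (l / (d * d)) • v := fun v => by
      have h1 := hsq v
      rw [hr, hr, mulVec_smul, smul_smul] at h1
      rw [div_eq_inv_mul, ← smul_smul, ← h1, inv_smul_smul₀ (mul_ne_zero hd0 hd0)]
    obtain ⟨x, hx, hx0⟩ : ∃ x ∈ fixSp jj, x ≠ 0 := by
      refine (Submodule.ne_bot_iff _).1 fun e => ?_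
      rw [e, finrank_bot] at hEodd
      exact absurd hEodd (by decide)
    have hε : l / (d * d) = 1 := by
      have h1 := hrr x
      rw [mem_fixSp.1 hx, mem_fixSp.1 hx] at h1
      by_contra hne'
      exact hx0 ((smul_eq_zero.1 (show (l / (d * d) - 1) • x = 0 by rw [sub_smul, one_smul, ← h1, sub_self])).resolve_left
        (sub_ne_zero.2 hne'))
    simp only [hε, one_smul] at hrr
    have hsum := finrank_fix_add hg.nondeg h2 hrr
    have hact : Simil.act Q g = Simil.act Q (Simil.ofIso jj) := by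
      have h1 : Simil.act Q ((Simil.ofIso jj)⁻¹ * g) = 1 := (act_eq_one h _).2 ⟨d, hd0, fun v => by
        rw [Subgroup.coe_mul, Units.val_mul, ← mulVec_mulVec, hr, mulVec_smul, Subgroup.coe_inv]
        exact congrArg (d • ·) (Simil.inv_mulVec_cancel (jj : GL ι F) v)⟩
      rw [map_mul, map_inv, inv_mul_eq_one] at h1
      exact h1.symm
    rw [hact]
    by_cases hE : 3 ≤ Module.finrank F (fixSp jj)
    · exact core_two_iso (r := r) h h2 hrr hE (by omega) A hinn
    · have e : Simil.act Q (Simil.ofIso (Simil.negOne * jj)) = Simil.act Q (Simil.ofIso jj) := by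
        rw [map_mul, map_mul, Simil.act_negOne hg, one_mul]
      rw [← e]
      refine core_two_iso (r := r) h h2 (negJ_inv hrr) (by omega) ?_ A hinn
      rw [negNeg]
      omega
  · have hpol : ∀ x y, polar (⇑Q) (B *ᵥ x) (B *ᵥ y) = μ * polar (⇑Q) x y := fun x y => by
      simp only [QuadraticMap.polar, ← mulVec_add, B, Simil.mult_spec hg]; ring
    have hlns : ¬ IsSquare l := fun ⟨s, hs'⟩ => by
      have hlμ : l = -μ := (mul_self_eq_mul_self_iff.1 hll).resolve_left fun e => hμsq ⟨s, by rw [← e, hs']⟩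
      have hs0 : s ≠ 0 := fun e => hμ0 (by
        have : l = 0 := by rw [hs', e, mul_zero]
        rw [hlμ, neg_eq_zero] at this; exact this)
      have hsing : ∀ e : F, e * e = l → ∀ x ∈ LinearMap.ker (Matrix.toLin' B - e • LinearMap.id), Q x = 0 := by
        intro e he x hx
        have hx' : B *ᵥ x = e • x := by simpa [sub_eq_zero, Matrix.toLin'_apply] using hx
        have h1 := hpol x x
        rw [hx', polar_smul_left, polar_smul_right, smul_eq_mul, smul_eq_mul, ← mul_assoc, he, hlμ] at h1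
        have h3 : polar (⇑Q) x x = 0 := (mul_eq_zero.1 (show (2 * μ) * polar (⇑Q) x x = 0 by
          linear_combination -h1)).resolve_left (mul_ne_zero h2 hμ0)
        rw [polar_self, nsmul_eq_mul] at h3
        exact (mul_eq_zero.1 h3).resolve_left (by exact_mod_cast h2)
      set E₁ : Submodule F (ι → F) := LinearMap.ker (Matrix.toLin' B - s • LinearMap.id)
      set E₂ : Submodule F (ι → F) := LinearMap.ker (Matrix.toLin' B - (-s) • LinearMap.id)
      have hsum : E₁ ⊔ E₂ = ⊤ := eq_top_iff.2 fun v _ => Submodule.mem_sup.2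
        ⟨(2 * s)⁻¹ • (s • v + B *ᵥ v), by
          simp only [E₁, LinearMap.mem_ker, LinearMap.sub_apply, LinearMap.smul_apply, LinearMap.id_apply,
            Matrix.toLin'_apply, mulVec_smul, mulVec_add, hsq, hs']
          module,
         (2 * s)⁻¹ • (s • v - B *ᵥ v), by
          simp only [E₂, LinearMap.mem_ker, LinearMap.sub_apply, LinearMap.smul_apply, LinearMap.id_apply,
            Matrix.toLin'_apply, mulVec_smul, mulVec_sub, hsq, hs']
          module, by
          rw [← smul_add, add_add_sub_cancel, ← two_smul F (s • v), smul_smul, smul_smul, mul_assoc,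
            inv_mul_cancel₀ (mul_ne_zero h2 hs0), one_smul]⟩
      have h3 := Submodule.finrank_sup_add_finrank_inf_eq E₁ E₂
      rw [hsum, finrank_top, Module.finrank_fintype_fun_eq_card] at h3
      have := hns E₁ (hsing s hs'.symm)
      have := hns E₂ (hsing (-s) (by rw [neg_mul_neg, hs']))
      omega
    have hd' := det_of_sq_irreducible (A := B) (l := l) (Matrix.ext_iff_mulVec.2 fun v => by
      rw [← mulVec_mulVec, smul_mulVec, one_mulVec]; exact hsq v) hlns hn
    have hlμ : l = μ := (mul_self_eq_mul_self_iff.1 hll).resolve_right fun e => by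
      rw [e, neg_neg, hsign] at hd'
      exact pow_ne_zero n hμ0 ((mul_eq_zero.1 (show (2 : F) * μ ^ n = 0 by linear_combination -hd')).resolve_left h2)
    exact core_two_nonsquare (r := r) h h2 g hlns hsq (fun v => by rw [hlμ]; exact Simil.mult_spec hg g v) A hinn

end Cases

/-- Local balance, involutions. -/
theorem balance_minus_two {m : ℕ} (hm : 3 ≤ m) {a b : F}
    (hab : ∀ z₁ z₂ : F, z₁ ^ 2 + a * z₁ * z₂ + b * z₂ ^ 2 = 0 → z₁ = 0 ∧ z₂ = 0)
    {r : ℕ} [Fact r.Prime] [CharP F r] (hr : r ≠ 2)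
    (A : Subgroup (MulAut (Cfsg.POmega F ⇑(quadMinus F m a b))))
    (hinn : ∀ k : Cfsg.POmega F ⇑(quadMinus F m a b), MulAut.conj k ∈ A)
    (x : MulAut (Cfsg.POmega F ⇑(quadMinus F m a b))) (hord : orderOf x = 2)
    (hnot : x ∉ classSub (⇑(quadMinus F m a b)) (Cfsg.PreservesSingularClassesMinus m a b)) :
    Cfsg.pPrimeCore 2 ↥(A ⊓ Subgroup.centralizer {x}) = ⊥ ∧ tau (gh_minus hm hab) x = 1 := by
  have hodd : Odd (Fintype.card F) := Nat.odd_iff.2 (FiniteField.odd_card_of_char_ne_two (by rw [ringChar.eq F r]; exact hr))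
  have hτ := tau_involution_minus hodd hm hab x hord
  refine ⟨?_, hτ⟩
  have hg := Simil.good_minus hodd hm hab
  rw [inndiag_minus_eq hab hodd hm hg] at hnot
  have hker : x ∈ (tau (gh_minus hm hab)).ker := MonoidHom.mem_ker.2 hτ
  rw [ker_tau] at hker
  obtain ⟨g, rfl⟩ := hker
  have hs : Simil.sign hg g = -1 := (Simil.sign_sq hg _).resolve_left
    fun e => hnot ⟨g, MonoidHom.mem_ker.2 e, rfl⟩
  exact core_two_improper (r := r) (gh_minus hm hab) hg (n := m + 1) (by simp; omega) (by omega)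
    (fun U hU => Nat.lt_succ_of_le (finrank_le_of_singular_minus hab fun u hu => by
      rw [← coe_quadMinus]; exact hU u hu)) hs (orderOf_dvd_iff_pow_eq_one.1 (dvd_of_eq hord)) A hinn

end CfsgLib.AutPE
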