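import Cfsg.Agent.AutPE.GraphSplit
set_option autoImplicit false
set_option quotPrecheck false
set_option linter.unusedSectionVars false

/-!
When half the dimension is even and there is no singular subspace of half the dimension, an
involutory similarity of sign `-1` commutes with no proper similarity of nonsquare multiplier.
-/

namespace CfsgLib.AutPE

open QuadraticMap hiding proj
open Matrix
open CfsgLib.Forms

variable {F : Type*} [Field F] [Fintype F] {ι : Type} [Fintype ι] [DecidableEq ι] {Q : QuadraticForm F (ι → F)}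

local notation "V" => (ι → F)
local notation "bq" => QuadraticMap.polar (⇑Q)

/-- The characteristic polynomial of a matrix with irreducible quadratic equation. -/
theorem det_of_sq_irreducible {A : Matrix ι ι F} {l : F} (hA : A * A = l • 1) (hl : ¬ IsSquare l) {n : ℕ}
    (hn : Fintype.card ι = n + n) : A.det = (-l) ^ n := by
  open Polynomial in
  set P : Polynomial F := Polynomial.X ^ 2 - Polynomial.C l
  have hdeg : P.natDegree = 2 := Polynomial.natDegree_X_pow_sub_C
  have hmon : P.Monic := Polynomial.monic_X_pow_sub_C l two_ne_zero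
  have hirr : Irreducible P := (Polynomial.irreducible_iff_roots_eq_zero_of_degree_le_three (by omega) (by omega)).2
    (Multiset.eq_zero_of_forall_notMem fun x hx => hl ⟨x, by
      have h1 := Polynomial.isRoot_of_mem_roots hx
      simp only [P, Polynomial.IsRoot.def, Polynomial.eval_sub, Polynomial.eval_pow, Polynomial.eval_X, Polynomial.eval_C] at h1
      linear_combination -h1⟩)
  have hmul : A.charpoly * (-A).charpoly = P ^ Fintype.card ι := by
    have h2 : A.map Polynomial.C * A.map Polynomial.C = Matrix.diagonal fun _ => Polynomial.C l := by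
      rw [← Matrix.map_mul, hA, smul_one_eq_diagonal, Matrix.diagonal_map (map_zero _)]
    rw [Matrix.charpoly, Matrix.charpoly, ← det_mul,
      show charmatrix A * charmatrix (-A) = Matrix.diagonal fun _ => P by
        rw [charmatrix, charmatrix, RingHom.mapMatrix_apply, RingHom.mapMatrix_apply,
          show (-A).map Polynomial.C = -A.map Polynomial.C from Matrix.ext fun i j => by simp,
          sub_neg_eq_add, sub_mul, mul_add, mul_add, (Matrix.scalar_commute _ (Commute.all _) (A.map Polynomial.C)).eq, h2,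
          show Matrix.scalar ι (Polynomial.X : Polynomial F) * Matrix.scalar ι Polynomial.X =
            Matrix.diagonal fun _ => (Polynomial.X : Polynomial F) ^ 2 by
              simp [Matrix.scalar_apply, diagonal_mul_diagonal, pow_two]]
        rw [show ∀ a b c : Matrix ι ι (Polynomial F), a + c - (c + b) = a - b from fun a b c => by abel, diagonal_sub],
      det_diagonal, Finset.prod_const, Finset.card_univ]
  obtain ⟨i, -, hi⟩ := (dvd_prime_pow hirr.prime _).1 (Dvd.intro _ hmul : A.charpoly ∣ P ^ Fintype.card ι)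
  have he : A.charpoly = P ^ i := Polynomial.eq_of_monic_of_associated A.charpoly_monic (hmon.pow i) hi
  have h3 := congrArg Polynomial.natDegree he
  rw [charpoly_natDegree_eq_dim, Polynomial.natDegree_pow, hdeg, hn] at h3
  have hin : i = n := by omega
  rw [det_eq_sign_charpoly_coeff, he, hin, Polynomial.coeff_zero_eq_eval_zero, hn, Even.neg_one_pow ⟨n, rfl⟩, one_mul]
  simp [P]

variable (hg : Simil.Good Q) {n : ℕ} (hn : Fintype.card ι = n + n) (hne : Even n)
  (hns : ∀ U : Submodule F (ι → F), (∀ u ∈ U, Q u = 0) → Module.finrank F U < n)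
include hg hn hne hns

/-- The multiplier is a square. -/
theorem square_of_even {g : Simil.Sim Q} (hs : Simil.sign hg g = -1) {l : F}
    (hsq : ∀ v, (g : GL ι F).1 *ᵥ ((g : GL ι F).1 *ᵥ v) = l • v) : IsSquare (Simil.mult hg g : F) := by
  by_contra hμ
  have h2 := hg.two_ne
  set A := (g : GL ι F).1
  set μ : F := (Simil.mult hg g : F)
  have hμ0 : μ ≠ 0 := (Simil.mult hg g).ne_zero
  have hll : l * l = μ * μ := by
    obtain ⟨u, hu⟩ := Simil.exists_value_one hg
    have h1 := congrArg Q (hsq u)
    rw [QuadraticMap.map_smul, Simil.mult_spec hg, Simil.mult_spec hg, hu, smul_eq_mul, mul_one, mul_one] at h1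
    exact h1.symm
  have hpol : ∀ x y, bq (A *ᵥ x) (A *ᵥ y) = μ * bq x y := fun x y => by
    simp only [polar, ← mulVec_add, A, Simil.mult_spec hg]; ring
  by_cases hl : IsSquare l
  · obtain ⟨s, hs'⟩ := hl
    have hlμ : l = -μ := (mul_self_eq_mul_self_iff.1 hll).resolve_left fun e => hμ ⟨s, by rw [← e, hs']⟩
    have hs0 : s ≠ 0 := fun e => hμ0 (by
      have : l = 0 := by rw [hs', e, mul_zero]
      rw [hlμ, neg_eq_zero] at this; exact this)
    have hsing : ∀ e : F, e * e = l → ∀ x ∈ LinearMap.ker (Matrix.toLin' A - e • LinearMap.id), Q x = 0 := by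
      intro e he x hx
      have hx' : A *ᵥ x = e • x := by
        simpa [sub_eq_zero, Matrix.toLin'_apply] using hx
      have h1 := hpol x x
      rw [hx', polar_smul_left, polar_smul_right, smul_eq_mul, smul_eq_mul, ← mul_assoc, he, hlμ] at h1
      have h3 : bq x x = 0 := (mul_eq_zero.1 (show (2 * μ) * bq x x = 0 by linear_combination -h1)).resolve_left
        (mul_ne_zero h2 hμ0)
      rw [polar_self, nsmul_eq_mul] at h3
      exact (mul_eq_zero.1 h3).resolve_left (by exact_mod_cast h2)
    set E₁ : Submodule F V := LinearMap.ker (Matrix.toLin' A - s • LinearMap.id)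
    set E₂ : Submodule F V := LinearMap.ker (Matrix.toLin' A - (-s) • LinearMap.id)
    have hsum : E₁ ⊔ E₂ = ⊤ := eq_top_iff.2 fun v _ => Submodule.mem_sup.2
      ⟨(2 * s)⁻¹ • (s • v + A *ᵥ v), by
        simp only [E₁, LinearMap.mem_ker, LinearMap.sub_apply, LinearMap.smul_apply, LinearMap.id_apply,
          Matrix.toLin'_apply, mulVec_smul, mulVec_add, A, hsq, hs']
        module,
       (2 * s)⁻¹ • (s • v - A *ᵥ v), by
        simp only [E₂, LinearMap.mem_ker, LinearMap.sub_apply, LinearMap.smul_apply, LinearMap.id_apply,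
          Matrix.toLin'_apply, mulVec_smul, mulVec_sub, A, hsq, hs']
        module, by
        rw [← smul_add, add_add_sub_cancel, ← two_smul F (s • v), smul_smul, smul_smul, mul_assoc,
          inv_mul_cancel₀ (mul_ne_zero h2 hs0), one_smul]⟩
    have h3 := Submodule.finrank_sup_add_finrank_inf_eq E₁ E₂
    rw [hsum, finrank_top, Module.finrank_fintype_fun_eq_card] at h3
    have := hns E₁ (hsing s hs'.symm)
    have := hns E₂ (hsing (-s) (by rw [neg_mul_neg, hs']))
    omega
  · have hd := det_of_sq_irreducible (A := A) (l := l) (Matrix.ext_iff_mulVec.2 fun v => by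
      rw [← mulVec_mulVec, smul_mulVec, one_mulVec]; exact hsq v) hl hn
    have hdμ : A.det = μ ^ n := by
      rw [hd, hne.neg_pow]
      obtain ⟨j, hj⟩ := hne
      rw [hj, ← two_mul, pow_mul, pow_mul, pow_two, pow_two, hll]
    have h1 := Simil.sign_val hg g
    rw [hs, show (g : GL ι F).1.det = μ ^ n from hdμ, hn, show (n + n) / 2 = n by omega,
      div_self (pow_ne_zero _ hμ0), Units.val_neg, Units.val_one] at h1
    exact h2 (by linear_combination -h1)

/-- A proper similarity commuting with the involution has square multiplier. -/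
theorem square_comm_even {g c : Simil.Sim Q} (hs : Simil.sign hg g = -1) (hg2 : Simil.act Q (g * g) = 1)
    (hcomm : Simil.act Q c * Simil.act Q g = Simil.act Q g * Simil.act Q c) : IsSquare (Simil.mult hg c : F) := by
  obtain ⟨l, hl⟩ := (Simil.act_eq_one_iff hg _).1 hg2
  have hsq : ∀ v, (g : GL ι F).1 *ᵥ ((g : GL ι F).1 *ᵥ v) = (l : F) • v := fun v => by
    rw [mulVec_mulVec, ← Simil.scalar_mulVec hg l v, ← hl]; rfl
  obtain ⟨d, hd⟩ := square_of_even hg hn hne hns hs hsq
  have h2 := hg.two_ne
  have hd0 : d ≠ 0 := fun e => (Simil.mult hg g).ne_zero (by rw [hd, e, mul_zero])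
  obtain ⟨r, hr⟩ := exists_smul_iso (g : GL ι F) hd0 (Q := Q) fun v => by rw [Simil.mult_spec hg, ← hd]
  obtain ⟨z, hz⟩ := (Simil.act_eq_one_iff hg ((g * c)⁻¹ * (c * g))).1 (by
    rw [map_mul, map_inv, map_mul, map_mul, hcomm, inv_mul_cancel])
  have hcg : ∀ v, (c : GL ι F).1 *ᵥ ((g : GL ι F).1 *ᵥ v) = (z : F) • ((g : GL ι F).1 *ᵥ ((c : GL ι F).1 *ᵥ v)) := fun v => by
    have h1 : ((c * g : Simil.Sim Q) : GL ι F) = ((g * c : Simil.Sim Q) : GL ι F) * Matrix.GeneralLinearGroup.scalar ι z := by
      rw [← hz, ← Subgroup.coe_mul, mul_inv_cancel_left]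
    have h3 := congrArg (fun x : GL ι F => x.1 *ᵥ v) h1
    simp only [Subgroup.coe_mul, Units.val_mul, ← mulVec_mulVec, Simil.scalar_mulVec hg, mulVec_smul] at h3
    exact h3
  have hcr : ∀ v, (c : GL ι F).1 *ᵥ ((r : GL ι F).1 *ᵥ v) = (z : F) • ((r : GL ι F).1 *ᵥ ((c : GL ι F).1 *ᵥ v)) := fun v => by
    have h1 := hcg v
    rw [hr, hr, mulVec_smul, smul_comm (z : F) d] at h1
    exact smul_right_injective _ hd0 h1
  have hdet : (r : GL ι F).1.det = -1 := by
    have e : (g : GL ι F).1 = d • (r : GL ι F).1 := Matrix.ext_iff_mulVec.2 fun v => by rw [hr, smul_mulVec]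
    have h1 := Simil.sign_val hg g
    rw [hs, show (Simil.mult hg g : F) = d * d from hd, e, det_smul, hn,
      show (n + n) / 2 = n by omega, ← pow_two, ← pow_mul, two_mul, mul_div_cancel_left₀ _ (pow_ne_zero _ hd0)] at h1
    simpa using h1.symm
  obtain ⟨ll, hll⟩ := exists_list hg.nondeg (Simil.hq hg) r
  have hodd : Odd ll.length := Nat.not_even_iff_odd.1 fun he => by
    rw [(Simil.det_one_iff_even hg hll).2 he] at hdet
    exact h2 (by linear_combination hdet)
  have hpar := finrank_fixed_parity hg.nondeg ll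
  rw [Module.finrank_fintype_fun_eq_card, hn] at hpar
  set E : Submodule F V := LinearMap.ker ((reflProd Q ll : V →ₗ[F] V) - LinearMap.id)
  have hmE : ∀ v, v ∈ E ↔ (r : GL ι F).1 *ᵥ v = v := fun v => by
    rw [← glEquiv_apply, ← coe_isoEquiv, hll]
    simp [E, sub_eq_zero]
  have hEodd : Odd (Module.finrank F E) := by
    obtain ⟨i, hi⟩ := hodd
    rw [Nat.odd_iff]; omega
  have hrr : ∀ v, (r : GL ι F).1 *ᵥ ((r : GL ι F).1 *ᵥ v) = ((l : F) / (d * d)) • v := fun v => by
    have h1 := hsq v
    rw [hr, hr, mulVec_smul, smul_smul] at h1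
    rw [div_eq_inv_mul, ← smul_smul, ← h1, inv_smul_smul₀ (mul_ne_zero hd0 hd0)]
  obtain ⟨x, hx, hx0⟩ : ∃ x ∈ E, x ≠ 0 := by
    refine (Submodule.ne_bot_iff E).1 fun e => ?_
    rw [e, finrank_bot] at hEodd
    exact absurd hEodd (by decide)
  have hε : (l : F) / (d * d) = 1 := by
    have h1 := hrr x
    rw [(hmE x).1 hx, (hmE x).1 hx] at h1
    by_contra hne'
    exact hx0 ((smul_eq_zero.1 (show ((l : F) / (d * d) - 1) • x = 0 by rw [sub_smul, one_smul, ← h1, sub_self])).resolve_left
      (sub_ne_zero.2 hne'))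
  simp only [hε, one_smul] at hrr
  -- the scalar is a sign
  set y := (c : GL ι F).1 *ᵥ x
  have hy : (z : F) • ((r : GL ι F).1 *ᵥ y) = y := by rw [← hcr, (hmE x).1 hx]
  have hy0 : y ≠ 0 := fun e => hx0 (by
    have := Simil.inv_mulVec_cancel (c : GL ι F) x
    rw [show (c : GL ι F).1 *ᵥ x = 0 from e, mulVec_zero] at this
    exact this.symm)
  have hz1 : (z : F) * z = 1 := by
    have h2 := congrArg (fun v => (r : GL ι F).1 *ᵥ v) hy
    simp only [mulVec_smul, hrr] at h2
    have h1 : ((z : F) * z) • y = y := by rw [mul_smul, h2, hy]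
    by_contra hne'
    exact hy0 ((smul_eq_zero.1 (show ((z : F) * z - 1) • y = 0 by rw [sub_smul, one_smul, h1, sub_self])).resolve_left
      (sub_ne_zero.2 hne'))
  rcases mul_self_eq_one_iff.1 hz1 with hzv | hzv
  · -- the fixed space is invariant
    have hcE : ∀ v ∈ E, (c : GL ι F).1 *ᵥ v ∈ E := fun v hv => (hmE _).2 (by
      have h1 := hcr v
      rw [(hmE v).1 hv, hzv, one_smul] at h1
      exact h1.symm)
    let f : E →ₗ[F] E := (Matrix.toLin' (c : GL ι F).1).restrict fun v hv => hcE v hv
    let B : LinearMap.BilinForm F E := LinearMap.BilinForm.restrict (polarBilin Q) E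
    have hB : B.Nondegenerate := (LinearMap.IsRefl.nondegenerate_iff_separatingLeft (B := B) (fun a b h => by
      show polar Q (b : V) (a : V) = 0
      rw [polar_comm]; exact h)).2 fun a ha => Subtype.ext (polar_ext hg.nondeg fun w => by
        have hsplit : w = (2 : F)⁻¹ • (w + (r : GL ι F).1 *ᵥ w) + (2 : F)⁻¹ • (w - (r : GL ι F).1 *ᵥ w) := by
          rw [← smul_add, add_add_sub_cancel, ← two_smul F w, inv_smul_smul₀ h2]
        have hE1 : (2 : F)⁻¹ • (w + (r : GL ι F).1 *ᵥ w) ∈ E := (hmE _).2 (by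
          rw [mulVec_smul, mulVec_add, hrr, add_comm])
        have hperp : bq (a : V) ((r : GL ι F).1 *ᵥ w) = bq (a : V) w := by
          conv_lhs => rw [← (hmE _).1 a.2]
          simp only [polar, ← mulVec_add, mem_isometryGroup.1 r.2]
        rw [hsplit, polar_add_right, show bq (a : V) ((2 : F)⁻¹ • (w + (r : GL ι F).1 *ᵥ w)) = 0 from ha ⟨_, hE1⟩,
          polar_smul_right, polar_sub_right, hperp, sub_self, smul_zero, zero_add])
    let bE := Module.finBasis F E
    have hcomp : B.comp f f = (Simil.mult hg c : F) • B := LinearMap.ext fun u => LinearMap.ext fun v => by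
      show polar Q ((c : GL ι F).1 *ᵥ (u : V)) ((c : GL ι F).1 *ᵥ (v : V)) = (Simil.mult hg c : F) * polar Q (u : V) (v : V)
      simp only [polar, ← mulVec_add, Simil.mult_spec hg]
      ring
    have h3 := congrArg Matrix.det (congrArg (LinearMap.BilinForm.toMatrix bE) hcomp)
    rw [LinearMap.BilinForm.toMatrix_comp bE bE, map_smul, det_mul, det_mul, det_transpose, det_smul, Fintype.card_fin] at h3
    set D := (LinearMap.toMatrix bE bE f).det
    have hGd : (LinearMap.BilinForm.toMatrix bE B).det ≠ 0 :=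
      Matrix.nondegenerate_iff_det_ne_zero.1 ((LinearMap.BilinForm.nondegenerate_toMatrix_iff bE).2 hB)
    have h4 : D * D = (Simil.mult hg c : F) ^ Module.finrank F E :=
      mul_right_cancel₀ hGd (by linear_combination h3)
    obtain ⟨i, hi⟩ := hEodd
    have hμ0 := (Simil.mult hg c).ne_zero
    refine ⟨D / (Simil.mult hg c : F) ^ i, ?_⟩
    rw [hi, pow_succ, pow_mul'] at h4
    rw [div_mul_div_comm, h4, eq_div_iff (mul_ne_zero (pow_ne_zero _ hμ0) (pow_ne_zero _ hμ0))]
    ring
  · -- the eigenspaces are interchanged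
    exfalso
    set E' : Submodule F V := LinearMap.ker (Matrix.toLin' (r : GL ι F).1 + LinearMap.id)
    have hmE' : ∀ v, v ∈ E' ↔ (r : GL ι F).1 *ᵥ v = -v := fun v => by simp [E', add_eq_zero_iff_eq_neg]
    have hinf : E ⊓ E' = ⊥ := (Submodule.eq_bot_iff _).2 fun v hv => by
      have h1 := (hmE v).1 hv.1
      rw [(hmE' v).1 hv.2] at h1
      exact (smul_eq_zero.1 (show (2 : F) • v = 0 by rw [two_smul]; nth_rewrite 1 [← h1]; exact neg_add_cancel v)).resolve_left h2
    have hsum : E ⊔ E' = ⊤ := eq_top_iff.2 fun v _ => Submodule.mem_sup.2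
      ⟨(2 : F)⁻¹ • (v + (r : GL ι F).1 *ᵥ v), (hmE _).2 (by rw [mulVec_smul, mulVec_add, hrr, add_comm]),
        (2 : F)⁻¹ • (v - (r : GL ι F).1 *ᵥ v), (hmE' _).2 (by rw [mulVec_smul, mulVec_sub, hrr, ← smul_neg, neg_sub]), by
          rw [← smul_add, add_add_sub_cancel, ← two_smul F, inv_smul_smul₀ h2]⟩
    have h1 : E.map (glEquiv (c : GL ι F) : V →ₗ[F] V) ≤ E' := by
      rintro _ ⟨v, hv, rfl⟩
      rw [LinearEquiv.coe_coe, glEquiv_apply, hmE']
      have h1 := hcr v
      rw [(hmE v).1 hv, hzv, neg_one_smul] at h1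
      conv_rhs => rw [h1, neg_neg]
    have h3 : E'.map (glEquiv (c : GL ι F) : V →ₗ[F] V) ≤ E := by
      rintro _ ⟨v, hv, rfl⟩
      rw [LinearEquiv.coe_coe, glEquiv_apply, hmE]
      have h1 := hcr v
      rw [(hmE' v).1 hv, hzv, neg_one_smul, mulVec_neg, neg_inj] at h1
      exact h1.symm
    have e1 := Submodule.finrank_mono h1
    have e2 := Submodule.finrank_mono h3
    rw [LinearEquiv.finrank_map_eq] at e1 e2
    have h5 := Submodule.finrank_sup_add_finrank_inf_eq E E'
    rw [hsum, hinf, finrank_top, finrank_bot, Module.finrank_fintype_fun_eq_card] at h5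
    obtain ⟨i, hi⟩ := hEodd
    obtain ⟨j, hj⟩ := hne
    omega

end CfsgLib.AutPE
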