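import Cfsg.Agent.Forms.Witt
set_option autoImplicit false
set_option linter.unusedSectionVars false

/-!
An additive map commuting with the Siegel maps of a subspace of Witt index one is scalar on it.
-/

namespace CfsgLib.AutPE

open QuadraticMap
open CfsgLib.Forms

variable {K V : Type*} [Field K] [AddCommGroup V] [Module K V]

/-- Every element is a multiple of a difference of squares. -/
theorem mem_of_squares {P : AddSubgroup K} {κ : K} (h2 : (2 : K) ≠ 0) (hκ : κ ≠ 0) (h : ∀ x : K, κ * (x * x) ∈ P) (c : K) : c ∈ P := by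
  have e : c = κ * (((c / κ + 1) / 2) * ((c / κ + 1) / 2)) - κ * (((c / κ - 1) / 2) * ((c / κ - 1) / 2)) := by
    field_simp
    ring
  rw [e]
  exact sub_mem (h _) (h _)

/-- The Siegel map minus the identity. -/
def sieDelta (q : QuadraticForm K V) (e a v : V) : V := (polar q v a - q a * polar q v e) • e - polar q v e • a

theorem scalar_of_siegel {q : QuadraticForm K V} (h2 : (2 : K) ≠ 0) (U : Submodule K V) {d f a₀ : V}
    (hd : q d = 0) (hf : q f = 0) (hdf : polar q d f = 1) (hdU : d ∈ U) (hfU : f ∈ U) (ha₀U : a₀ ∈ U)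
    (ha₀d : polar q a₀ d = 0) (ha₀f : polar q a₀ f = 0) (ha₀ : q a₀ ≠ 0) (S : V →+ V)
    (hS : ∀ (e a : V) (he : q e = 0) (hae : polar q a e = 0), e ∈ U → a ∈ U →
      ∀ v, S (siegel q e a he hae v) = siegel q e a he hae (S v)) :
    ∃ z : K, ∀ u ∈ U, S u = z • u := by
  have self0 : ∀ {e : V}, q e = 0 → polar q e e = 0 := fun {e} he => by rw [polar_self, he]; simp
  have hY : ∀ e a, q e = 0 → polar q a e = 0 → e ∈ U → a ∈ U →
      ∀ v, S (sieDelta q e a v) = sieDelta q e a (S v) := by
    intro e a he hae heU haU v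
    have h := hS e a he hae heU haU v
    rw [siegel_apply, siegel_apply, add_sub_assoc, add_sub_assoc, map_add] at h
    exact add_left_cancel h
  have hline : ∀ e e', q e = 0 → q e' = 0 → polar q e' e = 1 → e ∈ U → polar q a₀ e = 0 → polar q a₀ e' = 0 →
      ∀ c : K, S (c • e) ∈ Submodule.span K {e} := by
    intro e e' he he' hee heU ha0 ha0' c
    let P : AddSubgroup K :=
      { carrier := {x | S (x • e) ∈ Submodule.span K {e}}
        add_mem' := fun {x y} hx hy => by
          show S ((x + y) • e) ∈ Submodule.span K {e}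
          rw [add_smul, map_add]; exact add_mem hx hy
        zero_mem' := by
          show S ((0 : K) • e) ∈ Submodule.span K {e}
          rw [zero_smul, map_zero]; exact zero_mem _
        neg_mem' := fun {x} hx => by
          show S ((-x) • e) ∈ Submodule.span K {e}
          rw [neg_smul, map_neg]; exact neg_mem hx }
    refine mem_of_squares (P := P) h2 (κ := -(2 * q a₀)) (neg_ne_zero.2 (mul_ne_zero h2 ha₀)) (fun x => ?_) c
    show S ((-(2 * q a₀) * (x * x)) • e) ∈ Submodule.span K {e}
    set a := x • a₀ with ha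
    have hae : polar q a e = 0 := by rw [ha, polar_smul_left, ha0, smul_zero]
    have haU : a ∈ U := U.smul_mem _ ha₀U
    have hqa : q a = x * x * q a₀ := by rw [ha, QuadraticMap.map_smul, smul_eq_mul]
    have hsq : ∀ w, sieDelta q e a (sieDelta q e a w) = (-(polar q w e * (2 * q a))) • e := fun w => by
      simp only [sieDelta, polar_sub_left, polar_smul_left, self0 he, hae, polar_comm q e a, polar_self, nsmul_eq_mul,
        smul_eq_mul, Nat.cast_ofNat, mul_zero, sub_zero, zero_smul, zero_sub]

    have h1 : S (sieDelta q e a (sieDelta q e a e')) = sieDelta q e a (sieDelta q e a (S e')) := by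
      rw [hY e a he hae heU haU, hY e a he hae heU haU]
    rw [hsq, hsq, hee, one_mul, hqa] at h1
    rw [show -(2 * q a₀) * (x * x) = -(2 * (x * x * q a₀)) by ring, h1]
    exact Submodule.smul_mem _ _ (Submodule.mem_span_singleton_self _)
  have hfd : polar q f d = 1 := by rw [polar_comm, hdf]
  have Ld := hline d f hd hf hfd hdU ha₀d ha₀f
  have Lf := hline f d hf hd hdf hfU ha₀f ha₀d
  obtain ⟨z, hz⟩ := Submodule.mem_span_singleton.1 (Lf 1)
  obtain ⟨z', hz'⟩ := Submodule.mem_span_singleton.1 (Ld 1)
  rw [one_smul] at hz hz'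
  have step : ∀ a ∈ U, polar q a d = 0 → polar q a f = 0 →
      S a = z • a ∧ S a = z' • a ∧ S (q a • d) = (z * q a) • d ∧ S (q a • f) = (z' * q a) • f := by
    intro a haU had haf
    have one : ∀ e e' (w : K), q e = 0 → polar q e' e = 1 → polar q a e = 0 → polar q a e' = 0 → e ∈ U →
        w • e' = S e' → S (q a • e) ∈ Submodule.span K {e} →
        ∃ α : K, S (q a • e) = α • e ∧ S a = w • a + (w * q a - α) • e := by
      intro e e' w he hee hae hae' heU hw hmem
      obtain ⟨α, hα⟩ := Submodule.mem_span_singleton.1 hmem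
      refine ⟨α, hα.symm, ?_⟩
      have h1 := hY e a he hae heU haU e'
      rw [← hw] at h1
      simp only [sieDelta, polar_smul_left, polar_comm q e' a, hae', hee, smul_eq_mul, mul_zero, mul_one,
        zero_sub, one_smul, neg_smul, map_sub, map_neg] at h1
      rw [← hα] at h1
      have h2 : S a = -(α • e) - (-α • e - S a) := by rw [neg_smul]; abel
      rw [h2, neg_smul, h1]
      module
    obtain ⟨α, hα, hSa⟩ := one d f z hd hfd had haf hdU hz (Ld _)
    obtain ⟨β, hβ, hSa'⟩ := one f d z' hf hdf haf had hfU hz' (Lf _)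
    have h1 := congrArg (fun u => polar q u f) (hSa.symm.trans hSa')
    have h3 := congrArg (fun u => polar q u d) (hSa.symm.trans hSa')
    simp only [polar_add_left, polar_smul_left, haf, had, hdf, hfd, self0 hd, self0 hf, smul_eq_mul, mul_zero,
      mul_one, zero_add, add_zero] at h1 h3
    rw [h1, zero_smul, add_zero] at hSa
    rw [← h3, zero_smul, add_zero] at hSa'
    rw [sub_eq_zero] at h1
    have h4 := h3.symm
    rw [sub_eq_zero] at h4
    exact ⟨hSa, hSa', by rw [hα, h1], by rw [hβ, h4]⟩
  have hzz : z' = z := by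
    obtain ⟨e1, e2, -, -⟩ := step a₀ ha₀U ha₀d ha₀f
    have h0 : a₀ ≠ 0 := fun h => ha₀ (by rw [h, QuadraticMap.map_zero])
    exact smul_left_injective K h0 (e2.symm.trans e1)
  simp only [hzz] at step
  have hall : ∀ e, (∀ a ∈ U, polar q a d = 0 → polar q a f = 0 → S (q a • e) = (z * q a) • e) →
      ∀ c : K, S (c • e) = (z * c) • e := by
    intro e he c
    let P : AddSubgroup K :=
      { carrier := {x | S (x • e) = (z * x) • e}
        add_mem' := fun {x y} (hx : S (x • e) = _) (hy : S (y • e) = _) => by
          show S ((x + y) • e) = _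
          rw [add_smul, map_add, hx, hy, mul_add, add_smul]
        zero_mem' := by
          show S ((0 : K) • e) = _
          rw [zero_smul, map_zero, mul_zero, zero_smul]
        neg_mem' := fun {x} (hx : S (x • e) = _) => by
          show S ((-x) • e) = _
          rw [neg_smul, map_neg, hx, mul_neg, neg_smul] }
    refine mem_of_squares (P := P) h2 (κ := q a₀) ha₀ (fun x => ?_) c
    show S ((q a₀ * (x * x)) • e) = (z * (q a₀ * (x * x))) • e
    have := he (x • a₀) (U.smul_mem _ ha₀U) (by rw [polar_smul_left, ha₀d, smul_zero])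
      (by rw [polar_smul_left, ha₀f, smul_zero])
    rwa [QuadraticMap.map_smul, smul_eq_mul, mul_comm] at this
  have Sd := hall d fun a h1 h2' h3 => (step a h1 h2' h3).2.2.1
  have Sf := hall f fun a h1 h2' h3 => (step a h1 h2' h3).2.2.2
  refine ⟨z, fun u hu => ?_⟩
  set w := u - polar q u f • d - polar q u d • f with hw
  have hwU : w ∈ U := sub_mem (sub_mem hu (U.smul_mem _ hdU)) (U.smul_mem _ hfU)
  have hwd : polar q w d = 0 := by simp [hw, polar_sub_left, polar_smul_left, self0 hd, hfd]
  have hwf : polar q w f = 0 := by simp [hw, polar_sub_left, polar_smul_left, self0 hf, hdf]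
  have hu' : u = w + polar q u f • d + polar q u d • f := by rw [hw]; abel
  conv_lhs => rw [hu']
  rw [map_add, map_add, (step w hwU hwd hwf).1, Sd, Sf, hw]
  module

end CfsgLib.AutPE
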