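import Cfsg.Agent.AutPE.ModInner
import Cfsg.Agent.AutPSL.FieldAut
set_option autoImplicit false
set_option quotPrecheck false
set_option linter.unusedSectionVars false

/-!
Classes of involutory automorphisms induced by similarities of sign `-1`.
-/

namespace CfsgLib.AutPE

open QuadraticMap hiding proj
open Matrix
open CfsgLib.Forms

variable {F : Type*} [Field F] [Fintype F] {ι : Type} [Fintype ι] [DecidableEq ι] {Q : QuadraticForm F (ι → F)}

local notation "V" => (ι → F)
local notation "bq" => QuadraticMap.polar (⇑Q)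
local notation "PΩ'" => (Cfsg.POmega F ⇑Q)

/-- Two quadratic forms, one of whose zeros are zeros of the other, are proportional. -/
theorem exists_scalar_of_zeros {R : QuadraticForm F V} (hR : (polarBilin R).Nondegenerate) (hn : 8 ≤ Fintype.card ι)
    (h : ∀ v, R v = 0 → Q v = 0) : ∃ c : F, ∀ v, Q v = c * R v := by
  obtain ⟨e, -, he0, he⟩ := exists_singular R ⊤ (by simp; omega)
  obtain ⟨f, -, hf, hef⟩ := exists_partner hR (U := (⊥ : Submodule F V))
    (mem_perp.2 fun u hu => by simp [(Submodule.mem_bot F).1 hu]) he (by simpa using he0)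
  refine ⟨bq e f, fun v => ?_⟩
  set s := polar (⇑R) v f with hs
  set t := polar (⇑R) v e with ht
  set w := v - s • e - t • f with hw
  have hee : polar (⇑R) e e = 0 := by rw [polar_self, he]; simp
  have hff : polar (⇑R) f f = 0 := by rw [polar_self, hf]; simp
  have hwe : polar (⇑R) w e = 0 := by
    simp [hw, polar_sub_left, polar_smul_left, hee, polar_comm (⇑R) f e, hef, ht]
  have hwf : polar (⇑R) w f = 0 := by
    simp [hw, polar_sub_left, polar_smul_left, hff, hef, hs]
  have hQe := h e he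
  have hQf := h f hf
  -- the perpendicular part is orthogonal to the pair
  have hA : ∀ x : V, polar (⇑R) x e = 0 → polar (⇑R) x f = 0 → R x = 0 → bq e x = 0 ∧ bq f x = 0 := by
    intro x hxe hxf hx
    have hQx := h x hx
    constructor
    · have := h (x + (1 : F) • e) (by rw [map_add_smul, hx, he, hxe]; ring)
      rw [map_add_smul, hQx, hQe, polar_comm (⇑Q) x e] at this
      linear_combination this
    · have := h (x + (1 : F) • f) (by rw [map_add_smul, hx, hf, hxf]; ring)
      rw [map_add_smul, hQx, hQf, polar_comm (⇑Q) x f] at this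
      linear_combination this
  have hcross : bq e w = 0 ∧ bq f w = 0 := by
    have hK : Disjoint (Submodule.span F ({e, f} : Set V)) (perp R (Submodule.span F ({e, f} : Set V))) :=
      CfsgLib.AutPO.disjoint_pair he hf hef
    have hmem : w ∈ perp R (Submodule.span F ({e, f} : Set V)) := mem_perp_span.2 fun u hu => by
      rcases hu with rfl | rfl
      · exact hwe
      · exact hwf
    have h3 : Module.finrank F ↥(Submodule.span F ({e, f} : Set V)) + 3 ≤ Fintype.card ι := by
      have := CfsgLib.AutPO.finrank_span_pair_le (F := F) e f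
      omega
    have hw' := CfsgLib.AutPO.perp_le_span_singular hR hK h3 hmem
    clear_value w
    clear hw hwe hwf hmem
    induction hw' using Submodule.span_induction with
    | mem x hx => exact hA x (mem_perp.1 hx.1 e (Submodule.subset_span (by simp))) (mem_perp.1 hx.1 f (Submodule.subset_span (by simp))) hx.2
    | zero => simp [polar_zero_right]
    | add x y _ _ hx hy => simp [polar_add_right, hx.1, hx.2, hy.1, hy.2]
    | smul r x _ hx => simp [polar_smul_right, hx.1, hx.2]
  have hQw : Q w = bq e f * R w := by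
    have := h (w + (1 : F) • (e + (-R w) • f)) (by
      rw [map_add_smul, map_add_smul, he, hf, hef, polar_add_right, polar_smul_right, hwe, hwf]; simp)
    rw [map_add_smul, map_add_smul, hQe, hQf, polar_add_right, polar_smul_right, polar_comm (⇑Q) w e, hcross.1,
      polar_comm (⇑Q) w f, hcross.2, smul_zero] at this
    linear_combination this
  have hv : v = w + (1 : F) • (s • e + t • f) := by rw [hw]; module
  rw [hv, map_add_smul, map_add_smul, map_add_smul, map_add_smul, QuadraticMap.map_smul, QuadraticMap.map_smul,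
    hQe, hQf, he, hf, hQw, polar_add_right, polar_add_right, polar_smul_right, polar_smul_right, polar_smul_left,
    polar_smul_right, polar_smul_right, polar_smul_left, hef, hwe, hwf, polar_comm (⇑Q) w e, hcross.1,
    polar_comm (⇑Q) w f, hcross.2]
  simp only [smul_eq_mul]
  ring

variable (hg : Simil.Good Q) (hn : 8 ≤ Fintype.card ι)
include hg hn

theorem refl_pair {u w : V} (hu : Q u ≠ 0) (hw : Q w ≠ 0) (x : V) :
    (listGL Q [⟨u, hu⟩, ⟨w, hw⟩] : GL ι F).1 *ᵥ x = Forms.refl Q u hu (Forms.refl Q w hw x) := by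
  rw [← glEquiv_apply, ← coe_isoEquiv, isoEquiv_listGL]
  rfl

/-- An element of the inner-diagonal group, outside the inner one when `-1 ∈ Ω`, commuting with the involution. -/
theorem exists_comm_not_mem {g : Simil.Sim Q} (hs : Simil.sign hg g = -1) {l : F}
    (hsq : ∀ v, (g : GL ι F).1 *ᵥ ((g : GL ι F).1 *ᵥ v) = l • v) :
    ∃ k : Cfsg.isometryGroup F ⇑Q, (k : GL ι F).1.det = 1 ∧ k ∉ Cfsg.Omega F ⇑Q ∧
      Simil.act Q (Simil.ofIso k) * Simil.act Q g = Simil.act Q g * Simil.act Q (Simil.ofIso k) := by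
  have h2 := hg.two_ne
  set μ : F := (Simil.mult hg g : F)
  have hμ0 : μ ≠ 0 := (Simil.mult hg g).ne_zero
  have hd := Simil.hq hg
  have hl0 : l ≠ 0 := fun e => by
    obtain ⟨u, hu⟩ := Simil.exists_value_one hg
    have h1 := congrArg Q (hsq u)
    rw [e, zero_smul, QuadraticMap.map_zero, Simil.mult_spec hg, Simil.mult_spec hg, hu] at h1
    exact hμ0 (by simpa using h1)
  have hll : l * l = μ * μ := by
    obtain ⟨u, hu⟩ := Simil.exists_value_one hg
    have h1 := congrArg Q (hsq u)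
    rw [QuadraticMap.map_smul, Simil.mult_spec hg, Simil.mult_spec hg, hu, smul_eq_mul, mul_one, mul_one] at h1
    exact h1.symm
  have hpol : ∀ x y, bq ((g : GL ι F).1 *ᵥ x) ((g : GL ι F).1 *ᵥ y) = μ * bq x y := fun x y => by
    simp only [polar, ← mulVec_add, Simil.mult_spec hg]; ring
  have hcomm : ∀ (u w : V) (hu : Q u ≠ 0) (hw : Q w ≠ 0), bq u w = 0 → ∀ x,
      Forms.refl Q u hu (Forms.refl Q w hw x) = Forms.refl Q w hw (Forms.refl Q u hu x) := by
    intro u w hu hw huw x
    simp only [Forms.refl_apply, polar_sub_left, polar_smul_left, huw, polar_comm (⇑Q) w u, smul_eq_mul,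
      mul_zero, sub_zero]
    abel
  -- it suffices to find two orthogonal vectors with nonsquare product of values moved to each other
  have fin : ∀ (u w : V) (hu : Q u ≠ 0) (hw : Q w ≠ 0), ¬ IsSquare (Q u * Q w) → bq u w = 0 →
      ((∃ a b : F, a ≠ 0 ∧ b ≠ 0 ∧ (g : GL ι F).1 *ᵥ u = a • w ∧ (g : GL ι F).1 *ᵥ w = b • u) ∨
        ∃ a : F, a ≠ 0 ∧ (g : GL ι F).1 *ᵥ u = a • u ∧ (g : GL ι F).1 *ᵥ w = a • w) →
      ∃ k : Cfsg.isometryGroup F ⇑Q, (k : GL ι F).1.det = 1 ∧ k ∉ Cfsg.Omega F ⇑Q ∧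
        Simil.act Q (Simil.ofIso k) * Simil.act Q g = Simil.act Q g * Simil.act Q (Simil.ofIso k) := by
    intro u w hu hw hns huw hmove
    set k := listGL Q [⟨u, hu⟩, ⟨w, hw⟩]
    refine ⟨k, (Simil.det_one_iff_even hg (isoEquiv_listGL _)).2 ⟨1, rfl⟩, fun hm => hns ?_, ?_⟩
    · simpa [valueProd] using ((mem_Omega_of_list hg.nondeg hd (isoEquiv_listGL _)).1 hm).2
    · rw [← map_mul, ← map_mul]
      congr 1
      refine Subtype.ext (Units.ext (Matrix.ext_iff_mulVec.2 fun x => ?_))
      show ((k : GL ι F) * (g : GL ι F) : GL ι F).1 *ᵥ x = ((g : GL ι F) * (k : GL ι F) : GL ι F).1 *ᵥ x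
      rw [Units.val_mul, Units.val_mul, ← mulVec_mulVec, ← mulVec_mulVec, refl_pair hg hn, refl_pair hg hn]
      have key : ∀ (z z' : V) (hz : Q z ≠ 0) (hz' : Q z' ≠ 0) (a : F), a ≠ 0 → (g : GL ι F).1 *ᵥ z = a • z' →
          ∀ y, (g : GL ι F).1 *ᵥ Forms.refl Q z hz y = Forms.refl Q z' hz' ((g : GL ι F).1 *ᵥ y) := by
        intro z z' hz hz' a ha e y
        rw [Forms.refl_apply, Forms.refl_apply, mulVec_sub, mulVec_smul, e, smul_smul]
        congr 2
        have h1 := hpol y z
        rw [e, polar_smul_right, smul_eq_mul] at h1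
        have h3 := Simil.mult_spec hg g z
        rw [e, QuadraticMap.map_smul, smul_eq_mul] at h3
        have h4 : bq y z * a * Q z' = Q z * bq ((g : GL ι F).1 *ᵥ y) z' := mul_left_cancel₀ ha (by
          change a * a * Q z' = μ * Q z at h3
          linear_combination bq y z * h3 - Q z * h1)
        field_simp
        linear_combination h4
      rcases hmove with ⟨a, b, ha, hb, e1, e2⟩ | ⟨a, ha, e1, e2⟩
      · rw [key u w hu hw a ha e1, key w u hw hu b hb e2, hcomm u w hu hw huw]
      · rw [key u u hu hu a ha e1, key w w hw hw a ha e2]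
  by_cases hμ : IsSquare μ
  · obtain ⟨c, hc⟩ := hμ
    have hc0 : c ≠ 0 := fun e => hμ0 (by rw [hc, e, mul_zero])
    obtain ⟨r, hr⟩ := exists_smul_iso (g : GL ι F) hc0 (Q := Q) fun v => by rw [Simil.mult_spec hg, ← hc]
    have hrr : ∀ v, (r : GL ι F).1 *ᵥ ((r : GL ι F).1 *ᵥ v) = (l / μ) • v := fun v => by
      have h1 := hsq v
      rw [hr, hr, mulVec_smul, smul_smul, ← hc] at h1
      rw [div_eq_inv_mul, ← smul_smul, ← h1, inv_smul_smul₀ hμ0]
    have hdet : (r : GL ι F).1.det = -1 := by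
      have e : (g : GL ι F).1 = c • (r : GL ι F).1 := Matrix.ext_iff_mulVec.2 fun v => by rw [hr, smul_mulVec]
      have h1 := Simil.sign_val hg g
      obtain ⟨n, hn'⟩ := hg.card
      rw [hs, show (Simil.mult hg g : F) = c * c from hc, e, det_smul, hn',
        show (n + n) / 2 = n by omega, ← pow_two, ← pow_mul, two_mul, mul_div_cancel_left₀ _ (pow_ne_zero _ hc0)] at h1
      simpa using h1.symm
    have hε : l / μ = 1 := by
      have h1 : (l / μ) * (l / μ) = 1 := by rw [div_mul_div_comm, hll, div_self (mul_ne_zero hμ0 hμ0)]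
      refine (mul_self_eq_one_iff.1 h1).resolve_right fun hε => ?_
      -- `1 + r` is a similarity with multiplier two
      have hN : ∀ v, Q ((1 + (r : GL ι F).1) *ᵥ v) = 2 * Q v := fun v => by
        rw [add_mulVec, one_mulVec, QuadraticMap.map_add (⇑Q), mem_isometryGroup.1 r.2]
        have h3 : bq v ((r : GL ι F).1 *ᵥ v) = 0 := by
          have h4 : bq ((r : GL ι F).1 *ᵥ v) ((r : GL ι F).1 *ᵥ ((r : GL ι F).1 *ᵥ v)) = bq v ((r : GL ι F).1 *ᵥ v) := by
            simp only [polar, ← mulVec_add, mem_isometryGroup.1 r.2]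
          rw [hrr, hε, polar_smul_right, polar_comm, smul_eq_mul] at h4
          exact (mul_eq_zero.1 (show (2 : F) * bq v ((r : GL ι F).1 *ᵥ v) = 0 by linear_combination -h4)).resolve_left h2
        rw [h3]; ring
      have hunit : IsUnit (1 + (r : GL ι F).1).det := by
        rw [isUnit_iff_ne_zero]
        intro h0
        obtain ⟨v, hv0, hv⟩ := Matrix.exists_mulVec_eq_zero_iff.2 h0
        rw [add_mulVec, one_mulVec] at hv
        have h5 := hrr v
        rw [eq_neg_of_add_eq_zero_right hv, mulVec_neg, eq_neg_of_add_eq_zero_right hv, neg_neg, hε, neg_one_smul] at h5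
        exact hv0 ((smul_eq_zero.1 (show (2 : F) • v = 0 by rw [two_smul]; nth_rewrite 1 [h5]; exact neg_add_cancel v)).resolve_left h2)
      let G : Simil.Sim Q := ⟨GeneralLinearGroup.mkOfDetNeZero _ hunit.ne_zero, Units.mk0 2 h2, hN⟩
      have hG : (Simil.mult hg G : F) = 2 := by
        obtain ⟨u, hu⟩ := Simil.exists_value_one hg
        have h3 := Simil.mult_spec hg G u
        rw [show ((G : GL ι F).1 *ᵥ u) = (1 + (r : GL ι F).1) *ᵥ u from rfl, hN, hu, mul_one, mul_one] at h3
        exact h3.symm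
      have h6 := Simil.det_sq hg G
      rw [hG, show (G : GL ι F).1 = 1 + (r : GL ι F).1 from rfl] at h6
      have hrr' : (r : GL ι F).1 * (r : GL ι F).1 = -1 := Matrix.ext_iff_mulVec.2 fun v => by
        rw [← mulVec_mulVec, hrr, hε, neg_mulVec, one_mulVec, neg_one_smul]
      have h7 : (1 + (r : GL ι F).1) * (1 + (r : GL ι F).1) = (2 : F) • (r : GL ι F).1 := by
        rw [mul_add, add_mul, add_mul, hrr', one_mul, one_mul, mul_one, two_smul]
        abel
      have h8 := congrArg Matrix.det h7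
      rw [det_mul, det_smul, ← pow_two, h6, hdet, mul_neg, mul_one] at h8
      exact pow_ne_zero (Fintype.card ι) h2
        ((mul_eq_zero.1 (show (2 : F) * (2 : F) ^ Fintype.card ι = 0 by linear_combination h8)).resolve_left h2)
    -- eigenspaces of the involution
    set E₁ : Submodule F V := LinearMap.ker (Matrix.toLin' (r : GL ι F).1 - LinearMap.id) with hE₁
    set E₂ : Submodule F V := LinearMap.ker (Matrix.toLin' (r : GL ι F).1 + LinearMap.id) with hE₂
    have hm1 : ∀ v, v ∈ E₁ ↔ (r : GL ι F).1 *ᵥ v = v := fun v => by simp [hE₁, sub_eq_zero]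
    have hm2 : ∀ v, v ∈ E₂ ↔ (r : GL ι F).1 *ᵥ v = -v := fun v => by simp [hE₂, add_eq_zero_iff_eq_neg]
    have hrr1 : ∀ v, (r : GL ι F).1 *ᵥ ((r : GL ι F).1 *ᵥ v) = v := fun v => by rw [hrr, hε, one_smul]
    have hsum : E₁ ⊔ E₂ = ⊤ := eq_top_iff.2 fun v _ => Submodule.mem_sup.2
      ⟨(2 : F)⁻¹ • (v + (r : GL ι F).1 *ᵥ v), (hm1 _).2 (by rw [mulVec_smul, mulVec_add, hrr1, add_comm]),
        (2 : F)⁻¹ • (v - (r : GL ι F).1 *ᵥ v), (hm2 _).2 (by rw [mulVec_smul, mulVec_sub, hrr1, ← smul_neg, neg_sub]), by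
          rw [← smul_add, add_add_sub_cancel, ← two_smul F, inv_smul_smul₀ h2]⟩
    have horth : ∀ x ∈ E₁, ∀ y ∈ E₂, bq x y = 0 := fun x hx y hy => by
      have h3 : bq ((r : GL ι F).1 *ᵥ x) ((r : GL ι F).1 *ᵥ y) = bq x y := by
        simp only [polar, ← mulVec_add, mem_isometryGroup.1 r.2]
      rw [(hm1 x).1 hx, (hm2 y).1 hy, polar_neg_right] at h3
      exact (mul_eq_zero.1 (show (2 : F) * bq x y = 0 by linear_combination -h3)).resolve_left h2
    obtain ⟨E, ε, hε1, hEdim, hE, hEperp⟩ : ∃ (E : Submodule F V) (ε : F), ε * ε = 1 ∧ 3 ≤ Module.finrank F E ∧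
        (∀ x ∈ E, (r : GL ι F).1 *ᵥ x = ε • x) ∧ ∀ x ∈ E, x ∈ perp Q E → x = 0 := by
      have h3 := Submodule.finrank_sup_add_finrank_inf_eq E₁ E₂
      rw [hsum, finrank_top, Module.finrank_fintype_fun_eq_card] at h3
      have hnd : ∀ (A B : Submodule F V), A ⊔ B = ⊤ → (∀ x ∈ A, ∀ y ∈ B, bq x y = 0) → ∀ x ∈ A, x ∈ perp Q A → x = 0 := by
        intro A B hAB hAB' x hx hxp
        refine polar_ext hg.nondeg fun y => ?_
        obtain ⟨a, ha, b, hb, rfl⟩ := Submodule.mem_sup.1 (hAB ▸ Submodule.mem_top : y ∈ A ⊔ B)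
        rw [polar_add_right, mem_perp.1 hxp a ha, hAB' x hx b hb, add_zero]
      by_cases hbig : 3 ≤ Module.finrank F E₁
      · exact ⟨E₁, 1, one_mul 1, hbig, fun x hx => by rw [(hm1 x).1 hx, one_smul], hnd E₁ E₂ hsum horth⟩
      · refine ⟨E₂, -1, by ring, ?_, fun x hx => by rw [(hm2 x).1 hx, neg_one_smul], hnd E₂ E₁ (by rw [sup_comm, hsum])
          fun x hx y hy => by rw [polar_comm]; exact horth y hy x hx⟩
        have hinf : Module.finrank F ↥(E₁ ⊓ E₂) ≤ Module.finrank F E₁ := Submodule.finrank_mono inf_le_left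
        omega
    obtain ⟨d, hdE, hd0, hdQ⟩ := exists_singular Q E hEdim
    obtain ⟨y, hyE, hy⟩ : ∃ y ∈ E, bq d y ≠ 0 := by
      by_contra hall
      push Not at hall
      exact hd0 (hEperp d hdE (mem_perp.2 hall))
    set y' := (bq d y)⁻¹ • y with hy'
    have hdy : bq d y' = 1 := by simp only [hy', polar_smul_right, smul_eq_mul, inv_mul_cancel₀ hy]
    set f := y' + (-Q y') • d with hf
    have hff : Q f = 0 := by rw [hf, map_add_smul, hdQ, polar_comm, hdy]; ring
    have hdf : bq d f = 1 := by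
      rw [hf, polar_add_right, hdy, polar_smul_right, polar_self, hdQ]; simp
    have hfE : f ∈ E := E.add_mem (E.smul_mem _ hyE) (E.smul_mem _ hdE)
    obtain ⟨ν, hν⟩ := FiniteField.exists_nonsquare (F := F) fun hc2 => h2 (by
      haveI := ringChar.of_eq hc2; exact CharTwo.two_eq_zero)
    -- orthogonal vectors with values of nonsquare product
    obtain ⟨z, hz, hzQ, hzd, hzf⟩ : ∃ z ∈ E, Q z ≠ 0 ∧ bq z d = 0 ∧ bq z f = 0 := by
      obtain ⟨w, hwE, hwn⟩ : ∃ w ∈ E, w ∉ Submodule.span F ({d, f} : Set V) := by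
        by_contra hall
        push Not at hall
        have h4 := Submodule.finrank_mono hall
        have h5 := CfsgLib.AutPO.finrank_span_pair_le (F := F) d f
        omega
      set z := w - bq w f • d - bq w d • f with hz
      have hzE : z ∈ E := E.sub_mem (E.sub_mem hwE (E.smul_mem _ hdE)) (E.smul_mem _ hfE)
      have hzd : bq z d = 0 := by
        simp [hz, polar_sub_left, polar_smul_left, polar_self, hdQ, polar_comm (⇑Q) f d, hdf]
      have hzf : bq z f = 0 := by simp [hz, polar_sub_left, polar_smul_left, polar_self, hff, hdf]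
      have hz0 : z ≠ 0 := fun e => hwn (by
        rw [show w = bq w f • d + bq w d • f by rw [hz, sub_sub, sub_eq_zero] at e; exact e]
        exact Submodule.mem_span_pair.2 ⟨_, _, rfl⟩)
      by_cases hzq : Q z = 0
      · obtain ⟨x, hxE, hx⟩ : ∃ x ∈ E, bq z x ≠ 0 := by
          by_contra hall
          push Not at hall
          exact hz0 (hEperp z hzE (mem_perp.2 hall))
        set x' := x - bq x f • d - bq x d • f with hx'
        have hx'E : x' ∈ E := E.sub_mem (E.sub_mem hxE (E.smul_mem _ hdE)) (E.smul_mem _ hfE)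
        have hx'd : bq x' d = 0 := by
          simp [hx', polar_sub_left, polar_smul_left, polar_self, hdQ, polar_comm (⇑Q) f d, hdf]
        have hx'f : bq x' f = 0 := by simp [hx', polar_sub_left, polar_smul_left, polar_self, hff, hdf]
        have hzx' : bq z x' = bq z x := by simp [hx', polar_sub_right, polar_smul_right, hzd, hzf]
        rcases eq_or_ne (Q x') 0 with hxq | hxq
        · refine ⟨z + x', E.add_mem hzE hx'E, ?_, by rw [polar_add_left, hzd, hx'd, add_zero],
            by rw [polar_add_left, hzf, hx'f, add_zero]⟩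
          rw [QuadraticMap.map_add (⇑Q), hzq, hxq, hzx', zero_add, zero_add]; exact hx
        · exact ⟨x', hx'E, hxq, hx'd, hx'f⟩
      · exact ⟨z, hzE, hzq, hzd, hzf⟩
    refine fin (d + (Q z * ν) • f) z ?_ hzQ ?_ ?_ (Or.inr ⟨c * ε, ?_, ?_, ?_⟩)
    · rw [map_add_smul, hdQ, hff, hdf]
      simpa using ⟨hzQ, fun e : ν = 0 => hν (e.symm ▸ IsSquare.zero)⟩
    · rw [map_add_smul, hdQ, hff, hdf]
      intro hsq'
      refine hν ?_
      have h4 : IsSquare (ν * (Q z * Q z)) := by convert hsq' using 1; ring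
      exact ((isSquare_mul_iff' (fun e : ν = 0 => hν (e.symm ▸ IsSquare.zero)) (mul_ne_zero hzQ hzQ)).1 h4).2 (IsSquare.mul_self _)
    · rw [polar_add_left, polar_smul_left, polar_comm, hzd, polar_comm (⇑Q) f z, hzf]; simp
    · exact mul_ne_zero hc0 (fun e => by rw [e, mul_zero] at hε1; exact zero_ne_one hε1)
    · rw [hr, hE _ (E.add_mem hdE (E.smul_mem _ hfE)), smul_smul]
    · rw [hr, hE _ hz, smul_smul]
  · -- nonsquare multiplier: a vector orthogonal to its image
    obtain ⟨u, hu, hugu⟩ : ∃ u, Q u ≠ 0 ∧ bq u ((g : GL ι F).1 *ᵥ u) = 0 := by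
      rcases (mul_self_eq_mul_self_iff.1 hll) with hl | hl
      · by_contra hall
        push Not at hall
        set B : LinearMap.BilinForm F V := (polarBilin Q).compl₂ (Matrix.toLin' (g : GL ι F).1) with hB
        have hBapp : ∀ x y, B x y = bq x ((g : GL ι F).1 *ᵥ y) := fun x y => rfl
        set R := B.toQuadraticMap with hR
        have hRv : ∀ v, R v = bq v ((g : GL ι F).1 *ᵥ v) := fun v => rfl
        have hsym : ∀ x y, bq x ((g : GL ι F).1 *ᵥ y) = bq y ((g : GL ι F).1 *ᵥ x) := fun x y => by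
          have h1 := hpol x ((g : GL ι F).1 *ᵥ y)
          rw [hsq, hl, polar_smul_right, smul_eq_mul, polar_comm (⇑Q) _ y] at h1
          exact (mul_left_cancel₀ hμ0 h1).symm
        have hRp : ∀ x y, polar (⇑R) x y = 2 * bq x ((g : GL ι F).1 *ᵥ y) := fun x y => by
          show R (x + y) - R x - R y = _
          rw [hRv, hRv, hRv, mulVec_add]
          rw [polar_add_left, polar_add_right, polar_add_right, hsym y x]
          ring
        have hRnd : (polarBilin R).Nondegenerate := nondegenerate_iff.2 fun x hx => by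
          refine polar_ext hg.nondeg fun y => ?_
          have h1 := hx ((g : GL ι F).1 *ᵥ y)
          rw [hRp, hsq, polar_smul_right, smul_eq_mul, mul_eq_zero, or_iff_right h2, mul_eq_zero, or_iff_right hl0] at h1
          exact h1
        obtain ⟨c, hc⟩ := exists_scalar_of_zeros (Q := Q) hRnd hn fun v hv => by
          by_contra hv0; exact hall v hv0 (by rw [← hRv]; exact hv)
        -- then `g` is a scalar, of sign one
        have hsc : ∀ v, (2 * c) • ((g : GL ι F).1 *ᵥ v) = v := fun v => by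
          refine sub_eq_zero.1 (polar_ext hg.nondeg fun y => ?_)
          have h1 : bq v y = c * polar (⇑R) v y := by simp only [polar, hc]; ring
          rw [hRp, hsym, polar_comm (⇑Q) y] at h1
          rw [polar_sub_left, polar_smul_left, smul_eq_mul, h1]
          ring
        obtain ⟨n, hn'⟩ := hg.card
        have hc2 : (2 : F) * c ≠ 0 := fun e => by
          obtain ⟨v, hv⟩ := Simil.exists_value_one hg
          have h1 := hsc v
          rw [e, zero_smul] at h1
          rw [← h1, QuadraticMap.map_zero] at hv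
          exact zero_ne_one hv
        have hgm : (g : GL ι F).1 = Matrix.diagonal fun _ => (2 * c)⁻¹ := Matrix.ext_iff_mulVec.2 fun v => by
          funext i
          rw [mulVec_diagonal]
          conv_rhs => rw [← hsc v]
          rw [Pi.smul_apply, smul_eq_mul, inv_mul_cancel_left₀ hc2]
        have hμc : μ = (2 * c)⁻¹ * (2 * c)⁻¹ := by
          obtain ⟨v, hv⟩ := Simil.exists_value_one hg
          have h1 := Simil.mult_spec hg g v
          rw [hgm, show (Matrix.diagonal fun _ => (2 * c)⁻¹) *ᵥ v = (2 * c)⁻¹ • v from funext fun i => mulVec_diagonal _ _ i,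
            QuadraticMap.map_smul, hv, smul_eq_mul, mul_one, mul_one] at h1
          exact h1.symm
        exact hμ ⟨_, hμc⟩
      · obtain ⟨u, hu⟩ := Simil.exists_value_one hg
        refine ⟨u, by rw [hu]; exact one_ne_zero, ?_⟩
        have h1 := hpol u ((g : GL ι F).1 *ᵥ u)
        rw [hsq, hl, polar_smul_right, smul_eq_mul, polar_comm (⇑Q) _ u] at h1
        exact (mul_eq_zero.1 (show (2 * μ) * bq u ((g : GL ι F).1 *ᵥ u) = 0 by linear_combination -h1)).resolve_left
          (mul_ne_zero h2 hμ0)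
    have hgu : Q ((g : GL ι F).1 *ᵥ u) = μ * Q u := Simil.mult_spec hg g u
    refine fin u ((g : GL ι F).1 *ᵥ u) hu (by rw [hgu]; exact mul_ne_zero hμ0 hu) ?_ hugu
      (Or.inl ⟨1, l, one_ne_zero, hl0, (one_smul F _).symm, hsq u⟩)
    rw [hgu]
    intro hsq'
    have h4 : IsSquare (μ * (Q u * Q u)) := by convert hsq' using 1; ring
    exact hμ (((isSquare_mul_iff' hμ0 (mul_ne_zero hu hu)).1 h4).2 (IsSquare.mul_self _))

omit hn in
/-- Elements of the inner-diagonal group commute modulo inner automorphisms. -/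
theorem simOut_comm {x y : Simil.Sim Q} (hx : Simil.sign hg x = 1) (hy : Simil.sign hg y = 1)
    {g₀ : Simil.Sim Q} (hs₀ : Simil.sign hg g₀ = 1) (hμ₀ : ¬ IsSquare (Simil.mult hg g₀ : F)) :
    simOut x * simOut y = simOut y * simOut x := by
  have key : ∀ {H : Type} [CommGroup H]
      (φ : ↥((Simil.sign hg).ker.map (Simil.act Q)) →* H), φ.ker = (Cfsg.Inn PΩ').subgroupOf _ →
      simOut x * simOut y = simOut y * simOut x := by
    intro H _ φ hk
    let X : ↥((Simil.sign hg).ker.map (Simil.act Q)) := ⟨_, x, MonoidHom.mem_ker.2 hx, rfl⟩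
    let Y : ↥((Simil.sign hg).ker.map (Simil.act Q)) := ⟨_, y, MonoidHom.mem_ker.2 hy, rfl⟩
    have h1 : (X * Y)⁻¹ * (Y * X) ∈ φ.ker := by
      rw [MonoidHom.mem_ker, map_mul, map_inv, map_mul, map_mul, mul_comm (φ Y), inv_mul_cancel]
    rw [hk, Subgroup.mem_subgroupOf] at h1
    exact QuotientGroup.eq.2 h1
  by_cases hneg : (Simil.negOne (Q := Q)) ∈ Cfsg.Omega F ⇑Q
  · obtain ⟨k, -, hk⟩ := exists_iso_of_sign hg (g := g₀ * g₀) (by rw [map_mul, hs₀, one_mul])
      (by rw [map_mul, Units.val_mul]; exact IsSquare.mul_self _)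
    obtain ⟨h1, h2⟩ := exists_hom_four hg hneg hs₀ hμ₀ hk
    by_cases hkm : k ∈ Cfsg.Omega F ⇑Q
    · obtain ⟨φ, -, hφ⟩ := h1 hkm; exact key φ hφ
    · obtain ⟨φ, -, hφ⟩ := h2 hkm; exact key φ hφ
  · obtain ⟨φ, -, hφ⟩ := exists_hom_two hg hneg hs₀ hμ₀
    exact key φ hφ

/-- With `-1` in `Ω` a centralising element of the inner-diagonal group has square multiplier. -/
theorem square_of_comm (hneg : (Simil.negOne (Q := Q)) ∈ Cfsg.Omega F ⇑Q) {g c : Simil.Sim Q}
    (hs : Simil.sign hg g = -1) (hc : Simil.sign hg c = 1)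
    (hcomm : simOut c * simOut g = simOut g * simOut c) : IsSquare (Simil.mult hg c : F) := by
  by_contra hμ
  obtain ⟨u, hu, -, hdet⟩ := Simil.exists_refl hg 1 one_ne_zero
  set T := listGL Q [⟨u, hu⟩]
  have hsT : Simil.sign hg (Simil.ofIso T) = -1 := Units.ext (by
    rw [Simil.sign_val hg, Simil.mult_ofIso hg, Units.val_one, one_pow, div_one, Units.val_neg, Units.val_one]
    exact hdet)
  have hgT : Simil.sign hg (g * Simil.ofIso T) = 1 := by rw [map_mul, hs, hsT]; simp
  have h1 := simOut_comm hg hc hgT hc hμ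
  rw [map_mul, ← mul_assoc, hcomm, mul_assoc, mul_assoc] at h1
  have h2 : simOut c * simOut (Simil.ofIso T) = simOut (Simil.ofIso T) * simOut c := mul_left_cancel h1
  have hw : Q (((c⁻¹ : Simil.Sim Q) : GL ι F).1 *ᵥ u) = (Simil.mult hg c : F)⁻¹ * Q u := by
    rw [Simil.mult_spec hg, map_inv, Units.val_inv_eq_inv_val]
  have hw0 : Q (((c⁻¹ : Simil.Sim Q) : GL ι F).1 *ᵥ u) ≠ 0 := by
    rw [hw]; exact mul_ne_zero (inv_ne_zero (Simil.mult hg c).ne_zero) hu
  have e1 : c⁻¹ * Simil.ofIso T * c = Simil.ofIso (listGL Q [⟨_, hw0⟩]) := by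
    rw [← Simil.conj_refl hg c⁻¹ u hu hw0]
    refine Subtype.ext ?_
    show ((c : GL ι F)⁻¹ * (T : GL ι F) * (c : GL ι F) : GL ι F) = (c : GL ι F)⁻¹ * (T : GL ι F) * (c : GL ι F)⁻¹⁻¹
    rw [inv_inv]
  have h3 : simOut (Simil.ofIso (listGL Q [⟨_, hw0⟩] * T⁻¹)) = (1 : Cfsg.Out PΩ') := by
    rw [map_mul, map_inv, ← e1, map_mul, map_inv, map_mul, map_mul, map_inv, mul_assoc _ _ (simOut c), ← h2,
      inv_mul_cancel_left, mul_inv_cancel]
  have h4 := (Simil.act_mem_inn_iff hg hneg _).1 ((QuotientGroup.eq_one_iff _).1 h3)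
  have hl : isoEquiv Q (listGL Q [⟨_, hw0⟩] * T⁻¹) = ⟨reflProd Q [⟨_, hw0⟩, ⟨u, hu⟩], reflProd_mem_isom _⟩ := by
    rw [map_mul, map_inv, isoEquiv_listGL, isoEquiv_listGL]
    exact Subtype.ext (LinearEquiv.ext fun v => rfl)
  have h5 := ((mem_Omega_of_list hg.nondeg (Simil.hq hg) hl).1 h4).2
  simp only [valueProd, List.map_cons, List.map_nil, List.prod_cons, List.prod_nil, mul_one, hw, mul_assoc] at h5
  rw [isSquare_mul_iff' (inv_ne_zero (Simil.mult hg c).ne_zero) (mul_ne_zero hu hu), isSquare_inv] at h5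
  exact hμ (h5.2 (IsSquare.mul_self _))

/-- The class of an involution of sign `-1` splits into at most two, and exactly two when `-1 ∈ Ω`. -/
theorem split_graph {g : Simil.Sim Q} (hs : Simil.sign hg g = -1) (h2' : orderOf (Simil.act Q g) = 2)
    {g₀ : Simil.Sim Q} (hs₀ : Simil.sign hg g₀ = 1) (hμ₀ : ¬ IsSquare (Simil.mult hg g₀ : F)) :
    (Cfsg.splitClassCount ((Simil.sign hg).ker.map (Simil.act Q)) (Cfsg.Inn PΩ') (Simil.act Q g) = 1 ∨
      Cfsg.splitClassCount ((Simil.sign hg).ker.map (Simil.act Q)) (Cfsg.Inn PΩ') (Simil.act Q g) = 2) ∧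
    ((Simil.negOne (Q := Q)) ∈ Cfsg.Omega F ⇑Q →
      Cfsg.splitClassCount ((Simil.sign hg).ker.map (Simil.act Q)) (Cfsg.Inn PΩ') (Simil.act Q g) = 2) ∧
    ((∀ c : Simil.Sim Q, Simil.sign hg c = 1 → Simil.act Q c * Simil.act Q g = Simil.act Q g * Simil.act Q c →
        IsSquare (Simil.mult hg c : F)) →
      Cfsg.splitClassCount ((Simil.sign hg).ker.map (Simil.act Q)) (Cfsg.Inn PΩ') (Simil.act Q g) = 2) := by
  set P := (Simil.sign hg).ker.map (Simil.act Q) with hP
  have hgg : Simil.act Q (g * g) = 1 := by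
    rw [map_mul, ← pow_two, ← h2', pow_orderOf_eq_one]
  obtain ⟨l, hl⟩ := (Simil.act_eq_one_iff hg _).1 hgg
  have hsq : ∀ v, (g : GL ι F).1 *ᵥ ((g : GL ι F).1 *ᵥ v) = (l : F) • v := fun v => by
    rw [mulVec_mulVec, ← Simil.scalar_mulVec hg l v, ← hl]; rfl
  obtain ⟨k, hkd, hk, hkc⟩ := exists_comm_not_mem hg hn hs hsq
  have hkP : Simil.act Q (Simil.ofIso k) ∈ P ⊓ Subgroup.centralizer {Simil.act Q g} :=
    ⟨⟨_, MonoidHom.mem_ker.2 (Units.ext (by
      rw [Simil.sign_val hg, Simil.mult_ofIso hg, Units.val_one, one_pow, div_one]; exact hkd)), rfl⟩,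
      Subgroup.mem_centralizer_singleton_iff.2 hkc⟩
  have hle : Cfsg.Inn PΩ' ≤ P := fun β hβ => by
    obtain ⟨w, hw, rfl⟩ := (Simil.mem_inn_iff β).1 hβ
    obtain ⟨ll, hll⟩ := exists_list hg.nondeg (Simil.hq hg) w
    refine ⟨_, MonoidHom.mem_ker.2 (Units.ext ?_), rfl⟩
    rw [Simil.sign_val hg, Simil.mult_ofIso hg, Units.val_one, one_pow, div_one]
    exact (Simil.det_one_iff_even hg hll).2 ((mem_Omega_of_list hg.nondeg (Simil.hq hg) hll).1 hw).1
  -- square multiplier means inner up to the centraliser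
  have hin : ∀ c : Simil.Sim Q, Simil.sign hg c = 1 → IsSquare (Simil.mult hg c : F) →
      ∃ i ∈ Cfsg.Inn PΩ', ∃ d ∈ P ⊓ Subgroup.centralizer {Simil.act Q g}, Simil.act Q c = i * d := by
    intro c hc hcs
    obtain ⟨j, hj, e⟩ := exists_iso_of_sign hg hc hcs
    rcases Simil.special_dichotomy hg hkd hk hj with hm | hm
    · exact ⟨_, (Simil.mem_inn_iff _).2 ⟨j, hm, rfl⟩, 1, one_mem _, by rw [mul_one, e]⟩
    · exact ⟨_, (Simil.mem_inn_iff _).2 ⟨j * k, hm, rfl⟩, _, inv_mem hkP, by
        rw [e, map_mul, map_mul, mul_inv_cancel_right]⟩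
  by_cases hex : ∃ c : Simil.Sim Q, Simil.sign hg c = 1 ∧ ¬ IsSquare (Simil.mult hg c : F) ∧
      Simil.act Q c * Simil.act Q g = Simil.act Q g * Simil.act Q c
  · obtain ⟨c, hc, hcμ, hcc⟩ := hex
    have hcP : Simil.act Q c ∈ P ⊓ Subgroup.centralizer {Simil.act Q g} :=
      ⟨⟨_, MonoidHom.mem_ker.2 hc, rfl⟩, Subgroup.mem_centralizer_singleton_iff.2 hcc⟩
    refine ⟨Or.inl ?_, fun hneg => absurd (square_of_comm hg hn hneg hs hc (by
      show QuotientGroup.mk' _ _ * QuotientGroup.mk' _ _ = QuotientGroup.mk' _ _ * QuotientGroup.mk' _ _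
      rw [← map_mul (QuotientGroup.mk' _), ← map_mul (QuotientGroup.mk' _)]; exact congrArg _ hcc)) hcμ,
      fun hall => absurd (hall c hc hcc) hcμ⟩
    rw [CfsgLib.AutPSL.splitClassCount_eq_card (A := PUnit.{1}) _ _ _ hle 1 (fun a => ⟨1, Subsingleton.elim _ _⟩)
      fun x => ?_, Nat.card_eq_fintype_card, Fintype.card_punit]
    refine iff_of_true (Subsingleton.elim _ _) ?_
    obtain ⟨x', hx', e⟩ := x.2
    by_cases hxs : IsSquare (Simil.mult hg x' : F)
    · obtain ⟨i, hi, d, hd', ed⟩ := hin x' (MonoidHom.mem_ker.1 hx') hxs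
      exact ⟨i, hi, d, hd', e.symm.trans ed⟩
    · obtain ⟨i, hi, d, hd', ed⟩ := hin (x' * c⁻¹) (by rw [map_mul, map_inv, MonoidHom.mem_ker.1 hx', hc]; simp) (by
        rw [map_mul, map_inv, Units.val_mul, Units.val_inv_eq_inv_val,
          isSquare_mul_iff' (Simil.mult hg x').ne_zero (inv_ne_zero (Simil.mult hg c).ne_zero), isSquare_inv]
        exact iff_of_false hxs hcμ)
      refine ⟨i, hi, d * Simil.act Q c, mul_mem hd' hcP, ?_⟩
      rw [map_mul, map_inv, mul_inv_eq_iff_eq_mul, mul_assoc] at ed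
      exact e.symm.trans ed
  · push Not at hex
    have h2c : Cfsg.splitClassCount P (Cfsg.Inn PΩ') (Simil.act Q g) = 2 := by
      let π : ↥(Simil.sign hg).ker →* Multiplicative (ZMod 2) :=
        (Simil.sqInd.comp (Simil.mult hg)).comp (Simil.sign hg).ker.subtype
      let ψ : ↥(Simil.sign hg).ker →* ↥P :=
        ((Simil.act Q).comp (Simil.sign hg).ker.subtype).codRestrict P fun x => ⟨x, x.2, rfl⟩
      have hψ : Function.Surjective ψ := fun x => by
        obtain ⟨x', hx', e⟩ := x.2; exact ⟨⟨x', hx'⟩, Subtype.ext e⟩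
      have hk' : ψ.ker ≤ π.ker := fun x hx => MonoidHom.mem_ker.2 ((Simil.sqInd_eq_one _).2 (sq_of_inn hg (by
        show Simil.act Q x.1 ∈ _
        rw [show Simil.act Q x.1 = 1 from congrArg Subtype.val (MonoidHom.mem_ker.1 hx)]; exact one_mem _)))
      let θ := ψ.liftOfSurjective hψ ⟨π, hk'⟩
      have hθ : ∀ x, θ (ψ x) = π x := ψ.liftOfRightInverse_comp_apply _ _ ⟨π, hk'⟩
      rw [CfsgLib.AutPSL.splitClassCount_eq_card (A := Multiplicative (ZMod 2)) _ _ _ hle θ ?_ ?_,
        Nat.card_congr Multiplicative.toAdd, Nat.card_zmod]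
      · intro y
        have key : ∀ y z : Multiplicative (ZMod 2), z ≠ 1 → y = 1 ∨ y = z := by decide
        rcases key y (π ⟨g₀, MonoidHom.mem_ker.2 hs₀⟩) (fun e => hμ₀ ((Simil.sqInd_eq_one _).1 e)) with h | h
        · exact ⟨1, by rw [map_one, h]⟩
        · exact ⟨ψ ⟨g₀, _⟩, by rw [hθ, h]⟩
      · intro x
        obtain ⟨x', rfl⟩ := hψ x
        rw [hθ]
        constructor
        · intro e
          exact hin x' (MonoidHom.mem_ker.1 x'.2) ((Simil.sqInd_eq_one _).1 e)
        · rintro ⟨i, hi, d, ⟨⟨d', hd', rfl⟩, hdc⟩, e⟩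
          refine (Simil.sqInd_eq_one _).2 ?_
          have hd2 : IsSquare (Simil.mult hg d' : F) := by
            by_contra hd2
            exact hex d' (MonoidHom.mem_ker.1 hd') hd2 (Subgroup.mem_centralizer_singleton_iff.1 hdc)
          have h6 : IsSquare (Simil.mult hg ((x' : Simil.Sim Q) * d'⁻¹) : F) := sq_of_inn hg (by
            rw [map_mul, map_inv, show Simil.act Q (x' : Simil.Sim Q) = i * Simil.act Q d' from e, mul_inv_cancel_right]
            exact hi)
          rw [map_mul, map_inv, Units.val_mul, Units.val_inv_eq_inv_val,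
            isSquare_mul_iff' (Simil.mult hg _).ne_zero (inv_ne_zero (Simil.mult hg d').ne_zero), isSquare_inv] at h6
          exact h6.2 hd2
    exact ⟨Or.inr h2c, fun _ => h2c, fun _ => h2c⟩

end CfsgLib.AutPE
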