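import Cfsg.Agent.AutPE.MinusOdd
set_option autoImplicit false
set_option linter.unusedSectionVars false

/-!
The outer automorphism groups of the even-dimensional orthogonal groups in odd characteristic.
-/

namespace CfsgLib.AutPE

open QuadraticMap hiding proj
open Matrix
open CfsgLib.Forms CfsgLib.AutPO

section General

variable {F : Type*} [Field F] [Fintype F] {ι : Type} [Fintype ι] [DecidableEq ι]
  {Q : QuadraticForm F (ι → F)}

theorem card_klein : Nat.card (Multiplicative (ZMod 2 × ZMod 2)) = 4 := by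
  rw [Nat.card_congr Multiplicative.toAdd, Nat.card_prod, Nat.card_zmod]

theorem outKer_klein (h : GH Q) (hg : Simil.Good Q) (hneg : (Simil.negOne (Q := Q)) ∉ Cfsg.Omega F ⇑Q) :
    Nonempty ((outTau h).ker ≃* Multiplicative (ZMod 2 × ZMod 2)) := by
  obtain ⟨φ, hs, hk⟩ := Simil.exists_inn_hom hg hneg
  exact outKer_equiv h φ hs hk

theorem outKer_dihedral (h : GH Q) (hg : Simil.Good Q) (hneg : (Simil.negOne (Q := Q)) ∈ Cfsg.Omega F ⇑Q) :
    Nonempty ((outTau h).ker ≃* DihedralGroup 4) := by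
  obtain ⟨φ, hs, hk⟩ := Simil.exists_dihedral_hom hg hneg
  exact outKer_equiv h φ hs hk

open scoped Classical in
theorem card_outKer (h : GH Q) (hg : Simil.Good Q) :
    Nat.card (outTau h).ker = if (Simil.negOne (Q := Q)) ∈ Cfsg.Omega F ⇑Q then 8 else 4 := by
  split_ifs with hneg
  · obtain ⟨e⟩ := outKer_dihedral h hg hneg
    rw [Nat.card_congr e.toEquiv, DihedralGroup.nat_card]
  · obtain ⟨e⟩ := outKer_klein h hg hneg
    rw [Nat.card_congr e.toEquiv, card_klein]

end General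

variable {F : Type*} [Field F] [Fintype F] {m p f : ℕ} [Fact p.Prime]

theorem odd_of_card (hF : Fintype.card F = p ^ f) (hp : p ≠ 2) : Odd (Fintype.card F) :=
  hF ▸ ((Fact.out : p.Prime).odd_of_ne_two hp).pow

theorem out_plus_odd (hF : Fintype.card F = p ^ f) (hp : p ≠ 2) (hm : 5 ≤ m) :
    if p ^ f % 4 = 3 ∧ Odd m then
      Nonempty (Cfsg.Out (Cfsg.POmega F ⇑(quadPlus F m)) ≃* Multiplicative (ZMod 2 × ZMod 2 × ZMod f))
    else Nonempty (Cfsg.Out (Cfsg.POmega F ⇑(quadPlus F m)) ≃* DihedralGroup 4 × Multiplicative (ZMod f)) := by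
  haveI : CharP F p := charP_of_card_eq_prime_pow hF
  have hodd := odd_of_card hF hp
  have h := gh_plus (F := F) hm
  have hg := Simil.good_plus (F := F) hodd (m := m) (by omega)
  have hgen := gen_of_frob h hF (α := fieldP (m := m) (frob F p)) (tau_fieldP h _)
  have hpow := out_fieldP_pow (m := m) (p := p) hF
  have hneg := Simil.negOne_plus (F := F) hodd (m := m) (by omega)
  rw [← hF]
  by_cases hc : Fintype.card F % 4 = 3 ∧ Odd m
  · rw [if_pos hc]
    have hn : (Simil.negOne (Q := quadPlus F m)) ∉ Cfsg.Omega F ⇑(quadPlus F m) :=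
      fun e => hneg.1 e ⟨hc.2, hc.1⟩
    obtain ⟨ψ⟩ := outKer_klein h hg hn
    obtain ⟨e⟩ := hgen.split ψ.symm hpow (comm_of_neg h hg hn _)
    exact ⟨e.trans ((MulEquiv.prodMultiplicative _ _).symm.trans
      (AddEquiv.prodAssoc (M := ZMod 2) (N := ZMod 2) (P := ZMod f)).toMultiplicative)⟩
  · rw [if_neg hc]
    have hn : (Simil.negOne (Q := quadPlus F m)) ∈ Cfsg.Omega F ⇑(quadPlus F m) :=
      hneg.2 fun hh => hc ⟨hh.2, hh.1⟩
    obtain ⟨ψ⟩ := outKer_dihedral h hg hn
    set u : Fin m ⊕ Fin m → F := Pi.single (Sum.inl ⟨0, by omega⟩) 1 + Pi.single (Sum.inr ⟨0, by omega⟩) 1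
    have hu : quadPlus F m u ≠ 0 := by simp [u, Cfsg.quadFormPlus, Pi.single_apply]
    have hfix : semi (1 : GL (Fin m ⊕ Fin m) F) (frob F p) u = u := by
      rw [semi_one']; funext z
      rcases z with z | z <;> simp [u, Pi.single_apply] <;> split_ifs <;> simp
    obtain ⟨Φ', hgen', hf', hc'⟩ := exists_central h hg hn hgen hpow
      (by rw [Nat.card_congr ψ.toEquiv, DihedralGroup.nat_card]) hu (comm_refl h hg (isSemi_plus _) hu hfix)
    exact hgen'.split ψ.symm hf' hc'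

theorem out_minus_odd (hF : Fintype.card F = p ^ f) (hp : p ≠ 2) (hm : 3 ≤ m) {a b : F}
    (hab : ∀ z₁ z₂ : F, z₁ ^ 2 + a * z₁ * z₂ + b * z₂ ^ 2 = 0 → z₁ = 0 ∧ z₂ = 0) :
    if p ^ f % 4 = 3 ∧ Even m then
      Nonempty (Cfsg.Out (Cfsg.POmega F ⇑(quadMinus F m a b)) ≃* DihedralGroup 4 × Multiplicative (ZMod f))
    else Nonempty (Cfsg.Out (Cfsg.POmega F ⇑(quadMinus F m a b)) ≃* Multiplicative (ZMod 2 × ZMod (2 * f))) := by
  haveI : CharP F p := charP_of_card_eq_prime_pow hF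
  have hodd := odd_of_card hF hp
  have h2 := (Simil.two_ne_of_odd (F := F) hodd).2
  have h := gh_minus hm hab
  have hg := Simil.good_minus hodd hm hab
  have hgen := gen_of_frob h hF (α := phiOdd (m := m) hab h2 hp) (tau_stdAut h (isSemi_frobOdd hab h2 hp))
  obtain ⟨k, -, hkinv, hpow⟩ := phiOdd_pow_card (m := m) hab h2 hp hF hg
  have hneg := Simil.negOne_minus (F := F) hodd (m := m) hab
  rw [← hF]
  by_cases hc : Fintype.card F % 4 = 3 ∧ Even m
  · rw [if_pos hc]
    have hn := hneg.2 ⟨hc.2, hc.1⟩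
    obtain ⟨ψ⟩ := outKer_dihedral h hg hn
    set Φ := out (phiOdd (m := m) hab h2 hp)
    have hfodd : Odd f := by
      by_contra hne
      obtain ⟨l, hl⟩ := Nat.not_odd_iff_even.1 hne
      have h3 := hc.1
      rw [hF, hl, ← two_mul, pow_mul, Nat.pow_mod] at h3
      have h4 : p ^ 2 % 4 = 1 := by
        obtain ⟨i, hi⟩ := (Fact.out : p.Prime).odd_of_ne_two hp
        rw [hi, show (2 * i + 1) ^ 2 = 1 + 4 * (i * i + i) by ring, Nat.add_mul_mod_self_left]
      simp [h4] at h3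
    set u : (Fin m ⊕ Fin m) ⊕ Fin 2 → F :=
      Pi.single (Sum.inl (Sum.inl ⟨0, by omega⟩)) 1 + Pi.single (Sum.inl (Sum.inr ⟨0, by omega⟩)) 1
    have hu : quadMinus F m a b u ≠ 0 := by simp [u, Cfsg.quadFormMinus, Pi.single_apply]
    have hfix : semi (frobOdd (m := m) (p := p) hab h2) (frob F p) u = u := by
      rw [frobOdd, semi_planeGL]; funext z
      rcases z with (z | z) | z
      · simp [u, Pi.single_apply]
      · simp [u, Pi.single_apply]
      · fin_cases z <;> simp [u, Pi.single_apply]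
    have hgen1 : Gen (outTau h) (Φ ^ (f + 1)) f := by
      have e : outTau h (Φ ^ (f + 1)) = outTau h Φ := by
        rw [map_pow, pow_succ, ← hgen.order, pow_orderOf_eq_one, one_mul]
      exact ⟨e ▸ hgen.order, fun y => e ▸ hgen.top y⟩
    have hf1 : (Φ ^ (f + 1)) ^ f = 1 := by
      obtain ⟨i, hi⟩ := hfodd.add_odd odd_one
      rw [← pow_mul, mul_comm, pow_mul, hpow, hi, ← two_mul, pow_mul, pow_two, isoOut_sq h hg, one_pow]
    obtain ⟨Φ', hgen', hf', hc'⟩ := exists_central h hg hn hgen1 hf1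
      (by rw [Nat.card_congr ψ.toEquiv, DihedralGroup.nat_card]) hu
      ((Commute.pow_left (comm_refl h hg (isSemi_frobOdd hab h2 hp) hu hfix) (f + 1)).eq)
    exact hgen'.split ψ.symm hf' hc'
  · rw [if_neg hc]
    have hn : (Simil.negOne (Q := quadMinus F m a b)) ∉ Cfsg.Omega F ⇑(quadMinus F m a b) :=
      fun e => hc ⟨(hneg.1 e).2, (hneg.1 e).1⟩
    obtain ⟨ψ⟩ := outKer_klein h hg hn
    have hsq : ∀ x : (outTau h).ker, x * x = 1 := fun x => ψ.injective (by
      rw [map_mul, map_one]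
      have : ∀ y : ZMod 2 × ZMod 2, y + y = 0 := by decide
      exact this _)
    have hk1 : isoOut k ≠ (1 : Cfsg.Out (Cfsg.POmega F ⇑(quadMinus F m a b))) := fun e => hkinv (invariant_of_simOut h hg e)
    obtain ⟨s, hs1, hs2⟩ : ∃ s : (outTau h).ker, s ≠ 1 ∧ s ≠ ⟨_, isoOut_mem_ker h k⟩ := by
      have key : ∀ y : ZMod 2 × ZMod 2, ∃ z : ZMod 2 × ZMod 2, z ≠ 0 ∧ z ≠ y := by decide
      obtain ⟨z, hz0, hz⟩ := key (Multiplicative.toAdd (ψ ⟨_, isoOut_mem_ker h k⟩))
      refine ⟨ψ.symm (Multiplicative.ofAdd z), fun e => hz0 ?_, fun e => hz ?_⟩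
      · have h1 := congrArg ψ e
        rw [ψ.apply_symm_apply, map_one] at h1
        exact ofAdd_eq_one.1 h1
      · have h1 := congrArg ψ e
        rw [ψ.apply_symm_apply] at h1
        exact congrArg Multiplicative.toAdd h1
    refine hgen.split_two s.2 (by rw [pow_two]; exact congrArg Subtype.val (hsq s)) ?_ ?_ ?_ ?_
      (by rw [Nat.card_congr ψ.toEquiv, card_klein]) (comm_of_neg h hg hn _ _ s.2)
    · rw [hpow]; exact fun e => hs2 (Subtype.ext e.symm)
    · exact fun e => hs1 (Subtype.ext e)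
    · rw [hpow]; exact hk1
    · rw [hpow, pow_two]; exact isoOut_sq h hg k

end CfsgLib.AutPE
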