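import Cfsg.Agent.AutPE.GraphSplit
import Cfsg.Agent.AutPE.GraphMinus
import Cfsg.Agent.AutPE.OutOdd
set_option autoImplicit false
set_option linter.unusedSectionVars false

/-!
Involutory graph automorphisms of the standard even-dimensional orthogonal groups.
-/

namespace CfsgLib.AutPE

open QuadraticMap hiding proj
open Matrix
open CfsgLib.Forms

variable {F : Type*} [Field F] [Fintype F] {ι : Type} [Fintype ι] [DecidableEq ι] {Q : QuadraticForm F (ι → F)}

theorem exists_sign_one (hg : Simil.Good Q) :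
    ∃ g₀ : Simil.Sim Q, Simil.sign hg g₀ = 1 ∧ ¬ IsSquare (Simil.mult hg g₀ : F) := by
  obtain ⟨x, hx⟩ := Simil.invariant_surjective hg (Multiplicative.ofAdd (1, 0))
  simp only [Simil.invariant, MonoidHom.coe_comp, Function.comp_apply, MulEquiv.coe_toMonoidHom,
    MonoidHom.prod_apply] at hx
  have h1 := congrArg (MulEquiv.prodMultiplicative (ZMod 2) (ZMod 2)) hx
  rw [MulEquiv.apply_symm_apply] at h1
  refine ⟨x, (Simil.signInd_eq_one hg x).1 (congrArg Prod.snd h1), fun hs => ?_⟩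
  have h2 : Simil.sqInd (Simil.mult hg x) = Multiplicative.ofAdd 1 := congrArg Prod.fst h1
  rw [(Simil.sqInd_eq_one _).2 hs] at h2
  exact absurd h2 (by decide)

variable {m : ℕ}

theorem plus_graph_split (hodd : Odd (Fintype.card F)) (hm : 4 ≤ m)
    (γ : MulAut (Cfsg.POmega F ⇑(quadPlus F m)))
    (hγ : ∃ g : GL (Fin m ⊕ Fin m) F, g ∈ Cfsg.Geo.quadSimilarityGroup (F := F) ⇑(quadPlus F m) ∧
      ¬ Cfsg.PreservesSingularClasses ⇑(quadPlus F m) g.1 ∧
      Cfsg.IsInducedBySemilinearPOmega ⇑(quadPlus F m) g (RingEquiv.refl F) γ)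
    (hγ2 : orderOf γ = 2) :
    let G := classSub (⇑(quadPlus F m)) (Cfsg.PreservesSingularClasses ⇑(quadPlus F m))
    (Cfsg.splitClassCount G (Cfsg.Inn (Cfsg.POmega F ⇑(quadPlus F m))) γ = 1 ∨
      Cfsg.splitClassCount G (Cfsg.Inn (Cfsg.POmega F ⇑(quadPlus F m))) γ = 2) ∧
    (¬ (Odd m ∧ Fintype.card F % 4 = 3) →
      Cfsg.splitClassCount G (Cfsg.Inn (Cfsg.POmega F ⇑(quadPlus F m))) γ = 2) := by
  intro G
  have hg := Simil.good_plus (F := F) hodd (m := m) (by omega)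
  obtain ⟨g, hgm, hnp, hind⟩ := hγ
  have e : γ = Simil.act _ ⟨g, hgm⟩ := (Simil.induced_iff ⟨g, hgm⟩ γ).1 hind
  have hs : Simil.sign hg ⟨g, hgm⟩ = -1 := (Simil.sign_sq hg _).resolve_left
    fun h => hnp ((preserves_plus hodd (by omega) hg ⟨g, hgm⟩).2 h)
  obtain ⟨g₀, h₀, hμ₀⟩ := exists_sign_one hg
  subst e
  obtain ⟨h1, h2, -⟩ := split_graph hg (by simp; omega) hs hγ2 h₀ hμ₀
  simp only [G, inndiag_plus_eq hodd (by omega : 3 ≤ m) hg]
  exact ⟨h1, fun hc => h2 ((Simil.negOne_plus hodd (by omega)).2 hc)⟩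

theorem minus_graph_split (hodd : Odd (Fintype.card F)) (hm : 3 ≤ m) {a b : F}
    (hab : ∀ z₁ z₂ : F, z₁ ^ 2 + a * z₁ * z₂ + b * z₂ ^ 2 = 0 → z₁ = 0 ∧ z₂ = 0)
    (γ : MulAut (Cfsg.POmega F ⇑(quadMinus F m a b)))
    (hnot : γ ∉ classSub (⇑(quadMinus F m a b)) (Cfsg.PreservesSingularClassesMinus m a b))
    (hγ2 : orderOf γ = 2) :
    let G := classSub (⇑(quadMinus F m a b)) (Cfsg.PreservesSingularClassesMinus m a b)
    (Cfsg.splitClassCount G (Cfsg.Inn (Cfsg.POmega F ⇑(quadMinus F m a b))) γ = 1 ∨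
      Cfsg.splitClassCount G (Cfsg.Inn (Cfsg.POmega F ⇑(quadMinus F m a b))) γ = 2) ∧
    (¬ (Even m ∧ Fintype.card F % 4 = 1) →
      Cfsg.splitClassCount G (Cfsg.Inn (Cfsg.POmega F ⇑(quadMinus F m a b))) γ = 2) := by
  intro G
  have hg := Simil.good_minus hodd hm hab
  have h2 := (Simil.two_ne_of_odd (F := F) hodd).2
  have h := CfsgLib.AutPO.gh_minus hm hab
  simp only [G, inndiag_minus_eq hab hodd hm hg] at hnot ⊢
  obtain ⟨p, hp⟩ := CharP.exists F
  haveI : Fact p.Prime := ⟨CharP.char_is_prime F p⟩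
  obtain ⟨f, -, hF⟩ := FiniteField.card F p
  have hp2 : p ≠ 2 := by rintro rfl; exact h2 CharTwo.two_eq_zero
  -- the field part is trivial
  have hτ : γ ∈ (tau h).ker := by
    by_contra hne
    rw [MonoidHom.mem_ker] at hne
    have hτ2 : tau h γ ^ 2 = 1 := by rw [← map_pow, orderOf_dvd_iff_pow_eq_one.1 (dvd_of_eq hγ2), map_one]
    have hgen := gen_of_frob h hF (α := phiOdd (m := m) hab h2 hp2)
      (tau_stdAut h (isSemi_frobOdd hab h2 hp2))
    obtain ⟨k, -, hkinv, hpow⟩ := phiOdd_pow_card (m := m) hab h2 hp2 hF hg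
    set Φ := out (phiOdd (m := m) hab h2 hp2)
    have hτo : orderOf (tau h γ) = 2 := orderOf_eq_prime hτ2 hne
    have hdvd : 2 ∣ (f : ℕ) := by
      obtain ⟨i, hi⟩ := Subgroup.mem_zpowers_iff.1 (top_frob hF (tau h γ))
      rw [← hτo, ← orderOf_frob hF, ← hi]
      exact orderOf_dvd_of_mem_zpowers ⟨i, rfl⟩
    obtain ⟨j, hj⟩ := hdvd
    have hq : Fintype.card F % 4 = 1 := by
      rw [hF, hj, pow_mul, Nat.pow_mod]
      obtain ⟨i, hi⟩ := (Fact.out : p.Prime).odd_of_ne_two hp2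
      rw [hi, show (2 * i + 1) ^ 2 = 1 + 4 * (i * i + i) by ring, Nat.add_mul_mod_self_left]
      simp
    have hn : (Simil.negOne (Q := quadMinus F m a b)) ∉ Cfsg.Omega F ⇑(quadMinus F m a b) := fun e => by
      have := ((Simil.negOne_minus hodd hab).1 e).2
      omega
    obtain ⟨x, hx, i, hi⟩ := hgen.exists_decomp (out γ)
    have hcomm := comm_of_neg h hg hn Φ x hx
    have hτΦ : outTau h (out γ) = (outTau h Φ) ^ i := by
      rw [hi, map_mul, MonoidHom.mem_ker.1 hx, one_mul, map_zpow]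
    rw [outTau_out] at hτΦ
    have hfi : ((f : ℕ) : ℤ) ∣ 2 * i := by
      have h4 : (outTau h Φ) ^ (2 * i) = 1 := by
        rw [mul_comm, _root_.zpow_mul, ← hτΦ]; exact_mod_cast hτ2
      rw [← hgen.order]
      exact orderOf_dvd_iff_zpow_eq_one.2 h4
    obtain ⟨t, ht⟩ := hfi
    have hsq : out γ * out γ = (1 : Cfsg.Out (Cfsg.POmega F ⇑(quadMinus F m a b))) := by
      rw [← out_mul, ← pow_two, orderOf_dvd_iff_pow_eq_one.1 (dvd_of_eq hγ2)]
      exact (out_eq_one _).2 (one_mem _)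
    have hxx : x * x = 1 := by
      obtain ⟨ψ⟩ := outKer_klein h hg hn
      have key : (⟨x, hx⟩ : (outTau h).ker) * ⟨x, hx⟩ = 1 := ψ.injective (by
        rw [map_mul, map_one]
        have : ∀ y : ZMod 2 × ZMod 2, y + y = 0 := by decide
        exact this _)
      exact congrArg Subtype.val key
    have hc : Commute x (Φ ^ i) := Commute.zpow_right (show Commute x Φ from hcomm.symm) i
    have h5 : Φ ^ (2 * i) = 1 := by
      rw [hi] at hsq
      have : x * Φ ^ i * (x * Φ ^ i) = x * x * (Φ ^ i * Φ ^ i) := hc.symm.mul_mul_mul_comm x (Φ ^ i)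
      rw [this, hxx, one_mul, ← _root_.zpow_add, ← two_mul] at hsq
      exact hsq
    rw [ht, _root_.zpow_mul, zpow_natCast, hpow] at h5
    rcases Int.even_or_odd t with ⟨s, hs⟩ | ⟨s, hs⟩
    · refine hne ?_
      rw [hτΦ, show i = ((f : ℕ) : ℤ) * s by rw [hs] at ht; linarith, _root_.zpow_mul, zpow_natCast, ← hgen.order, pow_orderOf_eq_one, _root_.one_zpow]
    · rw [hs, _root_.zpow_add_one, _root_.zpow_mul, zpow_two, isoOut_sq h hg, _root_.one_zpow, one_mul] at h5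
      exact hkinv (invariant_of_simOut h hg h5)
  rw [ker_tau] at hτ
  obtain ⟨g, rfl⟩ := hτ
  have hs : Simil.sign hg g = -1 := (Simil.sign_sq hg _).resolve_left
    fun e => hnot ⟨g, MonoidHom.mem_ker.2 e, rfl⟩
  obtain ⟨g₀, h₀, hμ₀⟩ := exists_sign_one hg
  obtain ⟨h1, h3, h4⟩ := split_graph hg (by simp; omega) hs hγ2 h₀ hμ₀
  refine ⟨h1, fun hc => ?_⟩
  rcases Nat.even_or_odd m with he' | ho
  swap
  · refine h4 fun c _ hcc => square_comm_even hg (n := m + 1) (by simp; omega) (by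
      obtain ⟨i, rfl⟩ := ho; exact ⟨i + 1, by ring⟩)
      (fun U hU => Nat.lt_succ_of_le (finrank_le_of_singular_minus hab fun u hu => by simpa using hU u hu)) hs ?_ hcc
    rw [map_mul, ← pow_two, orderOf_dvd_iff_pow_eq_one.1 (dvd_of_eq hγ2)]
  by_cases hn : (Simil.negOne (Q := quadMinus F m a b)) ∈ Cfsg.Omega F ⇑(quadMinus F m a b)
  · exact h3 hn
  · exfalso
    rw [Simil.negOne_minus hodd hab] at hn
    have hq4 : Fintype.card F % 4 = 1 ∨ Fintype.card F % 4 = 3 := by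
      have := Nat.odd_iff.1 hodd; omega
    exact hq4.elim (fun h1 => hc ⟨he', h1⟩) fun h3 => hn ⟨he', h3⟩

end CfsgLib.AutPE
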