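import Cfsg.Agent.AutPE.ParityStd
import Cfsg.Agent.AutPE.Two
set_option autoImplicit false
set_option quotPrecheck false
set_option linter.unusedSectionVars false

/-!
The inner-diagonal group as the image of the sign kernel.
-/

namespace CfsgLib.AutPE

open QuadraticMap hiding proj
open Matrix
open CfsgLib.Forms

section Def

variable {F : Type*} [Field F] {ι : Type} [Fintype ι] [DecidableEq ι]

/-- The group generated by the automorphisms induced by similarities satisfying `P`. -/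
def classSub (q : (ι → F) → F) (P : Matrix ι ι F → Prop) : Subgroup (MulAut (Cfsg.POmega F q)) :=
  Cfsg.autSubgroupOf fun β => ∃ g : GL ι F, g ∈ Cfsg.Geo.quadSimilarityGroup (F := F) q ∧ P g.1 ∧
    Cfsg.IsInducedBySemilinearPOmega q g (RingEquiv.refl F) β

variable [Finite F] {Q : QuadraticForm F (ι → F)}

theorem classSub_eq (P : Matrix ι ι F → Prop) (S : Subgroup (Simil.Sim Q))
    (hP : ∀ g : Simil.Sim Q, P (g : GL ι F).1 ↔ g ∈ S) :
    classSub (⇑Q) P = S.map (Simil.act Q) := by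
  refine le_antisymm ((Subgroup.closure_le _).2 ?_) ?_
  · rintro β ⟨g, hg, hPg, hind⟩
    exact ⟨⟨g, hg⟩, (hP ⟨g, hg⟩).1 hPg, ((Simil.induced_iff ⟨g, hg⟩ β).1 hind).symm⟩
  · rintro _ ⟨g, hg, rfl⟩
    exact Subgroup.subset_closure ⟨(g : GL ι F), g.2, (hP g).2 hg, (Simil.induced_iff g _).2 rfl⟩

theorem classSub_eq_inn (P : Matrix ι ι F → Prop)
    (hP : ∀ g : Simil.Sim Q, P (g : GL ι F).1 ↔ ∃ c : F, c ≠ 0 ∧ ∃ k ∈ Cfsg.Omega F ⇑Q,
      ∀ v, (g : GL ι F).1 *ᵥ v = c • ((k : GL ι F).1 *ᵥ v)) :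
    classSub (⇑Q) P = Cfsg.Inn (Cfsg.POmega F ⇑Q) := by
  have key : ∀ (g : Simil.Sim Q) (c : F) (k : Cfsg.isometryGroup F ⇑Q), c ≠ 0 →
      (∀ v, (g : GL ι F).1 *ᵥ v = c • ((k : GL ι F).1 *ᵥ v)) → Simil.act Q g = Simil.act Q (Simil.ofIso k) := by
    intro g c k hc hk
    refine MulEquiv.ext fun x => ?_
    induction x using QuotientGroup.induction_on with
    | _ s =>
      rw [Simil.act_mk, Simil.act_mk]
      congr 1
      refine Subtype.ext (Subtype.ext (Units.ext (Matrix.ext_iff_mulVec.2 fun v => ?_)))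
      rw [Simil.coe_conjΩ, Simil.coe_conjΩ]
      obtain ⟨w, rfl⟩ : ∃ w, (k : GL ι F).1 *ᵥ w = v := ⟨((k : GL ι F)⁻¹).1 *ᵥ v, Simil.mulVec_inv_cancel _ v⟩
      show ((g : GL ι F) * _ * (g : GL ι F)⁻¹ : GL ι F).1 *ᵥ _ = ((k : GL ι F) * _ * (k : GL ι F)⁻¹ : GL ι F).1 *ᵥ _
      have e : (k : GL ι F).1 *ᵥ w = (g : GL ι F).1 *ᵥ (c⁻¹ • w) := by rw [hk, mulVec_smul, smul_inv_smul₀ hc]
      conv_lhs => rw [e]
      simp only [Units.val_mul, ← mulVec_mulVec]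
      rw [Simil.inv_mulVec_cancel, Simil.inv_mulVec_cancel, hk, mulVec_smul, mulVec_smul, smul_inv_smul₀ hc]
  refine le_antisymm ((Subgroup.closure_le _).2 ?_) ?_
  · rintro β ⟨g, hg, hPg, hind⟩
    obtain ⟨c, hc, k, hk, hkv⟩ := (hP ⟨g, hg⟩).1 hPg
    exact (Simil.mem_inn_iff β).2 ⟨k, hk, ((Simil.induced_iff ⟨g, hg⟩ β).1 hind).trans (key _ c k hc hkv)⟩
  · intro β hβ
    obtain ⟨k, hk, rfl⟩ := (Simil.mem_inn_iff β).1 hβ
    exact Subgroup.subset_closure ⟨(k : GL ι F), (Simil.ofIso k).2,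
      (hP (Simil.ofIso k)).2 ⟨1, one_ne_zero, k, hk, fun v => (one_smul F _).symm⟩,
      (Simil.induced_iff (Simil.ofIso k) _).2 rfl⟩

end Def

variable {F : Type*} [Field F] [Fintype F] {m : ℕ}

theorem inndiag_plus_eq (hodd : Odd (Fintype.card F)) (hm : 3 ≤ m) (hg : Simil.Good (quadPlus F m)) :
    classSub (⇑(quadPlus F m)) (Cfsg.PreservesSingularClasses ⇑(quadPlus F m)) =
      (Simil.sign hg).ker.map (Simil.act (quadPlus F m)) :=
  classSub_eq _ _ fun g => (preserves_plus hodd hm hg g).trans MonoidHom.mem_ker.symm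

theorem inndiag_minus_eq {a b : F} (hab : ∀ z₁ z₂ : F, z₁ ^ 2 + a * z₁ * z₂ + b * z₂ ^ 2 = 0 → z₁ = 0 ∧ z₂ = 0)
    (hodd : Odd (Fintype.card F)) (hm : 3 ≤ m) (hg : Simil.Good (quadMinus F m a b)) :
    classSub (⇑(quadMinus F m a b)) (Cfsg.PreservesSingularClassesMinus m a b) =
      (Simil.sign hg).ker.map (Simil.act (quadMinus F m a b)) :=
  classSub_eq _ _ fun g => (preserves_minus hab hodd hm hg g).trans MonoidHom.mem_ker.symm

theorem inndiag_plus_two (h2 : (2 : F) = 0) (hm : 3 ≤ m) :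
    classSub (⇑(quadPlus F m)) (Cfsg.PreservesSingularClasses ⇑(quadPlus F m)) =
      Cfsg.Inn (Cfsg.POmega F ⇑(quadPlus F m)) :=
  classSub_eq_inn _ (preserves_plus_two h2 hm)

theorem inndiag_minus_two {a b : F} (hab : ∀ z₁ z₂ : F, z₁ ^ 2 + a * z₁ * z₂ + b * z₂ ^ 2 = 0 → z₁ = 0 ∧ z₂ = 0)
    (h2 : (2 : F) = 0) (hm : 3 ≤ m) :
    classSub (⇑(quadMinus F m a b)) (Cfsg.PreservesSingularClassesMinus m a b) =
      Cfsg.Inn (Cfsg.POmega F ⇑(quadMinus F m a b)) :=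
  classSub_eq_inn _ (preserves_minus_two hab h2 hm)

end CfsgLib.AutPE
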