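import Mathlib
set_option autoImplicit false

/-!
The absolute trace sum in characteristic two: it is one on the irreducible Artin–Schreier constants.
-/

namespace CfsgLib.AutPE

variable {F : Type*} [Field F]

/-- The sum of the first `n` iterated squares. -/
def sqSum (n : ℕ) (x : F) : F := ∑ i ∈ Finset.range n, x ^ 2 ^ i

theorem sqSum_succ [CharP F 2] (n : ℕ) (x : F) : sqSum (n + 1) x = sqSum n x ^ 2 + x := by
  rw [sqSum, sqSum, Finset.sum_range_succ', sum_pow_char 2, pow_zero, pow_one]
  congr 1
  exact Finset.sum_congr rfl fun i _ => by rw [← pow_mul, pow_succ]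

theorem sqSum_artin [CharP F 2] (n : ℕ) (y : F) : sqSum n (y ^ 2 + y) = y ^ 2 ^ n + y := by
  induction n with
  | zero => simp [sqSum, CharTwo.add_self_eq_zero]
  | succ n ih =>
    rw [sqSum_succ, ih, add_pow_char, ← pow_mul, pow_succ]
    linear_combination CharTwo.add_self_eq_zero (y ^ 2)

theorem sqSum_eq_one [Fintype F] [CharP F 2] {f : ℕ} (hF : Fintype.card F = 2 ^ f) {e : F}
    (he : ∀ y : F, y ^ 2 + y ≠ e) : sqSum f e = 1 := by
  classical
  have hq : ∀ x : F, x ^ 2 ^ f = x := fun x => by rw [← hF, FiniteField.pow_card]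
  have hf : f ≠ 0 := fun h0 => by
    have := Fintype.one_lt_card (α := F)
    rw [hF, h0, pow_zero] at this
    omega
  have h01 : sqSum f e = 0 ∨ sqSum f e = 1 := by
    have h1 : sqSum (f + 1) e = sqSum f e + e := by rw [sqSum, Finset.sum_range_succ, hq]; rfl
    rw [sqSum_succ, add_left_inj] at h1
    rcases mul_eq_zero.1 (show sqSum f e * (sqSum f e - 1) = 0 by linear_combination h1) with h | h
    · exact Or.inl h
    · exact Or.inr (sub_eq_zero.1 h)
  refine h01.resolve_left fun h0 => ?_
  let ψ : F →+ F := AddMonoidHom.mk' (fun y => y ^ 2 + y) fun x y => by rw [add_pow_char]; ring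
  set P : Polynomial F := ∑ i ∈ Finset.range f, Polynomial.X ^ 2 ^ i with hP
  have hdeg : P.natDegree ≤ 2 ^ (f - 1) := Polynomial.natDegree_sum_le_of_forall_le _ _ fun i hi => by
    rw [Polynomial.natDegree_X_pow]
    exact Nat.pow_le_pow_right (by norm_num) (by rw [Finset.mem_range] at hi; omega)
  have hne : P ≠ 0 := fun h => by
    have h1 := congrArg (fun p : Polynomial F => p.coeff 1) h
    rw [hP] at h1
    simp only [Polynomial.finsetSum_coeff, Polynomial.coeff_X_pow, Polynomial.coeff_zero] at h1
    rw [Finset.sum_eq_single 0 (fun i _ hi => if_neg ((Nat.one_lt_two_pow hi).ne))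
      (fun h => absurd (Finset.mem_range.2 (Nat.pos_of_ne_zero hf)) h)] at h1
    simp at h1
  set Z := Finset.univ.filter fun x : F => sqSum f x = 0 with hZ
  have hZle : Z.card ≤ 2 ^ (f - 1) := (Polynomial.card_le_degree_of_subset_roots (p := P) (Z := Z) fun x hx => by
    rw [Polynomial.mem_roots hne, Polynomial.IsRoot, hP, Polynomial.eval_finsetSum]
    have hx' : sqSum f x = 0 := (Finset.mem_filter.1 hx).2
    simpa [sqSum] using hx').trans hdeg
  set R := Finset.univ.image fun y => ψ y with hR
  have hsub : R ⊆ Z := fun x hx => by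
    obtain ⟨y, -, rfl⟩ := Finset.mem_image.1 hx
    simp [hZ, ψ, sqSum_artin, hq, CharTwo.add_self_eq_zero]
  have hker : Nat.card ψ.ker ≤ 2 := by
    have hs : (Finset.univ.filter fun y : F => ψ y = 0) ⊆ {0, 1} := fun y hy => by
      have h1 : y ^ 2 + y = 0 := (Finset.mem_filter.1 hy).2
      rcases mul_eq_zero.1 (show y * (y + 1) = 0 by linear_combination h1) with h | h
      · simp [h]
      · simp [CharTwo.add_eq_zero.1 h]
    refine le_trans (le_of_eq ?_) ((Finset.card_le_card hs).trans Finset.card_le_two)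
    rw [Nat.card_eq_fintype_card, Fintype.card_subtype]
    congr 1
    ext x
    simp [AddMonoidHom.mem_ker]
  have hRcard : 2 ^ (f - 1) ≤ R.card := by
    have h1 := AddSubgroup.card_eq_card_quotient_mul_card_addSubgroup ψ.ker
    rw [Nat.card_congr (QuotientAddGroup.quotientKerEquivRange ψ).toEquiv, Nat.card_eq_fintype_card, hF] at h1
    have h2 : Nat.card ψ.range = R.card := by
      rw [Nat.card_eq_fintype_card, Fintype.card_subtype, hR]
      congr 1
      ext x
      simp [AddMonoidHom.mem_range]
    rw [h2] at h1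
    have h3 : 2 ^ f = 2 ^ (f - 1) * 2 := by rw [← pow_succ]; congr 1; omega
    nlinarith
  have hmem : e ∈ R := by
    rw [Finset.eq_of_subset_of_card_le hsub (hZle.trans hRcard)]
    simpa [hZ] using h0
  obtain ⟨y, -, hy⟩ := Finset.mem_image.1 hmem
  exact he y hy

end CfsgLib.AutPE
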