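import Cfsg.Agent.AutPE.Two
import Cfsg.Agent.AutPE.Trace
import Cfsg.Agent.AutPO.Even
set_option autoImplicit false
set_option linter.unusedSectionVars false

/-!
Semisimilarities of the minus-type forms over the Frobenius of the field.
-/

namespace CfsgLib.AutPE

open QuadraticMap hiding proj
open Matrix
open CfsgLib.Forms CfsgLib.AutPO

variable {F : Type*} [Field F] {m : ℕ}

/-- The identity on the hyperbolic part, an upper triangular matrix on the anisotropic plane. -/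
noncomputable def planeGL (m : ℕ) (x y : F) (hy : y ≠ 0) : GL ((Fin m ⊕ Fin m) ⊕ Fin 2) F :=
  Matrix.GeneralLinearGroup.mkOfDetNeZero (fromBlocks 1 0 0 !![1, x; 0, y]) (by
    rw [det_fromBlocks_zero₂₁, det_one, one_mul, det_fin_two_of]; simpa using hy)

theorem det_planeGL (x y : F) (hy : y ≠ 0) : (planeGL m x y hy).1.det = y := by
  show (fromBlocks (1 : Matrix (Fin m ⊕ Fin m) (Fin m ⊕ Fin m) F) 0 0 !![1, x; 0, y]).det = y
  rw [det_fromBlocks_zero₂₁, det_one, one_mul, det_fin_two_of]; ring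

theorem planeGL_mulVec (x y : F) (hy : y ≠ 0) (v : (Fin m ⊕ Fin m) ⊕ Fin 2 → F) :
    (planeGL m x y hy).1 *ᵥ v =
      Sum.elim (fun j => v (Sum.inl j)) ![v (Sum.inr 0) + x * v (Sum.inr 1), y * v (Sum.inr 1)] := by
  show (fromBlocks (1 : Matrix (Fin m ⊕ Fin m) (Fin m ⊕ Fin m) F) 0 0 !![1, x; 0, y]) *ᵥ v = _
  rw [fromBlocks_mulVec]
  funext z
  rcases z with z | z
  · simp [Function.comp]
  · fin_cases z <;> simp [Matrix.mulVec, dotProduct, Fin.sum_univ_two, Function.comp]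

theorem semi_planeGL (x y : F) (hy : y ≠ 0) (τ : F ≃+* F) (v : (Fin m ⊕ Fin m) ⊕ Fin 2 → F) :
    semi (planeGL m x y hy) τ v =
      Sum.elim (fun j => τ (v (Sum.inl j))) ![τ (v (Sum.inr 0)) + x * τ (v (Sum.inr 1)), y * τ (v (Sum.inr 1))] :=
  planeGL_mulVec x y hy _

theorem quad_sum (m : ℕ) (a b : F) (w : Fin m ⊕ Fin m → F) (z : Fin 2 → F) :
    quadMinus F m a b (Sum.elim w z) =
      (∑ i, w (Sum.inl i) * w (Sum.inr i)) + (z 0 ^ 2 + a * z 0 * z 1 + b * z 1 ^ 2) := by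
  rw [coe_quadMinus]; rfl

variable [Fintype F] {a b : F}
  (hab : ∀ z₁ z₂ : F, z₁ ^ 2 + a * z₁ * z₂ + b * z₂ ^ 2 = 0 → z₁ = 0 ∧ z₂ = 0)
include hab

section Two

variable [CharP F 2]

theorem a_ne_zero : a ≠ 0 := fun ha => by
  obtain ⟨r, hr⟩ := exists_sq CharTwo.two_eq_zero b
  exact one_ne_zero (hab r 1 (by rw [ha, ← hr]; linear_combination CharTwo.add_self_eq_zero (r * r))).2

/-- The Frobenius semisimilarity. -/
noncomputable def frobTwo : GL ((Fin m ⊕ Fin m) ⊕ Fin 2) F := planeGL m b a (a_ne_zero hab)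

theorem isSemi_frobTwo : IsSemi (quadMinus F m a b) (frobTwo (m := m) hab) (frob F 2) 1 := by
  refine ⟨one_ne_zero, fun v => ?_⟩
  rw [frobTwo, semi_planeGL, quad_sum, coe_quadMinus, one_mul]
  simp only [Cfsg.quadFormMinus, map_add, map_sum, map_mul, frob_apply, Matrix.cons_val_zero, Matrix.cons_val_one]
  linear_combination (b * v (Sum.inr 1) ^ 2 * v (Sum.inr 0) ^ 2 + b ^ 2 * v (Sum.inr 1) ^ 4 * 0
    + a ^ 2 * b * v (Sum.inr 1) ^ 4) * (CharTwo.two_eq_zero : (2 : F) = 0)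

/-- The automorphism induced by the Frobenius semisimilarity. -/
noncomputable def phiTwo : MulAut (Cfsg.POmega F ⇑(quadMinus F m a b)) := stdAut (isSemi_frobTwo (m := m) hab)

theorem phiTwo_pow (n : ℕ) :
    ∃ (G : GL ((Fin m ⊕ Fin m) ⊕ Fin 2) F) (τ : RingAut F) (k : F) (hs : IsSemi (quadMinus F m a b) G τ k),
      τ = frob F 2 ^ n ∧ stdAut hs = phiTwo hab ^ n ∧ ∀ v, semi G τ v =
        Sum.elim (fun j => v (Sum.inl j) ^ 2 ^ n) ![v (Sum.inr 0) ^ 2 ^ n +
          a ^ 2 ^ n * sqSum n (b / a ^ 2) * v (Sum.inr 1) ^ 2 ^ n, a ^ 2 ^ n / a * v (Sum.inr 1) ^ 2 ^ n] := by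
  induction n with
  | zero =>
    have h1 : IsSemi (quadMinus F m a b) (1 : GL ((Fin m ⊕ Fin m) ⊕ Fin 2) F) (1 : RingAut F) 1 :=
      ⟨one_ne_zero, fun v => by rw [semi, Units.val_one, one_mulVec, one_mul]; rfl⟩
    refine ⟨1, 1, 1, h1, (pow_zero _).symm, ?_, fun v => ?_⟩
    · rw [pow_zero]
      refine MulEquiv.ext fun x => ?_
      obtain ⟨x, rfl⟩ := proj_surjective x
      rw [stdAut_proj]
      refine congrArg proj (ext_lin fun v => ?_)
      have := lin_semiΩ h1 x v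
      simpa [semi, Function.comp_def] using this
    · rw [semi, Units.val_one, one_mulVec]
      funext z
      rcases z with z | z
      · simp
      · fin_cases z <;> simp [sqSum, div_self (a_ne_zero hab)]
  | succ n ih =>
    obtain ⟨G, τ, k, hs, hτ, hG, hv⟩ := ih
    refine ⟨_, _, _, isSemi_comp (isSemi_frobTwo (m := m) hab) hs, by rw [hτ, ← pow_succ'], ?_, fun v => ?_⟩
    · rw [pow_succ', ← hG, phiTwo, ← stdAut_comp']
    · rw [semi_compGL, hv, frobTwo, semi_planeGL]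
      have ha := a_ne_zero hab
      funext z
      rcases z with z | z
      · simp only [Sum.elim_inl, frob_apply]
        rw [← pow_mul, ← pow_succ]
      · fin_cases z
        · simp only [Fin.zero_eta, Sum.elim_inr, Matrix.cons_val_zero, Matrix.cons_val_one, frob_apply, sqSum_succ,
            pow_succ 2 n, pow_mul, div_pow, add_pow_char, mul_pow]
          field_simp
          ring
        · simp only [Fin.mk_one, Sum.elim_inr, Matrix.cons_val_one, Matrix.cons_val_fin_one, frob_apply,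
            pow_succ 2 n, pow_mul, div_pow, mul_pow]
          field_simp

theorem phiTwo_pow_card {f : ℕ} (hF : Fintype.card F = 2 ^ f) (hu : quadMinus F m a b (Pi.single (Sum.inr 0) 1) ≠ 0) :
    out (phiTwo (m := m) hab) ^ f = isoOut (listGL (quadMinus F m a b) [⟨_, hu⟩]) := by
  obtain ⟨G, τ, k, hs, -, hG, hv⟩ := phiTwo_pow (m := m) hab f
  rw [show out (phiTwo (m := m) hab) = QuotientGroup.mk' _ (phiTwo hab) from rfl, ← map_pow, ← hG]
  refine congrArg (QuotientGroup.mk' _) ?_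
  obtain ⟨k', hk'⟩ := isSemi_sim (Simil.ofIso (listGL (quadMinus F m a b) [⟨_, hu⟩]))
  show _ = Simil.act _ ⟨_, (Simil.ofIso (listGL (quadMinus F m a b) [⟨_, hu⟩])).2⟩
  rw [act_eq_stdAut _ hk']
  refine stdAut_congr _ _ fun v => ?_
  have ha := a_ne_zero hab
  have hq : ∀ x : F, x ^ 2 ^ f = x := fun x => by rw [← hF, FiniteField.pow_card]
  have htr : sqSum f (b / a ^ 2) = 1 := sqSum_eq_one hF fun y hy => by
    refine one_ne_zero (hab (a * y) 1 ?_).2
    field_simp at hy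
    linear_combination hy + b * (CharTwo.two_eq_zero : (2 : F) = 0)
  rw [hv]
  show _ = (listGL (quadMinus F m a b) [⟨_, hu⟩] : GL ((Fin m ⊕ Fin m) ⊕ Fin 2) F).1 *ᵥ v
  rw [← glEquiv_apply, ← coe_isoEquiv, isoEquiv_listGL]
  show _ = Forms.refl (quadMinus F m a b) _ hu v
  rw [Forms.refl_apply, show quadMinus F m a b (Pi.single (Sum.inr 0) 1) = 1 by simp [Cfsg.quadFormMinus, Pi.single_apply],
    show polar (⇑(quadMinus F m a b)) v (Pi.single (Sum.inr 0) 1) = a * v (Sum.inr 1) by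
      simp [polar_minus, Pi.single_apply, CharTwo.two_eq_zero]]
  funext z
  rcases z with z | z
  · simp [hq, Pi.single_apply]
  · fin_cases z <;> simp [hq, htr, ha, CharTwo.sub_eq_add, Pi.single_apply]

end Two

end CfsgLib.AutPE
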