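import Cfsg.Agent.AutPE.Semi
import Cfsg.Agent.AutPO.Even
set_option autoImplicit false
set_option linter.unusedSectionVars false

/-!
Field automorphisms of the plus-type group.
-/

namespace CfsgLib.AutPE

open QuadraticMap hiding proj
open Matrix
open CfsgLib.Forms CfsgLib.AutPO

variable {F : Type*} [Field F] [Fintype F] {m : ℕ}

theorem semi_one' {ι : Type} [Fintype ι] [DecidableEq ι] (τ : F ≃+* F) (v : ι → F) :
    semi (1 : GL ι F) τ v = τ ∘ v := by
  rw [semi, Units.val_one, one_mulVec]

theorem isSemi_plus (τ : RingAut F) : IsSemi (quadPlus F m) (1 : GL (Fin m ⊕ Fin m) F) τ 1 :=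
  ⟨one_ne_zero, fun v => by
    rw [semi_one', coe_quadPlus, one_mul]
    simp [Cfsg.quadFormPlus, map_sum]⟩

/-- The standard field automorphisms. -/
noncomputable def fieldP : RingAut F →* MulAut (Cfsg.POmega F ⇑(quadPlus F m)) :=
  MonoidHom.mk' (fun τ => stdAut (isSemi_plus τ)) fun τ σ =>
    stdAut_mul _ _ _ fun v => by simp only [semi_one']; rfl

theorem tau_fieldP (h : GH (quadPlus F m)) (τ : RingAut F) : tau h (fieldP τ) = τ := tau_stdAut h _

theorem out_fieldP_pow {p f : ℕ} [Fact p.Prime] [CharP F p] (hF : Fintype.card F = p ^ f) :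
    out (fieldP (m := m) (frob F p)) ^ f = 1 := by
  rw [show out (fieldP (m := m) (frob F p)) = QuotientGroup.mk' _ (fieldP (m := m) (frob F p)) from rfl, ← map_pow,
    ← map_pow, ← orderOf_frob (p := p) hF, pow_orderOf_eq_one, map_one, map_one]

end CfsgLib.AutPE
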