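import Cfsg.Agent.AutPE.Proper
import Cfsg.Agent.AutPE.Descend
import Cfsg.Agent.AutPE.Plus
import Cfsg.Agent.AutPE.Inndiag
set_option autoImplicit false
set_option quotPrecheck false
set_option linter.unusedSectionVars false

/-!
Frames of the standard forms: plus and minus type.
-/

namespace CfsgLib.AutPE

open QuadraticMap hiding proj
open Matrix
open CfsgLib.Forms CfsgLib.AutPO

section General

variable {F : Type*} [Field F] [Fintype F] {F₀ : Type*} [Field F₀] [Fintype F₀] {ι κ : Type} [Fintype ι]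
  [DecidableEq ι] [Fintype κ] [DecidableEq κ]
  {Q : QuadraticForm F (ι → F)} {Q₀ : QuadraticForm F₀ (κ → F₀)} {σ : RingAut F} {φ : F₀ →+* F}

/-- The inner-diagonal group in either characteristic. -/
structure IsInndiag (Q : QuadraticForm F (ι → F)) (Pr : Subgroup (MulAut (Cfsg.POmega F ⇑Q))) : Prop where
  gh : GH Q
  cases : ((2 : F) ≠ 0 ∧ ∃ hg : Simil.Good Q, Pr = (Simil.sign hg).ker.map (Simil.act Q)) ∨
    ((2 : F) = 0 ∧ Pr = Cfsg.Inn (Cfsg.POmega F ⇑Q))

theorem IsInndiag.proper {Pr : Subgroup (MulAut (Cfsg.POmega F ⇑Q))} (h : IsInndiag Q Pr) : IsProper Q Pr := by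
  rcases h.cases with ⟨-, hg, rfl⟩ | ⟨h2, rfl⟩
  · exact isProper_odd h.gh hg
  · exact isProper_two h.gh h2

theorem IsInndiag.map {Pr : Subgroup (MulAut (Cfsg.POmega F ⇑Q))} {P₀ : Subgroup (MulAut (Cfsg.POmega F₀ ⇑Q₀))}
    (h : IsInndiag Q Pr) (h₀ : IsInndiag Q₀ P₀) (D : Frame Q Q₀ σ φ) :
    ∀ x, Simil.act Q₀ x ∈ P₀ → D.T x ∈ Pr := by
  rcases h.cases with ⟨hne, hg, rfl⟩ | ⟨h2, rfl⟩ <;> rcases h₀.cases with ⟨hne₀, hg₀, rfl⟩ | ⟨h20, rfl⟩
  · exact D.map_odd hg hg₀ h₀.gh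
  · exact absurd (by rw [← map_ofNat φ 2, h20, map_zero]) hne
  · exact absurd (φ.injective (by rw [map_ofNat, h2, map_zero])) hne₀
  · exact D.map_two h.gh h₀.gh h2

theorem odd_card_or_two : Odd (Fintype.card F) ∧ (2 : F) ≠ 0 ∨ (2 : F) = 0 := by
  by_cases h2 : (2 : F) = 0
  · exact Or.inr h2
  · refine Or.inl ⟨?_, h2⟩
    have : ringChar F ≠ 2 := fun e => h2 (by
      haveI := ringChar.of_eq e
      exact CharTwo.two_eq_zero)
    exact Nat.odd_iff.2 (FiniteField.odd_card_of_char_ne_two this)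

end General

variable {F : Type*} [Field F] [Fintype F] {F₀ : Type*} [Field F₀] [Fintype F₀] {m : ℕ} {σ : RingAut F}
  {φ : F₀ →+* F} {a b : F} {a₀ b₀ : F₀}

theorem isInndiag_plus (hm : 5 ≤ m) :
    IsInndiag (quadPlus F m) (classSub (⇑(quadPlus F m)) (Cfsg.PreservesSingularClasses ⇑(quadPlus F m))) := by
  refine ⟨gh_plus hm, ?_⟩
  rcases odd_card_or_two (F := F) with ⟨hodd, h2⟩ | h2
  · exact Or.inl ⟨h2, Simil.good_plus hodd (by omega), inndiag_plus_eq hodd (by omega) _⟩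
  · exact Or.inr ⟨h2, inndiag_plus_two h2 (by omega)⟩

theorem isInndiag_minus (hm : 3 ≤ m) (hab : ∀ z₁ z₂ : F, z₁ ^ 2 + a * z₁ * z₂ + b * z₂ ^ 2 = 0 → z₁ = 0 ∧ z₂ = 0) :
    IsInndiag (quadMinus F m a b) (classSub (⇑(quadMinus F m a b)) (Cfsg.PreservesSingularClassesMinus m a b)) := by
  refine ⟨gh_minus hm hab, ?_⟩
  rcases odd_card_or_two (F := F) with ⟨hodd, h2⟩ | h2
  · exact Or.inl ⟨h2, Simil.good_minus hodd hm hab, inndiag_minus_eq hab hodd hm _⟩
  · exact Or.inr ⟨h2, inndiag_minus_two hab h2 hm⟩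

theorem exists_anisotropic (K : Type*) [Field K] [Finite K] :
    ∃ a b : K, ∀ z₁ z₂ : K, z₁ ^ 2 + a * z₁ * z₂ + b * z₂ ^ 2 = 0 → z₁ = 0 ∧ z₂ = 0 := by
  have hns : ¬ Function.Surjective fun t : K => t ^ 2 + t := fun h => by
    have := (Finite.injective_iff_surjective.2 h) (show (0 : K) ^ 2 + 0 = (-1) ^ 2 + -1 by ring)
    exact one_ne_zero (neg_eq_zero.1 this.symm)
  simp only [Function.Surjective, not_forall, not_exists] at hns
  obtain ⟨c, hc⟩ := hns
  exact ⟨1, -c, anis_of_irred fun t e => hc t (by linear_combination e)⟩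

/-- The frame of a standard field automorphism. -/
noncomputable def plusFrame (hfix : ∀ c, σ c = c ↔ c ∈ Set.range φ) :
    Frame (quadPlus F m) (quadPlus F₀ m) σ φ where
  S := LinearEquiv.refl F _
  b := 1
  hb := one_ne_zero
  hS v := by
    rw [LinearEquiv.refl_apply, one_mul, coe_quadPlus, coe_quadPlus]
    simp [Cfsg.quadFormPlus, map_sum]
  g := 1
  k := 1
  semi_g := isSemi_plus σ
  equivar v := by
    rw [LinearEquiv.refl_apply, LinearEquiv.refl_apply, semi_one']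

theorem plusFrame_aut (hfix : ∀ c, σ c = c ↔ c ∈ Set.range φ) :
    (plusFrame (m := m) hfix).aut = fieldP σ := rfl

/-- The frames of the plus-type group. -/
theorem plus_frames (hm : 5 ≤ m) (hfix : ∀ c, σ c = c ↔ c ∈ Set.range φ)
    (hab₀ : ∀ z₁ z₂ : F₀, z₁ ^ 2 + a₀ * z₁ * z₂ + b₀ * z₂ ^ 2 = 0 → z₁ = 0 ∧ z₂ = 0)
    (y : MulAut (Cfsg.POmega F ⇑(quadPlus F m))) (hτ : tau (gh_plus hm) y = σ) (hy : y ^ orderOf σ = 1) :
    (∃ D : Frame (quadPlus F m) (quadPlus F₀ m) σ φ, D.aut = y) ∨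
      (∃ D : Frame (quadPlus F m) (quadMinus F₀ (m - 1) a₀ b₀) σ φ, D.aut = y) := by
  obtain ⟨g, τ, k, hs, rfl⟩ := classify (gh_plus hm) y
  rw [tau_stdAut] at hτ
  subst hτ
  obtain ⟨Q₁, D, hnd, hD⟩ := exists_frame (gh_plus hm) hfix hs hy
  have hn : Module.finrank F₀ (Fin (Fintype.card (Fin m ⊕ Fin m)) → F₀) = 2 * m := by
    rw [Module.finrank_fintype_fun_eq_card]; simp; omega
  by_cases hS : ∃ S : Submodule F₀ (Fin (Fintype.card (Fin m ⊕ Fin m)) → F₀),
      (∀ v ∈ S, Q₁ v = 0) ∧ m ≤ Module.finrank F₀ S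
  · obtain ⟨S, hS, hSd⟩ := hS
    obtain ⟨e, he⟩ := exists_isometry_plus (by omega) hn hnd S hS hSd
    obtain ⟨D', hD'⟩ := D.exists_change (Q₀' := quadPlus F₀ m) hfix e fun v => by rw [coe_quadPlus]; exact he v
    exact Or.inl ⟨D', hD'.trans hD⟩
  · obtain ⟨e, he⟩ := exists_isometry_minus (by omega) hn hnd hS hab₀
    obtain ⟨D', hD'⟩ := D.exists_change (Q₀' := quadMinus F₀ (m - 1) a₀ b₀) hfix e fun v => by
      rw [coe_quadMinus]; exact he v
    exact Or.inr ⟨D', hD'.trans hD⟩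

/-- The frames of the minus-type group are all of minus type. -/
theorem minus_frame (hm : 3 ≤ m) (hab : ∀ z₁ z₂ : F, z₁ ^ 2 + a * z₁ * z₂ + b * z₂ ^ 2 = 0 → z₁ = 0 ∧ z₂ = 0)
    (hfix : ∀ c, σ c = c ↔ c ∈ Set.range φ)
    (hab₀ : ∀ z₁ z₂ : F₀, z₁ ^ 2 + a₀ * z₁ * z₂ + b₀ * z₂ ^ 2 = 0 → z₁ = 0 ∧ z₂ = 0)
    (y : MulAut (Cfsg.POmega F ⇑(quadMinus F m a b))) (hτ : tau (gh_minus hm hab) y = σ)
    (hy : y ^ orderOf σ = 1) :
    ∃ D : Frame (quadMinus F m a b) (quadMinus F₀ m a₀ b₀) σ φ, D.aut = y := by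
  obtain ⟨g, τ, k, hs, rfl⟩ := classify (gh_minus hm hab) y
  rw [tau_stdAut] at hτ
  subst hτ
  obtain ⟨Q₁, D, hnd, hD⟩ := exists_frame (gh_minus hm hab) hfix hs hy
  have hn : Module.finrank F₀ (Fin (Fintype.card ((Fin m ⊕ Fin m) ⊕ Fin 2)) → F₀) = 2 * (m + 1) := by
    rw [Module.finrank_fintype_fun_eq_card]; simp; omega
  by_cases hS : ∃ S : Submodule F₀ (Fin (Fintype.card ((Fin m ⊕ Fin m) ⊕ Fin 2)) → F₀),
      (∀ v ∈ S, Q₁ v = 0) ∧ m + 1 ≤ Module.finrank F₀ S
  · exfalso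
    obtain ⟨S, hS, hSd⟩ := hS
    obtain ⟨e, he⟩ := exists_isometry_plus (by omega) hn hnd S hS hSd
    obtain ⟨D', -⟩ := D.exists_change (Q₀' := quadPlus F₀ (m + 1)) hfix e fun v => by rw [coe_quadPlus]; exact he v
    let v : Fin (m + 1) → (Fin m ⊕ Fin m) ⊕ Fin 2 → F := fun i => D'.S (φ ∘ Pi.single (Sum.inl i) 1)
    have hli : LinearIndependent F v := by
      have h1 := ((Pi.basisFun F (Fin (m + 1) ⊕ Fin (m + 1))).map D'.S).linearIndependent.comp Sum.inl Sum.inl_injective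
      convert h1 using 1
      funext i
      rw [Function.comp_apply, Module.Basis.map_apply, Pi.basisFun_apply]
      show D'.S _ = _
      congr 1
      funext l
      by_cases hl : l = Sum.inl i <;> simp [hl]
    have hq : ∀ c : Fin (m + 1) → F, quadMinus F m a b (∑ i, c i • v i) = 0 := by
      intro c
      have h1 : ∀ w, quadMinus F m a b (D'.S w) = D'.b * quadPlus F (m + 1) w := fun w => by
        have h2 : D'.pull = D'.b • quadPlus F (m + 1) := quad_ext_rat (φ := φ) fun u => by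
          rw [_root_.QuadraticMap.smul_apply, smul_eq_mul]
          show quadMinus F m a b (D'.S _) = _
          rw [D'.hS, coe_quadPlus, coe_quadPlus]
          simp [Cfsg.quadFormPlus, map_sum]
        exact QuadraticMap.congr_fun h2 w
      have h3 : (∑ i, c i • v i) = D'.S (Sum.elim c 0) := by
        simp only [v, ← map_smul, ← map_sum]
        congr 1
        funext l
        rcases l with l | l <;> simp [Finset.sum_apply, Pi.single_apply, apply_ite φ]
      rw [h3, h1, coe_quadPlus]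
      simp [Cfsg.quadFormPlus]
    have hle := finrank_le_of_singular_minus hab (U := Submodule.span F (Set.range v)) fun u hu => by
      obtain ⟨c, rfl⟩ := (Submodule.mem_span_range_iff_exists_fun F).1 hu
      rw [← coe_quadMinus]; exact hq c
    rw [finrank_span_eq_card hli, Fintype.card_fin] at hle
    omega
  · obtain ⟨e, he⟩ := exists_isometry_minus (by omega) hn hnd hS hab₀
    obtain ⟨D', hD'⟩ := D.exists_change (Q₀' := quadMinus F₀ m a₀ b₀) hfix e fun v => by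
      rw [coe_quadMinus]; exact he v
    exact ⟨D', hD'.trans hD⟩

/-- An anisotropic binary form stays anisotropic in an extension of odd degree. -/
theorem anisotropic_of_odd (hfix : ∀ c, σ c = c ↔ c ∈ Set.range φ) (hodd : Odd (orderOf σ))
    (hab₀ : ∀ z₁ z₂ : F₀, z₁ ^ 2 + a₀ * z₁ * z₂ + b₀ * z₂ ^ 2 = 0 → z₁ = 0 ∧ z₂ = 0) :
    ∀ z₁ z₂ : F, z₁ ^ 2 + φ a₀ * z₁ * z₂ + φ b₀ * z₂ ^ 2 = 0 → z₁ = 0 ∧ z₂ = 0 := by
  intro z₁ z₂ h
  by_cases hz : z₂ = 0
  · subst hz
    simpa using h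
  exfalso
  set t := z₁ / z₂ with ht
  have h0 : t ^ 2 + φ a₀ * t + φ b₀ = 0 := by rw [ht]; field_simp; linear_combination h
  have hroot : σ t ^ 2 + φ a₀ * σ t + φ b₀ = 0 := by
    have := congrArg σ h0
    simpa [(hfix _).2 ⟨a₀, rfl⟩, (hfix _).2 ⟨b₀, rfl⟩] using this
  have hfixt : σ t = t := by
    by_contra hne
    have hsum : σ t = -φ a₀ - t := by
      have h1 : (σ t - t) * (σ t + t + φ a₀) = 0 := by linear_combination hroot - h0
      linear_combination (mul_eq_zero.1 h1).resolve_left (sub_ne_zero.2 hne)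
    have h2 : σ (σ t) = t := by
      rw [hsum, map_sub, map_neg, (hfix _).2 ⟨a₀, rfl⟩, hsum]; ring
    obtain ⟨j, hj⟩ := hodd
    have h3 : ∀ i, (σ ^ (2 * i)) t = t := by
      intro i
      induction i with
      | zero => simp
      | succ i ih => rw [mul_add, mul_one, pow_add, pow_two, RingAut.mul_apply, RingAut.mul_apply, h2, ih]
    have h4 : (σ ^ orderOf σ) t = t := by rw [pow_orderOf_eq_one]; rfl
    rw [hj, pow_succ, RingAut.mul_apply] at h4
    refine hne ((σ ^ (2 * j)).injective ?_)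
    rw [h4, h3]
  obtain ⟨s, hs⟩ := (hfix _).1 hfixt
  have h5 := hab₀ s 1 (φ.injective (by
    rw [map_zero, map_add, map_add, map_pow, map_mul, map_mul, map_mul, map_pow, map_one, hs]
    linear_combination h0))
  exact one_ne_zero h5.2

/-- Over an extension of odd degree the plus-type group has no frames of minus type. -/
theorem no_minus_frame (hm : 1 ≤ m) (hfix : ∀ c, σ c = c ↔ c ∈ Set.range φ) (hodd : Odd (orderOf σ))
    (hab₀ : ∀ z₁ z₂ : F₀, z₁ ^ 2 + a₀ * z₁ * z₂ + b₀ * z₂ ^ 2 = 0 → z₁ = 0 ∧ z₂ = 0)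
    (D : Frame (quadPlus F m) (quadMinus F₀ (m - 1) a₀ b₀) σ φ) : False := by
  have hab := anisotropic_of_odd hfix hodd hab₀
  have h2 : D.pull = D.b • quadMinus F (m - 1) (φ a₀) (φ b₀) := quad_ext_rat (φ := φ) fun u => by
    rw [_root_.QuadraticMap.smul_apply, smul_eq_mul]
    show quadPlus F m (D.S _) = _
    rw [D.hS, coe_quadMinus, coe_quadMinus]
    simp [Cfsg.quadFormMinus, map_sum]
  let U : Submodule F (Fin m ⊕ Fin m → F) := Submodule.span F
    (Set.range fun i : Fin m => (Pi.single (Sum.inl i) (1 : F) : Fin m ⊕ Fin m → F))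
  have hle := finrank_le_of_singular_minus hab (U := U.map (D.S.symm : _ →ₗ[F] _)) (by
    rintro _ ⟨u, hu, rfl⟩
    have h1 : quadPlus F m u = 0 := by
      obtain ⟨c, rfl⟩ := (Submodule.mem_span_range_iff_exists_fun F).1 hu
      rw [coe_quadPlus]
      simp [Cfsg.quadFormPlus, Finset.sum_apply, Pi.single_apply]
    have h3 := QuadraticMap.congr_fun h2 (D.S.symm u)
    rw [_root_.QuadraticMap.smul_apply, smul_eq_mul] at h3
    have h4 : D.pull (D.S.symm u) = quadPlus F m u := congrArg (quadPlus F m) (D.S.apply_symm_apply u)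
    rw [h4, h1] at h3
    rw [← coe_quadMinus]
    exact (mul_eq_zero.1 h3.symm).resolve_left D.hb)
  rw [LinearEquiv.finrank_map_eq, finrank_span_eq_card ((Pi.basisFun F (Fin m ⊕ Fin m)).linearIndependent.comp
    (Sum.inl : Fin m → _) Sum.inl_injective |> fun h => by simpa [Function.comp_def] using h), Fintype.card_fin] at hle
  omega

end CfsgLib.AutPE
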