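import Cfsg.Agent.AutPE.FieldBalance
import Cfsg.Agent.AutPE.StdFrame
set_option autoImplicit false
set_option quotPrecheck false
set_option linter.unusedSectionVars false

/-!
Local balance for the automorphisms of odd prime order outside the inner-diagonal group of the minus-type group.
-/

namespace CfsgLib.AutPE

open QuadraticMap hiding proj
open Matrix
open CfsgLib.Forms CfsgLib.AutPO

universe u

variable {F : Type u} [Field F] [Fintype F]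

/-- A matrix carrying one form to a multiple of another identifies the projective groups. -/
theorem exists_transport_scaled {ι : Type} [Fintype ι] [DecidableEq ι] {Q Q' : QuadraticForm F (ι → F)} (A : GL ι F)
    {c : F} (hc : c ≠ 0) (hA : ∀ v, Q' ((A : Matrix ι ι F) *ᵥ v) = c * Q v) :
    ∃ (e : Cfsg.Omega F ⇑Q ≃* Cfsg.Omega F ⇑Q') (Ψ : Cfsg.POmega F ⇑Q ≃* Cfsg.POmega F ⇑Q'),
      (∀ s : Cfsg.Omega F ⇑Q, ((e s : Cfsg.isometryGroup F ⇑Q') : GL ι F) =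
        A * ((s : Cfsg.isometryGroup F ⇑Q) : GL ι F) * A⁻¹) ∧
      ∀ s : Cfsg.Omega F ⇑Q, Ψ (QuotientGroup.mk s) = QuotientGroup.mk (e s) := by
  have hmap : (Cfsg.isometryGroup F ⇑Q).map (MulAut.conj A).toMonoidHom = Cfsg.isometryGroup F ⇑Q' := by
    ext g
    constructor
    · rintro ⟨s, hs, rfl⟩
      refine mem_isometryGroup.2 fun v => ?_
      show Q' (((A * s * A⁻¹ : GL ι F) : Matrix ι ι F) *ᵥ v) = Q' v
      rw [Units.val_mul, Units.val_mul, ← mulVec_mulVec, ← mulVec_mulVec, hA, mem_isometryGroup.1 hs, ← hA,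
        mulVec_mulVec, Units.mul_inv, one_mulVec]
    · intro hg
      refine ⟨A⁻¹ * g * A, mem_isometryGroup.2 fun v => mul_left_cancel₀ hc ?_, by
        show A * (A⁻¹ * g * A) * A⁻¹ = g; group⟩
      rw [← hA, Units.val_mul, Units.val_mul, mulVec_mulVec, ← mul_assoc, ← mul_assoc, Units.mul_inv, one_mul,
        ← mulVec_mulVec, mem_isometryGroup.1 hg, hA]
  let eA : Cfsg.isometryGroup F ⇑Q ≃* Cfsg.isometryGroup F ⇑Q' :=
    ((MulAut.conj A).subgroupMap (Cfsg.isometryGroup F ⇑Q)).trans (MulEquiv.subgroupCongr hmap)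
  have hcomm : (commutator (Cfsg.isometryGroup F ⇑Q)).map eA.toMonoidHom = commutator (Cfsg.isometryGroup F ⇑Q') := by
    rw [commutator_def, Subgroup.map_commutator, ← MonoidHom.range_eq_map,
      MonoidHom.range_eq_top.2 eA.surjective, ← commutator_def]
  let eΩ : Cfsg.Omega F ⇑Q ≃* Cfsg.Omega F ⇑Q' := (eA.subgroupMap _).trans (MulEquiv.subgroupCongr hcomm)
  refine ⟨eΩ, QuotientGroup.congr _ _ eΩ ?_, fun s => rfl, fun s => rfl⟩
  ext y
  constructor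
  · rintro ⟨x, hx, rfl⟩
    refine Subgroup.mem_center_iff.2 fun z => ?_
    obtain ⟨w, rfl⟩ := eΩ.surjective z
    show eΩ w * eΩ x = eΩ x * eΩ w
    rw [← map_mul, Subgroup.mem_center_iff.1 hx w, map_mul]
  · intro hy
    refine ⟨eΩ.symm y, Subgroup.mem_center_iff.2 fun z => eΩ.injective ?_, eΩ.apply_symm_apply y⟩
    rw [map_mul, map_mul, eΩ.apply_symm_apply]
    exact Subgroup.mem_center_iff.1 hy _

variable {F₀ : Type*} [Field F₀] [Fintype F₀] {m : ℕ} {a b : F} {a₀ b₀ : F₀} {σ : RingAut F} {φ : F₀ →+* F}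

/-- The automorphism of a frame of odd order is a field automorphism. -/
theorem field_class_of_frame (D : Frame (quadMinus F m a b) (quadMinus F₀ m a₀ b₀) σ φ)
    (hfix : ∀ c, σ c = c ↔ c ∈ Set.range φ) (hσ : σ ≠ 1) (hodd : Odd (orderOf σ))
    (hab₀ : ∀ z₁ z₂ : F₀, z₁ ^ 2 + a₀ * z₁ * z₂ + b₀ * z₂ ^ 2 = 0 → z₁ = 0 ∧ z₂ = 0) :
    ∃ (a' b' : F) (ψ : Cfsg.POmega F ⇑(quadMinus F m a b) ≃* Cfsg.POmega F ⇑(quadMinus F m a' b'))
      (τ : F ≃+* F), (∀ z₁ z₂ : F, z₁ ^ 2 + a' * z₁ * z₂ + b' * z₂ ^ 2 = 0 → z₁ = 0 ∧ z₂ = 0) ∧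
      τ ≠ RingEquiv.refl F ∧ τ a' = a' ∧ τ b' = b' ∧
      Cfsg.IsFieldAutPOmegaOf (⇑(quadMinus F m a' b')) τ ((ψ.symm.trans D.aut).trans ψ) := by
  have hpull : D.pull = D.b • quadMinus F m (φ a₀) (φ b₀) := quad_ext_rat (φ := φ) fun u => by
    rw [_root_.QuadraticMap.smul_apply, smul_eq_mul]
    show quadMinus F m a b (D.S _) = _
    rw [D.hS, coe_quadMinus, coe_quadMinus]
    simp [Cfsg.quadFormMinus, map_sum]
  let A : GL ((Fin m ⊕ Fin m) ⊕ Fin 2) F := glEquiv.symm D.S.symm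
  have hAS : ∀ w, A.1 *ᵥ D.S w = w := fun w => by
    rw [← glEquiv_apply]; simp [A]
  have hA : ∀ v, quadMinus F m (φ a₀) (φ b₀) (A.1 *ᵥ v) = D.b⁻¹ * quadMinus F m a b v := fun v => by
    obtain ⟨w, rfl⟩ := D.S.surjective v
    rw [hAS, show quadMinus F m a b (D.S w) = D.pull w from rfl, hpull, _root_.QuadraticMap.smul_apply, smul_eq_mul,
      inv_mul_cancel_left₀ D.hb]
  obtain ⟨e, Ψ, he, hΨ⟩ := exists_transport_scaled A (inv_ne_zero D.hb) hA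
  refine ⟨φ a₀, φ b₀, Ψ, σ, anisotropic_of_odd hfix hodd hab₀, hσ, (hfix _).2 ⟨a₀, rfl⟩, (hfix _).2 ⟨b₀, rfl⟩,
    fun t t' ht => ?_⟩
  obtain ⟨s, rfl⟩ := e.surjective t
  show Ψ (D.aut (Ψ.symm (QuotientGroup.mk (e s)))) = _
  rw [← hΨ, Ψ.symm_apply_apply]
  show Ψ (stdAut D.semi_g (proj s)) = _
  rw [stdAut_proj]
  refine (hΨ _).trans (congrArg QuotientGroup.mk (ext_lin fun v => ?_))
  obtain ⟨w, rfl⟩ : ∃ w, σ ∘ w = v := ⟨σ.symm ∘ v, funext fun i => σ.apply_symm_apply _⟩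
  rw [lin_apply, lin_apply, ht, map_mulVec', he, he]
  have key : ∀ (M : GL ((Fin m ⊕ Fin m) ⊕ Fin 2) F) (u : (Fin m ⊕ Fin m) ⊕ Fin 2 → F),
      (A * M * A⁻¹ : GL _ F).1 *ᵥ u = A.1 *ᵥ (M.1 *ᵥ D.S u) := fun M u => by
    rw [Units.val_mul, Units.val_mul, ← mulVec_mulVec, ← mulVec_mulVec]
    congr 2
    nth_rewrite 1 [← hAS u]
    rw [mulVec_mulVec, Units.inv_mul, one_mulVec]
  rw [key, key, ← lin_apply, ← lin_apply, ← D.equivar, lin_semiΩ]
  obtain ⟨z, hz⟩ := D.S.surjective (lin s (D.S w))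
  rw [← hz, D.equivar, hAS, hAS]

/-- Membership in the image of a group of similarities. -/
theorem exists_of_mem_map {ι : Type} [Fintype ι] [DecidableEq ι] {Q : QuadraticForm F (ι → F)}
    (P : Matrix ι ι F → Prop) (S : Subgroup (Simil.Sim Q)) (hP : ∀ g ∈ S, P (g : GL ι F).1)
    {x : MulAut (Cfsg.POmega F ⇑Q)} (hx : x ∈ S.map (Simil.act Q)) :
    ∃ g : GL ι F, g ∈ Cfsg.Geo.quadSimilarityGroup (F := F) ⇑Q ∧ P g.1 ∧
      Cfsg.IsInducedBySemilinearPOmega ⇑Q g (RingEquiv.refl F) x := by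
  obtain ⟨g, hg, rfl⟩ := hx
  exact ⟨(g : GL ι F), g.2, hP g hg, (Simil.induced_iff g _).2 rfl⟩

/-- Membership in the image of `Ω`. -/
theorem exists_of_mem_inn {ι : Type} [Fintype ι] [DecidableEq ι] {Q : QuadraticForm F (ι → F)}
    (P : Matrix ι ι F → Prop)
    (hP : ∀ g : Simil.Sim Q, (∃ c : F, c ≠ 0 ∧ ∃ k ∈ Cfsg.Omega F ⇑Q,
      ∀ v, (g : GL ι F).1 *ᵥ v = c • ((k : GL ι F).1 *ᵥ v)) → P (g : GL ι F).1)
    {x : MulAut (Cfsg.POmega F ⇑Q)} (hx : x ∈ Cfsg.Inn (Cfsg.POmega F ⇑Q)) :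
    ∃ g : GL ι F, g ∈ Cfsg.Geo.quadSimilarityGroup (F := F) ⇑Q ∧ P g.1 ∧
      Cfsg.IsInducedBySemilinearPOmega ⇑Q g (RingEquiv.refl F) x := by
  obtain ⟨k, hk, rfl⟩ := (Simil.mem_inn_iff x).1 hx
  exact ⟨(k : GL ι F), (Simil.ofIso k).2, hP (Simil.ofIso k) ⟨1, one_ne_zero, k, hk, fun v => (one_smul F _).symm⟩,
    (Simil.induced_iff (Simil.ofIso k) _).2 rfl⟩

/-- Membership in the inner-diagonal group. -/
theorem inndiag_minus_cases (hm : 3 ≤ m) (hab : ∀ z₁ z₂ : F, z₁ ^ 2 + a * z₁ * z₂ + b * z₂ ^ 2 = 0 → z₁ = 0 ∧ z₂ = 0)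
    {x : MulAut (Cfsg.POmega F ⇑(quadMinus F m a b))}
    (hx : x ∈ classSub (⇑(quadMinus F m a b)) (Cfsg.PreservesSingularClassesMinus m a b)) :
    ∃ g : GL ((Fin m ⊕ Fin m) ⊕ Fin 2) F, g ∈ Cfsg.Geo.quadSimilarityGroup (F := F) ⇑(quadMinus F m a b) ∧
      Cfsg.PreservesSingularClassesMinus m a b g.1 ∧
      Cfsg.IsInducedBySemilinearPOmega ⇑(quadMinus F m a b) g (RingEquiv.refl F) x := by
  rcases odd_card_or_two (F := F) with ⟨hodd, h2⟩ | h2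
  · have hg := Simil.good_minus hodd hm hab
    rw [inndiag_minus_eq hab hodd hm hg] at hx
    exact exists_of_mem_map _ _ (fun g hgs => (preserves_minus hab hodd hm hg g).2 (MonoidHom.mem_ker.1 hgs)) hx
  · rw [inndiag_minus_two hab h2 hm] at hx
    exact exists_of_mem_inn _ (fun g => (preserves_minus_two hab h2 hm g).2) hx

/-- An element of odd order outside a proper group has a nontrivial field part. -/
theorem tau_ne_one_of_odd {ι : Type} [Fintype ι] [DecidableEq ι] {Q : QuadraticForm F (ι → F)} (h : GH Q)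
    {Pr : Subgroup (MulAut (Cfsg.POmega F ⇑Q))} (hP : IsProper Q Pr) {x : MulAut (Cfsg.POmega F ⇑Q)}
    (hx : x ∉ Pr) {p : ℕ} (hp : Odd p) (hord : x ^ p = 1) : tau h x ≠ 1 := fun e => by
  haveI := hP.normal
  obtain ⟨g, rfl⟩ : x ∈ (Simil.act Q).range := by rw [← ker_tau h]; exact e
  obtain ⟨u, hu⟩ := exists_ne_zero h
  rcases hP.or_refl g u hu with h1 | h1
  · exact hx h1
  set R := Simil.act Q (Simil.ofIso (listGL Q [⟨u, hu⟩]))
  have h2 : QuotientGroup.mk' Pr (Simil.act Q g) * QuotientGroup.mk' Pr R = 1 := by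
    rw [← map_mul]; exact (QuotientGroup.eq_one_iff _).2 h1
  have h3 : QuotientGroup.mk' Pr R * QuotientGroup.mk' Pr R = 1 := by rw [← map_mul, inv_refl, map_one]
  have h4 : QuotientGroup.mk' Pr (Simil.act Q g) = QuotientGroup.mk' Pr R := by
    rw [eq_inv_of_mul_eq_one_left h2, ← eq_inv_of_mul_eq_one_left h3]
  have h5 := congrArg (QuotientGroup.mk' Pr) hord
  rw [map_pow, map_one, h4] at h5
  obtain ⟨j, rfl⟩ := hp
  rw [pow_succ, pow_mul, pow_two, h3, one_pow, one_mul] at h5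
  exact hP.refl_not u hu ((QuotientGroup.eq_one_iff _).1 h5)

/-- Local balance, odd order. -/
theorem balance_minus_odd (hm : 3 ≤ m)
    (hab : ∀ z₁ z₂ : F, z₁ ^ 2 + a * z₁ * z₂ + b * z₂ ^ 2 = 0 → z₁ = 0 ∧ z₂ = 0)
    {p : ℕ} [Fact p.Prime] (hp : p ≠ 2) (A : Subgroup (MulAut (Cfsg.POmega F ⇑(quadMinus F m a b))))
    (hinn : ∀ k : Cfsg.POmega F ⇑(quadMinus F m a b), MulAut.conj k ∈ A)
    (x : MulAut (Cfsg.POmega F ⇑(quadMinus F m a b))) (hord : orderOf x = p)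
    (hnot : x ∉ classSub (⇑(quadMinus F m a b)) (Cfsg.PreservesSingularClassesMinus m a b)) :
    Cfsg.pPrimeCore p ↥(A ⊓ Subgroup.centralizer {x}) ≠ ⊥ ↔
      ((∃ (a' b' : F) (ψ : Cfsg.POmega F ⇑(quadMinus F m a b) ≃* Cfsg.POmega F ⇑(quadMinus F m a' b'))
        (τ : F ≃+* F), (∀ z₁ z₂ : F, z₁ ^ 2 + a' * z₁ * z₂ + b' * z₂ ^ 2 = 0 → z₁ = 0 ∧ z₂ = 0) ∧
        τ ≠ RingEquiv.refl F ∧ τ a' = a' ∧ τ b' = b' ∧
        Cfsg.IsFieldAutPOmegaOf (⇑(quadMinus F m a' b')) τ ((ψ.symm.trans x).trans ψ)) ∧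
      Nat.Coprime p (Nat.card ↥(MonoidHom.eqLocus x.toMonoidHom (MonoidHom.id (Cfsg.POmega F ⇑(quadMinus F m a b)))))) := by
  have hP := (isInndiag_minus hm hab).proper
  have hxp : x ^ p = 1 := by rw [← hord]; exact pow_orderOf_eq_one x
  have hpodd : Odd p := (Fact.out : p.Prime).odd_of_ne_two hp
  have hτ := tau_ne_one_of_odd (gh_minus hm hab) hP hnot hpodd hxp
  set σ := tau (gh_minus hm hab) x with hσdef
  have hσ : orderOf σ = p := orderOf_eq_prime (by rw [hσdef, ← map_pow, hxp, map_one]) hτ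
  obtain ⟨F₀, _, _, φ, hfix⟩ := exists_fixed_field σ
  obtain ⟨a₀, b₀, hab₀⟩ := exists_anisotropic F₀
  obtain ⟨D, hD⟩ := minus_frame hm hab hfix hab₀ x hσdef.symm (by rw [hσ, hxp])
  rw [← hD] at hxp ⊢
  rw [and_iff_right (field_class_of_frame D hfix hτ (hσ ▸ hpodd) hab₀)]
  exact D.core_iff hfix (gh_minus hm hab) (gh_minus hm hab₀) hP hp hxp A hinn

end CfsgLib.AutPE
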