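import Cfsg.Agent.AutPE.Odd
import Cfsg.Agent.AutPE.Minus
import Cfsg.Agent.AutPE.Plus
set_option autoImplicit false
set_option linter.unusedSectionVars false

/-!
Semisimilarities of the minus-type forms over the Frobenius in odd characteristic.
-/

namespace CfsgLib.AutPE

open QuadraticMap hiding proj
open Matrix
open CfsgLib.Forms CfsgLib.AutPO

variable {F : Type*} [Field F] [Fintype F] {m : ℕ} {a b : F} {p : ℕ} [Fact p.Prime] [CharP F p]
  (hab : ∀ z₁ z₂ : F, z₁ ^ 2 + a * z₁ * z₂ + b * z₂ ^ 2 = 0 → z₁ = 0 ∧ z₂ = 0) (h2 : (2 : F) ≠ 0)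
include hab h2

/-- The negative of the discriminant of the plane, up to a square. -/
theorem disc_not_square : ¬ IsSquare (a ^ 2 / 4 - b) := fun ⟨r, hr⟩ => by
  have h4 : (4 : F) ≠ 0 := by rw [show (4 : F) = 2 * 2 by norm_num]; exact mul_ne_zero h2 h2
  refine one_ne_zero (hab (r - a / 2) 1 ?_).2
  field_simp
  field_simp at hr
  linear_combination -(4 : F) * hr * 0 + (-1 : F) * hr

theorem disc_ne_zero : a ^ 2 / 4 - b ≠ 0 := fun h => disc_not_square hab h2 (h.symm ▸ IsSquare.zero)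

/-- The Frobenius semisimilarity in odd characteristic. -/
noncomputable def frobOdd : GL ((Fin m ⊕ Fin m) ⊕ Fin 2) F :=
  planeGL m (a ^ p / 2 - a / 2 * (a ^ 2 / 4 - b) ^ ((p - 1) / 2)) ((a ^ 2 / 4 - b) ^ ((p - 1) / 2))
    (pow_ne_zero _ (disc_ne_zero hab h2))

theorem isSemi_frobOdd (hp : p ≠ 2) :
    IsSemi (quadMinus F m a b) (frobOdd (m := m) (p := p) hab h2) (frob F p) 1 := by
  refine ⟨one_ne_zero, fun v => ?_⟩
  rw [frobOdd, semi_planeGL, quad_sum, coe_quadMinus, one_mul]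
  have h4 : (4 : F) ≠ 0 := by rw [show (4 : F) = 2 * 2 by norm_num]; exact mul_ne_zero h2 h2
  have hfr : ∀ x : F, x ^ p = frob F p x := fun x => rfl
  set δ := a ^ 2 / 4 - b with hδ
  have hD : (δ ^ ((p - 1) / 2)) ^ 2 * δ = frob F p δ := by
    rw [frob_apply, ← pow_mul, ← pow_succ]
    congr 1
    have hpo := Nat.odd_iff.1 ((Fact.out : p.Prime).odd_of_ne_two hp)
    have := (Fact.out : p.Prime).one_lt
    omega
  set D := δ ^ ((p - 1) / 2)
  rw [hδ, map_sub, map_div₀, map_pow, map_ofNat] at hD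
  simp only [Cfsg.quadFormMinus, map_add, map_sum, map_mul, map_pow, hfr a, Matrix.cons_val_zero, Matrix.cons_val_one]
  field_simp at hD ⊢
  linear_combination -(frob F p (v (Sum.inr 1)) ^ 2) * hD

/-- The automorphism induced by the Frobenius semisimilarity. -/
noncomputable def phiOdd (hp : p ≠ 2) : MulAut (Cfsg.POmega F ⇑(quadMinus F m a b)) :=
  stdAut (isSemi_frobOdd (m := m) (p := p) hab h2 hp)

theorem phiOdd_pow (hp : p ≠ 2) (n : ℕ) :
    ∃ (G : GL ((Fin m ⊕ Fin m) ⊕ Fin 2) F) (τ : RingAut F) (hs : IsSemi (quadMinus F m a b) G τ 1),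
      τ = frob F p ^ n ∧ stdAut hs = phiOdd hab h2 hp ^ n ∧ G.1.det = (a ^ 2 / 4 - b) ^ ((p ^ n - 1) / 2) := by
  induction n with
  | zero =>
    have h1 : IsSemi (quadMinus F m a b) (1 : GL ((Fin m ⊕ Fin m) ⊕ Fin 2) F) (1 : RingAut F) 1 :=
      ⟨one_ne_zero, fun v => by rw [semi, Units.val_one, one_mulVec, one_mul]; rfl⟩
    refine ⟨1, 1, h1, (pow_zero _).symm, ?_, by simp⟩
    rw [pow_zero]
    refine MulEquiv.ext fun x => ?_
    obtain ⟨x, rfl⟩ := proj_surjective x
    rw [stdAut_proj]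
    refine congrArg proj (ext_lin fun v => ?_)
    have := lin_semiΩ h1 x v
    simpa [semi, Function.comp_def] using this
  | succ n ih =>
    obtain ⟨G, τ, hs, hτ, hG, hd⟩ := ih
    have h3 := isSemi_comp (isSemi_frobOdd (m := m) hab h2 hp) hs
    simp only [map_one, mul_one] at h3
    refine ⟨_, _, h3, by rw [hτ, ← pow_succ'], ?_, ?_⟩
    · rw [pow_succ', ← hG, phiOdd]
      exact stdAut_mul _ _ _ (semi_compGL _ _ _ _)
    · show ((frobOdd (m := m) (p := p) hab h2).1 * G.1.map (frob F p)).det = _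
      rw [det_mul, frobOdd, det_planeGL, show (G.1.map (frob F p)).det = frob F p G.1.det from
        ((frob F p : F →+* F).map_det _).symm, hd, frob_apply, ← pow_mul, ← pow_add]
      congr 1
      obtain ⟨k, hk⟩ := (Fact.out : p.Prime).odd_of_ne_two hp
      obtain ⟨l, hl⟩ := ((Fact.out : p.Prime).odd_of_ne_two hp).pow (n := n)
      rw [pow_succ, hl, hk, Nat.add_sub_cancel, Nat.add_sub_cancel,
        show (2 * l + 1) * (2 * k + 1) - 1 = 2 * (k + l * (2 * k + 1)) by ring_nf; omega]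
      simp

theorem phiOdd_pow_card (hp : p ≠ 2) {f : ℕ} (hF : Fintype.card F = p ^ f) (hg : Simil.Good (quadMinus F m a b)) :
    ∃ k : Cfsg.isometryGroup F ⇑(quadMinus F m a b), (k : GL ((Fin m ⊕ Fin m) ⊕ Fin 2) F).1.det = -1 ∧
      Simil.invariant hg (Simil.ofIso k) ≠ 1 ∧ out (phiOdd (m := m) hab h2 hp) ^ f = isoOut k := by
  obtain ⟨G, τ, hs, hτ, hG, hd⟩ := phiOdd_pow (m := m) hab h2 hp f
  have hτ1 : τ = 1 := by rw [hτ, ← orderOf_frob (p := p) hF, pow_orderOf_eq_one]
  subst hτ1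
  have hmem : G ∈ Cfsg.isometryGroup F ⇑(quadMinus F m a b) := mem_isometryGroup.2 fun v => by
    have := hs.2 v
    rw [one_mul] at this
    exact this
  have hdet : G.1.det = -1 := by
    rw [hd, ← hF]
    have hodd : Fintype.card F % 2 = 1 := FiniteField.odd_card_of_char_ne_two (by rw [ringChar.eq F p]; exact hp)
    rw [show (Fintype.card F - 1) / 2 = Fintype.card F / 2 by omega]
    refine (FiniteField.pow_dichotomy (by rw [ringChar.eq F p]; exact hp) (disc_ne_zero hab h2)).resolve_left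
      fun e => disc_not_square hab h2 ?_
    exact (FiniteField.isSquare_iff (by rw [ringChar.eq F p]; exact hp) (disc_ne_zero hab h2)).2 e
  refine ⟨⟨G, hmem⟩, hdet, fun e => ?_, ?_⟩
  · have h1 := Simil.sign_val hg (Simil.ofIso ⟨G, hmem⟩)
    rw [((Simil.invariant_eq_one hg _).1 e).2, Simil.mult_ofIso hg, show
      ((Simil.ofIso (⟨G, hmem⟩ : Cfsg.isometryGroup F ⇑(quadMinus F m a b)) : Simil.Sim _) : GL _ F) = G from rfl,
      hdet, Units.val_one, one_pow, div_one] at h1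
    exact h2 (by linear_combination h1)
  · rw [show out (phiOdd (m := m) hab h2 hp) = QuotientGroup.mk' _ (phiOdd hab h2 hp) from rfl, ← map_pow, ← hG]
    exact congrArg (QuotientGroup.mk' _) (act_eq_stdAut (iso_le_sim' hmem) hs).symm
where
  /-- An isometry is a similarity. -/
  iso_le_sim' {G : GL ((Fin m ⊕ Fin m) ⊕ Fin 2) F} (hG : G ∈ Cfsg.isometryGroup F ⇑(quadMinus F m a b)) :
      G ∈ Simil.Sim (quadMinus F m a b) := Simil.iso_le_sim hG

end CfsgLib.AutPE
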