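import Cfsg.Agent.AutPE.Inndiag
import Cfsg.Agent.AutPE.Odd
import Cfsg.Agent.AutPE.Minus
import Cfsg.Agent.Forms.Levi
set_option autoImplicit false
set_option quotPrecheck false
set_option linter.unusedSectionVars false

/-!
The inner-diagonal group modulo inner automorphisms in odd characteristic.
-/

namespace CfsgLib.AutPE

open QuadraticMap hiding proj
open Matrix
open CfsgLib.Forms

section General

variable {F : Type*} [Field F] [Finite F] {ι : Type} [Fintype ι] [DecidableEq ι] {Q : QuadraticForm F (ι → F)}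
  (hg : Simil.Good Q)

local notation "PΩ'" => (Cfsg.POmega F ⇑Q)
local notation "P₀" => ((Simil.sign hg).ker.map (Simil.act Q))

/-- The projection of the sign kernel image to the outer automorphism group. -/
noncomputable def signOut : ↥P₀ →* Cfsg.Out PΩ' :=
  (QuotientGroup.mk' (Cfsg.Inn PΩ')).comp (Subgroup.subtype P₀)

theorem signOut_ker : (signOut hg).ker = (Cfsg.Inn PΩ').subgroupOf P₀ := by
  ext x
  exact QuotientGroup.eq_one_iff (x : MulAut PΩ')

theorem hom_of_equiv {H : Type*} [Group H] (e : (signOut hg).range ≃* H) :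
    ∃ φ : ↥P₀ →* H, Function.Surjective φ ∧ φ.ker = (Cfsg.Inn PΩ').subgroupOf P₀ := by
  refine ⟨e.toMonoidHom.comp (signOut hg).rangeRestrict,
    e.surjective.comp (signOut hg).rangeRestrict_surjective, ?_⟩
  rw [← signOut_ker hg]
  ext x
  simp [MonoidHom.mem_ker, Subtype.ext_iff]

theorem exists_iso_of_sign {g : Simil.Sim Q} (hs : Simil.sign hg g = 1) (hsq : IsSquare (Simil.mult hg g : F)) :
    ∃ k : Cfsg.isometryGroup F ⇑Q, (k : GL ι F).1.det = 1 ∧ Simil.act Q g = Simil.act Q (Simil.ofIso k) := by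
  obtain ⟨k, hk, e⟩ := (Simil.invariant_ker_iff hg g).1 ((Simil.invariant_eq_one hg g).2 ⟨hsq, hs⟩)
  exact ⟨⟨_, hk.1⟩, congrArg Units.val (MonoidHom.mem_ker.1 hk.2), e⟩

theorem sq_of_inn {g : Simil.Sim Q} (hi : Simil.act Q g ∈ Cfsg.Inn PΩ') : IsSquare (Simil.mult hg g : F) := by
  obtain ⟨w, hw, e⟩ := (Simil.mem_inn_iff _).1 hi
  obtain ⟨c, hc⟩ := (Simil.act_eq_one_iff hg (g⁻¹ * Simil.ofIso w)).1 (by rw [map_mul, map_inv, e, inv_mul_cancel])
  obtain ⟨u, hu⟩ := Simil.exists_value_one hg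
  have h1 := Simil.mult_spec hg (g⁻¹ * Simil.ofIso w) u
  rw [hc, Simil.scalar_mulVec hg, QuadraticMap.map_smul, hu, smul_eq_mul, mul_one, mul_one, map_mul, map_inv,
    Simil.mult_ofIso hg, mul_one, Units.val_inv_eq_inv_val] at h1
  exact ⟨(c : F)⁻¹, by rw [← mul_inv, h1, inv_inv]⟩

/-- Without `-1` in `Ω`. -/
theorem exists_hom_two (hneg : (Simil.negOne (Q := Q)) ∉ Cfsg.Omega F ⇑Q) {g₀ : Simil.Sim Q}
    (hs₀ : Simil.sign hg g₀ = 1) (hμ₀ : ¬ IsSquare (Simil.mult hg g₀ : F)) :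
    ∃ φ : ↥P₀ →* Multiplicative (ZMod 2), Function.Surjective φ ∧ φ.ker = (Cfsg.Inn PΩ').subgroupOf P₀ := by
  have hmem : Simil.act Q g₀ ∈ P₀ := ⟨g₀, MonoidHom.mem_ker.2 hs₀, rfl⟩
  let a : (signOut hg).range := ⟨signOut hg ⟨_, hmem⟩, _, rfl⟩
  have ha : a ≠ 1 := fun e => hμ₀ (sq_of_inn hg ((QuotientGroup.eq_one_iff _).1 (congrArg Subtype.val e)))
  have hall : ∀ x : (signOut hg).range, x = 1 ∨ x = a := by
    rintro ⟨_, ⟨⟨_, g, hgs, rfl⟩, rfl⟩⟩
    have hsg : Simil.sign hg g = 1 := MonoidHom.mem_ker.1 hgs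
    have key : ∀ g : Simil.Sim Q, Simil.sign hg g = 1 → IsSquare (Simil.mult hg g : F) →
        Simil.act Q g ∈ Cfsg.Inn PΩ' := fun g h1 h2 => by
      obtain ⟨k, hk, e⟩ := exists_iso_of_sign hg h1 h2
      rw [e, ← Simil.pso_eq_inn hg hneg, Simil.psoAut_eq]
      exact ⟨Simil.ofIso k, ⟨k.2, MonoidHom.mem_ker.2 (Units.ext hk)⟩, rfl⟩
    by_cases hsq : IsSquare (Simil.mult hg g : F)
    · exact Or.inl (Subtype.ext ((QuotientGroup.eq_one_iff _).2 (key g hsg hsq)))
    · refine Or.inr (Subtype.ext ?_)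
      have h3 : Simil.act Q (g * g₀⁻¹) ∈ Cfsg.Inn PΩ' := key _ (by rw [map_mul, map_inv, hsg, hs₀]; simp) (by
        rw [map_mul, map_inv, Units.val_mul, Units.val_inv_eq_inv_val,
          isSquare_mul_iff' (Simil.mult hg g).ne_zero (inv_ne_zero (Simil.mult hg g₀).ne_zero), isSquare_inv]
        exact iff_of_false hsq hμ₀)
      have h4 : QuotientGroup.mk' (Cfsg.Inn PΩ') (Simil.act Q (g * g₀⁻¹)) = 1 := (QuotientGroup.eq_one_iff _).2 h3
      rw [map_mul, map_inv, map_mul, map_inv, mul_inv_eq_one] at h4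
      exact h4
  have hcard : Nat.card (signOut hg).range = 2 := Nat.card_eq_two_iff.2 ⟨1, a, fun e => ha e.symm,
    Set.eq_univ_of_forall fun x => (hall x)⟩
  haveI : IsCyclic (signOut hg).range := isCyclic_of_prime_card (p := 2) hcard
  exact hom_of_equiv hg (mulEquivOfCyclicCardEq (by rw [hcard, Nat.card_congr Multiplicative.toAdd, Nat.card_zmod]))

/-- With `-1` in `Ω`: cyclic or elementary according to the square of a non-square similarity. -/
theorem exists_hom_four (hneg : (Simil.negOne (Q := Q)) ∈ Cfsg.Omega F ⇑Q) {g₀ : Simil.Sim Q}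
    (hs₀ : Simil.sign hg g₀ = 1) (hμ₀ : ¬ IsSquare (Simil.mult hg g₀ : F)) {k : Cfsg.isometryGroup F ⇑Q}
    (hk : Simil.act Q (g₀ * g₀) = Simil.act Q (Simil.ofIso k)) :
    (k ∈ Cfsg.Omega F ⇑Q →
      ∃ φ : ↥P₀ →* Multiplicative (ZMod 2 × ZMod 2), Function.Surjective φ ∧ φ.ker = (Cfsg.Inn PΩ').subgroupOf P₀) ∧
    (k ∉ Cfsg.Omega F ⇑Q →
      ∃ φ : ↥P₀ →* Multiplicative (ZMod 4), Function.Surjective φ ∧ φ.ker = (Cfsg.Inn PΩ').subgroupOf P₀) := by
  obtain ⟨K, hKd, hK⟩ := Simil.exists_pair_not_mem hg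
  have hd := Simil.hq hg
  have hmem : Simil.act Q g₀ ∈ P₀ := ⟨g₀, MonoidHom.mem_ker.2 hs₀, rfl⟩
  have hKmem : Simil.act Q (Simil.ofIso K) ∈ P₀ := ⟨Simil.ofIso K, MonoidHom.mem_ker.2 (Units.ext (by
    rw [Simil.sign_val hg, Simil.mult_ofIso hg, Units.val_one, one_pow, div_one]; exact hKd)), rfl⟩
  let a : (signOut hg).range := ⟨signOut hg ⟨_, hmem⟩, _, rfl⟩
  let z : (signOut hg).range := ⟨signOut hg ⟨_, hKmem⟩, _, rfl⟩
  have hz1 : z ≠ 1 := fun e => hK ((Simil.act_mem_inn_iff hg hneg K).1 ((QuotientGroup.eq_one_iff _).1 (congrArg Subtype.val e)))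
  have hiso : ∀ j : Cfsg.isometryGroup F ⇑Q, (j : GL ι F).1.det = 1 →
      isoOut j = 1 ∨ isoOut j = (z : Cfsg.Out PΩ') := by
    intro j hj
    rcases Simil.special_dichotomy hg hKd hK hj with hm | hm
    · exact Or.inl ((QuotientGroup.eq_one_iff _).2 ((Simil.mem_inn_iff _).2 ⟨j, hm, rfl⟩))
    · refine Or.inr ?_
      have h1 : isoOut (j * K) = (1 : Cfsg.Out PΩ') := (QuotientGroup.eq_one_iff _).2 ((Simil.mem_inn_iff _).2 ⟨_, hm, rfl⟩)
      have h2 : isoOut K * isoOut K = (1 : Cfsg.Out PΩ') := by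
        rw [← map_mul]
        exact (QuotientGroup.eq_one_iff _).2 ((Simil.mem_inn_iff _).2 ⟨_, sq_mem_Omega hg.nondeg hd K, rfl⟩)
      rw [map_mul] at h1
      exact (eq_inv_of_mul_eq_one_left h1).trans (inv_eq_of_mul_eq_one_right h2)
  have ha1 : a ≠ 1 := fun e => hμ₀ (sq_of_inn hg ((QuotientGroup.eq_one_iff _).1 (congrArg Subtype.val e)))
  have haz : a ≠ z := fun e => by
    have h1 : QuotientGroup.mk' (Cfsg.Inn PΩ') (Simil.act Q ((Simil.ofIso K)⁻¹ * g₀)) = 1 := by
      rw [map_mul, map_inv, map_mul, map_inv, inv_mul_eq_one]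
      exact (congrArg Subtype.val e).symm
    have h2 := sq_of_inn hg ((QuotientGroup.eq_one_iff _).1 h1)
    rw [map_mul, map_inv, Simil.mult_ofIso hg, inv_one, one_mul] at h2
    exact hμ₀ h2
  have hall : ∀ x : (signOut hg).range, x = 1 ∨ x = z ∨ x = a ∨ x = z * a := by
    rintro ⟨_, ⟨⟨_, g, hgs, rfl⟩, rfl⟩⟩
    have hsg : Simil.sign hg g = 1 := MonoidHom.mem_ker.1 hgs
    by_cases hsq : IsSquare (Simil.mult hg g : F)
    · obtain ⟨j, hj, e⟩ := exists_iso_of_sign hg hsg hsq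
      rcases hiso j hj with h1 | h1
      · exact Or.inl (Subtype.ext ((congrArg (QuotientGroup.mk' _) e).trans h1))
      · exact Or.inr (Or.inl (Subtype.ext ((congrArg (QuotientGroup.mk' _) e).trans h1)))
    · obtain ⟨j, hj, e⟩ := exists_iso_of_sign hg (g := g * g₀⁻¹) (by rw [map_mul, map_inv, hsg, hs₀]; simp) (by
        rw [map_mul, map_inv, Units.val_mul, Units.val_inv_eq_inv_val,
          isSquare_mul_iff' (Simil.mult hg g).ne_zero (inv_ne_zero (Simil.mult hg g₀).ne_zero), isSquare_inv]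
        exact iff_of_false hsq hμ₀)
      have e' := congrArg (QuotientGroup.mk' (Cfsg.Inn PΩ')) e
      rw [map_mul, map_inv, map_mul, map_inv, mul_inv_eq_iff_eq_mul] at e'
      rcases hiso j hj with h1 | h1
      · refine Or.inr (Or.inr (Or.inl (Subtype.ext (e'.trans ?_))))
        show isoOut j * _ = _
        rw [h1, one_mul]; rfl
      · refine Or.inr (Or.inr (Or.inr (Subtype.ext (e'.trans ?_))))
        show isoOut j * _ = _
        rw [h1]; rfl
  classical
  letI := Fintype.ofFinite (signOut hg).range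
  have hcard : Nat.card (signOut hg).range = 4 := by
    rw [Nat.card_eq_fintype_card, ← Finset.card_univ,
      show (Finset.univ : Finset (signOut hg).range) = {1, z, a, z * a} from
        (Finset.eq_univ_of_forall fun x => by simpa using hall x).symm]
    rw [Finset.card_insert_of_notMem, Finset.card_insert_of_notMem, Finset.card_insert_of_notMem, Finset.card_singleton]
    · simpa using hz1
    · simp only [Finset.mem_insert, Finset.mem_singleton, not_or]
      exact ⟨Ne.symm haz, fun e => ha1 (by simpa using e.symm)⟩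
    · simp only [Finset.mem_insert, Finset.mem_singleton, not_or]
      refine ⟨Ne.symm hz1, Ne.symm ha1, fun e => ?_⟩
      have h2 : z * z = 1 := Subtype.ext (by
        show isoOut K * isoOut K = (1 : Cfsg.Out PΩ')
        rw [← map_mul]
        exact (QuotientGroup.eq_one_iff _).2 ((Simil.mem_inn_iff _).2 ⟨_, sq_mem_Omega hg.nondeg hd K, rfl⟩))
      exact haz (mul_left_cancel (e.symm.trans h2.symm))
  have haa : ((a * a : (signOut hg).range) : Cfsg.Out PΩ') = isoOut k := by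
    show QuotientGroup.mk' _ _ * QuotientGroup.mk' _ _ = _
    rw [← map_mul]
    exact congrArg (QuotientGroup.mk' _) (by show Simil.act Q g₀ * Simil.act Q g₀ = _; rw [← map_mul, hk]; rfl)
  refine ⟨fun hkm => ?_, fun hkm => ?_⟩
  · haveI : Fact (Nat.Prime 2) := ⟨Nat.prime_two⟩
    have hcomm : ∀ x y : (signOut hg).range, x * y = y * x := fun x y =>
      (IsPGroup.commGroupOfCardEqPrimeSq (p := 2) (G := (signOut hg).range) hcard).mul_comm x y
    have haa1 : a * a = 1 := Subtype.ext (haa.trans ((QuotientGroup.eq_one_iff _).2 ((Simil.mem_inn_iff _).2 ⟨k, hkm, rfl⟩)))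
    have hzz : z * z = 1 := Subtype.ext (by
        show isoOut K * isoOut K = (1 : Cfsg.Out PΩ')
        rw [← map_mul]
        exact (QuotientGroup.eq_one_iff _).2 ((Simil.mem_inn_iff _).2 ⟨_, sq_mem_Omega hg.nondeg hd K, rfl⟩))
    have hsq : ∀ x : (signOut hg).range, x * x = 1 := fun x => by
      rcases hall x with rfl | rfl | rfl | rfl
      · exact one_mul 1
      · exact hzz
      · exact haa1
      · rw [mul_assoc, hcomm a, mul_assoc, haa1, mul_one, hzz]
    haveI : IsKleinFour (signOut hg).range := ⟨hcard, by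
      haveI : Nontrivial (signOut hg).range := ⟨⟨z, 1, hz1⟩⟩
      exact (Monoid.exponent_eq_prime_iff Nat.prime_two).2 fun g hg' => orderOf_eq_prime (by rw [pow_two, hsq]) hg'⟩
    haveI : IsKleinFour (Multiplicative (ZMod 2 × ZMod 2)) := inferInstance
    obtain ⟨e⟩ := IsKleinFour.nonempty_mulEquiv (G₁ := (signOut hg).range) (G₂ := Multiplicative (ZMod 2 × ZMod 2))
    exact hom_of_equiv hg e
  · have haa1 : a * a ≠ 1 := fun e => hkm ((Simil.act_mem_inn_iff hg hneg k).1
      ((QuotientGroup.eq_one_iff _).1 (haa.symm.trans (congrArg Subtype.val e))))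
    haveI : IsCyclic (signOut hg).range := isCyclic_of_orderOf_eq_card a (by
      rw [hcard]
      refine orderOf_eq_prime_pow (p := 2) (n := 1) (by simpa [pow_two] using haa1) ?_
      rw [show (2 : ℕ) ^ (1 + 1) = Nat.card (signOut hg).range by rw [hcard]; norm_num]
      exact pow_card_eq_one')
    exact hom_of_equiv hg (mulEquivOfCyclicCardEq (by rw [hcard, Nat.card_congr Multiplicative.toAdd, Nat.card_zmod]))

end General

/-! ### The standard similarities -/

variable {F : Type*} [Field F] [Fintype F] {m : ℕ}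

theorem plus_mod_inner (hodd : Odd (Fintype.card F)) (hm : 3 ≤ m) (hg : Simil.Good (quadPlus F m)) :
    ((Odd m ∧ Fintype.card F % 4 = 3) → ∃ φ : ↥((Simil.sign hg).ker.map (Simil.act (quadPlus F m))) →* Multiplicative (ZMod 2),
      Function.Surjective φ ∧ φ.ker = (Cfsg.Inn (Cfsg.POmega F ⇑(quadPlus F m))).subgroupOf _) ∧
    ((Odd m ∧ Fintype.card F % 4 = 1) → ∃ φ : ↥((Simil.sign hg).ker.map (Simil.act (quadPlus F m))) →* Multiplicative (ZMod 4),
      Function.Surjective φ ∧ φ.ker = (Cfsg.Inn (Cfsg.POmega F ⇑(quadPlus F m))).subgroupOf _) ∧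
    (Even m → ∃ φ : ↥((Simil.sign hg).ker.map (Simil.act (quadPlus F m))) →* Multiplicative (ZMod 2 × ZMod 2),
      Function.Surjective φ ∧ φ.ker = (Cfsg.Inn (Cfsg.POmega F ⇑(quadPlus F m))).subgroupOf _) := by
  obtain ⟨hc2, h2⟩ := Simil.two_ne_of_odd (F := F) hodd
  obtain ⟨ν, hν⟩ := FiniteField.exists_nonsquare hc2
  have hν0 : ν ≠ 0 := fun e => hν (e ▸ IsSquare.zero)
  have hd : Nat.card F ≠ 2 ∨ Fintype.card (Fin m ⊕ Fin m) ≠ 4 := Or.inr (by simp; omega)
  let D : GL (Fin m ⊕ Fin m) F := Matrix.GeneralLinearGroup.mkOfDetNeZero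
    (diagonal (Sum.elim (fun _ => ν) fun _ => 1)) (by simp [det_diagonal, hν0])
  have hD : ∀ v i, (D.1 *ᵥ v) i = Sum.elim (fun _ => ν) (fun _ => (1 : F)) i * v i := fun v i => by
    show (diagonal _ *ᵥ v) i = _
    rw [mulVec_diagonal]
  have hDq : ∀ v, quadPlus F m (D.1 *ᵥ v) = ν * quadPlus F m v := fun v => by
    simp [Cfsg.quadFormPlus, hD, Finset.mul_sum, mul_assoc]
  let g₀ : Simil.Sim (quadPlus F m) := ⟨D, Units.mk0 ν hν0, hDq⟩
  have hμ : (Simil.mult hg g₀ : F) = ν := by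
    obtain ⟨u, hu⟩ := Simil.exists_value_one hg
    have h1 := Simil.mult_spec hg g₀ u
    rw [show (g₀ : GL (Fin m ⊕ Fin m) F) = D from rfl, hDq, hu, mul_one, mul_one] at h1
    exact h1.symm
  have hs₀ : Simil.sign hg g₀ = 1 := Units.ext (by
    rw [Simil.sign_val hg, hμ, Units.val_one,
      show (g₀ : GL (Fin m ⊕ Fin m) F).1 = diagonal (Sum.elim (fun _ => ν) fun _ => (1 : F)) from rfl,
      det_diagonal, Fintype.prod_sum_type]
    simp [show (m + m) / 2 = m by omega, hν0])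
  have hμ₀ : ¬ IsSquare (Simil.mult hg g₀ : F) := hμ.symm ▸ hν
  have hneg := Simil.negOne_plus (F := F) hodd (m := m) (by omega)
  obtain ⟨l, hl, hle, hls⟩ := leviList (F := F) (m := m) (Or.inr (by omega)) (diagonal fun _ => ν) (by simp [det_diagonal, hν0])
  set k := listGL (quadPlus F m) l
  have hkm : k ∈ Cfsg.Omega F ⇑(quadPlus F m) ↔ Even m := by
    rw [mem_Omega_of_list (nondegenerate_quadPlus m) hd (isoEquiv_listGL l), and_iff_right hle]
    rw [det_diagonal, Finset.prod_const, Finset.card_univ, Fintype.card_fin,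
      isSquare_mul_iff' (valueProd_ne_zero l) (pow_ne_zero _ hν0)] at hls
    rw [hls]
    rcases Nat.even_or_odd m with he | ⟨j, hj⟩
    · exact iff_of_true (he.isSquare_pow ν) he
    · refine iff_of_false (fun hsq => hν ?_) (by rw [hj]; simp)
      rw [hj, pow_succ] at hsq
      exact ((isSquare_mul_iff' (pow_ne_zero _ hν0) hν0).1 hsq).1 ((even_two_mul j).isSquare_pow ν)
  have hk : Simil.act (quadPlus F m) (g₀ * g₀) = Simil.act (quadPlus F m) (Simil.ofIso k) := by
    have h1 : Simil.act (quadPlus F m) ((Simil.ofIso k)⁻¹ * (g₀ * g₀)) = 1 :=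
      (Simil.act_eq_one_iff hg _).2 ⟨Units.mk0 ν hν0, by
        show (k : GL (Fin m ⊕ Fin m) F)⁻¹ * (D * D) = _
        rw [inv_mul_eq_iff_eq_mul]
        refine Units.ext (Matrix.ext_iff_mulVec.2 fun v => funext fun i => ?_)
        rw [Units.val_mul, Units.val_mul, ← mulVec_mulVec, ← mulVec_mulVec, Simil.scalar_mulVec hg, Units.val_mk0, hD, hD,
          show (k : GL (Fin m ⊕ Fin m) F).1 *ᵥ ((ν : F) • v) = fromBlocks (diagonal fun _ => ν) 0 0 ((diagonal fun _ : Fin m => ν)⁻¹)ᵀ *ᵥ (ν • v) by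
            rw [← glEquiv_apply, ← coe_isoEquiv, isoEquiv_listGL, ← hl],
          show ((diagonal fun _ : Fin m => ν)⁻¹)ᵀ = diagonal fun _ => ν⁻¹ by
            rw [Matrix.inv_eq_right_inv (show (diagonal fun _ : Fin m => ν) * diagonal (fun _ => ν⁻¹) = 1 by
              rw [diagonal_mul_diagonal]; simp [hν0]), diagonal_transpose],
          fromBlocks_mulVec]
        rcases i with i | i <;> simp [mulVec_diagonal, hν0]⟩
    rw [map_mul, map_inv, inv_mul_eq_one] at h1
    exact h1.symm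
  refine ⟨fun hc => exists_hom_two hg (fun e => hneg.1 e hc) hs₀ hμ₀, fun hc => ?_, fun hc => ?_⟩
  · exact (exists_hom_four hg (hneg.2 fun hh => by omega) hs₀ hμ₀ hk).2
      fun e => Nat.not_even_iff_odd.2 hc.1 (hkm.1 e)
  · exact (exists_hom_four hg (hneg.2 fun hh => Nat.not_even_iff_odd.2 hh.1 hc) hs₀ hμ₀ hk).1 (hkm.2 hc)

theorem minus_mod_inner {a b : F} (hab : ∀ z₁ z₂ : F, z₁ ^ 2 + a * z₁ * z₂ + b * z₂ ^ 2 = 0 → z₁ = 0 ∧ z₂ = 0)
    (hodd : Odd (Fintype.card F)) (hm : 3 ≤ m) (hg : Simil.Good (quadMinus F m a b)) :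
    ((Even m ∧ Fintype.card F % 4 = 3) → ∃ φ : ↥((Simil.sign hg).ker.map (Simil.act (quadMinus F m a b))) →* Multiplicative (ZMod 4),
      Function.Surjective φ ∧ φ.ker = (Cfsg.Inn (Cfsg.POmega F ⇑(quadMinus F m a b))).subgroupOf _) ∧
    (¬ (Even m ∧ Fintype.card F % 4 = 3) → ∃ φ : ↥((Simil.sign hg).ker.map (Simil.act (quadMinus F m a b))) →* Multiplicative (ZMod 2),
      Function.Surjective φ ∧ φ.ker = (Cfsg.Inn (Cfsg.POmega F ⇑(quadMinus F m a b))).subgroupOf _) := by
  obtain ⟨hc2, h2⟩ := Simil.two_ne_of_odd (F := F) hodd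
  obtain ⟨ν, hν⟩ := FiniteField.exists_nonsquare hc2
  have hν0 : ν ≠ 0 := fun e => hν (e ▸ IsSquare.zero)
  have hd : Nat.card F ≠ 2 ∨ Fintype.card ((Fin m ⊕ Fin m) ⊕ Fin 2) ≠ 4 := Or.inr (by simp; omega)
  have hQ := nondegenerate_quadMinus (F := F) m hab
  -- an element of norm `ν` in the plane
  let B : QuadraticForm F ((Fin 0 ⊕ Fin 0) ⊕ Fin 2 → F) := quadMinus F 0 a b
  obtain ⟨w, hw⟩ := CfsgLib.Forms.exists_value (nondegenerate_quadMinus (F := F) 0 hab) (by simp) hν0
  set α := w (Sum.inr 0)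
  set β := w (Sum.inr 1)
  have hN : α ^ 2 + a * α * β + b * β ^ 2 = ν := by
    rw [← hw, coe_quadMinus]; simp [Cfsg.quadFormMinus, α, β]
  let M : Matrix ((Fin m ⊕ Fin m) ⊕ Fin 2) ((Fin m ⊕ Fin m) ⊕ Fin 2) F :=
    fromBlocks (diagonal (Sum.elim (fun _ => ν) fun _ => 1)) 0 0 !![α, -(b * β); β, α + a * β]
  have hMdet : M.det = ν ^ (m + 1) := by
    rw [det_fromBlocks_zero₂₁, det_diagonal, Fintype.prod_sum_type, det_fin_two_of, pow_succ]
    simp only [Sum.elim_inl, Sum.elim_inr, Finset.prod_const, one_pow, mul_one, Finset.card_univ, Fintype.card_fin]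
    linear_combination ν ^ m * hN
  let D : GL ((Fin m ⊕ Fin m) ⊕ Fin 2) F := Matrix.GeneralLinearGroup.mkOfDetNeZero M (by rw [hMdet]; exact pow_ne_zero _ hν0)
  have hD : ∀ v, D.1 *ᵥ v = Sum.elim (fun j => Sum.elim (fun _ => ν) (fun _ => (1 : F)) j * v (Sum.inl j))
      ![α * v (Sum.inr 0) - b * β * v (Sum.inr 1), β * v (Sum.inr 0) + (α + a * β) * v (Sum.inr 1)] := fun v => by
    show M *ᵥ v = _
    rw [fromBlocks_mulVec]
    funext z
    rcases z with z | z
    · simp [mulVec_diagonal, Function.comp]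
    · fin_cases z <;> simp [Matrix.mulVec, dotProduct, Fin.sum_univ_two, Function.comp, sub_eq_add_neg]
  have hDq : ∀ v, quadMinus F m a b (D.1 *ᵥ v) = ν * quadMinus F m a b v := fun v => by
    rw [hD, quad_sum, coe_quadMinus]
    simp [Cfsg.quadFormMinus, mul_add, Finset.mul_sum, mul_assoc]
    linear_combination (v (Sum.inr 0) ^ 2 + a * v (Sum.inr 0) * v (Sum.inr 1) + b * v (Sum.inr 1) ^ 2) * hN
  let g₀ : Simil.Sim (quadMinus F m a b) := ⟨D, Units.mk0 ν hν0, hDq⟩
  have hμ : (Simil.mult hg g₀ : F) = ν := by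
    obtain ⟨u, hu⟩ := Simil.exists_value_one hg
    have h1 := Simil.mult_spec hg g₀ u
    rw [show (g₀ : GL ((Fin m ⊕ Fin m) ⊕ Fin 2) F) = D from rfl, hDq, hu, mul_one, mul_one] at h1
    exact h1.symm
  have hs₀ : Simil.sign hg g₀ = 1 := Units.ext (by
    rw [Simil.sign_val hg, hμ, Units.val_one, show (g₀ : GL ((Fin m ⊕ Fin m) ⊕ Fin 2) F).1.det = ν ^ (m + 1) from hMdet]
    simp [show (m + m + 2) / 2 = m + 1 by omega, hν0])
  have hμ₀ : ¬ IsSquare (Simil.mult hg g₀ : F) := hμ.symm ▸ hν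
  have hneg := Simil.negOne_minus (F := F) hodd (m := m) hab
  refine ⟨fun hc => ?_, fun hc => exists_hom_two hg (fun e => hc (hneg.1 e)) hs₀ hμ₀⟩
  -- the square of `g₀`, up to a scalar, through reflections
  obtain ⟨l, hl, hle, hls⟩ := leviList (F := F) (m := m) (Or.inr (by omega)) (diagonal fun _ => ν) (by simp [det_diagonal, hν0])
  have hemb : ∀ u, quadMinus F m a b (Sum.elim u 0) = quadPlus F m u := fun u => by
    rw [quad_sum, coe_quadPlus]; simp [Cfsg.quadFormPlus]
  let ι' : {u : Fin m ⊕ Fin m → F // quadPlus F m u ≠ 0} → {u : (Fin m ⊕ Fin m) ⊕ Fin 2 → F // quadMinus F m a b u ≠ 0} :=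
    fun u => ⟨Sum.elim u.1 0, by rw [hemb]; exact u.2⟩
  have hrefl : ∀ (l : List {u : Fin m ⊕ Fin m → F // quadPlus F m u ≠ 0}) (x : Fin m ⊕ Fin m → F) (y : Fin 2 → F),
      reflProd (quadMinus F m a b) (l.map ι') (Sum.elim x y) = Sum.elim (reflProd (quadPlus F m) l x) y := by
    intro l
    induction l with
    | nil => intro x y; rfl
    | cons u l ih =>
      intro x y
      show Forms.refl (quadMinus F m a b) (Sum.elim u.1 0) (ι' u).2 (reflProd _ (l.map ι') (Sum.elim x y)) =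
        Sum.elim (Forms.refl (quadPlus F m) u.1 u.2 (reflProd _ l x)) y
      rw [ih, Forms.refl_apply, Forms.refl_apply, hemb,
        show polar (⇑(quadMinus F m a b)) (Sum.elim (reflProd (quadPlus F m) l x) y) (Sum.elim u.1 0) =
          polar (⇑(quadPlus F m)) (reflProd (quadPlus F m) l x) u.1 by simp [polar_minus, polar_plus]]
      funext z
      rcases z with z | z <;> simp
  set e₀ : (Fin m ⊕ Fin m) ⊕ Fin 2 → F := Sum.elim 0 ![1, 0] with he₀
  set eα : (Fin m ⊕ Fin m) ⊕ Fin 2 → F := Sum.elim 0 ![α, β] with heα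
  have hq0 : quadMinus F m a b e₀ = 1 := by rw [he₀, quad_sum]; simp
  have hqα : quadMinus F m a b eα = ν := by rw [heα, quad_sum]; simp [hN]
  have hq0' : quadMinus F m a b e₀ ≠ 0 := by rw [hq0]; exact one_ne_zero
  have hqα' : quadMinus F m a b eα ≠ 0 := by rw [hqα]; exact hν0
  set L : List {u : (Fin m ⊕ Fin m) ⊕ Fin 2 → F // quadMinus F m a b u ≠ 0} := l.map ι' ++ [⟨eα, hqα'⟩, ⟨e₀, hq0'⟩]
  set k := listGL (quadMinus F m a b) L
  have hkm : k ∉ Cfsg.Omega F ⇑(quadMinus F m a b) := fun hkmem => by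
    have h1 := ((mem_Omega_of_list hQ hd (isoEquiv_listGL L)).1 hkmem).2
    have hval : valueProd (quadMinus F m a b) (l.map ι') = valueProd (quadPlus F m) l := by
      simp only [valueProd, List.map_map]
      congr 1
      exact List.map_congr_left fun u _ => hemb u.1
    have hvL : valueProd (quadMinus F m a b) L = valueProd (quadPlus F m) l * ν := by
      rw [← hval]; simp [valueProd, L, hqα, hq0, -coe_quadMinus]
    rw [hvL, isSquare_mul_iff' (valueProd_ne_zero l) hν0] at h1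
    rw [det_diagonal, Finset.prod_const, Finset.card_univ, Fintype.card_fin,
      isSquare_mul_iff' (valueProd_ne_zero l) (pow_ne_zero _ hν0)] at hls
    exact hν (h1.1 (hls.2 (hc.1.isSquare_pow ν)))
  have hk : Simil.act (quadMinus F m a b) (g₀ * g₀) = Simil.act (quadMinus F m a b) (Simil.ofIso k) := by
    have h1 : Simil.act (quadMinus F m a b) ((Simil.ofIso k)⁻¹ * (g₀ * g₀)) = 1 :=
      (Simil.act_eq_one_iff hg _).2 ⟨Units.mk0 ν hν0, by
        show (k : GL ((Fin m ⊕ Fin m) ⊕ Fin 2) F)⁻¹ * (D * D) = _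
        rw [inv_mul_eq_iff_eq_mul]
        refine Units.ext (Matrix.ext_iff_mulVec.2 fun v => ?_)
        rw [Units.val_mul, Units.val_mul, ← mulVec_mulVec, ← mulVec_mulVec, Simil.scalar_mulVec hg, Units.val_mk0,
          show (k : GL ((Fin m ⊕ Fin m) ⊕ Fin 2) F).1 *ᵥ ((ν : F) • v) = reflProd (quadMinus F m a b) L (ν • v) by
            rw [← glEquiv_apply, ← coe_isoEquiv, isoEquiv_listGL]]
        have hv : (ν : F) • v = Sum.elim (fun j => ν * v (Sum.inl j)) (fun j => ν * v (Sum.inr j)) := by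
          funext z; rcases z with z | z <;> simp
        show _ = reflProd (quadMinus F m a b) (l.map ι' ++ [⟨eα, hqα'⟩, ⟨e₀, hq0'⟩]) ((ν : F) • v)
        rw [reflProd_append]
        show _ = reflProd (quadMinus F m a b) (l.map ι') (Forms.refl _ eα hqα' (Forms.refl _ e₀ hq0' ((ν : F) • v)))
        rw [Forms.refl_apply, Forms.refl_apply, hq0, hqα]
        set y := ((ν : F) • v) - (1⁻¹ * polar (⇑(quadMinus F m a b)) ((ν : F) • v) e₀) • e₀ with hy
        have hyl : ∀ j, y (Sum.inl j) = ν * v (Sum.inl j) := fun j => by simp [hy, he₀]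
        have hy0 : y (Sum.inr 0) = -(ν * v (Sum.inr 0)) - a * (ν * v (Sum.inr 1)) := by
          simp [hy, he₀, polar_minus]; ring
        have hy1 : y (Sum.inr 1) = ν * v (Sum.inr 1) := by simp [hy, he₀]
        have hsum : ∀ x : (Fin m ⊕ Fin m) ⊕ Fin 2 → F, x = Sum.elim (fun j => x (Sum.inl j)) fun j => x (Sum.inr j) :=
          fun x => by funext z; rcases z with z | z <;> rfl
        rw [hsum (y - (ν⁻¹ * polar (⇑(quadMinus F m a b)) y eα) • eα), hrefl]
        rw [hD, hD]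
        funext z
        rcases z with z | z
        · rw [Sum.elim_inl, Sum.elim_inl, hl,
            show ((diagonal fun _ : Fin m => ν)⁻¹)ᵀ = diagonal fun _ => ν⁻¹ by
              rw [Matrix.inv_eq_right_inv (show (diagonal fun _ : Fin m => ν) * diagonal (fun _ => ν⁻¹) = 1 by
                rw [diagonal_mul_diagonal]; simp [hν0]), diagonal_transpose],
            fromBlocks_mulVec]
          rcases z with z | z <;> simp [mulVec_diagonal, hyl, heα, hν0]
        · fin_cases z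
          · simp [polar_minus, heα, hy0, hy1]
            field_simp
            rw [← hN]
            ring
          · simp [polar_minus, heα, hy0, hy1]
            field_simp
            rw [← hN]
            ring⟩
    rw [map_mul, map_inv, inv_mul_eq_one] at h1
    exact h1.symm
  exact (exists_hom_four hg (hneg.2 hc) hs₀ hμ₀ hk).2 hkm

end CfsgLib.AutPE
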