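import Cfsg.Agent.Forms.Maximal
import Cfsg.Agent.Forms.OmegaMatrix
import Cfsg.Prelude.Def_LieTypeDatum
set_option autoImplicit false
set_option linter.unusedSectionVars false

/-!
The two classes of maximal totally singular subspaces and the parity of a similarity.
-/

namespace CfsgLib.AutPE

open QuadraticMap
open CfsgLib.Forms

variable {K : Type*} [Field K] {ι : Type} [Fintype ι] [DecidableEq ι] {Q : QuadraticForm K (ι → K)}

/-- Codimension of the intersection in the first subspace. -/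
noncomputable def codim (U W : Submodule K (ι → K)) : ℕ :=
  Module.finrank K U - Module.finrank K ↥(U ⊓ W)

theorem codim_add (hQ : (polarBilin Q).Nondegenerate) {U W X : Submodule K (ι → K)} (hU : IsMaxSingular Q U)
    (hW : IsMaxSingular Q W) (hX : IsMaxSingular Q X) : codim U X % 2 = (codim U W + codim W X) % 2 := by
  have h1 := Submodule.finrank_mono (inf_le_left : U ⊓ W ≤ U)
  have h2 := Submodule.finrank_mono (inf_le_left : W ⊓ X ≤ W)
  have h3 := Submodule.finrank_mono (inf_le_left : U ⊓ X ≤ U)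
  have h4 := finrank_inf_parity hQ (codim W X) hU hW hX (by unfold codim; omega)
  have := hU.1; have := hW.1
  unfold codim at *
  omega

theorem codim_self (U : Submodule K (ι → K)) : codim U U = 0 := by
  rw [codim, inf_idem, Nat.sub_self]

theorem codim_symm (hQ : (polarBilin Q).Nondegenerate) {U W : Submodule K (ι → K)} (hU : IsMaxSingular Q U)
    (hW : IsMaxSingular Q W) : codim U W % 2 = codim W U % 2 := by
  have := codim_add hQ hU hW hU
  rw [codim_self] at this
  omega

theorem codim_map (φ : (ι → K) ≃ₗ[K] (ι → K)) (U W : Submodule K (ι → K)) :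
    codim (U.map (φ : (ι → K) →ₗ[K] (ι → K))) (W.map (φ : (ι → K) →ₗ[K] (ι → K))) = codim U W := by
  unfold codim
  rw [← Submodule.map_inf _ φ.injective, LinearEquiv.finrank_map_eq, LinearEquiv.finrank_map_eq]

/-- Every maximal totally singular subspace of a hyperbolic form has half the dimension. -/
theorem maxTotallySingular_iff (hQ : (polarBilin Q).Nondegenerate) {W₀ : Submodule K (ι → K)}
    (hW₀ : IsMaxSingular Q W₀) (U : Submodule K (ι → K)) :
    Cfsg.IsMaxTotallySingular ⇑Q U ↔ IsMaxSingular Q U := by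
  constructor
  · rintro ⟨hU, hmax⟩
    refine ⟨?_, hU⟩
    have hUX : U ≤ perp Q U := fun x hx => mem_perp.2 fun y hy => polar_eq_zero_of_singular hU hx hy
    set X := U ⊔ (W₀ ⊓ perp Q U)
    have hX : ∀ x ∈ X, Q x = 0 := by
      intro x hx
      obtain ⟨a, ha, b, hb, rfl⟩ := Submodule.mem_sup.1 hx
      rw [QuadraticMap.map_add (⇑Q), hU a ha, hW₀.2 b hb.1, polar_comm, mem_perp.1 hb.2 a ha]; simp
    have hle : W₀ ⊓ perp Q U ≤ U := le_sup_right.trans (hmax X hX le_sup_left).le
    have e : W₀ ⊓ perp Q U = W₀ ⊓ U := le_antisymm (le_inf inf_le_left hle) (inf_le_inf_left W₀ hUX)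
    have h1 := finrank_inf_perp hQ (U := W₀) (H := U) hW₀
    rw [e] at h1
    have := hW₀.1
    omega
  · intro hU
    refine ⟨hU.2, fun W hW hle => (Submodule.eq_of_le_of_finrank_le hle ?_).symm⟩
    have h1 : W ≤ perp Q W := fun x hx => mem_perp.2 fun y hy => polar_eq_zero_of_singular hW hx hy
    have := Submodule.finrank_mono h1
    rw [finrank_perp hQ] at this
    have := hU.1
    have := Submodule.finrank_le W
    omega

/-- A similarity preserves the two classes iff it moves one subspace by an even amount. -/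
theorem preserves_iff (hQ : (polarBilin Q).Nondegenerate) {W₀ : Submodule K (ι → K)} (hW₀ : IsMaxSingular Q W₀)
    (φ : (ι → K) ≃ₗ[K] (ι → K)) {c : K} (hc : ∀ v, Q (φ v) = c * Q v) (g : Matrix ι ι K)
    (hg : ∀ v, g.mulVec v = φ v) :
    Cfsg.PreservesSingularClasses (⇑Q) g ↔ Even (codim W₀ (W₀.map (φ : (ι → K) →ₗ[K] (ι → K)))) := by
  have him : ∀ U, Cfsg.imageSubmodule g U = U.map (φ : (ι → K) →ₗ[K] (ι → K)) := fun U => by
    rw [Cfsg.imageSubmodule, show Matrix.toLin' g = (φ : (ι → K) →ₗ[K] (ι → K)) from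
      LinearMap.ext fun v => by rw [Matrix.toLin'_apply]; exact hg v]
  have hmap : ∀ U, IsMaxSingular Q U → IsMaxSingular Q (U.map (φ : (ι → K) →ₗ[K] (ι → K))) := fun U hU =>
    ⟨by rw [LinearEquiv.finrank_map_eq]; exact hU.1, by
      rintro _ ⟨w, hw, rfl⟩; rw [LinearEquiv.coe_coe, hc, hU.2 w hw, mul_zero]⟩
  constructor
  · intro h
    have := h W₀ ((maxTotallySingular_iff hQ hW₀ W₀).2 hW₀)
    rwa [Cfsg.SameParityClass, him] at this
  · intro h U hU
    have hU' := (maxTotallySingular_iff hQ hW₀ U).1 hU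
    rw [Cfsg.SameParityClass, him, ← codim, Nat.even_iff] at *
    have h1 := codim_add hQ hU' hW₀ (hmap U hU')
    have h2 := codim_add hQ hW₀ (hmap W₀ hW₀) (hmap U hU')
    rw [codim_map] at h2
    have h3 := codim_symm hQ hU' hW₀
    omega

/-- A product of reflections moves a subspace by the length of the list. -/
theorem codim_reflProd (hQ : (polarBilin Q).Nondegenerate) {W₀ : Submodule K (ι → K)} (hW₀ : IsMaxSingular Q W₀)
    (l : List {u : ι → K // Q u ≠ 0}) :
    codim W₀ (W₀.map (reflProd Q l : (ι → K) →ₗ[K] (ι → K))) % 2 = l.length % 2 := by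
  have h1 := finrank_inf_map_reflProd hQ hW₀ l
  have h2 := Submodule.finrank_mono (inf_le_left : W₀ ⊓ W₀.map (reflProd Q l : (ι → K) →ₗ[K] (ι → K)) ≤ W₀)
  unfold codim
  omega

/-- Classes are preserved iff the list is even. -/
theorem preserves_iff_even (hQ : (polarBilin Q).Nondegenerate) {W₀ : Submodule K (ι → K)} (hW₀ : IsMaxSingular Q W₀)
    (φ : (ι → K) ≃ₗ[K] (ι → K)) {c : K} (hc : ∀ v, Q (φ v) = c * Q v) (g : Matrix ι ι K)
    (hg : ∀ v, g.mulVec v = φ v) (l : List {u : ι → K // Q u ≠ 0})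
    (hl : W₀.map (φ : (ι → K) →ₗ[K] (ι → K)) = W₀.map (reflProd Q l : (ι → K) →ₗ[K] (ι → K))) :
    Cfsg.PreservesSingularClasses (⇑Q) g ↔ Even l.length := by
  rw [preserves_iff hQ hW₀ φ hc g hg, hl, Nat.even_iff, Nat.even_iff, codim_reflProd hQ hW₀]

/-- A scalar multiple moves subspaces as the map does. -/
theorem map_eq_of_smul {φ ψ : (ι → K) →ₗ[K] (ι → K)} {c : K} (hc : c ≠ 0) (h : ∀ v, φ v = c • ψ v)
    (W : Submodule K (ι → K)) : W.map φ = W.map ψ := by
  refine le_antisymm ?_ ?_
  · rintro _ ⟨w, hw, rfl⟩; exact ⟨c • w, W.smul_mem _ hw, by rw [map_smul, h]⟩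
  · rintro _ ⟨w, hw, rfl⟩; exact ⟨c⁻¹ • w, W.smul_mem _ hw, by rw [map_smul, h, inv_smul_smul₀ hc]⟩

end CfsgLib.AutPE
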