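import Cfsg.Agent.AutPE.Parity
import Cfsg.Agent.AutPE.Trace
import Cfsg.Agent.Forms.SimilitudeStd
import Cfsg.Agent.Forms.Arf
set_option autoImplicit false
set_option linter.unusedSectionVars false

/-!
Class preservation for the standard forms: the sign in odd characteristic, parity in characteristic two.
-/

namespace CfsgLib.AutPE

open QuadraticMap hiding proj
open Matrix
open CfsgLib.Forms

section Square

variable {K : Type*} [Field K] [Finite K] {ι : Type} [Fintype ι] [DecidableEq ι] {Q : QuadraticForm K (ι → K)}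

/-- A similarity with square multiplier is a scalar times an isometry. -/
theorem exists_smul_iso (g : GL ι K) {c : K} (hc0 : c ≠ 0) (hg : ∀ v, Q (g.1 *ᵥ v) = c * c * Q v) :
    ∃ k : Cfsg.isometryGroup K ⇑Q, ∀ v, g.1 *ᵥ v = c • ((k : GL ι K).1 *ᵥ v) := by
  let z : GL ι K := Matrix.GeneralLinearGroup.scalar ι (Units.mk0 c hc0)⁻¹
  have hz : ∀ v, z.1 *ᵥ v = c⁻¹ • v := fun v => by
    ext i; simp [z, Matrix.GeneralLinearGroup.scalar, Matrix.mulVec_diagonal]
  refine ⟨⟨z * g, mem_isometryGroup.2 fun v => ?_⟩, fun v => ?_⟩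
  · rw [Units.val_mul, ← mulVec_mulVec, hz, QuadraticMap.map_smul, hg, smul_eq_mul]
    field_simp
  · show _ = c • ((z * g : GL ι K).1 *ᵥ v)
    rw [Units.val_mul, ← mulVec_mulVec, hz, smul_inv_smul₀ hc0]

/-- For such a similarity: classes and determinant from the reflection length. -/
theorem preserves_sq (hQ : (polarBilin Q).Nondegenerate) (hd : Nat.card K ≠ 2 ∨ Fintype.card ι ≠ 4)
    {W₀ : Submodule K (ι → K)} (hW₀ : IsMaxSingular Q W₀) (g : GL ι K) {c : K} (hc0 : c ≠ 0)
    (k : Cfsg.isometryGroup K ⇑Q) (hk : ∀ v, g.1 *ᵥ v = c • ((k : GL ι K).1 *ᵥ v)) :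
    ∃ l : List {u : ι → K // Q u ≠ 0}, isoEquiv Q k = ⟨reflProd Q l, reflProd_mem_isom l⟩ ∧
      (Cfsg.PreservesSingularClasses (⇑Q) g.1 ↔ Even l.length) ∧
      g.1.det = c ^ Fintype.card ι * (-1) ^ l.length := by
  obtain ⟨l, hl⟩ := exists_list hQ hd k
  have hkl : ∀ v, (k : GL ι K).1 *ᵥ v = reflProd Q l v := fun v => by
    rw [← glEquiv_apply, ← coe_isoEquiv, hl]
  refine ⟨l, hl, preserves_iff_even hQ hW₀ (glEquiv g) (c := c * c) (fun v => ?_) g.1 (fun v => (glEquiv_apply g v).symm) l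
    (map_eq_of_smul hc0 (fun v => by rw [LinearEquiv.coe_coe, glEquiv_apply, hk, hkl]; rfl) W₀), ?_⟩
  · rw [glEquiv_apply, hk, QuadraticMap.map_smul, mem_isometryGroup.1 k.2, smul_eq_mul]
  · have e : g.1 = c • (k : GL ι K).1 := Matrix.ext_iff_mulVec.2 fun v => by rw [hk, smul_mulVec]
    rw [e, det_smul, det_of_list hl]

end Square

/-! ### Plus type -/

variable {F : Type*} [Field F]

/-- The subspace of the second coordinates. -/
def wPlus (F : Type*) [Field F] (m : ℕ) : Submodule F (Fin m ⊕ Fin m → F) :=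
  LinearMap.range (LinearMap.pi (Sum.elim (fun _ => 0) fun i => LinearMap.proj i) : (Fin m → F) →ₗ[F] _)

theorem isMax_wPlus (m : ℕ) : IsMaxSingular (quadPlus F m) (wPlus F m) := by
  refine ⟨?_, ?_⟩
  · rw [wPlus, LinearMap.finrank_range_of_inj]
    · simp [two_mul]
    · intro x y e
      funext i
      simpa using congrFun e (Sum.inr i)
  · rintro _ ⟨x, rfl⟩
    rw [coe_quadPlus]
    simp [Cfsg.quadFormPlus]

variable [Fintype F] {m : ℕ}

/-- Odd characteristic: a similarity preserves the classes iff its sign is one. -/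
theorem preserves_plus (hodd : Odd (Fintype.card F)) (hm : 3 ≤ m) (hg : Simil.Good (quadPlus F m))
    (g : Simil.Sim (quadPlus F m)) :
    Cfsg.PreservesSingularClasses (⇑(quadPlus F m)) (g : GL (Fin m ⊕ Fin m) F).1 ↔ Simil.sign hg g = 1 := by
  obtain ⟨hc2, h2⟩ := Simil.two_ne_of_odd (F := F) hodd
  have hd : Nat.card F ≠ 2 ∨ Fintype.card (Fin m ⊕ Fin m) ≠ 4 := Or.inr (by simp; omega)
  have hQ := nondegenerate_quadPlus (F := F) m
  -- square multiplier
  have hsq : ∀ g : Simil.Sim (quadPlus F m), IsSquare (Simil.mult hg g : F) →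
      (Cfsg.PreservesSingularClasses (⇑(quadPlus F m)) (g : GL (Fin m ⊕ Fin m) F).1 ↔ Simil.sign hg g = 1) := by
    rintro g ⟨c, hc⟩
    have hc0 : c ≠ 0 := fun e => (Simil.mult hg g).ne_zero (by rw [hc, e, mul_zero])
    obtain ⟨k, hk⟩ := exists_smul_iso (g : GL (Fin m ⊕ Fin m) F) hc0 fun v => by rw [Simil.mult_spec hg, hc]
    obtain ⟨l, -, hp, hdet⟩ := preserves_sq hQ hd (isMax_wPlus m) _ hc0 k hk
    rw [hp]
    have hs := Simil.sign_val hg g
    rw [hdet, hc, Fintype.card_sum, Fintype.card_fin, show (m + m) / 2 = m by omega, ← pow_two, ← pow_mul,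
      two_mul, mul_div_cancel_left₀ _ (pow_ne_zero _ hc0)] at hs
    refine ⟨fun he => Units.ext (by rw [hs, he.neg_one_pow, Units.val_one]), fun e => ?_⟩
    rcases Nat.even_or_odd l.length with he | ho
    · exact he
    · rw [e, ho.neg_one_pow, Units.val_one] at hs
      exact absurd (by linear_combination hs : (2 : F) = 0) h2
  by_cases hs : IsSquare (Simil.mult hg g : F)
  · exact hsq g hs
  · obtain ⟨ν, hν⟩ := FiniteField.exists_nonsquare hc2
    have hν0 : ν ≠ 0 := fun e => hν (e ▸ IsSquare.zero)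
    let D : GL (Fin m ⊕ Fin m) F := Matrix.GeneralLinearGroup.mkOfDetNeZero
      (diagonal (Sum.elim (fun _ => ν) fun _ => 1)) (by simp [det_diagonal, hν0])
    have hD : ∀ v i, (D.1 *ᵥ v) i = Sum.elim (fun _ => ν) (fun _ => (1 : F)) i * v i := fun v i => by
      show (diagonal _ *ᵥ v) i = _
      rw [mulVec_diagonal]
    have hDmem : D ∈ Simil.Sim (quadPlus F m) := ⟨Units.mk0 ν hν0, fun v => by
      simp [Cfsg.quadFormPlus, hD, Finset.mul_sum, mul_assoc]⟩
    have hDμ : (Simil.mult hg ⟨D, hDmem⟩ : F) = ν := by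
      obtain ⟨u, hu⟩ := Simil.exists_value_one hg
      have h1 := Simil.mult_spec hg ⟨D, hDmem⟩ u
      rw [hu, mul_one] at h1
      rw [← h1]
      have h3 : quadPlus F m (D.1 *ᵥ u) = ν * quadPlus F m u := by
        simp [Cfsg.quadFormPlus, hD, Finset.mul_sum, mul_assoc]
      rw [h3, hu, mul_one]
    have hDs : Simil.sign hg ⟨D, hDmem⟩ = 1 := Units.ext (by
      rw [Simil.sign_val hg, hDμ, Units.val_one,
        show ((⟨D, hDmem⟩ : Simil.Sim (quadPlus F m)) : GL (Fin m ⊕ Fin m) F).1 = diagonal (Sum.elim (fun _ => ν) fun _ => (1 : F)) from rfl,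
        det_diagonal, Fintype.prod_sum_type]
      simp [show (m + m) / 2 = m by omega, hν0])
    have hWD : (wPlus F m).map (glEquiv D : (Fin m ⊕ Fin m → F) →ₗ[F] _) = wPlus F m := by
      refine Submodule.eq_of_le_of_finrank_le ?_ (by rw [LinearEquiv.finrank_map_eq])
      rintro _ ⟨_, ⟨x, rfl⟩, rfl⟩
      refine ⟨x, funext fun i => ?_⟩
      rw [LinearEquiv.coe_coe, glEquiv_apply, hD]
      rcases i with i | i <;> simp
    set h : Simil.Sim (quadPlus F m) := g * ⟨D, hDmem⟩⁻¹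
    have hh : IsSquare (Simil.mult hg h : F) := by
      rw [map_mul, map_inv, Units.val_mul, Units.val_inv_eq_inv_val, hDμ,
        isSquare_mul_iff' (Simil.mult hg g).ne_zero (inv_ne_zero hν0), isSquare_inv]
      exact iff_of_false hs hν
    have hmap : (wPlus F m).map ((glEquiv (g : GL (Fin m ⊕ Fin m) F)).toLinearMap) =
        (wPlus F m).map ((glEquiv (h : GL (Fin m ⊕ Fin m) F)).toLinearMap) := by
      conv_rhs => rw [← hWD]
      rw [← Submodule.map_comp]
      congr 1
      refine LinearMap.ext fun v => ?_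
      have e0 : (glEquiv D).symm (D.1 *ᵥ v) = v := by rw [← glEquiv_apply, LinearEquiv.symm_apply_apply]
      simp [h, mulVec_mulVec, mul_assoc, glEquiv_apply, e0]
    rw [preserves_iff hQ (isMax_wPlus m) (glEquiv (g : GL (Fin m ⊕ Fin m) F))
      (fun v => by rw [glEquiv_apply]; exact Simil.mult_spec hg g v) _ (fun v => (glEquiv_apply _ v).symm),
      hmap, ← preserves_iff hQ (isMax_wPlus m) (glEquiv (h : GL (Fin m ⊕ Fin m) F))
      (fun v => by rw [glEquiv_apply]; exact Simil.mult_spec hg h v) _ (fun v => (glEquiv_apply _ v).symm),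
      hsq h hh, map_mul, map_inv, hDs, inv_one, mul_one]

end CfsgLib.AutPE

namespace CfsgLib.AutPE

open QuadraticMap hiding proj
open Matrix
open CfsgLib.Forms

variable {F : Type*} [Field F] [Fintype F] {m : ℕ}

/-- Characteristic two: a similarity preserves the classes iff it is a scalar times an element of `Ω`. -/
theorem preserves_plus_two (h2 : (2 : F) = 0) (hm : 3 ≤ m) (g : Simil.Sim (quadPlus F m)) :
    Cfsg.PreservesSingularClasses (⇑(quadPlus F m)) (g : GL (Fin m ⊕ Fin m) F).1 ↔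
      ∃ c : F, c ≠ 0 ∧ ∃ k ∈ Cfsg.Omega F ⇑(quadPlus F m),
        ∀ v, (g : GL (Fin m ⊕ Fin m) F).1 *ᵥ v = c • ((k : GL (Fin m ⊕ Fin m) F).1 *ᵥ v) := by
  have hd : Nat.card F ≠ 2 ∨ Fintype.card (Fin m ⊕ Fin m) ≠ 4 := Or.inr (by simp; omega)
  have hQ := nondegenerate_quadPlus (F := F) m
  constructor
  · intro hp
    obtain ⟨μ, hμ⟩ := g.2
    obtain ⟨c, hc⟩ := exists_sq h2 (μ : F)
    have hc0 : c ≠ 0 := fun e => μ.ne_zero (by rw [← hc, e, mul_zero])
    obtain ⟨k, hk⟩ := exists_smul_iso (g : GL (Fin m ⊕ Fin m) F) hc0 fun v => by rw [hμ, hc]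
    obtain ⟨l, hl, hpl, -⟩ := preserves_sq hQ hd (isMax_wPlus m) _ hc0 k hk
    refine ⟨c, hc0, k, (mem_Omega_of_list hQ hd hl).2 ⟨hpl.1 hp, ?_⟩, hk⟩
    obtain ⟨s, hs⟩ := exists_sq h2 (valueProd (quadPlus F m) l)
    exact ⟨s, hs.symm⟩
  · rintro ⟨c, hc0, k, hk, hkg⟩
    obtain ⟨l, hl, hpl, -⟩ := preserves_sq hQ hd (isMax_wPlus m) _ hc0 k hkg
    exact hpl.2 ((mem_Omega_of_list hQ hd hl).1 hk).1

/-! ### Minus type, read over a quadratic extension -/

section Minus

variable {a b : F} (hab : ∀ z₁ z₂ : F, z₁ ^ 2 + a * z₁ * z₂ + b * z₂ ^ 2 = 0 → z₁ = 0 ∧ z₂ = 0)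
include hab

theorem four_b_ne : 4 * b - a ^ 2 ≠ 0 := fun h => by
  have h1 := hab a (-2) (by linear_combination h)
  have h2 : (2 : F) = 0 := neg_eq_zero.1 h1.2
  obtain ⟨r, hr⟩ := exists_sq h2 b
  exact one_ne_zero (hab r 1 (by rw [h1.1, ← hr]; linear_combination r * r * h2)).2

variable (K : Type*) [Field K] [Algebra F K]

/-- The form read over the extension. -/
noncomputable abbrev quadK : QuadraticForm K ((Fin m ⊕ Fin m) ⊕ Fin 2 → K) :=
  quadMinus K m (algebraMap F K a) (algebraMap F K b)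

theorem nondegenerate_quadK : (polarBilin (quadK (m := m) (a := a) (b := b) K)).Nondegenerate := by
  refine nondegenerate_iff.2 fun x hx => funext fun j => ?_
  simp only [coe_quadMinus, polar_minus] at hx
  have hD : (4 : K) * algebraMap F K b - algebraMap F K a ^ 2 ≠ 0 := by
    have e : (4 : K) * algebraMap F K b - algebraMap F K a ^ 2 = algebraMap F K (4 * b - a ^ 2) := by
      rw [map_sub, map_mul, map_pow, map_ofNat]
    rw [e]
    exact fun h0 => four_b_ne hab ((algebraMap F K).injective (h0.trans (map_zero _).symm))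
  have e0 := hx (Pi.single (Sum.inr 0) 1)
  have e1 := hx (Pi.single (Sum.inr 1) 1)
  simp [Pi.single_apply] at e0 e1
  have hx1 : x (Sum.inr 1) = 0 :=
    (mul_eq_zero.1 (show ((4 : K) * algebraMap F K b - algebraMap F K a ^ 2) * x (Sum.inr 1) = 0 by
      linear_combination 2 * e1 - algebraMap F K a * e0)).resolve_left hD
  have hx0 : x (Sum.inr 0) = 0 :=
    (mul_eq_zero.1 (show ((4 : K) * algebraMap F K b - algebraMap F K a ^ 2) * x (Sum.inr 0) = 0 by
      linear_combination 2 * algebraMap F K b * e0 - algebraMap F K a * e1)).resolve_left hD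
  rcases j with (i | i) | i
  · simpa [Pi.single_apply] using hx (Pi.single (Sum.inl (Sum.inr i)) 1)
  · simpa [Pi.single_apply] using hx (Pi.single (Sum.inl (Sum.inl i)) 1)
  · fin_cases i
    · exact hx0
    · exact hx1

omit hab in
theorem finite_ext (hK : Module.finrank F K = 2) : Finite K := by
  haveI := Module.finite_of_finrank_eq_succ hK
  exact Module.finite_of_finite F

omit hab in
theorem isSquare_algebraMap (hc2 : ringChar F ≠ 2) (hK : Module.finrank F K = 2) (x : F) :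
    IsSquare (algebraMap F K x) := by
  haveI := finite_ext K hK
  haveI := Module.finite_of_finrank_eq_succ hK
  letI := Fintype.ofFinite K
  rcases eq_or_ne x 0 with rfl | hx
  · rw [map_zero]; exact IsSquare.zero
  have hcK : ringChar K ≠ 2 := by rwa [← (Algebra.ringChar_eq F K)]
  rw [FiniteField.isSquare_iff hcK (by simpa using hx)]
  have hcard : Fintype.card K = Fintype.card F ^ 2 := by rw [Module.card_eq_pow_finrank (K := F), hK]
  obtain ⟨k, hk⟩ : ∃ k, Fintype.card F = 2 * k + 1 :=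
    ⟨_, (Nat.div_add_mod _ 2).symm.trans (by rw [FiniteField.odd_card_of_char_ne_two hc2])⟩
  rw [hcard, hk, show (2 * k + 1) ^ 2 / 2 = 2 * k * (k + 1) by
    rw [show (2 * k + 1) ^ 2 = 1 + 2 * (2 * k * (k + 1)) by ring, Nat.add_mul_div_left _ _ (by norm_num : 0 < 2)]
    simp, pow_mul, ← map_pow]
  have h1 := FiniteField.pow_card_sub_one_eq_one x hx
  rw [hk, Nat.add_sub_cancel] at h1
  rw [h1, map_one, one_pow]

/-- A root of the binary form in the extension. -/
theorem exists_root (hK : Module.finrank F K = 2) :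
    ∃ r : K, r ^ 2 + algebraMap F K a * r + algebraMap F K b = 0 := by
  haveI := finite_ext K hK
  haveI := Module.finite_of_finrank_eq_succ hK
  letI := Fintype.ofFinite K
  by_cases hc2 : ringChar F = 2
  · haveI : CharP F 2 := ringChar.of_eq hc2
    haveI : CharP K 2 := charP_of_injective_algebraMap (algebraMap F K).injective 2
    haveI : Fact (Nat.Prime 2) := ⟨Nat.prime_two⟩
    have ha : a ≠ 0 := fun ha => four_b_ne hab (by
      rw [ha, show (4 : F) = 2 * 2 by norm_num, CharTwo.two_eq_zero]; ring)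
    obtain ⟨f, -, hF⟩ := FiniteField.card F 2
    by_cases hy : ∃ y : K, y ^ 2 + y = algebraMap F K (b / a ^ 2)
    · obtain ⟨y, hy⟩ := hy
      refine ⟨algebraMap F K a * y, ?_⟩
      rw [map_div₀, map_pow, eq_div_iff (pow_ne_zero _ (by simpa using ha))] at hy
      linear_combination hy + algebraMap F K b * (CharTwo.two_eq_zero : (2 : K) = 0)
    · exfalso
      push Not at hy
      have hcard : Fintype.card K = 2 ^ ((f : ℕ) + f) := by
        rw [Module.card_eq_pow_finrank (K := F), hK, hF, ← pow_mul]; ring_nf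
      have h1 := sqSum_eq_one hcard hy
      have h0 : sqSum ((f : ℕ) + f) (b / a ^ 2) = 0 := by
        rw [sqSum, Finset.sum_range_add, Finset.sum_congr rfl (fun i _ => show (b / a ^ 2) ^ 2 ^ ((f : ℕ) + i) = (b / a ^ 2) ^ 2 ^ i by
          rw [pow_add, pow_mul, ← hF, FiniteField.pow_card])]
        exact CharTwo.add_self_eq_zero _
      refine zero_ne_one (α := K) ?_
      rw [← h1, ← map_zero (algebraMap F K), ← h0, sqSum, sqSum, map_sum]
      simp [map_pow]
  · obtain ⟨s, hs⟩ := isSquare_algebraMap K hc2 hK (a ^ 2 / 4 - b)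
    have h2 : (2 : K) ≠ 0 := by
      rw [← map_ofNat (algebraMap F K) 2]; simpa using Ring.two_ne_zero hc2
    refine ⟨s - algebraMap F K a / 2, ?_⟩
    rw [map_sub, map_div₀, map_pow, map_ofNat] at hs
    have h4 : (4 : K) ≠ 0 := by rw [show (4 : K) = 2 * 2 by norm_num]; exact mul_ne_zero h2 h2
    field_simp at hs ⊢
    linear_combination -hs

/-- A maximal singular subspace over the extension. -/
theorem exists_max (hK : Module.finrank F K = 2) :
    ∃ W, IsMaxSingular (quadK (m := m) (a := a) (b := b) K) W := by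
  obtain ⟨r, hr⟩ := exists_root hab K hK
  let E : (Fin m ⊕ Unit → K) →ₗ[K] ((Fin m ⊕ Fin m) ⊕ Fin 2 → K) :=
    LinearMap.pi (Sum.elim (Sum.elim (fun _ => 0) fun i => LinearMap.proj (Sum.inl i))
      ![r • LinearMap.proj (Sum.inr ()), LinearMap.proj (Sum.inr ())])
  refine ⟨LinearMap.range E, ?_, ?_⟩
  · rw [LinearMap.finrank_range_of_inj]
    · simp; omega
    · intro x y e
      funext i
      rcases i with i | i
      · simpa [E] using congrFun e (Sum.inl (Sum.inr i))
      · simpa [E] using congrFun e (Sum.inr 1)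
  · rintro _ ⟨x, rfl⟩
    simp [E, coe_quadMinus, Cfsg.quadFormMinus]
    linear_combination x (Sum.inr ()) ^ 2 * hr

omit hab in
theorem map_sim {g : Matrix ((Fin m ⊕ Fin m) ⊕ Fin 2) ((Fin m ⊕ Fin m) ⊕ Fin 2) F} {μ : F}
    (hg : ∀ v, quadMinus F m a b (g *ᵥ v) = μ * quadMinus F m a b v) (v : (Fin m ⊕ Fin m) ⊕ Fin 2 → K) :
    quadK (m := m) (a := a) (b := b) K (g.map (algebraMap F K) *ᵥ v) =
      algebraMap F K μ * quadK (m := m) (a := a) (b := b) K v := by
  set φ := algebraMap F K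
  have hq : ∀ w : (Fin m ⊕ Fin m) ⊕ Fin 2 → F, quadK (m := m) (a := a) (b := b) K (φ ∘ w) = φ (quadMinus F m a b w) := fun w => by
    simp [Cfsg.quadFormMinus, φ]
  have hq' : ∀ w : (Fin m ⊕ Fin m) ⊕ Fin 2 → F, g.map φ *ᵥ (φ ∘ w) = φ ∘ (g *ᵥ w) := fun w =>
    funext fun i => (RingHom.map_mulVec φ g w i).symm
  have key : (quadK (m := m) (a := a) (b := b) K).comp (Matrix.toLin' (g.map φ)) = φ μ • quadK (m := m) (a := a) (b := b) K := by
    have h1 : ∀ w : (Fin m ⊕ Fin m) ⊕ Fin 2 → F,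
        (quadK (m := m) (a := a) (b := b) K).comp (Matrix.toLin' (g.map φ)) (φ ∘ w) =
          (φ μ • quadK (m := m) (a := a) (b := b) K) (φ ∘ w) := fun w => by
      rw [QuadraticMap.comp_apply, _root_.QuadraticMap.smul_apply, Matrix.toLin'_apply, hq', hq, hq, hg, map_mul]
      rfl
    have hsingle : ∀ i, (Pi.basisFun K ((Fin m ⊕ Fin m) ⊕ Fin 2)) i = φ ∘ Pi.single i 1 := fun i => by
      rw [Pi.basisFun_apply]
      funext z
      simp [Pi.single_apply, apply_ite φ]
    have hadd : ∀ u w : (Fin m ⊕ Fin m) ⊕ Fin 2 → F, (φ ∘ u) + (φ ∘ w) = φ ∘ (u + w) := fun u w => by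
      funext z; simp
    refine eq_of_basis (Pi.basisFun K _) (fun i => by rw [hsingle]; exact h1 _) fun i j => ?_
    rw [hsingle, hsingle, polar, polar, hadd, h1, h1, h1]
  have h2 := congrArg (fun q : QuadraticForm K _ => q v) key
  simpa using h2

variable {K}

/-- Odd characteristic: over any quadratic extension the classes are preserved iff the sign is one. -/
theorem preserves_minus_ext (hodd : Odd (Fintype.card F)) (hm : 3 ≤ m) (hK : Module.finrank F K = 2)
    (hg : Simil.Good (quadMinus F m a b)) (g : Simil.Sim (quadMinus F m a b)) :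
    Cfsg.PreservesSingularClasses (Cfsg.quadFormMinus m K (algebraMap F K a) (algebraMap F K b))
        ((g : GL ((Fin m ⊕ Fin m) ⊕ Fin 2) F).1.map (algebraMap F K)) ↔ Simil.sign hg g = 1 := by
  obtain ⟨hc2, h2⟩ := Simil.two_ne_of_odd (F := F) hodd
  haveI := finite_ext K hK
  set φ := algebraMap F K
  obtain ⟨W₀, hW₀⟩ := exists_max (m := m) hab K hK
  obtain ⟨c, hc⟩ := isSquare_algebraMap K hc2 hK (Simil.mult hg g : F)
  have hc0 : c ≠ 0 := fun e => (Simil.mult hg g).ne_zero (φ.injective (by rw [map_zero, hc, e, mul_zero]))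
  set gK : GL ((Fin m ⊕ Fin m) ⊕ Fin 2) K := Units.map φ.mapMatrix.toMonoidHom (g : GL ((Fin m ⊕ Fin m) ⊕ Fin 2) F)
  obtain ⟨k, hk⟩ := exists_smul_iso gK hc0 (Q := quadK (m := m) (a := a) (b := b) K) fun v => by
    rw [← hc]; exact map_sim K (fun w => Simil.mult_spec hg g w) v
  obtain ⟨l, -, hpl, hdet⟩ := preserves_sq (nondegenerate_quadK hab K) (Or.inr (by simp; omega)) hW₀ gK hc0 k hk
  rw [← coe_quadMinus]
  refine hpl.trans ?_
  have hdet' : φ (g : GL ((Fin m ⊕ Fin m) ⊕ Fin 2) F).1.det = c ^ Fintype.card ((Fin m ⊕ Fin m) ⊕ Fin 2) * (-1) ^ l.length :=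
    (φ.map_det _).trans hdet
  have hs := congrArg φ (Simil.sign_val hg g)
  rw [map_div₀, map_pow, hdet', hc, ← pow_two, ← pow_mul] at hs
  simp only [Fintype.card_sum, Fintype.card_fin] at hs
  rw [show 2 * ((m + m + 2) / 2) = m + m + 2 by omega, mul_div_cancel_left₀ _ (pow_ne_zero _ hc0)] at hs
  constructor
  · intro he
    refine Units.ext (φ.injective ?_)
    rw [hs, he.neg_one_pow, Units.val_one, map_one]
  · intro e
    rcases Nat.even_or_odd l.length with he | ho
    · exact he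
    · rw [e, ho.neg_one_pow, Units.val_one, map_one] at hs
      exact absurd (φ.injective (by rw [map_ofNat, map_zero]; linear_combination hs : φ 2 = φ 0)) h2

/-- Characteristic two: over any quadratic extension the classes are preserved iff it is a scalar times an element of `Ω`. -/
theorem preserves_minus_ext_two (h2 : (2 : F) = 0) (hm : 3 ≤ m) (hK : Module.finrank F K = 2)
    (g : Simil.Sim (quadMinus F m a b)) :
    Cfsg.PreservesSingularClasses (Cfsg.quadFormMinus m K (algebraMap F K a) (algebraMap F K b))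
        ((g : GL ((Fin m ⊕ Fin m) ⊕ Fin 2) F).1.map (algebraMap F K)) ↔
      ∃ c : F, c ≠ 0 ∧ ∃ k ∈ Cfsg.Omega F ⇑(quadMinus F m a b),
        ∀ v, (g : GL ((Fin m ⊕ Fin m) ⊕ Fin 2) F).1 *ᵥ v = c • ((k : GL ((Fin m ⊕ Fin m) ⊕ Fin 2) F).1 *ᵥ v) := by
  haveI := finite_ext K hK
  set φ := algebraMap F K
  set QK := quadK (m := m) (a := a) (b := b) K
  have hd : Nat.card F ≠ 2 ∨ Fintype.card ((Fin m ⊕ Fin m) ⊕ Fin 2) ≠ 4 := Or.inr (by simp; omega)
  have hQ := nondegenerate_quadMinus (F := F) m hab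
  obtain ⟨W₀, hW₀⟩ := exists_max (m := m) hab K hK
  obtain ⟨μ, hμ⟩ := g.2
  obtain ⟨c, hc⟩ := exists_sq h2 (μ : F)
  have hc0 : c ≠ 0 := fun e => μ.ne_zero (by rw [← hc, e, mul_zero])
  obtain ⟨k, hk⟩ := exists_smul_iso (g : GL ((Fin m ⊕ Fin m) ⊕ Fin 2) F) hc0 fun v => by rw [hμ, hc]
  obtain ⟨l, hl⟩ := exists_list hQ hd k
  -- the same list read over the extension
  have hqq : ∀ w : (Fin m ⊕ Fin m) ⊕ Fin 2 → F, QK (φ ∘ w) = φ ((quadMinus F m a b) w) := fun w => by
    simp [QK, Cfsg.quadFormMinus, φ]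
  have hpol : ∀ u w : (Fin m ⊕ Fin m) ⊕ Fin 2 → F, polar (⇑QK) (φ ∘ u) (φ ∘ w) = φ (polar (⇑(quadMinus F m a b)) u w) := fun u w => by
    rw [polar, polar, show (φ ∘ u) + (φ ∘ w) = φ ∘ (u + w) from funext fun z => by simp, hqq, hqq, hqq, map_sub, map_sub]
  let ι' : {u : (Fin m ⊕ Fin m) ⊕ Fin 2 → F // (quadMinus F m a b) u ≠ 0} → {u : (Fin m ⊕ Fin m) ⊕ Fin 2 → K // QK u ≠ 0} :=
    fun u => ⟨φ ∘ u.1, by rw [hqq]; simpa using u.2⟩
  have hrefl : ∀ (l : List {u : (Fin m ⊕ Fin m) ⊕ Fin 2 → F // (quadMinus F m a b) u ≠ 0}) (w : (Fin m ⊕ Fin m) ⊕ Fin 2 → F),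
      reflProd QK (l.map ι') (φ ∘ w) = φ ∘ reflProd (quadMinus F m a b) l w := by
    intro l
    induction l with
    | nil => intro w; rfl
    | cons u l ih =>
      intro w
      show Forms.refl QK (φ ∘ u.1) (ι' u).2 (reflProd QK (l.map ι') (φ ∘ w)) = φ ∘ Forms.refl (quadMinus F m a b) u.1 u.2 (reflProd (quadMinus F m a b) l w)
      rw [ih, Forms.refl_apply, Forms.refl_apply, hpol, hqq]
      funext z
      simp
  set gK : GL ((Fin m ⊕ Fin m) ⊕ Fin 2) K := Units.map φ.mapMatrix.toMonoidHom (g : GL ((Fin m ⊕ Fin m) ⊕ Fin 2) F)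
  have hgK : ∀ v, gK.1 *ᵥ v = φ c • reflProd QK (l.map ι') v := by
    have e : Matrix.toLin' gK.1 = φ c • (reflProd QK (l.map ι') : ((Fin m ⊕ Fin m) ⊕ Fin 2 → K) →ₗ[K] _) := by
      refine (Pi.basisFun K _).ext fun i => ?_
      rw [Pi.basisFun_apply, show Pi.single i (1 : K) = φ ∘ Pi.single i (1 : F) from funext fun z => by
        simp [Pi.single_apply, apply_ite φ], Matrix.toLin'_apply, LinearMap.smul_apply, LinearEquiv.coe_coe, hrefl]
      show (g : GL ((Fin m ⊕ Fin m) ⊕ Fin 2) F).1.map φ *ᵥ _ = _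
      funext z
      rw [← RingHom.map_mulVec φ, hk, ← glEquiv_apply, ← coe_isoEquiv, hl]
      simp
    intro v
    rw [← Matrix.toLin'_apply, e]; rfl
  have hφc : φ c ≠ 0 := by simpa using hc0
  rw [← coe_quadMinus]
  have hiff : Cfsg.PreservesSingularClasses (⇑QK) gK.1 ↔ Even l.length := by
    rw [preserves_iff_even (nondegenerate_quadK hab K) hW₀ (glEquiv gK) (c := φ μ)
      (fun v => by rw [glEquiv_apply]; exact map_sim K hμ v) gK.1 (fun v => (glEquiv_apply _ v).symm) (l.map ι')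
      (map_eq_of_smul hφc (fun v => by rw [LinearEquiv.coe_coe, glEquiv_apply, hgK]; rfl) W₀), List.length_map]
  refine hiff.trans ?_
  constructor
  · intro he
    refine ⟨c, hc0, k, (mem_Omega_of_list hQ hd hl).2 ⟨he, ?_⟩, hk⟩
    obtain ⟨s, hs⟩ := exists_sq h2 (valueProd (quadMinus F m a b) l)
    exact ⟨s, hs.symm⟩
  · rintro ⟨c', hc', k', hk', hkg⟩
    obtain ⟨u, hu⟩ : ∃ u, (quadMinus F m a b) u ≠ 0 := ⟨Pi.single (Sum.inr 0) 1, by simp [Cfsg.quadFormMinus]⟩
    have hcc : c' = c := by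
      have h3 : (c' * c' - c * c) * (quadMinus F m a b) u = 0 := by
        have e1 : (quadMinus F m a b) ((g : GL ((Fin m ⊕ Fin m) ⊕ Fin 2) F).1 *ᵥ u) = c' * c' * (quadMinus F m a b) u := by
          rw [hkg, QuadraticMap.map_smul, mem_isometryGroup.1 k'.2]; rfl
        have e2 : (quadMinus F m a b) ((g : GL ((Fin m ⊕ Fin m) ⊕ Fin 2) F).1 *ᵥ u) = c * c * (quadMinus F m a b) u := by
          rw [hμ, hc]
        linear_combination e2 - e1
      rw [show c' * c' - c * c = (c' - c) * (c' - c) by linear_combination (c' - c) * c * h2] at h3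
      exact sub_eq_zero.1 (mul_self_eq_zero.1 ((mul_eq_zero.1 h3).resolve_right hu))
    subst hcc
    have hkk : k' = k := by
      refine Subtype.ext (Units.ext (Matrix.ext_iff_mulVec.2 fun v => smul_right_injective _ hc' ?_))
      exact (hkg v).symm.trans (hk v)
    subst hkk
    exact ((mem_Omega_of_list hQ hd hl).1 hk').1

end Minus

universe u

/-- Existence of a quadratic extension in the universe of the field. -/
theorem exists_quad_ext {F : Type u} [Field F] {a b : F}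
    (hab : ∀ z₁ z₂ : F, z₁ ^ 2 + a * z₁ * z₂ + b * z₂ ^ 2 = 0 → z₁ = 0 ∧ z₂ = 0) :
    ∃ (K : Type u) (_ : Field K) (_ : Algebra F K), Module.finrank F K = 2 := by
  set P : Polynomial F := Polynomial.X ^ 2 + Polynomial.C a * Polynomial.X + Polynomial.C b with hP
  have hdeg : P.natDegree = 2 := by rw [hP]; compute_degree!
  haveI : Fact (Irreducible P) := ⟨(Polynomial.irreducible_iff_roots_eq_zero_of_degree_le_three (by omega) (by omega)).2
    (Multiset.eq_zero_of_forall_notMem fun x hx => by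
      have h1 := Polynomial.isRoot_of_mem_roots hx
      rw [hP, Polynomial.IsRoot.def] at h1
      simp at h1
      exact one_ne_zero (hab x 1 (by rw [mul_one, one_pow, mul_one]; exact h1)).2)⟩
  refine ⟨AdjoinRoot P, inferInstance, inferInstance, ?_⟩
  rw [(AdjoinRoot.powerBasis (Fact.out : Irreducible P).ne_zero).finrank, AdjoinRoot.powerBasis_dim, hdeg]

section MinusStatement

variable {F : Type*} [Field F] [Fintype F] {m : ℕ} {a b : F}
  (hab : ∀ z₁ z₂ : F, z₁ ^ 2 + a * z₁ * z₂ + b * z₂ ^ 2 = 0 → z₁ = 0 ∧ z₂ = 0)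
include hab

theorem preserves_minus (hodd : Odd (Fintype.card F)) (hm : 3 ≤ m) (hg : Simil.Good (quadMinus F m a b))
    (g : Simil.Sim (quadMinus F m a b)) :
    Cfsg.PreservesSingularClassesMinus m a b (g : GL ((Fin m ⊕ Fin m) ⊕ Fin 2) F).1 ↔ Simil.sign hg g = 1 := by
  constructor
  · rintro ⟨K, _, _, hK, hp⟩
    exact (preserves_minus_ext hab hodd hm hK hg g).1 hp
  · intro h
    obtain ⟨K, iK, iA, hK⟩ := exists_quad_ext hab
    exact ⟨K, iK, iA, hK, (preserves_minus_ext hab hodd hm hK hg g).2 h⟩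

theorem preserves_minus_two (h2 : (2 : F) = 0) (hm : 3 ≤ m) (g : Simil.Sim (quadMinus F m a b)) :
    Cfsg.PreservesSingularClassesMinus m a b (g : GL ((Fin m ⊕ Fin m) ⊕ Fin 2) F).1 ↔
      ∃ c : F, c ≠ 0 ∧ ∃ k ∈ Cfsg.Omega F ⇑(quadMinus F m a b),
        ∀ v, (g : GL ((Fin m ⊕ Fin m) ⊕ Fin 2) F).1 *ᵥ v = c • ((k : GL ((Fin m ⊕ Fin m) ⊕ Fin 2) F).1 *ᵥ v) := by
  constructor
  · rintro ⟨K, _, _, hK, hp⟩
    exact (preserves_minus_ext_two hab h2 hm hK g).1 hp
  · intro h
    obtain ⟨K, iK, iA, hK⟩ := exists_quad_ext hab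
    exact ⟨K, iK, iA, hK, (preserves_minus_ext_two hab h2 hm hK g).2 h⟩

end MinusStatement

end CfsgLib.AutPE
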